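import Cfsg.Prelude.Def_ClassicalGeometry
import Cfsg.Agent.KnownB.AutPSL.Transv
import Cfsg.Agent.Forms.SLTransv
import Mathlib

/-!
# The centraliser of a transvection in `GL_n(q)`
-/

set_option autoImplicit false
set_option linter.unusedSectionVars false

namespace Cfsg.Agent.Linear.TransvCent

open Matrix

variable {n : ℕ} {F : Type*} [Field F] [Fintype F]

local notation "Vec" => (Fin n → F)

theorem card_annihilator {u : Vec} (hu : u ≠ 0) :
    Nat.card {φ : Vec // φ ≠ 0 ∧ φ ⬝ᵥ u = 0} = Fintype.card F ^ (n - 1) - 1 := by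
  classical
  let L : Vec →ₗ[F] F :=
    { toFun := fun φ => φ ⬝ᵥ u
      map_add' := fun x y => add_dotProduct x y u
      map_smul' := fun c x => smul_dotProduct c x u }
  obtain ⟨i, hi⟩ := Function.ne_iff.1 hu
  have hsurj : LinearMap.range L = ⊤ := LinearMap.range_eq_top.2 fun c =>
    ⟨Pi.single i (c / u i), by
      show Pi.single i (c / u i) ⬝ᵥ u = c
      rw [single_dotProduct]; exact div_mul_cancel₀ c hi⟩
  have hdim : Module.finrank F (LinearMap.ker L) = n - 1 := by
    have := LinearMap.finrank_range_add_finrank_ker L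
    rw [hsurj, finrank_top, Module.finrank_self, Module.finrank_fin_fun] at this
    omega
  have hker : Nat.card (LinearMap.ker L) = Fintype.card F ^ (n - 1) := by
    rw [Module.natCard_eq_pow_finrank (K := F), hdim, Nat.card_eq_fintype_card]
  let e : {φ : Vec // φ ≠ 0 ∧ φ ⬝ᵥ u = 0} ≃ {x : LinearMap.ker L // x ≠ 0} :=
    { toFun := fun φ => ⟨⟨φ.1, φ.2.2⟩, fun h => φ.2.1 (congrArg Subtype.val h)⟩
      invFun := fun x => ⟨x.1.1, fun h => x.2 (Subtype.ext h), x.1.2⟩
      left_inv := fun φ => rfl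
      right_inv := fun x => rfl }
  haveI := Fintype.ofFinite (LinearMap.ker L)
  rw [Nat.card_congr e, ← hker, Nat.card_eq_fintype_card, Nat.card_eq_fintype_card, Fintype.card_subtype_compl,
    Fintype.card_subtype_eq]

/-- The pairs defining transvections. -/
abbrev Pairs (n : ℕ) (F : Type*) [Field F] : Type _ :=
  Σ u : {u : Fin n → F // u ≠ 0}, {φ : Fin n → F // φ ≠ 0 ∧ φ ⬝ᵥ u.1 = 0}

theorem card_pairs :
    Nat.card (Pairs n F) = (Fintype.card F ^ n - 1) * (Fintype.card F ^ (n - 1) - 1) := by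
  classical
  rw [Nat.card_sigma]
  rw [Finset.sum_congr rfl fun u _ => card_annihilator u.2, Finset.sum_const, smul_eq_mul, Finset.card_univ,
    Fintype.card_subtype_compl, Fintype.card_subtype_eq, Fintype.card_fun, Fintype.card_fin]

/-- The matrices `t - 1`, `t` a transvection. -/
abbrev Tv (n : ℕ) (F : Type*) [Field F] : Type _ :=
  {M : Matrix (Fin n) (Fin n) F //
    ∃ u φ : Fin n → F, u ≠ 0 ∧ φ ≠ 0 ∧ φ ⬝ᵥ u = 0 ∧ M = vecMulVec u φ}

theorem card_tv_mul : Nat.card (Tv n F) * (Fintype.card F - 1) = Nat.card (Pairs n F) := by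
  classical
  have hT := fun M : Tv n F => M.2
  choose U Φ hU hΦ hUΦ hM using hT
  let f : Tv n F × Fˣ → Pairs n F := fun x =>
    ⟨⟨(x.2 : F) • U x.1, smul_ne_zero x.2.ne_zero (hU x.1)⟩,
      ⟨(x.2 : F)⁻¹ • Φ x.1, smul_ne_zero (inv_ne_zero x.2.ne_zero) (hΦ x.1), by
        rw [smul_dotProduct, dotProduct_smul, hUΦ, smul_zero, smul_zero]⟩⟩
  let g : Pairs n F → Matrix (Fin n) (Fin n) F := fun p => vecMulVec p.1.1 p.2.1
  have hg : ∀ x, g (f x) = x.1.1 := fun x => by
    show vecMulVec _ _ = _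
    rw [smul_vecMulVec, vecMulVec_smul, smul_smul, mul_inv_cancel₀ x.2.ne_zero, one_smul, ← hM]
  have hf : Function.Bijective f := by
    refine ⟨fun x y e => ?_, fun p => ?_⟩
    · have h1 : x.1 = y.1 := Subtype.ext (by rw [← hg x, ← hg y, e])
      have h2 := congrArg (fun p : Pairs n F => p.1.1) e
      simp only [f, h1] at h2
      exact Prod.ext h1 (Units.ext (smul_left_injective F (hU y.1) h2))
    · let M : Tv n F := ⟨g p, p.1.1, p.2.1, p.1.2, p.2.2.1, p.2.2.2, rfl⟩
      have he : vecMulVec p.1.1 p.2.1 = vecMulVec (U M) (Φ M) := hM M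
      obtain ⟨j, hj⟩ := Function.ne_iff.1 p.2.2.1
      obtain ⟨i, hi⟩ := Function.ne_iff.1 p.1.2
      have hU0 : ∀ k, p.1.1 k = Φ M j / p.2.1 j * U M k := fun k => by
        have := congrFun (congrFun he k) j
        rw [vecMulVec_apply, vecMulVec_apply] at this
        rw [div_mul_eq_mul_div, eq_div_iff hj]
        linear_combination this
      have hc : Φ M j / p.2.1 j ≠ 0 := fun h => hi (by rw [hU0, h, zero_mul]; rfl)
      refine ⟨(M, Units.mk0 _ hc), ?_⟩
      have e1 : (Φ M j / p.2.1 j) • U M = p.1.1 := funext fun k => by rw [hU0 k]; rfl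
      have e2 : (Φ M j / p.2.1 j)⁻¹ • Φ M = p.2.1 := funext fun k => by
        have hik := congrFun (congrFun he i) k
        rw [vecMulVec_apply, vecMulVec_apply] at hik
        rw [Pi.smul_apply, smul_eq_mul, inv_mul_eq_iff_eq_mul₀ hc]
        refine mul_left_cancel₀ (left_ne_zero_of_mul (a := U M i) (b := Φ M j) ?_) ?_
        · intro h
          have h2 := congrFun (congrFun he i) j
          rw [vecMulVec_apply, vecMulVec_apply, h] at h2
          exact mul_ne_zero hi hj h2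
        · rw [← hik, hU0 i]; ring
      exact Sigma.subtype_ext (Subtype.ext e1) e2
  rw [← Nat.card_eq_of_bijective f hf, Nat.card_prod, Nat.card_units, Nat.card_eq_fintype_card (α := F)]

theorem prod_split (q k : ℕ) (hq : 1 ≤ q) :
    ∏ i : Fin (k + 2), (q ^ (k + 2) - q ^ (i : ℕ)) =
      (q ^ (k + 2) - 1) * (q ^ (k + 1) - 1) * q ^ (2 * k + 1) * ∏ i : Fin k, (q ^ k - q ^ (i : ℕ)) := by
  rw [Fin.prod_univ_succ, Fin.prod_univ_succ]
  simp only [Fin.val_zero, pow_zero, Fin.val_succ]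
  rw [show q ^ (k + 2) - q ^ (0 + 1) = q * (q ^ (k + 1) - 1) by
    rw [Nat.mul_sub, mul_one, ← pow_succ', zero_add, pow_one]]
  rw [Finset.prod_congr rfl (g := fun i : Fin k => q ^ 2 * (q ^ k - q ^ (i : ℕ))) (fun i _ => by
    rw [Nat.mul_sub, ← pow_add, ← pow_add, add_comm 2 k, add_comm 2 (i : ℕ)]),
    Finset.prod_mul_distrib, Finset.prod_const, Finset.card_univ, Fintype.card_fin, pow_succ, ← pow_mul]
  ring

/-- The order of the centraliser of a transvection. -/
theorem card_centralizer (hn : 2 ≤ n) (t : GL (Fin n) F)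
    (ht : Cfsg.IsTransvection (t : Matrix (Fin n) (Fin n) F)) :
    Nat.card ↥(Subgroup.centralizer ({t} : Set (GL (Fin n) F))) =
      Fintype.card F ^ (2 * n - 3) * (Fintype.card F - 1) *
        ∏ i : Fin (n - 2), (Fintype.card F ^ (n - 2) - Fintype.card F ^ (i : ℕ)) := by
  classical
  obtain ⟨u0, φ0, hu0, hφ0, h00, ht0⟩ := Forms.exists_vecMulVec_of_isTransvection ht
  have hab : (⟨0, by omega⟩ : Fin n) ≠ ⟨1, by omega⟩ := by simp
  obtain ⟨P0, hP01, hP02⟩ := KnownB.AutPSL.exists_frame u0 φ0 hu0 hφ0 h00 hab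
  set C := Subgroup.centralizer ({t} : Set (GL (Fin n) F)) with hC
  let f : GL (Fin n) F ⧸ C → Tv n F := fun x =>
    ⟨x.out.1 * vecMulVec u0 φ0 * (x.out⁻¹).1, x.out.1 *ᵥ u0, φ0 ᵥ* (x.out⁻¹).1,
      fun h => hu0 (by simpa [Matrix.mulVec_mulVec] using congrArg (fun v => (x.out⁻¹).1 *ᵥ v) h),
      fun h => hφ0 (by simpa [Matrix.vecMul_vecMul] using congrArg (fun v => v ᵥ* x.out.1) h),
      by rw [← Matrix.dotProduct_mulVec, Matrix.mulVec_mulVec]; simpa using h00,
      by rw [Matrix.mul_vecMulVec, Matrix.vecMulVec_mul]⟩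
  have hconj : ∀ g : GL (Fin n) F,
      (g * t * g⁻¹).1 = 1 + g.1 * vecMulVec u0 φ0 * (g⁻¹).1 := fun g => by
    rw [Units.val_mul, Units.val_mul, ht0, mul_add, add_mul, mul_one, Units.mul_inv]
  have hf : Function.Bijective f := by
    refine ⟨fun x y e => ?_, fun M => ?_⟩
    · have e' : x.out * t * (x.out)⁻¹ = y.out * t * (y.out)⁻¹ :=
        Units.ext (by rw [hconj, hconj, show x.out.1 * vecMulVec u0 φ0 * (x.out⁻¹).1 =
          y.out.1 * vecMulVec u0 φ0 * (y.out⁻¹).1 from congrArg Subtype.val e])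
      rw [← QuotientGroup.out_eq' x, ← QuotientGroup.out_eq' y, QuotientGroup.eq,
        Subgroup.mem_centralizer_singleton_iff]
      calc (x.out)⁻¹ * y.out * t = (x.out)⁻¹ * (y.out * t * (y.out)⁻¹) * y.out := by group
        _ = t * ((x.out)⁻¹ * y.out) := by rw [← e']; group
    · obtain ⟨u, φ, hu, hφ, h0, hM⟩ := M.2
      obtain ⟨P, hP1, hP2⟩ := KnownB.AutPSL.exists_frame u φ hu hφ h0 hab
      refine ⟨((P * P0⁻¹ : GL (Fin n) F) : GL (Fin n) F ⧸ C), Subtype.ext ?_⟩
      obtain ⟨c, hc⟩ := QuotientGroup.mk_out_eq_mul C (P * P0⁻¹)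
      have key : (P * P0⁻¹ * (c : GL (Fin n) F)) * t * (P * P0⁻¹ * (c : GL (Fin n) F))⁻¹ =
          (P * P0⁻¹) * t * (P * P0⁻¹)⁻¹ := by
        have hcc := Subgroup.mem_centralizer_singleton_iff.1 c.2
        rw [_root_.mul_inv_rev, mul_assoc _ (c : GL (Fin n) F) t, hcc]
        group
      have key' := congrArg Units.val key
      rw [hconj, hconj] at key'
      show _ * vecMulVec u0 φ0 * _ = M.1
      rw [hc, add_left_cancel key', hM, Units.val_mul, _root_.mul_inv_rev, inv_inv, Units.val_mul]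
      rw [← hP1, Matrix.mul_vecMulVec, Matrix.vecMulVec_mul, ← Matrix.vecMul_vecMul, hP02,
        ← Matrix.mulVec_mulVec]
      congr 1
      · congr 1
        rw [← hP01, Matrix.mulVec_mulVec, Units.inv_mul, Matrix.one_mulVec]
      · rw [← hP2, Matrix.vecMul_vecMul, Units.mul_inv, Matrix.vecMul_one]
  have hidx : C.index = Nat.card (Tv n F) := by rw [Subgroup.index_eq_card]; exact Nat.card_eq_of_bijective f hf
  have h1 := C.index_mul_card
  rw [Matrix.card_GL_field, hidx] at h1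
  have h2 := card_tv_mul (n := n) (F := F)
  rw [card_pairs] at h2
  obtain ⟨k, rfl⟩ : ∃ k, n = k + 2 := ⟨n - 2, by omega⟩
  rw [prod_split _ _ Fintype.card_pos, show k + 2 - 1 = k + 1 from rfl] at *
  rw [show 2 * (k + 2) - 3 = 2 * k + 1 by omega, show k + 2 - 2 = k from rfl]
  have hpos : 0 < Nat.card (Tv (k + 2) F) := by
    rw [← hidx]; exact Nat.pos_of_ne_zero Subgroup.index_ne_zero_of_finite
  refine Nat.eq_of_mul_eq_mul_left hpos ?_
  rw [h1, ← h2]
  ring

end Cfsg.Agent.Linear.TransvCent
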