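import Cfsg.Agent.Linear.JordanTypeForms

/-!
# Which Jordan types occur in the symplectic and orthogonal groups
-/

set_option autoImplicit false
set_option linter.unusedSectionVars false

namespace Cfsg.Agent.Linear.JordanTypeGroups

open Matrix Module Cfsg.Agent.Linear.UnipotentCent Cfsg.Agent.Forms

variable {F : Type*} [Field F] {t : ℕ} {d : Fin t → ℕ}

theorem card_idx (d : Fin t → ℕ) : Fintype.card (Idx d) = ∑ k, d k := by simp [Idx]

theorem card_idx_of_r_zero (d : Fin t → ℕ) : JordanTypeParity.r d 0 = ∑ k, d k := by simp [JordanTypeParity.r]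

theorem nilpotent_sub_one {ι : Type*} [Fintype ι] [DecidableEq ι] (e : Idx d ≃ ι) {A : Matrix ι ι F}
    (h : IsConj (Matrix.reindex e e (Cfsg.jordanTypeMatrix d F)) A) : IsNilpotent (A - 1) := by
  refine ⟨∑ k, d k, ?_⟩
  have h1 := JordanTypeParity.rank_sub_one_pow e h (∑ k, d k)
  have h2 : JordanTypeParity.r d (∑ k, d k) = 0 := Finset.sum_eq_zero fun k hk => by
    have := Finset.single_le_sum (f := d) (fun i _ => Nat.zero_le _) hk
    omega
  rw [h2] at h1
  rw [Matrix.rank, Submodule.finrank_eq_zero, LinearMap.range_eq_bot] at h1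
  refine Matrix.toLin'.injective ?_
  rw [map_zero]
  exact h1

/-- Jordan types of the symplectic group. -/
theorem sp_jordan_types [Fintype F] {m : ℕ} (d : Fin t → ℕ) (hd : ∀ k, 1 ≤ d k) (hsum : ∑ k, d k = 2 * m) :
    (∃ e : Idx d ≃ (Fin m ⊕ Fin m), ∃ A : Matrix.symplecticGroup (Fin m) F,
      IsConj (Matrix.reindex e e (Cfsg.jordanTypeMatrix d F)) (A : Matrix (Fin m ⊕ Fin m) (Fin m ⊕ Fin m) F)) ↔
      ∀ j : ℕ, Odd j → Even (Finset.univ.filter (fun k : Fin t => d k = j)).card := by
  classical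
  constructor
  · rintro ⟨e, A, hA⟩ j ⟨c, rfl⟩
    have halt : ∀ v, v ⬝ᵥ (Matrix.J (Fin m) F) *ᵥ v = 0 := fun v => by
      have := sympB_isAlt (F := F) (m := m) v
      rwa [sympB, Matrix.toBilin'_apply'] at this
    have key : ∀ i, Even (JordanTypeParity.r d (2 * i)) := fun i => by
      rw [← JordanTypeParity.rank_sub_one_pow e hA]
      exact JordanTypeParity.even_rank_sp (Matrix.isUnit_det_J (Fin m) F) (SymplecticGroup.mem_iff'.1 A.2) halt i
    exact JordanTypeParity.r_parity d (by omega) (by rw [Nat.add_sub_cancel]; exact key c)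
      (by rw [show 2 * c + 1 + 1 = 2 * (c + 1) by omega]; exact key (c + 1))
  · intro hpar
    obtain ⟨G, hG, halt, -, hinv⟩ := JordanTypeForms.exists_altForm (F := F) d hpar
    have hcard : Fintype.card (Idx d) = Fintype.card (Fin m ⊕ Fin m) := by
      rw [card_idx, hsum, Fintype.card_sum, Fintype.card_fin, two_mul]
    let e0 : Idx d ≃ (Fin m ⊕ Fin m) := Fintype.equivOfCardEq hcard
    obtain ⟨B, hBA, hBn⟩ := Forms.exists_altForm (F := F) (d := m + m) (k := m) rfl
    have hrk : finrank F (Idx d → F) = m + m := by rw [Module.finrank_pi, hcard, Fintype.card_sum, Fintype.card_fin]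
    obtain ⟨e1, he1⟩ := exists_isometryEquiv hrk (Matrix.toBilin' G) (fun v => by
        rw [Matrix.toBilin'_apply']; exact halt v)
      (fun x hx => (Matrix.nondegenerate_toBilin'_iff.2 (Matrix.nondegenerate_of_det_ne_zero hG.ne_zero)).1 x hx)
      B hBA hBn
    obtain ⟨e2, he2⟩ := exists_isometryEquiv (n := m + m) (by simp) (sympB m F) sympB_isAlt
      (fun x hx => sympB_nondegenerate.1 x hx) B hBA hBn
    let e : (Idx d → F) ≃ₗ[F] (Fin m ⊕ Fin m → F) := e1.trans e2.symm
    have he : ∀ x y, sympB m F (e x) (e y) = Matrix.toBilin' G x y := fun x y => by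
      rw [← he1, ← he2]
      simp [e]
    set J0 := Cfsg.jordanTypeMatrix d F with hJ0
    set P : Matrix (Fin m ⊕ Fin m) (Idx d) F := LinearMap.toMatrix' (e : (Idx d → F) →ₗ[F] (Fin m ⊕ Fin m → F)) with hP
    set P' : Matrix (Idx d) (Fin m ⊕ Fin m) F :=
      LinearMap.toMatrix' (e.symm : (Fin m ⊕ Fin m → F) →ₗ[F] (Idx d → F)) with hP'
    have hP'P : P' * P = 1 := by
      rw [hP, hP', ← LinearMap.toMatrix'_comp]; simp
    have hPP' : P * P' = 1 := by
      rw [hP, hP', ← LinearMap.toMatrix'_comp]; simp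
    have hPv : ∀ v, P *ᵥ v = e v := fun v => LinearMap.toMatrix'_mulVec _ v
    have hP'v : ∀ v, P' *ᵥ v = e.symm v := fun v => LinearMap.toMatrix'_mulVec _ v
    have hmem : P * J0 * P' ∈ Matrix.symplecticGroup (Fin m) F := by
      rw [mem_symplectic_iff]
      intro u v
      rw [← Matrix.mulVec_mulVec, ← Matrix.mulVec_mulVec, ← Matrix.mulVec_mulVec, ← Matrix.mulVec_mulVec, hPv, hPv,
        hP'v, hP'v, ← sympB_apply, he, Matrix.toBilin'_apply']
      conv_rhs => rw [← sympB_apply, ← e.apply_symm_apply u, ← e.apply_symm_apply v, he, Matrix.toBilin'_apply', ← hinv]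
      rw [← Matrix.mulVec_mulVec, ← Matrix.mulVec_mulVec, Matrix.dotProduct_mulVec _ J0ᵀ, Matrix.vecMul_transpose]
    refine ⟨e0, ⟨_, hmem⟩, ⟨P.submatrix id e0.symm, P'.submatrix e0.symm id, ?_, ?_⟩, ?_⟩
    · rw [Matrix.submatrix_mul_equiv, hPP', Matrix.submatrix_id_id]
    · rw [← Matrix.submatrix_mul _ _ _ _ _ Function.bijective_id, hP'P, Matrix.submatrix_one_equiv]
    · show P.submatrix id e0.symm * Matrix.reindex e0 e0 J0 = (P * J0 * P') * P.submatrix id e0.symm
      rw [Matrix.reindex_apply, Matrix.submatrix_mul_equiv, Matrix.mul_assoc (P * J0)]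
      rw [show P' * P.submatrix id e0.symm = (P' * P).submatrix id e0.symm from rfl, hP'P]
      ext i j
      simp [Matrix.mul_apply, Matrix.one_apply]

/-- The matrix in the statement is a member of the isometry group. -/
theorem exists_isometry {n : ℕ} (Q : QuadraticForm F (Fin n → F)) {J : Matrix (Fin n) (Fin n) F} (hJ : IsUnit J)
    (h : ∀ v, Q (J *ᵥ v) = Q v) :
    ∃ A : ↥(Cfsg.isometryGroup F ⇑Q), ((A : Matrix.GeneralLinearGroup (Fin n) F) : Matrix (Fin n) (Fin n) F) = J := by
  obtain ⟨U, rfl⟩ := hJ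
  exact ⟨⟨U, fun u _ => h u⟩, rfl⟩

theorem mulVec_jordan_single {n : ℕ} (e : Idx d ≃ Fin n) (k : Fin t) (i : Fin (d k)) :
    Matrix.reindex e e (Cfsg.jordanTypeMatrix d F) *ᵥ Pi.single (e ⟨k, i⟩) 1 =
      Pi.single (e ⟨k, i⟩) 1 +
        (if h : i.1 + 1 < d k then Pi.single (e ⟨k, ⟨i.1 + 1, h⟩⟩) 1 else 0) := by
  classical
  ext y
  obtain ⟨⟨l, j⟩, rfl⟩ := e.surjective y
  rw [Matrix.mulVec_single_one, Matrix.col_apply, Matrix.reindex_apply, Matrix.submatrix_apply,
    Equiv.symm_apply_apply, Equiv.symm_apply_apply, jordanType_eq, Matrix.add_apply, Pi.add_apply, Matrix.one_apply,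
    Pi.single_apply, if_congr e.injective.eq_iff rfl rfl]
  congr 1
  split_ifs with h
  · rw [Pi.single_apply, if_congr e.injective.eq_iff rfl rfl, E, of_apply]
    refine if_congr ⟨fun ⟨ha, hb⟩ => ?_, fun hab => ?_⟩ rfl rfl
    · simp only at ha hb
      subst ha
      exact congrArg (Sigma.mk l) (Fin.ext hb)
    · cases hab
      exact ⟨rfl, rfl⟩
  · rw [Pi.zero_apply, E, of_apply, if_neg]
    rintro ⟨ha, hb⟩
    simp only at ha hb
    subst ha
    exact h (by have := j.isLt; omega)

/-- Necessity: the polar form is invariant. -/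
theorem polar_invariant {n : ℕ} {Q : QuadraticForm F (Fin n → F)} (A : ↥(Cfsg.isometryGroup F ⇑Q)) :
    ((A : Matrix.GeneralLinearGroup (Fin n) F) : Matrix (Fin n) (Fin n) F)ᵀ *
        LinearMap.BilinForm.toMatrix' (QuadraticMap.polarBilin Q) *
        ((A : Matrix.GeneralLinearGroup (Fin n) F) : Matrix (Fin n) (Fin n) F) =
      LinearMap.BilinForm.toMatrix' (QuadraticMap.polarBilin Q) := by
  set a := ((A : Matrix.GeneralLinearGroup (Fin n) F) : Matrix (Fin n) (Fin n) F)
  have hq : ∀ v, Q (a *ᵥ v) = Q v := fun v => A.2 v v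
  apply Matrix.toBilin'.injective
  refine LinearMap.ext fun x => LinearMap.ext fun y => ?_
  rw [Matrix.toBilin'_toMatrix', Matrix.toBilin'_apply', ← Matrix.mulVec_mulVec, ← Matrix.mulVec_mulVec,
    Matrix.dotProduct_mulVec x aᵀ, Matrix.vecMul_transpose, ← Matrix.toBilin'_apply', Matrix.toBilin'_toMatrix']
  show QuadraticMap.polar Q _ _ = QuadraticMap.polar Q x y
  rw [QuadraticMap.polar, QuadraticMap.polar, ← Matrix.mulVec_add, hq, hq, hq]

theorem det_polar {n : ℕ} {Q : QuadraticForm F (Fin n → F)} (hQ : (QuadraticMap.polarBilin Q).Nondegenerate) :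
    IsUnit (LinearMap.BilinForm.toMatrix' (QuadraticMap.polarBilin Q)).det :=
  isUnit_iff_ne_zero.2 (LinearMap.BilinForm.nondegenerate_toBilin'_iff_det_ne_zero.1 (by rwa [Matrix.toBilin'_toMatrix']))

/-- Jordan types of orthogonal groups in odd characteristic. -/
theorem orth_jordan_types (h2 : (2 : F) ≠ 0) {n : ℕ} (d : Fin t → ℕ) (hd : ∀ k, 1 ≤ d k) (hsum : ∑ k, d k = n) :
    (∃ Q : QuadraticForm F (Fin n → F), (QuadraticMap.polarBilin Q).Nondegenerate ∧ ∃ e : Idx d ≃ Fin n,
      ∃ A : ↥(Cfsg.isometryGroup F ⇑Q), IsConj (Matrix.reindex e e (Cfsg.jordanTypeMatrix d F))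
        ((A : Matrix.GeneralLinearGroup (Fin n) F) : Matrix (Fin n) (Fin n) F)) ↔
      ∀ j : ℕ, Even j → 0 < j → Even (Finset.univ.filter (fun k : Fin t => d k = j)).card := by
  classical
  constructor
  · rintro ⟨Q, hQ, e, A, hA⟩ j ⟨c, rfl⟩ hj
    have hsym : (LinearMap.BilinForm.toMatrix' (QuadraticMap.polarBilin Q))ᵀ =
        LinearMap.BilinForm.toMatrix' (QuadraticMap.polarBilin Q) := by
      ext i j
      simp [LinearMap.BilinForm.toMatrix'_apply, QuadraticMap.polar_comm]
    have key : ∀ i, Even (JordanTypeParity.r d (2 * i + 1)) := fun i => by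
      rw [← JordanTypeParity.rank_sub_one_pow e hA]
      exact JordanTypeParity.even_rank_orth h2 (det_polar hQ) (polar_invariant A) hsym (nilpotent_sub_one e hA) i
    exact JordanTypeParity.r_parity d (by omega)
      (by rw [show c + c - 1 = 2 * (c - 1) + 1 by omega]; exact key _)
      (by rw [show c + c + 1 = 2 * c + 1 by omega]; exact key c)
  · intro hpar
    obtain ⟨G, hG, hsym, hinv⟩ := JordanTypeForms.exists_symForm h2 d hd hpar
    let e : Idx d ≃ Fin n := Fintype.equivFinOfCardEq (by rw [card_idx, hsum])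
    set G' := Matrix.reindex e e G with hG'
    set J' := Matrix.reindex e e (Cfsg.jordanTypeMatrix d F) with hJ'
    have hinv' : J'ᵀ * G' * J' = G' := by
      rw [hJ', hG', Matrix.transpose_reindex, ← Matrix.coe_reindexAlgEquiv F, ← map_mul, ← map_mul, hinv]
    have hdet : IsUnit G'.det := by rw [hG', Matrix.det_reindex_self]; exact hG
    have hsym' : G'ᵀ = G' := by rw [hG', Matrix.transpose_reindex, hsym]
    let Q : QuadraticForm F (Fin n → F) :=
      LinearMap.BilinMap.toQuadraticMap (Matrix.toBilin' ((2⁻¹ : F) • G'))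
    have hQ : ∀ v, Q v = 2⁻¹ * (v ⬝ᵥ G' *ᵥ v) := fun v => by
      show Matrix.toBilin' ((2⁻¹ : F) • G') v v = _
      rw [Matrix.toBilin'_apply', Matrix.smul_mulVec, dotProduct_smul, smul_eq_mul]
    have hpol : QuadraticMap.polarBilin Q = Matrix.toBilin' G' := by
      refine LinearMap.ext fun x => LinearMap.ext fun y => ?_
      show QuadraticMap.polar Q x y = Matrix.toBilin' G' x y
      rw [QuadraticMap.polar, hQ, hQ, hQ, Matrix.toBilin'_apply', Matrix.mulVec_add, add_dotProduct, dotProduct_add,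
        dotProduct_add]
      have h1 : y ⬝ᵥ G' *ᵥ x = x ⬝ᵥ G' *ᵥ y := by
        conv_lhs => rw [← hsym', Matrix.dotProduct_mulVec, Matrix.vecMul_transpose, dotProduct_comm]
      rw [h1]
      field_simp
      ring
    obtain ⟨A, hA⟩ := exists_isometry Q (J := J') ((Matrix.isUnit_iff_isUnit_det _).2 (by
        have := congrArg Matrix.det hinv'
        rw [Matrix.det_mul, Matrix.det_mul, Matrix.det_transpose] at this
        exact isUnit_of_mul_isUnit_right (this ▸ hdet))) fun v => by
      rw [hQ, hQ]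
      congr 1
      conv_rhs => rw [← hinv', ← Matrix.mulVec_mulVec, ← Matrix.mulVec_mulVec, Matrix.dotProduct_mulVec v J'ᵀ,
        Matrix.vecMul_transpose]
    refine ⟨Q, ?_, e, A, by rw [hA]⟩
    rw [hpol]
    exact Matrix.nondegenerate_toBilin'_iff.2 (Matrix.nondegenerate_of_det_ne_zero hdet.ne_zero)

/-- Jordan types of orthogonal groups in characteristic two. -/
theorem orth_two_jordan_types [CharP F 2] {m : ℕ} (d : Fin t → ℕ) (hd : ∀ k, 1 ≤ d k) (hsum : ∑ k, d k = 2 * m) :
    (∃ Q : QuadraticForm F (Fin (2 * m) → F), (QuadraticMap.polarBilin Q).Nondegenerate ∧ ∃ e : Idx d ≃ Fin (2 * m),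
      ∃ A : ↥(Cfsg.isometryGroup F ⇑Q), IsConj (Matrix.reindex e e (Cfsg.jordanTypeMatrix d F))
        ((A : Matrix.GeneralLinearGroup (Fin (2 * m)) F) : Matrix (Fin (2 * m)) (Fin (2 * m)) F)) ↔
      ∀ j : ℕ, Odd j → Even (Finset.univ.filter (fun k : Fin t => d k = j)).card := by
  classical
  constructor
  · rintro ⟨Q, hQ, e, A, hA⟩ j ⟨c, rfl⟩
    have halt : ∀ v, v ⬝ᵥ (LinearMap.BilinForm.toMatrix' (QuadraticMap.polarBilin Q)) *ᵥ v = 0 := fun v => by
      rw [← Matrix.toBilin'_apply', Matrix.toBilin'_toMatrix', QuadraticMap.polarBilin_apply_apply,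
        QuadraticMap.polar_self, nsmul_eq_mul]
      simp [CharTwo.two_eq_zero]
    have key : ∀ i, Even (JordanTypeParity.r d (2 * i)) := fun i => by
      rw [← JordanTypeParity.rank_sub_one_pow e hA]
      exact JordanTypeParity.even_rank_sp (det_polar hQ) (polar_invariant A) halt i
    exact JordanTypeParity.r_parity d (by omega) (by rw [Nat.add_sub_cancel]; exact key c)
      (by rw [show 2 * c + 1 + 1 = 2 * (c + 1) by omega]; exact key (c + 1))
  · intro hpar
    obtain ⟨G, hG, halt, hskew, hinv⟩ := JordanTypeForms.exists_altForm (F := F) d hpar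
    let e : Idx d ≃ Fin (2 * m) := Fintype.equivFinOfCardEq (by rw [card_idx, hsum])
    set G' := Matrix.reindex e e G with hG'
    set J' := Matrix.reindex e e (Cfsg.jordanTypeMatrix d F) with hJ'
    have hinv' : J'ᵀ * G' * J' = G' := by
      rw [hJ', hG', Matrix.transpose_reindex, ← Matrix.coe_reindexAlgEquiv F, ← map_mul, ← map_mul, hinv]
    have hdet : IsUnit G'.det := by rw [hG', Matrix.det_reindex_self]; exact hG
    have hsym : ∀ x y, G' y x = G' x y := fun x y => by
      have := congrFun (congrFun hskew (e.symm x)) (e.symm y)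
      rw [Matrix.transpose_apply, Matrix.neg_apply, CharTwo.neg_eq] at this
      exact this
    have hdiag : ∀ x, G' x x = 0 := fun x => by
      have := halt (Pi.single (e.symm x) 1)
      rwa [Matrix.mulVec_single_one, single_one_dotProduct, Matrix.col_apply] at this
    let c : Idx d → F := fun x => if x.2.1 = 0 then 0 else G ⟨x.1, ⟨x.2.1 - 1, by omega⟩⟩ x
    let C : Matrix (Fin (2 * m)) (Fin (2 * m)) F :=
      Matrix.of fun x y => if x = y then c (e.symm x) else if x < y then G' x y else 0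
    have hC : C + Cᵀ = G' := by
      ext x y
      simp only [C, Matrix.add_apply, transpose_apply, of_apply]
      rcases lt_trichotomy x y with h | rfl | h
      · rw [if_neg h.ne, if_pos h, if_neg h.ne', if_neg h.not_gt, add_zero]
      · rw [if_pos rfl, CharTwo.add_self_eq_zero, hdiag]
      · rw [if_neg h.ne', if_neg h.not_gt, if_neg h.ne, if_pos h, zero_add, hsym]
    let Q : QuadraticForm F (Fin (2 * m) → F) := LinearMap.BilinMap.toQuadraticMap (Matrix.toBilin' C)
    have hQv : ∀ v, Q v = v ⬝ᵥ C *ᵥ v := fun v => by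
      show Matrix.toBilin' C v v = _
      rw [Matrix.toBilin'_apply']
    have hpol : ∀ x y, QuadraticMap.polar Q x y = x ⬝ᵥ G' *ᵥ y := fun x y => by
      rw [QuadraticMap.polar, hQv, hQv, hQv, ← hC, Matrix.mulVec_add, add_dotProduct, dotProduct_add,
        dotProduct_add, Matrix.add_mulVec, dotProduct_add, Matrix.dotProduct_mulVec x Cᵀ, Matrix.vecMul_transpose,
        dotProduct_comm (C *ᵥ x)]
      ring
    have hadd : ∀ a b, Q (a + b) = Q a + Q b + QuadraticMap.polar Q a b := fun a b => by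
      rw [QuadraticMap.polar]; ring
    have hQs : ∀ z, Q (Pi.single (e z) 1) = c z := fun z => by
      rw [hQv, Matrix.mulVec_single_one, single_one_dotProduct, Matrix.col_apply]
      simp [C]
    have hpols : ∀ a b, QuadraticMap.polar Q (Pi.single (e a) 1) (Pi.single (e b) 1) = G a b := fun a b => by
      rw [hpol, Matrix.mulVec_single_one, single_one_dotProduct, Matrix.col_apply, hG', Matrix.reindex_apply,
        Matrix.submatrix_apply, Equiv.symm_apply_apply, Equiv.symm_apply_apply]
    have hbasis : ∀ x, Q (J' *ᵥ Pi.single x 1) = Q (Pi.single x 1) := fun x => by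
      obtain ⟨⟨k, i⟩, rfl⟩ := e.surjective x
      rw [hJ', mulVec_jordan_single]
      split_ifs with h
      · rw [hadd, hQs, hQs, hpols]
        simp only [c, Nat.add_eq_zero_iff, one_ne_zero, and_false, if_false, Nat.add_sub_cancel, Fin.eta]
        rw [add_assoc, CharTwo.add_self_eq_zero, add_zero]
      · rw [add_zero]
    have hall : ∀ v, Q (J' *ᵥ v) = Q v := by
      have hD : ∀ a b, Q (J' *ᵥ a) = Q a → Q (J' *ᵥ b) = Q b → Q (J' *ᵥ (a + b)) = Q (a + b) := fun a b ha hb => by
        rw [Matrix.mulVec_add, hadd, hadd, ha, hb, hpol, hpol]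
        conv_rhs => rw [← hinv', ← Matrix.mulVec_mulVec, ← Matrix.mulVec_mulVec, Matrix.dotProduct_mulVec a J'ᵀ,
          Matrix.vecMul_transpose]
      intro v
      rw [← Finset.univ_sum_single v]
      induction (Finset.univ : Finset (Fin (2 * m))) using Finset.induction_on with
      | empty => simp
      | insert x s hxs ih =>
        rw [Finset.sum_insert hxs]
        refine hD _ _ ?_ ih
        rw [show Pi.single x (v x) = v x • (Pi.single x 1 : Fin (2 * m) → F) by rw [← Pi.single_smul, smul_eq_mul, mul_one],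
          Matrix.mulVec_smul, QuadraticMap.map_smul, QuadraticMap.map_smul, hbasis]
    obtain ⟨A, hA⟩ := exists_isometry Q (J := J') ((Matrix.isUnit_iff_isUnit_det _).2 (by
        have := congrArg Matrix.det hinv'
        rw [Matrix.det_mul, Matrix.det_mul, Matrix.det_transpose] at this
        exact isUnit_of_mul_isUnit_right (this ▸ hdet))) hall
    refine ⟨Q, ?_, e, A, by rw [hA]⟩
    have : QuadraticMap.polarBilin Q = Matrix.toBilin' G' := LinearMap.ext fun x => LinearMap.ext fun y => by
      rw [QuadraticMap.polarBilin_apply_apply, hpol, Matrix.toBilin'_apply']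
    rw [this]
    exact Matrix.nondegenerate_toBilin'_iff.2 (Matrix.nondegenerate_of_det_ne_zero hdet.ne_zero)

end Cfsg.Agent.Linear.JordanTypeGroups
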