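import Cfsg.Agent.Linear.GUUnipotentCent
import Cfsg.Agent.KnownA.Jordan.UnipotentClasses
import Cfsg.Agent.Linear.JordanTypeGroups

/-!
# Unipotent classes of the general unitary group
-/

set_option autoImplicit false
set_option linter.unusedSectionVars false

namespace Cfsg.Agent.Linear.GUUnipotentClasses

open Matrix Cfsg.Agent.Forms Cfsg.Agent.Linear.HermRoot Cfsg.Agent.Linear.UnipotentCent Cfsg.Agent.Linear.HermJordan
  Cfsg.Agent.Linear.GUUnipotentCent Cfsg.Agent.Linear.SURegUnipotent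

variable {K : Type*} [Field K] [Fintype K] {q n : ℕ}

theorem exists_jordan {g : GL (Fin n) K} (hg : IsNilpotent (KnownA.Jordan.nilPart g)) :
    ∃ (t : ℕ) (d : Fin t → ℕ) (e : Idx d ≃ Fin n), (∀ k, 1 ≤ d k) ∧
      IsConj (Matrix.reindex e e (Cfsg.jordanTypeMatrix d K)) (g : Matrix (Fin n) (Fin n) K) := by
  classical
  obtain ⟨μ, hμ⟩ := KnownA.Jordan.exists_isConj_model hg
  refine ⟨_, KnownA.Jordan.blockLen μ, KnownA.Jordan.modelIdx μ,
    fun k => μ.parts_pos ((KnownA.Jordan.mem_blockLen μ _).2 ⟨k, rfl⟩), ?_⟩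
  have h1 : ((KnownA.Jordan.modelGL K μ : GL (Fin n) K) : Matrix (Fin n) (Fin n) K) =
      Matrix.reindex (KnownA.Jordan.modelIdx μ) (KnownA.Jordan.modelIdx μ)
        (Cfsg.jordanTypeMatrix (KnownA.Jordan.blockLen μ) K) := by
    refine (sub_left_inj (a := (1 : Matrix (Fin n) (Fin n) K))).1 ((Matrix.toLinAlgEquiv' (R := K)).injective ?_)
    show KnownA.Jordan.nilPart (KnownA.Jordan.modelGL K μ) = _
    rw [KnownA.Jordan.nilPart_model]
    refine (KnownA.Jordan.modelBasis K μ).ext fun x => ?_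
    obtain ⟨k, i⟩ := x
    rw [KnownA.Jordan.model_chain K μ k i]
    have hb : ∀ y, KnownA.Jordan.modelBasis K μ y = Pi.single (KnownA.Jordan.modelIdx μ y) 1 := fun y => by
      simp [KnownA.Jordan.modelBasis]
    rw [hb, map_sub, map_one, LinearMap.sub_apply, Module.End.one_apply, Matrix.toLinAlgEquiv'_apply,
      JordanTypeGroups.mulVec_jordan_single, add_sub_cancel_left]
    split_ifs with h
    · rw [hb]
    · rfl
  obtain ⟨c, hc⟩ := isConj_iff.1 hμ
  rw [← h1]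
  refine IsConj.symm ⟨c, ?_⟩
  show c.1 * g.1 = _ * c.1
  rw [← hc, ← Units.val_mul, ← Units.val_mul, inv_mul_cancel_right]

variable {t : ℕ} {d : Fin t → ℕ}

/-- A unitary unipotent element is carried to the Jordan matrix by an isometry from the model form. -/
theorem exists_frame (hK : Fintype.card K = q ^ 2) {c : ℕ → K} (hc : Good (frobQ hK) c) (hd : ∀ k, 1 ≤ d k)
    (e : Idx d ≃ Fin n) {u : GL (Fin n) K} (hu : u ∈ Cfsg.GU n K q)
    (h : IsConj (Matrix.reindex e e (Cfsg.jordanTypeMatrix d K)) (u : Matrix (Fin n) (Fin n) K)) :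
    ∃ z : GL (Fin n) K, H (frobQ hK) z.1 * z.1 = Matrix.reindex e e (Gram (frobQ hK) c d) ∧
      z.1 * Matrix.reindex e e (Cfsg.jordanTypeMatrix d K) = u.1 * z.1 := by
  classical
  obtain ⟨a, ha⟩ := h
  set σ := frobQ hK
  set J := Cfsg.jordanTypeMatrix d K
  set G := Gram σ c d
  have hσ2 := frobQ_frobQ hK
  have hG : IsUnit G.det := Gram_det hc
  set R : Matrix (Idx d) (Idx d) K ≃ₐ[K] Matrix (Fin n) (Fin n) K := Matrix.reindexAlgEquiv K K e
  have hR : ∀ X, R X = Matrix.reindex e e X := fun X => rfl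
  have hRH : ∀ X, R (H σ X) = H σ (R X) := fun X => rfl
  set G0 := R.symm (H σ a.1 * a.1) with hG0
  have hRG0 : R G0 = H σ a.1 * a.1 := R.apply_symm_apply _
  have hG0H : H σ G0 = G0 := R.injective (by rw [hRH, hRG0, H_mul, H_H σ hσ2])
  have hG0i : H σ J * G0 * J = G0 := R.injective (by
    rw [map_mul, map_mul, hRH, hRG0, hR J]
    calc H σ (Matrix.reindex e e J) * (H σ a.1 * a.1) * Matrix.reindex e e J =
          H σ (a.1 * Matrix.reindex e e J) * (a.1 * Matrix.reindex e e J) := by rw [H_mul]; simp only [mul_assoc]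
      _ = H σ (u.1 * a.1) * (u.1 * a.1) := by rw [ha.eq]
      _ = H σ a.1 * a.1 := by
        rw [H_mul, mul_assoc, ← mul_assoc (H σ u.1), (mem_GU hK u).1 hu, one_mul])
  have hG0u : IsUnit G0 := ((isUnit_H σ a.isUnit).mul a.isUnit).map R.symm
  have hGu : IsUnit G := (Matrix.isUnit_iff_isUnit_det _).2 hG
  set X := G⁻¹ * G0 with hX
  have hGX : G * X = G0 := by rw [hX, ← mul_assoc, Matrix.mul_nonsing_inv _ hG, one_mul]
  have hXu : IsUnit X := ((Matrix.isUnit_nonsing_inv_iff).2 hGu).mul hG0u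
  have hXs : st σ G X = X := by
    refine (eq_st hG ?_).symm
    rw [hGX]
    calc G0 = H σ G0 := hG0H.symm
      _ = H σ (G * X) := by rw [hGX]
      _ = H σ X * G := by rw [H_mul, Gram_H hσ2]
  have hJu : IsUnit (H σ J) := IsUnit.of_mul_eq_one (G * J * G⁻¹) (by
    rw [← mul_assoc, ← mul_assoc, Gram_inv hc, Matrix.mul_nonsing_inv _ hG])
  have hXc : Com d X := by
    rw [com_iff]
    refine hGu.mul_left_cancel (hJu.mul_left_cancel ?_)
    rw [← mul_assoc G, hGX, ← mul_assoc, hG0i, ← mul_assoc, ← mul_assoc (H σ J * G) J, Gram_inv hc, hGX]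
  obtain ⟨y, hyc, hy⟩ := surj hσ2 (frobQ_ne_id hK) hc hd hXc hXs hXu
  let Y : GL (Fin n) K := Units.mapEquiv R.toMulEquiv y⁻¹
  have hYv : Y.1 = R (y⁻¹ : GL (Idx d) K).1 := rfl
  refine ⟨a * Y, ?_, ?_⟩
  · show H σ (a.1 * Y.1) * (a.1 * Y.1) = R G
    rw [H_mul, mul_assoc, ← mul_assoc (H σ a.1), ← hRG0, hYv, ← hRH, ← map_mul, ← map_mul]
    congr 1
    rw [← mul_assoc, ← hGX, ← hy, ← mul_assoc G, mul_st hG, mul_assoc (H σ y.1), ← mul_assoc _ (H σ y.1), ← H_mul,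
      Units.mul_inv, H_one, one_mul, mul_assoc, Units.mul_inv, mul_one]
  · show a.1 * Y.1 * Matrix.reindex e e J = u.1 * (a.1 * Y.1)
    rw [hYv, mul_assoc, ← hR J, ← map_mul, (com_iff _).1 (com_inv hyc), map_mul, ← mul_assoc, hR J, ha.eq,
      mul_assoc]

/-- Similar unipotent elements of the unitary group are conjugate. -/
theorem conj_of_type (hK : Fintype.card K = q ^ 2) (hd : ∀ k, 1 ≤ d k) (e : Idx d ≃ Fin n)
    {u v : ↥(Cfsg.GU n K q)}
    (hu : IsConj (Matrix.reindex e e (Cfsg.jordanTypeMatrix d K)) ((u : GL (Fin n) K) : Matrix (Fin n) (Fin n) K))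
    (hv : IsConj (Matrix.reindex e e (Cfsg.jordanTypeMatrix d K)) ((v : GL (Fin n) K) : Matrix (Fin n) (Fin n) K)) :
    IsConj u v := by
  obtain ⟨c, hc⟩ := exists_good (frobQ_frobQ hK) (frobQ_ne_id hK)
  obtain ⟨z, hz, hzu⟩ := exists_frame hK hc hd e u.2 hu
  obtain ⟨w, hw, hwv⟩ := exists_frame hK hc hd e v.2 hv
  have hmem : w * z⁻¹ ∈ Cfsg.GU n K q := by
    refine (mem_GU hK _).2 ?_
    rw [Units.val_mul, H_mul, mul_assoc, ← mul_assoc (H _ w.1), hw, ← hz, ← mul_assoc, ← mul_assoc, ← H_mul,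
      Units.mul_inv, H_one, one_mul, Units.mul_inv]
  refine isConj_iff.2 ⟨⟨_, hmem⟩, Subtype.ext ?_⟩
  show w * z⁻¹ * u.1 * (w * z⁻¹)⁻¹ = v.1
  refine mul_inv_eq_iff_eq_mul.2 ?_
  set J' := Matrix.reindex e e (Cfsg.jordanTypeMatrix d K)
  refine Units.ext ?_
  show w.1 * (z⁻¹ : GL (Fin n) K).1 * u.1.1 = v.1.1 * (w.1 * (z⁻¹ : GL (Fin n) K).1)
  rw [← mul_assoc, ← hwv]
  calc w.1 * (z⁻¹ : GL (Fin n) K).1 * u.1.1 = w.1 * (z⁻¹ : GL (Fin n) K).1 * (u.1.1 * z.1) * (z⁻¹ : GL (Fin n) K).1 := by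
        rw [mul_assoc _ (u.1.1 * z.1), mul_assoc u.1.1, Units.mul_inv, mul_one]
    _ = w.1 * J' * (z⁻¹ : GL (Fin n) K).1 := by
        rw [← hzu, ← mul_assoc (w.1 * _) z.1, mul_assoc w.1, Units.inv_mul, mul_one]

/-- Every Jordan type occurs. -/
theorem exists_of_type (hK : Fintype.card K = q ^ 2) (hd : ∀ k, 1 ≤ d k) (e : Idx d ≃ Fin n) :
    ∃ u : ↥(Cfsg.GU n K q),
      IsConj (Matrix.reindex e e (Cfsg.jordanTypeMatrix d K)) ((u : GL (Fin n) K) : Matrix (Fin n) (Fin n) K) := by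
  classical
  have hσ2 := frobQ_frobQ hK
  obtain ⟨c, hc⟩ := exists_good hσ2 (frobQ_ne_id hK)
  set σ := frobQ hK
  set R : Matrix (Idx d) (Idx d) K ≃ₐ[K] Matrix (Fin n) (Fin n) K := Matrix.reindexAlgEquiv K K e
  have hRH : ∀ X, R (H σ X) = H σ (R X) := fun X => rfl
  obtain ⟨y, hyu, hy⟩ := factor hσ2 (frobQ_ne_id hK) (A := R (Gram σ c d)) (by rw [← hRH, Gram_H hσ2])
    (((Matrix.isUnit_iff_isUnit_det _).2 (Gram_det hc)).map R)
  obtain ⟨z, rfl⟩ := hyu
  have hJu : IsUnit (R (Cfsg.jordanTypeMatrix d K)) := by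
    refine IsUnit.map R ((Matrix.isUnit_iff_isUnit_det _).2 ?_)
    have h := congrArg Matrix.det (Gram_inv (σ := σ) (d := d) hc)
    rw [Matrix.det_mul, Matrix.det_mul] at h
    exact isUnit_of_mul_isUnit_right (h ▸ Gram_det hc)
  obtain ⟨J', hJ'⟩ := hJu
  refine ⟨⟨z * J' * z⁻¹, (mem_GU hK _).2 ?_⟩, ⟨z, ?_⟩⟩
  · show H σ (z.1 * J'.1 * (z⁻¹ : GL (Fin n) K).1) * (z.1 * J'.1 * (z⁻¹ : GL (Fin n) K).1) = 1
    calc _ = H σ (z⁻¹ : GL (Fin n) K).1 * (H σ J'.1 * (H σ z.1 * z.1) * J'.1) * (z⁻¹ : GL (Fin n) K).1 := by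
          rw [H_mul, H_mul]; simp only [mul_assoc]
      _ = H σ (z⁻¹ : GL (Fin n) K).1 * (H σ z.1 * z.1) * (z⁻¹ : GL (Fin n) K).1 := by
          rw [hy, hJ', ← hRH, ← map_mul, ← map_mul, Gram_inv hc]
      _ = 1 := by rw [← mul_assoc, ← H_mul, Units.mul_inv, H_one, one_mul, Units.mul_inv]
  · show z.1 * Matrix.reindex e e (Cfsg.jordanTypeMatrix d K) = z.1 * J'.1 * (z⁻¹ : GL (Fin n) K).1 * z.1
    rw [mul_assoc (z.1 * J'.1), Units.inv_mul, mul_one, hJ']
    rfl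

/-- The unitary group on an index type is a `GU`. -/
theorem card_U (hK : Fintype.card K = q ^ 2) (ι : Type*) [Fintype ι] [DecidableEq ι] {a : ℕ}
    (ha : Fintype.card ι = a) : Nat.card (U (frobQ hK) ι) = Nat.card ↥(Cfsg.GU a K q) := by
  classical
  let ε := Fintype.equivFinOfCardEq ha
  let R := Matrix.reindexAlgEquiv K K ε
  refine Nat.card_congr ((Units.mapEquiv R.toMulEquiv).toEquiv.subtypeEquiv fun g => ?_)
  show H (frobQ hK) g.1 * g.1 = 1 ↔ Units.mapEquiv R.toMulEquiv g ∈ Cfsg.GU a K q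
  rw [mem_GU hK]
  show _ ↔ H (frobQ hK) (R g.1) * R g.1 = 1
  rw [show H (frobQ hK) (R g.1) = R (H (frobQ hK) g.1) from rfl, ← map_mul, MulEquivClass.map_eq_one_iff]

theorem card_GU_int (hK : Fintype.card K = q ^ 2) (a : ℕ) :
    (Nat.card ↥(Cfsg.GU a K q) : ℤ) =
      (q : ℤ) ^ (a * (a - 1) / 2) * ∏ j : Fin a, ((q : ℤ) ^ ((j : ℕ) + 1) - (-1) ^ ((j : ℕ) + 1)) := by
  have hq : 2 ≤ q := two_le_q hK
  rw [Forms.card_GU hK, Nat.cast_mul, Nat.cast_pow, Finset.prod_range, Nat.cast_prod]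
  congr 1
  refine Finset.prod_congr rfl fun j _ => ?_
  split_ifs with h
  · rw [(Nat.odd_add_one.2 (Nat.not_odd_iff_even.2 h)).neg_one_pow]
    push_cast
    ring
  · rw [(Nat.even_add_one.2 h).neg_one_pow, Nat.cast_sub (Nat.one_le_pow _ _ (by omega))]
    push_cast
    ring

/-- The order of the centraliser of a unipotent element. -/
theorem card_centralizer (hK : Fintype.card K = q ^ 2) (hd : ∀ k, 1 ≤ d k) (e : Idx d ≃ Fin n)
    (u : ↥(Cfsg.GU n K q))
    (hu : IsConj (Matrix.reindex e e (Cfsg.jordanTypeMatrix d K)) ((u : GL (Fin n) K) : Matrix (Fin n) (Fin n) K)) :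
    Nat.card ↥(Subgroup.centralizer ({u} : Set ↥(Cfsg.GU n K q))) =
      q ^ Nat.card (Rest d) *
        ∏ i ∈ Finset.range (Finset.univ.sup d + 1),
          Nat.card ↥(Cfsg.GU (Finset.univ.filter (fun k : Fin t => d k = i)).card K q) := by
  classical
  have hσ2 := frobQ_frobQ hK
  obtain ⟨c, hc⟩ := exists_good hσ2 (frobQ_ne_id hK)
  set σ := frobQ hK
  obtain ⟨z, hz, hzu⟩ := exists_frame hK hc hd e u.2 hu
  have hmain : Nat.card ↥(Subgroup.centralizer ({u} : Set ↥(Cfsg.GU n K q))) = Nat.card (Sn hc (d := d)) := by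
    set R : Matrix (Idx d) (Idx d) K ≃ₐ[K] Matrix (Fin n) (Fin n) K := Matrix.reindexAlgEquiv K K e
    have hRH : ∀ X, R (H σ X) = H σ (R X) := fun X => rfl
    let ψ : GL (Idx d) K ≃ GL (Fin n) K := (Units.mapEquiv R.toMulEquiv).toEquiv.trans (MulAut.conj z).toEquiv
    have hψ : ∀ g, (ψ g).1 = z.1 * R g.1 * (z⁻¹ : GL (Fin n) K).1 := fun g => rfl
    have hG := Gram_det (d := d) hc
    have key : ∀ g : GL (Idx d) K, (Com d g.1 ∧ st σ (Gram σ c d) g.1 * g.1 = 1) ↔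
        (ψ g ∈ Cfsg.GU n K q ∧ ψ g * u.1 = u.1 * ψ g) := by
      intro g
      have hzu' : z.1 * R (Cfsg.jordanTypeMatrix d K) * (z⁻¹ : GL (Fin n) K).1 = u.1.1 := by
        rw [show R (Cfsg.jordanTypeMatrix d K) = Matrix.reindex e e (Cfsg.jordanTypeMatrix d K) from rfl, hzu,
          mul_assoc, Units.mul_inv, mul_one]
      have hconj : ∀ X Y, z.1 * X * (z⁻¹ : GL (Fin n) K).1 * (z.1 * Y * (z⁻¹ : GL (Fin n) K).1) =
          z.1 * (X * Y) * (z⁻¹ : GL (Fin n) K).1 := fun X Y => by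
        simp only [mul_assoc]
        rw [← mul_assoc (z⁻¹ : GL (Fin n) K).1, Units.inv_mul, one_mul]
      have hcancel : ∀ X Y : Matrix (Fin n) (Fin n) K,
          z.1 * X * (z⁻¹ : GL (Fin n) K).1 = z.1 * Y * (z⁻¹ : GL (Fin n) K).1 ↔ X = Y := fun X Y => by
        rw [Units.mul_left_inj, Units.mul_right_inj]
      refine and_comm.trans (and_congr ?_ ?_)
      · rw [mem_GU hK, hψ]
        have hH : H σ (z.1 * R g.1 * (z⁻¹ : GL (Fin n) K).1) =
            z.1 * R (st σ (Gram σ c d) g.1) * (z⁻¹ : GL (Fin n) K).1 := by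
          have hG' : IsUnit (R (Gram σ c d)).det :=
            (Matrix.isUnit_iff_isUnit_det _).1 (((Matrix.isUnit_iff_isUnit_det _).2 hG).map R)
          rw [← conj_st hG' hz (Units.mul_inv z)]
          congr 2
          exact (eq_st hG' (by rw [← map_mul, mul_st hG, map_mul, hRH])).symm
        rw [hH, hconj, ← map_mul, ← (hcancel (R (st σ (Gram σ c d) g.1 * g.1)) 1).trans
          MulEquivClass.map_eq_one_iff, mul_one, Units.mul_inv]
      · rw [com_iff, Units.ext_iff, Units.val_mul, Units.val_mul, hψ, ← hzu', hconj, hconj, hcancel, ← map_mul,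
          ← map_mul, R.injective.eq_iff]
    symm
    refine Nat.card_congr
      { toFun := fun g => ⟨⟨ψ g.1, ((key _).1 g.2).1⟩, Subgroup.mem_centralizer_singleton_iff.2
          (Subtype.ext ((key _).1 g.2).2)⟩
        invFun := fun g => ⟨ψ.symm g.1.1, (key _).2 (by
          rw [Equiv.apply_symm_apply]
          exact ⟨g.1.2, congrArg Subtype.val (Subgroup.mem_centralizer_singleton_iff.1 g.2)⟩)⟩
        left_inv := fun g => Subtype.ext (ψ.symm_apply_apply _)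
        right_inv := fun g => Subtype.ext (Subtype.ext (ψ.apply_symm_apply _)) }
  rw [hmain, card_Sn hσ2 (frobQ_ne_id hK) hc hd hK, Finset.prod_range]
  congr 1
  exact Finset.prod_congr rfl fun i _ => card_U hK _ (Fintype.card_subtype _)

/-- Classes of elements of order `p`. -/
theorem card_order_p {p : ℕ} [Fact p.Prime] [CharP K p] (hK : Fintype.card K = q ^ 2) :
    Nat.card {C : ConjClasses ↥(Cfsg.GU n K q) // ∃ g : ↥(Cfsg.GU n K q), ConjClasses.mk g = C ∧ orderOf g = p} =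
      (Finset.univ.filter (fun μ : Nat.Partition n => ∀ a ∈ μ.parts, a ≤ p)).card - 1 := by
  classical
  rw [← KnownA.Jordan.card_order_p (F := K) p n]
  have hnil : ∀ g : GL (Fin n) K, orderOf g = p → IsNilpotent (KnownA.Jordan.nilPart g) := fun g hg =>
    ⟨p ^ 1, (KnownA.Jordan.pow_eq_one_iff p 1 g).1 (by rw [pow_one, ← hg, pow_orderOf_eq_one])⟩
  have hcoe : ∀ g : ↥(Cfsg.GU n K q), orderOf (g : GL (Fin n) K) = orderOf g := fun g =>
    Subgroup.orderOf_coe g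
  have hgl : ∀ {a b : GL (Fin n) K}, IsConj (a : Matrix (Fin n) (Fin n) K) (b : Matrix (Fin n) (Fin n) K) →
      IsConj a b := fun {a b} ⟨c, hc⟩ => isConj_iff.2 ⟨c, mul_inv_eq_iff_eq_mul.2 (Units.ext hc.eq)⟩
  let Φ : {C : ConjClasses ↥(Cfsg.GU n K q) // ∃ g : ↥(Cfsg.GU n K q), ConjClasses.mk g = C ∧ orderOf g = p} →
      {C : ConjClasses (GL (Fin n) K) // ∃ g : GL (Fin n) K, ConjClasses.mk g = C ∧ orderOf g = p} := fun C =>
    ⟨ConjClasses.map (Cfsg.GU n K q).subtype C.1, by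
      obtain ⟨g, hg, ho⟩ := C.2
      exact ⟨g.1, by rw [← hg]; rfl, (hcoe g).trans ho⟩⟩
  refine Nat.card_congr (Equiv.ofBijective Φ ⟨fun C C' h => ?_, fun C => ?_⟩)
  · obtain ⟨g, hg, ho⟩ := C.2
    obtain ⟨g', hg', ho'⟩ := C'.2
    have h1 := congrArg Subtype.val h
    simp only [Φ, ← hg, ← hg'] at h1
    have h2 : IsConj g.1 g'.1 := ConjClasses.mk_eq_mk_iff_isConj.1 h1
    obtain ⟨t, d, e, hd, he⟩ := exists_jordan (hnil g.1 ((hcoe g).trans ho))
    obtain ⟨c, hc⟩ := isConj_iff.1 h2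
    have he' : IsConj (Matrix.reindex e e (Cfsg.jordanTypeMatrix d K)) g'.1.1 :=
      he.trans ⟨c, show c.1 * g.1.1 = g'.1.1 * c.1 by
        rw [← Units.val_mul, ← Units.val_mul, ← hc, inv_mul_cancel_right]⟩
    refine Subtype.ext ?_
    rw [← hg, ← hg', ConjClasses.mk_eq_mk_iff_isConj]
    exact conj_of_type hK hd e he he'
  · obtain ⟨C, g, rfl, ho⟩ := C
    obtain ⟨t, d, e, hd, he⟩ := exists_jordan (hnil g ho)
    obtain ⟨u, hu⟩ := exists_of_type hK hd e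
    have hc : IsConj g u.1 := hgl (he.symm.trans hu)
    obtain ⟨c, hc'⟩ := isConj_iff.1 hc
    have hou : orderOf u = p := by
      rw [← hcoe, ← hc', ← ho]
      exact orderOf_injective (MulAut.conj c).toMonoidHom (MulAut.conj c).injective g
    exact ⟨⟨ConjClasses.mk u, u, rfl, hou⟩, Subtype.ext (ConjClasses.mk_eq_mk_iff_isConj.2 hc.symm)⟩

end Cfsg.Agent.Linear.GUUnipotentClasses
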