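import Cfsg.Agent.Linear.AltJordan
import Cfsg.Agent.Linear.GUUnipotentClasses

/-!
# Unipotent classes of the symplectic group in odd characteristic
-/

set_option autoImplicit false
set_option linter.unusedSectionVars false

namespace Cfsg.Agent.Linear.SpUnipotentClasses

open Matrix Cfsg.Agent.Linear.UnipotentCent Cfsg.Agent.Linear.HermJordan Cfsg.Agent.Linear.GUUnipotentCent
  Cfsg.Agent.Linear.AltJordan Cfsg.Agent.KnownA

variable {F : Type*} [Field F] [Fintype F]

section Forms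

variable {t : ℕ} {d : Fin t → ℕ} {G G' : Matrix (Idx d) (Idx d) F}

theorem even_count (h2 : (2 : F) ≠ 0) (hG : IsForm d G) {j : ℕ} (hj : Odd j) :
    Even (Finset.univ.filter (fun k : Fin t => d k = j)).card := by
  obtain ⟨c, rfl⟩ := hj
  have key : ∀ i, Even (JordanTypeParity.r d (2 * i)) := fun i => by
    rw [← JordanTypeParity.rank_sub_one_pow (F := F) (Equiv.refl (Idx d))
      (A := Cfsg.jordanTypeMatrix d F) (by simpa using IsConj.refl _)]
    exact JordanTypeParity.even_rank_sp hG.unit hG.inv (dot_eq_zero h2 hG.skew) i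
  exact JordanTypeParity.r_parity d (by omega) (by rw [Nat.add_sub_cancel]; exact key c)
    (by rw [show 2 * c + 1 + 1 = 2 * (c + 1) by omega]; exact key (c + 1))

/-- Coefficients of a model with given signs. -/
theorem exists_coeff (δ : F) (hδ : δ ≠ 0) (d : Fin t → ℕ)
    (hpar : ∀ j : ℕ, Odd j → Even (Finset.univ.filter (fun k : Fin t => d k = j)).card) (b : ℕ → Bool) :
    ∃ A : Matrix (Fin t) (Fin t) F, (∀ k l, d k = d l → A l k = (-1) ^ d k * A k l) ∧
      (∀ i, IsUnit (A.submatrix (Subtype.val : {k // d k = i} → Fin t) Subtype.val).det) ∧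
      ∀ i, Even i → (∃ k, d k = i) →
        (A.submatrix (Subtype.val : {k // d k = i} → Fin t) Subtype.val).det = if b i then δ else 1 := by
  classical
  obtain ⟨σ, hσ, hσd, hfix⟩ := JordanTypeForms.exists_pairing d
  have hne : ∀ k, Odd (d k) → σ k ≠ k := fun k ho h => Nat.not_even_iff_odd.2 (hfix k h) (hpar _ ho)
  let w : Fin t → F := fun k => if b (d k) = true ∧ ∀ l, d l = d k → k ≤ l then δ else 1
  have hw : ∀ k, w k ≠ 0 := fun k => by simp only [w]; split_ifs; exacts [hδ, one_ne_zero]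
  let A : Matrix (Fin t) (Fin t) F := Matrix.of fun k l =>
    if Even (d k) then (if l = k then w k else 0) else if l = σ k then (if k < σ k then 1 else -1) else 0
  have hdiag : ∀ i, Even i → (A.submatrix (Subtype.val : {k // d k = i} → Fin t) Subtype.val) =
      Matrix.diagonal fun k => w k.1 := fun i hi => by
    ext ⟨k, hk⟩ ⟨l, hl⟩
    simp only [A, submatrix_apply, of_apply, diagonal_apply, Subtype.mk.injEq]
    rw [if_pos (hk ▸ hi)]
    exact if_congr eq_comm rfl rfl
  refine ⟨A, fun k l hkl => ?_, fun i => ?_, fun i hi ⟨k, hk⟩ => ?_⟩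
  · simp only [A, of_apply, ← hkl]
    by_cases he : Even (d k)
    · rw [if_pos he, if_pos he, he.neg_one_pow, one_mul]
      by_cases h : k = l
      · subst h; rfl
      · rw [if_neg h, if_neg (Ne.symm h)]
    · rw [if_neg he, if_neg he, (Nat.not_even_iff_odd.1 he).neg_one_pow]
      by_cases h : l = σ k
      · subst h
        rw [hσ, if_pos rfl, if_pos rfl]
        rcases lt_or_gt_of_ne (hne k (Nat.not_even_iff_odd.1 he)) with h' | h'
        · rw [if_pos h', if_neg (not_lt.2 h'.le)]; ring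
        · rw [if_neg (not_lt.2 h'.le), if_pos h']; ring
      · rw [if_neg h, if_neg (fun h' => h (by rw [h', hσ])), mul_zero]
  · by_cases hi : Even i
    · rw [hdiag i hi, Matrix.det_diagonal]
      exact isUnit_iff_ne_zero.2 (Finset.prod_ne_zero_iff.2 fun k _ => hw k.1)
    · refine (Matrix.isUnit_iff_isUnit_det _).1 (IsUnit.of_mul_eq_one
        (-(A.submatrix (Subtype.val : {k // d k = i} → Fin t) Subtype.val)) ?_)
      rw [mul_neg]
      ext ⟨k, hk⟩ ⟨l, hl⟩
      rw [Matrix.neg_apply, Matrix.mul_apply,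
        Finset.sum_eq_single (⟨σ k, (hσd k).trans hk⟩ : {k // d k = i}) (fun z _ hz => ?_) (by simp)]
      · have he : ¬ Even (d k) := hk ▸ hi
        simp only [A, submatrix_apply, of_apply, Matrix.one_apply, Subtype.mk.injEq]
        rw [if_neg he, if_pos trivial, if_neg (show ¬ Even (d (σ k)) by rwa [hσd]), hσ]
        rcases lt_or_gt_of_ne (hne k (Nat.not_even_iff_odd.1 he)) with h' | h'
        · rw [if_neg (not_lt.2 h'.le), if_pos h']
          by_cases h : l = k
          · rw [if_pos h, if_pos h.symm]; ring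
          · rw [if_neg h, if_neg (Ne.symm h)]; ring
        · rw [if_pos h', if_neg (not_lt.2 h'.le)]
          by_cases h : l = k
          · rw [if_pos h, if_pos h.symm]; ring
          · rw [if_neg h, if_neg (Ne.symm h)]; ring
      · simp only [A, submatrix_apply, of_apply]
        rw [if_neg (hk ▸ hi), if_neg (fun h => hz (Subtype.ext h)), zero_mul]
  · rw [hdiag i hi, Matrix.det_diagonal]
    haveI : Nonempty {k // d k = i} := ⟨⟨k, hk⟩⟩
    obtain ⟨k0, hk0⟩ := (Finset.univ : Finset {k // d k = i}).exists_min_image (fun k => k.1) Finset.univ_nonempty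
    rw [Finset.prod_eq_single k0 (fun z _ hz => ?_) (by simp)]
    · simp only [w, k0.2]
      refine if_congr ⟨fun h => h.1, fun h => ⟨h, fun l hl => hk0.2 ⟨l, hl⟩ (Finset.mem_univ _)⟩⟩ rfl rfl
    · simp only [w]
      exact if_neg fun h => hz (Subtype.ext (le_antisymm (h.2 k0.1 (k0.2.trans z.2.symm)) (hk0.2 z (Finset.mem_univ _))))

variable (hd : ∀ k, 1 ≤ d k)
include hd

theorem topG_unit (h2 : (2 : F) ≠ 0) (hG : IsForm d G) (i : ℕ) : IsUnit (topG i G).det := by
  obtain ⟨A, hA, hAu, -⟩ := exists_coeff (1 : F) one_ne_zero d (fun j hj => even_count h2 hG hj) fun _ => false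
  exact topG_isUnit hd h2 hG A hA hAu i

omit hd

theorem isForm_congr (hG : IsForm d G) {X : Matrix (Idx d) (Idx d) F} (hX : Com d X) (hXu : IsUnit X.det) :
    IsForm d (Xᵀ * G * X) := by
  refine ⟨?_, ?_, ?_⟩
  · rw [transpose_mul, transpose_mul, transpose_transpose, hG.skew, Matrix.neg_mul, Matrix.mul_neg, mul_assoc]
  · rw [Matrix.det_mul, Matrix.det_mul, Matrix.det_transpose]
    exact (hXu.mul hG.unit).mul hXu
  · set J := Cfsg.jordanTypeMatrix d F with hJ
    have hc : X * J = J * X := (com_iff X).1 hX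
    calc Jᵀ * (Xᵀ * G * X) * J = (X * J)ᵀ * G * (X * J) := by rw [transpose_mul]; simp only [mul_assoc]
      _ = (J * X)ᵀ * G * (J * X) := by rw [hc]
      _ = Xᵀ * (Jᵀ * G * J) * X := by rw [transpose_mul]; simp only [mul_assoc]
      _ = _ := by rw [hG.inv]

include hd

theorem det_top_sq (hG : IsForm d G) {g : Matrix (Idx d) (Idx d) F} (hg : Com d g) (i : ℕ) :
    (topG i (gᵀ * G * g)).det = (top d hd i (col hd g)).det * (top d hd i (col hd g)).det * (topG i G).det := by
  rw [topG_congr hd hG.inv hg hg, Matrix.det_mul, Matrix.det_mul, Matrix.det_transpose]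
  ring

/-- Forms with the same discriminants are congruent under the commutant. -/
theorem exists_congr_com {p : ℕ} [Fact p.Prime] [CharP F p] (hp : p ≠ 2) (h2 : (2 : F) ≠ 0) (hG : IsForm d G)
    (hG' : IsForm d G')
    (hdet : ∀ i, Even i → (∃ k, d k = i) → (IsSquare (topG i G).det ↔ IsSquare (topG i G').det)) :
    ∃ g : GL (Idx d) F, Com d g.1 ∧ g.1ᵀ * G * g.1 = G' := by
  classical
  have hP : ∀ i : Fin (Finset.univ.sup d + 1), ∃ P : Matrix {k // d k = i.1} {k // d k = i.1} F,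
      IsUnit P.det ∧ Pᵀ * topG i.1 G * P = topG i.1 G' := fun i => by
    rcases isEmpty_or_nonempty {k // d k = i.1} with h | ⟨⟨k, hk⟩⟩
    · exact ⟨1, by simp, Subsingleton.elim _ _⟩
    · have hi : 1 ≤ i.1 := hk ▸ hd k
      have hu := topG_unit hd h2 hG i.1
      have hu' := topG_unit hd h2 hG' i.1
      have ht := topG_transpose hG i.1 hi
      have ht' := topG_transpose hG' i.1 hi
      rcases Nat.even_or_odd i.1 with he | ho
      · rw [he.neg_one_pow, one_smul] at ht ht'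
        exact congr_symm h2 ht ht' hu hu' (hdet _ he ⟨k, hk⟩)
      · rw [ho.neg_one_pow, neg_one_smul] at ht ht'
        exact congr_alt h2 ht ht' hu hu'
  choose P hPu hP using hP
  have hYc : Com d (T (liftTop P)) := com_T hd (ok_liftTop P)
  have hYu : IsUnit (T (liftTop P)) := isUnit_of_top_com hd hYc fun i => by
    rw [col_T, top_liftTop]
    exact (Matrix.isUnit_iff_isUnit_det _).2 (hPu i)
  obtain ⟨Y, hY⟩ := hYu
  rw [← hY] at hYc
  have hG1 := isForm_congr hG hYc ((Matrix.isUnit_iff_isUnit_det _).1 Y.isUnit)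
  set G1 := Y.1ᵀ * G * Y.1 with hG1d
  set X := G'⁻¹ * G1 with hXd
  have hXc : Com d X := com_ratio hG1 hG'
  have hGX : G' * X = G1 := by rw [hXd, ← mul_assoc, Matrix.mul_nonsing_inv _ hG'.unit, one_mul]
  have htop : ∀ i, top d hd i (col hd (X - 1)) = 0 := fun i => by
    rw [col_sub, top_sub, top_one, sub_eq_zero]
    by_cases hi : i < Finset.univ.sup d + 1
    · refine ((Matrix.isUnit_iff_isUnit_det _).2 (topG_unit hd h2 hG' i)).mul_left_cancel ?_
      have h := topG_congr hd hG'.inv com_one hXc i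
      rw [transpose_one, one_mul, top_one, transpose_one, one_mul, hGX, hG1d, topG_congr hd hG.inv hYc hYc, hY,
        col_T] at h
      have hl : top d hd i (liftTop P) = P ⟨i, hi⟩ := top_liftTop hd P ⟨i, hi⟩
      rw [hl, hP ⟨i, hi⟩] at h
      rw [mul_one]
      exact h.symm
    · haveI : IsEmpty {k // d k = i} := ⟨fun k => hi (k.2 ▸ Nat.lt_succ_of_le (Finset.le_sup (Finset.mem_univ _)))⟩
      exact Subsingleton.elim _ _
  obtain ⟨n, hn⟩ := nilpotent_of_top hd (hXc.sub com_one) htop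
  obtain ⟨N, hNodd, hXN⟩ : ∃ N, Odd N ∧ X ^ N = 1 := by
    refine ⟨p ^ n, ((Fact.out : p.Prime).odd_of_ne_two hp).pow, ?_⟩
    rcases isEmpty_or_nonempty (Idx d) with h | h
    · exact Subsingleton.elim _ _
    · have h0 : (X - 1) ^ p ^ n = 0 := pow_eq_zero_of_le (Nat.lt_pow_self (Fact.out : p.Prime).one_lt).le hn
      rw [sub_pow_char_pow_of_commute (p := p) (h := Commute.one_right _), one_pow, sub_eq_zero] at h0
      exact h0
  obtain ⟨c, rfl⟩ := hNodd
  set W := X ^ (c + 1) with hWd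
  have hWW : W * W = X := by
    rw [hWd, ← pow_add, show c + 1 + (c + 1) = (2 * c + 1) + 1 by omega, pow_succ, hXN, one_mul]
  have hWc : Com d W := by
    show X ^ (c + 1) * E d F = E d F * X ^ (c + 1)
    exact ((show Commute X (E d F) from hXc).pow_left (c + 1)).eq
  have hsym : SemiconjBy G' X Xᵀ := by
    show G' * X = Xᵀ * G'
    have h : Xᵀ * G'ᵀ = G1ᵀ := by rw [← transpose_mul, hGX]
    rw [hG'.skew, hG1.skew, Matrix.mul_neg, neg_inj] at h
    rw [h, hGX]
  have hW : G' * W = Wᵀ * G' := by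
    rw [hWd, Matrix.transpose_pow]
    exact (hsym.pow_right (c + 1)).eq
  have hWG : Wᵀ * G' * W = G1 := by rw [← hW, mul_assoc, hWW, hGX]
  have hWu : IsUnit W := by
    refine (IsUnit.of_pow_eq_one hXN (by omega)).pow _
  obtain ⟨V, hV⟩ := hWu
  rw [← hV] at hWc
  refine ⟨Y * V⁻¹, Com.mul hYc (com_inv hWc), ?_⟩
  show (Y.1 * (V⁻¹ : GL (Idx d) F).1)ᵀ * G * (Y.1 * (V⁻¹ : GL (Idx d) F).1) = G'
  calc _ = (V⁻¹ : GL (Idx d) F).1ᵀ * G1 * (V⁻¹ : GL (Idx d) F).1 := by
        rw [hG1d, transpose_mul]; simp only [mul_assoc]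
    _ = (V⁻¹ : GL (Idx d) F).1ᵀ * (V.1ᵀ * G' * V.1) * (V⁻¹ : GL (Idx d) F).1 := by rw [hV, hWG]
    _ = (V.1 * (V⁻¹ : GL (Idx d) F).1)ᵀ * G' * (V.1 * (V⁻¹ : GL (Idx d) F).1) := by
        rw [transpose_mul]; simp only [mul_assoc]
    _ = G' := by rw [Units.mul_inv, transpose_one, one_mul, mul_one]

end Forms

section Classes

variable {m : ℕ}

/-- Reindexing. -/
def E0 (m : ℕ) : Fin (2 * m) ≃ Fin m ⊕ Fin m := (finCongr (two_mul m)).trans finSumFinEquiv.symm

variable (m F) in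
/-- The symplectic group inside the linear group. -/
noncomputable def toGL : Matrix.symplecticGroup (Fin m) F →* GL (Fin (2 * m)) F :=
  ((Matrix.reindexAlgEquiv F F (E0 m).symm).toAlgHom.toRingHom.toMonoidHom.comp
    (Matrix.symplecticGroup (Fin m) F).subtype).toHomUnits

theorem toGL_val (u : Matrix.symplecticGroup (Fin m) F) :
    (toGL F m u).1 = Matrix.reindexAlgEquiv F F (E0 m).symm u.1 := rfl

theorem toGL_injective : Function.Injective (toGL F m) := fun u v h =>
  Subtype.ext ((Matrix.reindexAlgEquiv F F (E0 m).symm).injective (congrArg Units.val h))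

theorem modelGL_val {n : ℕ} (μ : Nat.Partition n) :
    ((Jordan.modelGL F μ : GL (Fin n) F) : Matrix (Fin n) (Fin n) F) =
      Matrix.reindex (Jordan.modelIdx μ) (Jordan.modelIdx μ) (Cfsg.jordanTypeMatrix (Jordan.blockLen μ) F) := by
  refine (sub_left_inj (a := (1 : Matrix (Fin n) (Fin n) F))).1 ((Matrix.toLinAlgEquiv' (R := F)).injective ?_)
  show Jordan.nilPart (Jordan.modelGL F μ) = _
  rw [Jordan.nilPart_model]
  refine (Jordan.modelBasis F μ).ext fun x => ?_
  obtain ⟨k, i⟩ := x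
  rw [Jordan.model_chain F μ k i]
  have hb : ∀ y, Jordan.modelBasis F μ y = Pi.single (Jordan.modelIdx μ y) 1 := fun y => by
    simp [Jordan.modelBasis]
  rw [hb, map_sub, map_one, LinearMap.sub_apply, Module.End.one_apply, Matrix.toLinAlgEquiv'_apply,
    JordanTypeGroups.mulVec_jordan_single, add_sub_cancel_left]
  split_ifs with h
  · rw [hb]
  · rfl

variable (μ : Nat.Partition (2 * m))

theorem blockLen_pos (k : Fin μ.parts.toList.length) : 1 ≤ Jordan.blockLen μ k :=
  μ.parts_pos ((Jordan.mem_blockLen μ _).2 ⟨k, rfl⟩)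

/-- Moving a matrix to the index type of the blocks. -/
noncomputable def mv : Matrix (Fin m ⊕ Fin m) (Fin m ⊕ Fin m) F ≃ₐ[F]
    Matrix (Idx (Jordan.blockLen μ)) (Idx (Jordan.blockLen μ)) F :=
  (Matrix.reindexAlgEquiv F F (E0 m).symm).trans (Matrix.reindexAlgEquiv F F (Jordan.modelIdx μ).symm)

theorem mv_transpose (A : Matrix (Fin m ⊕ Fin m) (Fin m ⊕ Fin m) F) : mv μ Aᵀ = (mv μ A)ᵀ := rfl

theorem mv_det (A : Matrix (Fin m ⊕ Fin m) (Fin m ⊕ Fin m) F) : (mv μ A).det = A.det :=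
  Matrix.det_submatrix_equiv_self ((Jordan.modelIdx μ).trans (E0 m)) A

/-- The standard form on the index type of the blocks. -/
noncomputable def Omega : Matrix (Idx (Jordan.blockLen μ)) (Idx (Jordan.blockLen μ)) F := mv μ (Matrix.J (Fin m) F)

theorem Omega_skew : (Omega μ : Matrix _ _ F)ᵀ = -Omega μ := by
  rw [Omega, ← mv_transpose, Matrix.J_transpose, map_neg]

theorem Omega_unit : IsUnit (Omega μ : Matrix _ _ F).det := by
  rw [Omega, mv_det]; exact Matrix.isUnit_det_J (Fin m) F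

/-- A frame of an element. -/
def Frame (u : Matrix.symplecticGroup (Fin m) F) (z : GL (Idx (Jordan.blockLen μ)) F) : Prop :=
  z.1 * Cfsg.jordanTypeMatrix (Jordan.blockLen μ) F = mv μ u.1 * z.1

/-- The form of a frame. -/
noncomputable def form (z : GL (Idx (Jordan.blockLen μ)) F) :
    Matrix (Idx (Jordan.blockLen μ)) (Idx (Jordan.blockLen μ)) F := z.1ᵀ * Omega μ * z.1

theorem mv_mem (u : Matrix.symplecticGroup (Fin m) F) : (mv μ u.1)ᵀ * Omega μ * mv μ u.1 = Omega μ := by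
  rw [Omega, ← mv_transpose, ← map_mul, ← map_mul, SymplecticGroup.mem_iff'.1 u.2]

theorem form_isForm {u : Matrix.symplecticGroup (Fin m) F} {z : GL (Idx (Jordan.blockLen μ)) F}
    (hz : Frame μ u z) : IsForm (Jordan.blockLen μ) (form μ z) := by
  refine ⟨?_, ?_, ?_⟩
  · rw [form, transpose_mul, transpose_mul, transpose_transpose, Omega_skew, Matrix.neg_mul, Matrix.mul_neg, mul_assoc]
  · rw [form, Matrix.det_mul, Matrix.det_mul, Matrix.det_transpose]
    have hzu := (Matrix.isUnit_iff_isUnit_det _).1 z.isUnit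
    exact (hzu.mul (Omega_unit μ)).mul hzu
  · set J := Cfsg.jordanTypeMatrix (Jordan.blockLen μ) F
    calc Jᵀ * (z.1ᵀ * Omega μ * z.1) * J = (z.1 * J)ᵀ * Omega μ * (z.1 * J) := by
          rw [transpose_mul]; simp only [mul_assoc]
      _ = (mv μ u.1 * z.1)ᵀ * Omega μ * (mv μ u.1 * z.1) := by rw [hz]
      _ = z.1ᵀ * ((mv μ u.1)ᵀ * Omega μ * mv μ u.1) * z.1 := by rw [transpose_mul]; simp only [mul_assoc]
      _ = _ := by rw [mv_mem]; rfl

theorem frame_iff (u : Matrix.symplecticGroup (Fin m) F) :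
    (∃ z, Frame μ u z) ↔ IsConj (toGL F m u) (Jordan.modelGL F μ) := by
  set R := Matrix.reindexAlgEquiv F F (Jordan.modelIdx μ).symm with hR
  have hmodel : R (Jordan.modelGL F μ).1 = Cfsg.jordanTypeMatrix (Jordan.blockLen μ) F := by
    rw [modelGL_val, hR, Matrix.coe_reindexAlgEquiv, Matrix.reindex_apply, Matrix.reindex_apply,
      Matrix.submatrix_submatrix]
    simp
  constructor
  · rintro ⟨z, hz⟩
    refine IsConj.symm (isConj_iff.2 ⟨Units.mapEquiv R.symm.toMulEquiv z, mul_inv_eq_iff_eq_mul.2 (Units.ext ?_)⟩)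
    refine R.injective ?_
    show R (R.symm z.1 * (Jordan.modelGL F μ).1) = R ((toGL F m u).1 * R.symm z.1)
    rw [map_mul, map_mul, R.apply_symm_apply, hmodel]
    exact hz
  · intro h
    obtain ⟨c, hc⟩ := isConj_iff.1 h.symm
    refine ⟨Units.mapEquiv R.toMulEquiv c, ?_⟩
    show R c.1 * Cfsg.jordanTypeMatrix (Jordan.blockLen μ) F = R (toGL F m u).1 * R c.1
    rw [← hmodel, ← map_mul, ← map_mul, ← Units.val_mul, ← Units.val_mul, ← hc, inv_mul_cancel_right]

theorem exists_elem (h2 : (2 : F) ≠ 0) {G : Matrix (Idx (Jordan.blockLen μ)) (Idx (Jordan.blockLen μ)) F}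
    (hG : IsForm (Jordan.blockLen μ) G) :
    ∃ (u : Matrix.symplecticGroup (Fin m) F) (z : GL (Idx (Jordan.blockLen μ)) F), Frame μ u z ∧ form μ z = G := by
  obtain ⟨P, hPu, hP⟩ := congr_alt h2 (Omega_skew μ) hG.skew (Omega_unit μ) hG.unit
  set J := Cfsg.jordanTypeMatrix (Jordan.blockLen μ) F
  set M := P * J * P⁻¹ with hM
  have hMP : M * P = P * J := by rw [hM, mul_assoc, Matrix.nonsing_inv_mul _ hPu, mul_one]
  have hMi : Mᵀ * Omega μ * M = Omega μ := by
    have hPP : P * P⁻¹ = 1 := Matrix.mul_nonsing_inv _ hPu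
    calc Mᵀ * Omega μ * M = (P⁻¹)ᵀ * (Jᵀ * (Pᵀ * Omega μ * P) * J) * P⁻¹ := by
          rw [hM, transpose_mul, transpose_mul]; simp only [mul_assoc]
      _ = (P⁻¹)ᵀ * (Pᵀ * Omega μ * P) * P⁻¹ := by rw [hP, hG.inv]
      _ = (P * P⁻¹)ᵀ * Omega μ * (P * P⁻¹) := by rw [transpose_mul]; simp only [mul_assoc]
      _ = Omega μ := by rw [hPP, transpose_one, one_mul, mul_one]
  refine ⟨⟨(mv μ).symm M, SymplecticGroup.mem_iff'.2 ((mv μ).injective ?_)⟩,
    ((Matrix.isUnit_iff_isUnit_det _).2 hPu).unit, ?_, hP⟩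
  · rw [map_mul, map_mul, mv_transpose, (mv μ).apply_symm_apply]; exact hMi
  · show P * J = mv μ ((mv μ).symm M) * P
    rw [(mv μ).apply_symm_apply, hMP]

theorem conj_of_frames {u v : Matrix.symplecticGroup (Fin m) F} {z w g : GL (Idx (Jordan.blockLen μ)) F}
    (hz : Frame μ u z) (hw : Frame μ v w) (hg : Com (Jordan.blockLen μ) g.1)
    (h : g.1ᵀ * form μ z * g.1 = form μ w) : IsConj u v := by
  set J := Cfsg.jordanTypeMatrix (Jordan.blockLen μ) F
  set z' := z * g with hz'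
  have hz'f : z'.1 * J = mv μ u.1 * z'.1 := by
    rw [hz', Units.val_mul, mul_assoc, (com_iff g.1).1 hg, ← mul_assoc, hz, mul_assoc]
  have hform : z'.1ᵀ * Omega μ * z'.1 = w.1ᵀ * Omega μ * w.1 := by
    rw [hz', Units.val_mul, transpose_mul]
    rw [form, form] at h
    rw [← h]; simp only [mul_assoc]
  set C := w.1 * (z'⁻¹ : GL (Idx (Jordan.blockLen μ)) F).1 with hC
  have hCi : Cᵀ * Omega μ * C = Omega μ := by
    calc Cᵀ * Omega μ * C = (z'⁻¹ : GL (Idx (Jordan.blockLen μ)) F).1ᵀ * (w.1ᵀ * Omega μ * w.1) *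
          (z'⁻¹ : GL (Idx (Jordan.blockLen μ)) F).1 := by rw [hC, transpose_mul]; simp only [mul_assoc]
      _ = (z'.1 * (z'⁻¹ : GL (Idx (Jordan.blockLen μ)) F).1)ᵀ * Omega μ *
          (z'.1 * (z'⁻¹ : GL (Idx (Jordan.blockLen μ)) F).1) := by
        rw [← hform, transpose_mul]; simp only [mul_assoc]
      _ = Omega μ := by rw [Units.mul_inv, transpose_one, one_mul, mul_one]
  let c : Matrix.symplecticGroup (Fin m) F := ⟨(mv μ).symm C, SymplecticGroup.mem_iff'.2 ((mv μ).injective (by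
    rw [map_mul, map_mul, mv_transpose, (mv μ).apply_symm_apply]; exact hCi))⟩
  refine isConj_iff.2 ⟨c, mul_inv_eq_iff_eq_mul.2 (Subtype.ext ((mv μ).injective ?_))⟩
  show mv μ ((mv μ).symm C * u.1) = mv μ (v.1 * (mv μ).symm C)
  rw [map_mul (mv μ), map_mul (mv μ), (mv μ).apply_symm_apply]
  calc w.1 * (z'⁻¹ : GL (Idx (Jordan.blockLen μ)) F).1 * mv μ u.1
      = w.1 * (z'⁻¹ : GL (Idx (Jordan.blockLen μ)) F).1 * (mv μ u.1 * z'.1) *
        (z'⁻¹ : GL (Idx (Jordan.blockLen μ)) F).1 := by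
        rw [mul_assoc _ (mv μ u.1 * z'.1), mul_assoc (mv μ u.1), Units.mul_inv, mul_one]
    _ = w.1 * J * (z'⁻¹ : GL (Idx (Jordan.blockLen μ)) F).1 := by
        rw [← hz'f, ← mul_assoc (w.1 * _) z'.1, mul_assoc w.1, Units.inv_mul, mul_one]
    _ = _ := by rw [hw, mul_assoc]

theorem sign_of_conj {u v : Matrix.symplecticGroup (Fin m) F} {z w : GL (Idx (Jordan.blockLen μ)) F}
    (hz : Frame μ u z) (hw : Frame μ v w) (h : IsConj u v) (i : ℕ) :
    IsSquare (topG i (form μ z)).det ↔ IsSquare (topG i (form μ w)).det := by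
  obtain ⟨c, hc⟩ := isConj_iff.1 h
  have hcu : c.1 * u.1 = v.1 * c.1 := congrArg Subtype.val (mul_inv_eq_iff_eq_mul.1 hc)
  set J := Cfsg.jordanTypeMatrix (Jordan.blockLen μ) F
  obtain ⟨C, hC⟩ : IsUnit (mv μ c.1) :=
    (Matrix.isUnit_iff_isUnit_det _).2 (by rw [mv_det]; exact SymplecticGroup.symplectic_det c.2)
  set g := w⁻¹ * (C * z) with hg
  have hgc : Com (Jordan.blockLen μ) g.1 := by
    rw [com_iff]
    refine w.isUnit.mul_left_cancel ?_
    rw [hg, ← mul_assoc w.1, ← Units.val_mul, mul_inv_cancel_left, ← mul_assoc, hw, mul_assoc, ← Units.val_mul,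
      mul_inv_cancel_left, Units.val_mul, mul_assoc, hz, hC, ← mul_assoc, ← mul_assoc, ← map_mul, ← map_mul, hcu]
  have hf : g.1ᵀ * form μ w * g.1 = form μ z := by
    calc g.1ᵀ * (w.1ᵀ * Omega μ * w.1) * g.1 = (w.1 * g.1)ᵀ * Omega μ * (w.1 * g.1) := by
          rw [transpose_mul]; simp only [mul_assoc]
      _ = (C.1 * z.1)ᵀ * Omega μ * (C.1 * z.1) := by
        rw [hg, ← Units.val_mul, mul_inv_cancel_left, Units.val_mul]
      _ = z.1ᵀ * (C.1ᵀ * Omega μ * C.1) * z.1 := by rw [transpose_mul]; simp only [mul_assoc]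
      _ = _ := by rw [hC, mv_mem]; rfl
  rw [← hf, det_top_sq (blockLen_pos μ) (form_isForm μ hw) hgc]
  set t := (top (Jordan.blockLen μ) (blockLen_pos μ) i (col (blockLen_pos μ) g.1)).det with ht
  have ht0 : t ≠ 0 := ((Matrix.isUnit_iff_isUnit_det _).1
    (GUUnipotentCent.top_isUnit (blockLen_pos μ) hgc i)).ne_zero
  constructor
  · rintro ⟨s, hs⟩
    exact ⟨s / t, by field_simp; linear_combination hs⟩
  · rintro ⟨s, hs⟩
    exact ⟨t * s, by rw [hs]; ring⟩

end Classes

theorem orderOf_eq_iff_model {p : ℕ} [Fact p.Prime] [CharP F p] {n : ℕ} (μ : Nat.Partition n) {g : GL (Fin n) F}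
    (hg : IsConj g (Jordan.modelGL F μ)) :
    orderOf g = p ↔ (∀ a ∈ μ.parts, a ≤ p) ∧ ¬ ∀ a ∈ μ.parts, a ≤ 1 := by
  obtain ⟨c, hc⟩ := isConj_iff.1 hg
  rw [show orderOf g = orderOf (Jordan.modelGL F μ) by
      rw [← hc]; exact (orderOf_injective (MulAut.conj c).toMonoidHom (MulAut.conj c).injective g).symm,
    orderOf_eq_prime_iff]
  have h1 := Jordan.pow_eq_one_iff p 1 (Jordan.modelGL F μ)
  have h0 := Jordan.pow_eq_one_iff p 0 (Jordan.modelGL F μ)
  rw [pow_one] at h1
  rw [pow_zero, pow_one] at h0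
  rw [h1, ne_eq, h0, Jordan.nilPart_model, Jordan.model_pow_eq_zero, Jordan.model_pow_eq_zero]

open Classical in
/-- The number of classes of elements of order `p`. -/
theorem card_order_p {p : ℕ} [Fact p.Prime] [CharP F p] (hp : p ≠ 2) (m : ℕ) :
    Nat.card {C : ConjClasses ↥(Matrix.symplecticGroup (Fin m) F) //
      ∃ g : Matrix.symplecticGroup (Fin m) F, ConjClasses.mk g = C ∧ orderOf g = p} =
    (∑ μ ∈ Finset.univ.filter (fun μ : Nat.Partition (2 * m) =>
        (∀ a ∈ μ.parts, a ≤ p) ∧ ∀ j : ℕ, Odd j → Even (μ.parts.count j)),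
      2 ^ ((μ.parts.toFinset.filter (fun j : ℕ => Even j)).card)) - 1 := by
  classical
  have h2 : (2 : F) ≠ 0 := Ring.two_ne_zero (by rw [ringChar.eq F p]; exact hp)
  obtain ⟨δ, hδ⟩ := FiniteField.exists_nonsquare (F := F) (by rw [ringChar.eq F p]; exact hp)
  have hδ0 : δ ≠ 0 := fun h => hδ (h ▸ IsSquare.zero)
  let Q : Nat.Partition (2 * m) → Prop := fun μ =>
    ((∀ a ∈ μ.parts, a ≤ p) ∧ ¬ ∀ a ∈ μ.parts, a ≤ 1) ∧ ∀ j : ℕ, Odd j → Even (μ.parts.count j)
  let S : Nat.Partition (2 * m) → Finset ℕ := fun μ => μ.parts.toFinset.filter (fun j : ℕ => Even j)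
  let Param := Σ μ : {μ : Nat.Partition (2 * m) // Q μ}, ({j // j ∈ S μ.1} → Bool)
  let ext : ∀ μ : Nat.Partition (2 * m), ({j // j ∈ S μ} → Bool) → ℕ → Bool := fun μ b j =>
    if h : j ∈ S μ then b ⟨j, h⟩ else false
  have hrep : ∀ P : Param, ∃ (u : Matrix.symplecticGroup (Fin m) F) (z : GL (Idx (Jordan.blockLen P.1.1)) F),
      Frame P.1.1 u z ∧ ∀ j : {j // j ∈ S P.1.1},
        IsSquare (topG j.1 (form P.1.1 z)).det ↔ P.2 j = false := by
    rintro ⟨⟨μ, hμ⟩, b⟩
    obtain ⟨A, hA, hAu, hAd⟩ := exists_coeff δ hδ0 (Jordan.blockLen μ)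
      (fun j hj => by rw [Jordan.card_blockLen]; exact hμ.2 j hj) (ext μ b)
    obtain ⟨u, z, hz, hzf⟩ := exists_elem μ h2 (isForm_model (blockLen_pos μ) h2 A hA hAu)
    refine ⟨u, z, hz, fun j => ?_⟩
    have hj := Finset.mem_filter.1 j.2
    simp only [hzf, topG_model (blockLen_pos μ) h2,
      hAd j.1 hj.2 ((Jordan.mem_blockLen μ _).1 (Multiset.mem_toFinset.1 hj.1)), ext, dif_pos j.2, Subtype.coe_eta]
    cases b j
    · simp
    · simp [hδ]
  choose u z hz hs using hrep
  have hcoe : ∀ g : Matrix.symplecticGroup (Fin m) F, orderOf (toGL F m g) = orderOf g := fun g =>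
    orderOf_injective _ toGL_injective g
  have hord : ∀ P : Param, orderOf (u P) = p := fun P => by
    rw [← hcoe, orderOf_eq_iff_model P.1.1 ((frame_iff _ _).1 ⟨_, hz P⟩)]
    exact P.1.2.1
  let Φ : Param → {C : ConjClasses ↥(Matrix.symplecticGroup (Fin m) F) //
      ∃ g : Matrix.symplecticGroup (Fin m) F, ConjClasses.mk g = C ∧ orderOf g = p} :=
    fun P => ⟨_, u P, rfl, hord P⟩
  have hcard : Nat.card Param = ∑ μ ∈ Finset.univ.filter Q, 2 ^ (S μ).card := by
    rw [Nat.card_eq_fintype_card, Fintype.card_sigma]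
    simp only [Fintype.card_fun, Fintype.card_bool, Fintype.card_coe]
    exact (Finset.sum_subtype _ (fun μ => by simp) (fun μ => 2 ^ (S μ).card)).symm
  rw [← Nat.card_congr (Equiv.ofBijective Φ ⟨fun P P' h => ?_, ?_⟩), hcard]
  · have hsum : ∀ μ : Nat.Partition (2 * m), (∀ a ∈ μ.parts, a ≤ 1) → μ.parts = Multiset.replicate (2 * m) 1 :=
      fun μ h => by
        have hr : μ.parts = Multiset.replicate μ.parts.card 1 :=
          Multiset.eq_replicate_card.2 fun a ha => le_antisymm (h a ha) (μ.parts_pos ha)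
        have := μ.parts_sum
        rw [hr, Multiset.sum_replicate, smul_eq_mul, mul_one] at this
        rw [hr, this]
    set one : Nat.Partition (2 * m) := ⟨Multiset.replicate (2 * m) 1, fun {i} hi => by
      rw [Multiset.eq_of_mem_replicate hi]; exact Nat.one_pos, by simp⟩
    have hmem : one ∈ Finset.univ.filter (fun μ : Nat.Partition (2 * m) =>
        (∀ a ∈ μ.parts, a ≤ p) ∧ ∀ j : ℕ, Odd j → Even (μ.parts.count j)) := by
      simp only [Finset.mem_filter, Finset.mem_univ, true_and]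
      refine ⟨fun a ha => ?_, fun j _ => ?_⟩
      · rw [Multiset.eq_of_mem_replicate ha]; exact (Fact.out : p.Prime).one_lt.le
      · show Even (Multiset.count j (Multiset.replicate (2 * m) 1))
        rw [Multiset.count_replicate]
        split_ifs
        · exact even_two_mul m
        · exact Even.zero
    rw [← Finset.add_sum_erase _ _ hmem]
    have h1 : ((Multiset.replicate (2 * m) 1).toFinset.filter (fun j : ℕ => Even j)).card = 0 := by
      rw [Finset.card_eq_zero, Finset.filter_eq_empty_iff]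
      intro a ha
      rw [Multiset.eq_of_mem_replicate (Multiset.mem_toFinset.1 ha)]
      exact Nat.not_even_one
    rw [h1, pow_zero, Nat.add_sub_cancel_left]
    refine Finset.sum_congr ?_ fun _ _ => rfl
    ext μ
    simp only [Finset.mem_filter, Finset.mem_univ, true_and, Finset.mem_erase, Q]
    constructor
    · rintro ⟨⟨ha, hb⟩, hc⟩
      exact ⟨fun e => hb (by subst e; intro a ha; exact le_of_eq (Multiset.eq_of_mem_replicate ha)), ha, hc⟩
    · rintro ⟨hne, ha, hc⟩
      exact ⟨⟨ha, fun h => hne (Nat.Partition.ext (hsum μ h))⟩, hc⟩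
  · rintro ⟨C, g, rfl, hg⟩
    obtain ⟨μ, hμ⟩ := Jordan.exists_isConj_model (g := toGL F m g)
      ⟨p ^ 1, (Jordan.pow_eq_one_iff p 1 _).1 (by rw [pow_one, ← map_pow, ← hg, pow_orderOf_eq_one, map_one])⟩
    obtain ⟨w, hw⟩ := (frame_iff μ g).2 hμ
    have hG := form_isForm μ hw
    have hQ : Q μ := ⟨(orderOf_eq_iff_model μ hμ).1 ((hcoe g).trans hg), fun j hj => by
      rw [← Jordan.card_blockLen]; exact even_count h2 hG hj⟩
    let P : Param := ⟨⟨μ, hQ⟩, fun j => decide (¬ IsSquare (topG j.1 (form μ w)).det)⟩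
    refine ⟨P, Subtype.ext (ConjClasses.mk_eq_mk_iff_isConj.2 ?_)⟩
    obtain ⟨a, ha, hag⟩ := exists_congr_com (blockLen_pos μ) hp h2 (form_isForm μ (hz P)) hG fun i hi ⟨k, hk⟩ => by
      have hiS : i ∈ S μ := Finset.mem_filter.2 ⟨Multiset.mem_toFinset.2 ((Jordan.mem_blockLen μ i).2 ⟨k, hk⟩), hi⟩
      refine (hs P ⟨i, hiS⟩).trans ?_
      simp [P]
    exact conj_of_frames μ (hz P) hw ha hag
  · obtain ⟨⟨μ, hμ⟩, b⟩ := P
    obtain ⟨⟨ν, hν⟩, b'⟩ := P'
    have hc : IsConj (u ⟨⟨μ, hμ⟩, b⟩) (u ⟨⟨ν, hν⟩, b'⟩) := ConjClasses.mk_eq_mk_iff_isConj.1 (congrArg Subtype.val h)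
    obtain rfl : μ = ν := Jordan.modelGL_inj (F := F) (((frame_iff μ _).1 ⟨_, hz ⟨⟨μ, hμ⟩, b⟩⟩).symm.trans
      (((toGL F m).map_isConj hc).trans ((frame_iff ν _).1 ⟨_, hz ⟨⟨ν, hν⟩, b'⟩⟩)))
    obtain rfl : b = b' := funext fun j => by
      have := (hs ⟨⟨μ, hμ⟩, b⟩ j).symm.trans ((sign_of_conj μ (hz _) (hz _) hc j.1).trans (hs ⟨⟨μ, hμ⟩, b'⟩ j))
      simp only at this
      revert this
      cases b j <;> cases b' j <;> simp
    rfl

end Cfsg.Agent.Linear.SpUnipotentClasses
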