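import Cfsg.Agent.Linear.GUUnipotentCent
import Cfsg.Agent.Linear.JordanTypeGroups
import Cfsg.Agent.Forms.DiscrTools
import Cfsg.Agent.Forms.Discr

/-!
# Invariant alternating forms of a unipotent Jordan matrix up to congruence by its commutant
-/

set_option autoImplicit false
set_option linter.unusedSectionVars false

namespace Cfsg.Agent.Linear.AltJordan

open Matrix Module Cfsg.Agent.Linear.UnipotentCent Cfsg.Agent.Linear.HermJordan Cfsg.Agent.Forms

variable {F : Type*} [Field F]

section Congruence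

variable {ι : Type*} [Fintype ι] [DecidableEq ι]

theorem toBilin_mulVec (A P : Matrix ι ι F) (x y : ι → F) :
    Matrix.toBilin' A (P *ᵥ x) (P *ᵥ y) = Matrix.toBilin' (Pᵀ * A * P) x y := by
  rw [Matrix.toBilin'_apply', Matrix.toBilin'_apply', ← Matrix.mulVec_mulVec, ← Matrix.mulVec_mulVec,
    Matrix.dotProduct_mulVec x Pᵀ, Matrix.vecMul_transpose]

theorem isUnit_det_of_equiv (e : (ι → F) ≃ₗ[F] (ι → F)) :
    IsUnit (LinearMap.toMatrix' (e : (ι → F) →ₗ[F] (ι → F))).det := by
  refine (Matrix.isUnit_iff_isUnit_det _).1 (IsUnit.of_mul_eq_one (LinearMap.toMatrix' (e.symm : (ι → F) →ₗ[F] (ι → F))) ?_)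
  rw [← LinearMap.toMatrix'_comp]
  simp

theorem nondeg_toBilin {A : Matrix ι ι F} (hA : IsUnit A.det) : (Matrix.toBilin' A).Nondegenerate :=
  Matrix.nondegenerate_toBilin'_iff.2 (Matrix.nondegenerate_of_det_ne_zero hA.ne_zero)

theorem dot_eq_zero (h2 : (2 : F) ≠ 0) {A : Matrix ι ι F} (hA : Aᵀ = -A) (v : ι → F) : v ⬝ᵥ A *ᵥ v = 0 := by
  have h : v ⬝ᵥ A *ᵥ v = -(v ⬝ᵥ A *ᵥ v) := by
    conv_lhs => rw [Matrix.dotProduct_mulVec, ← Matrix.mulVec_transpose, hA, Matrix.neg_mulVec, neg_dotProduct,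
      dotProduct_comm]
  have h' : (2 : F) * (v ⬝ᵥ A *ᵥ v) = 0 := by linear_combination h
  exact (mul_eq_zero.1 h').resolve_left h2

/-- Alternating matrices are congruent. -/
theorem congr_alt [Fintype F] (h2 : (2 : F) ≠ 0) {A B : Matrix ι ι F} (hA : Aᵀ = -A) (hB : Bᵀ = -B) (hAu : IsUnit A.det)
    (hBu : IsUnit B.det) : ∃ P : Matrix ι ι F, IsUnit P.det ∧ Pᵀ * A * P = B := by
  let ρ : (Fin (Fintype.card ι) → F) ≃ₗ[F] (ι → F) := LinearEquiv.funCongrLeft F F (Fintype.equivFin ι)
  let A' : LinearMap.BilinForm F (Fin (Fintype.card ι) → F) :=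
    (Matrix.toBilin' A).comp (ρ : _ →ₗ[F] _) (ρ : _ →ₗ[F] _)
  obtain ⟨e, he⟩ := exists_isometryEquiv (Module.finrank_pi F) (Matrix.toBilin' B) (fun v => by
      rw [Matrix.toBilin'_apply']; exact dot_eq_zero h2 hB v)
    (fun x hx => (nondeg_toBilin hBu).1 x hx) A'
    (fun v => by
      show Matrix.toBilin' A _ _ = 0
      rw [Matrix.toBilin'_apply']; exact dot_eq_zero h2 hA _)
    ⟨fun x hx => ρ.map_eq_zero_iff.1 ((nondeg_toBilin hAu).1 _ fun y => by
        have := hx (ρ.symm y)
        simpa [A'] using this),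
      fun y hy => ρ.map_eq_zero_iff.1 ((nondeg_toBilin hAu).2 _ fun x => by
        have := hy (ρ.symm x)
        simpa [A'] using this)⟩
  let E := e.trans ρ
  refine ⟨LinearMap.toMatrix' (E : (ι → F) →ₗ[F] (ι → F)), isUnit_det_of_equiv E,
    Matrix.toBilin'.injective (LinearMap.ext fun x => LinearMap.ext fun y => ?_)⟩
  rw [← toBilin_mulVec, LinearMap.toMatrix'_mulVec, LinearMap.toMatrix'_mulVec]
  exact he x y

/-- Symmetric matrices of the same discriminant are congruent. -/
theorem congr_symm [Finite F] (h2 : (2 : F) ≠ 0) {A B : Matrix ι ι F} (hA : Aᵀ = A) (hB : Bᵀ = B)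
    (hAu : IsUnit A.det) (hBu : IsUnit B.det) (hd : IsSquare A.det ↔ IsSquare B.det) :
    ∃ P : Matrix ι ι F, IsUnit P.det ∧ Pᵀ * A * P = B := by
  rcases isEmpty_or_nonempty ι with h | h
  · exact ⟨1, by simp, Subsingleton.elim _ _⟩
  obtain ⟨n, hn⟩ : ∃ n, Fintype.card ι = n + 1 := ⟨Fintype.card ι - 1, by have := Fintype.card_pos (α := ι); omega⟩
  have hsym : ∀ {C : Matrix ι ι F}, Cᵀ = C → (Matrix.toBilin' C).IsSymm := fun {C} hC => ⟨fun x y => by
    rw [Matrix.toBilin'_apply', Matrix.toBilin'_apply', Matrix.dotProduct_mulVec, ← Matrix.mulVec_transpose, hC,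
      dotProduct_comm]⟩
  have hsq : IsSquare (B.det * A.det) := by
    by_cases h : IsSquare A.det
    · exact (hd.1 h).mul h
    · exact isSquare_mul_of_not_isSquare (fun h' => h (hd.2 h')) h
  obtain ⟨e, he⟩ := exists_isometry_of_det h2 (hsym hB) (nondeg_toBilin hBu) (hsym hA) (nondeg_toBilin hAu)
    (n := n) (by rw [Module.finrank_pi, hn]) (by rw [Module.finrank_pi, hn]) (Pi.basisFun F ι) (Pi.basisFun F ι)
    (by simpa [LinearMap.BilinForm.toMatrix_basisFun] using hsq)
  refine ⟨LinearMap.toMatrix' (e : (ι → F) →ₗ[F] (ι → F)), isUnit_det_of_equiv e,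
    Matrix.toBilin'.injective (LinearMap.ext fun x => LinearMap.ext fun y => ?_)⟩
  rw [← toBilin_mulVec, LinearMap.toMatrix'_mulVec, LinearMap.toMatrix'_mulVec]
  exact he x y

end Congruence

variable {t : ℕ}

/-- The invariant alternating non-degenerate forms. -/
structure IsForm (d : Fin t → ℕ) (G : Matrix (Idx d) (Idx d) F) : Prop where
  skew : Gᵀ = -G
  unit : IsUnit G.det
  inv : (Cfsg.jordanTypeMatrix d F)ᵀ * G * Cfsg.jordanTypeMatrix d F = G

variable {d : Fin t → ℕ}

/-- An entry, extended by zero. -/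
def ent (G : Matrix (Idx d) (Idx d) F) (k l : Fin t) (a b : ℕ) : F :=
  if h : a < d k ∧ b < d l then G ⟨k, ⟨a, h.1⟩⟩ ⟨l, ⟨b, h.2⟩⟩ else 0

theorem ent_eq (G : Matrix (Idx d) (Idx d) F) (x y : Idx d) : G x y = ent G x.1 y.1 x.2.1 y.2.1 := by
  rw [ent, dif_pos ⟨x.2.2, y.2.2⟩]

theorem E_transpose_mul_apply (G : Matrix (Idx d) (Idx d) F) (k : Fin t) (i : Fin (d k)) (y : Idx d) :
    ((E d F)ᵀ * G) ⟨k, i⟩ y = ent G k y.1 (i.1 + 1) y.2.1 := by
  rw [← transpose_transpose ((E d F)ᵀ * G), transpose_mul, transpose_transpose, transpose_apply, mul_E_apply, ent]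
  by_cases h : i.1 + 1 < d k
  · rw [dif_pos h, dif_pos ⟨h, y.2.2⟩, transpose_apply]
  · rw [dif_neg h, dif_neg fun hh => h hh.1]

theorem mul_E_ent (G : Matrix (Idx d) (Idx d) F) (x : Idx d) (l : Fin t) (j : Fin (d l)) :
    (G * E d F) x ⟨l, j⟩ = ent G x.1 l x.2.1 (j.1 + 1) := by
  rw [mul_E_apply, ent]
  by_cases h : j.1 + 1 < d l
  · rw [dif_pos h, dif_pos ⟨x.2.2, h⟩]
  · rw [dif_neg h, dif_neg fun hh => h hh.2]

variable {G : Matrix (Idx d) (Idx d) F}

theorem ent_rel (hG : (Cfsg.jordanTypeMatrix d F)ᵀ * G * Cfsg.jordanTypeMatrix d F = G) (k l : Fin t) (a b : ℕ) :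
    ent G k l (a + 1) b + ent G k l a (b + 1) + ent G k l (a + 1) (b + 1) = 0 := by
  by_cases h : a < d k ∧ b < d l
  · rw [jordanType_eq, transpose_add, transpose_one, add_mul, one_mul, mul_add, mul_one, add_mul] at hG
    have := congrFun (congrFun hG ⟨k, ⟨a, h.1⟩⟩) ⟨l, ⟨b, h.2⟩⟩
    rw [Matrix.add_apply, Matrix.add_apply, Matrix.add_apply, mul_E_ent, mul_E_ent, E_transpose_mul_apply] at this
    have hlast : ent ((E d F)ᵀ * G) k l a (b + 1) = ent G k l (a + 1) (b + 1) := by
      by_cases hb : b + 1 < d l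
      · rw [ent, dif_pos ⟨h.1, hb⟩, E_transpose_mul_apply]
      · rw [ent, ent, dif_neg (fun hh => hb hh.2), dif_neg (fun hh => hb hh.2)]
    simp only at this
    rw [hlast] at this
    linear_combination this
  · simp only [ent]
    rw [dif_neg (by omega), dif_neg (by omega), dif_neg (by omega), add_zero, add_zero]

theorem ent_zero_right (hG : (Cfsg.jordanTypeMatrix d F)ᵀ * G * Cfsg.jordanTypeMatrix d F = G) (k l : Fin t) :
    ∀ a b, d l ≤ a + b → ent G k l a b = 0 := by
  intro a
  induction a with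
  | zero => intro b hb; rw [ent, dif_neg (by omega)]
  | succ a ih =>
    suffices ∀ n b, n = d l - b → d l ≤ a + 1 + b → ent G k l (a + 1) b = 0 from fun b hb => this _ b rfl hb
    intro n
    induction n using Nat.strong_induction_on with
    | _ n ihn =>
      intro b hn hb
      rcases lt_or_ge b (d l) with h | h
      · have := ent_rel hG k l a b
        rw [ih (b + 1) (by omega), ihn (d l - (b + 1)) (by omega) (b + 1) rfl (by omega)] at this
        simpa using this
      · rw [ent, dif_neg (by omega)]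

theorem ent_zero_left (hG : (Cfsg.jordanTypeMatrix d F)ᵀ * G * Cfsg.jordanTypeMatrix d F = G) (k l : Fin t)
    (a b : ℕ) (h : d k ≤ a + b) : ent G k l a b = 0 := by
  have hT : (Cfsg.jordanTypeMatrix d F)ᵀ * Gᵀ * Cfsg.jordanTypeMatrix d F = Gᵀ := by
    conv_rhs => rw [← hG]
    rw [transpose_mul, transpose_mul, transpose_transpose, mul_assoc]
  have := ent_zero_right hT l k b a (by omega)
  simp only [ent, transpose_apply] at this ⊢
  split_ifs with h'
  · rwa [dif_pos ⟨h'.2, h'.1⟩] at this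
  · rfl

theorem ent_anti (hG : (Cfsg.jordanTypeMatrix d F)ᵀ * G * Cfsg.jordanTypeMatrix d F = G) {k l : Fin t}
    (hkl : d k = d l) : ∀ a b, a + b + 1 = d k → ent G k l a b = (-1) ^ a * ent G k l 0 (d l - 1) := by
  intro a
  induction a with
  | zero => intro b hb; rw [pow_zero, one_mul, show b = d l - 1 by omega]
  | succ a ih =>
    intro b hb
    have h := ent_rel hG k l a b
    rw [ih (b + 1) (by omega), ent_zero_right hG k l (a + 1) (b + 1) (by omega)] at h
    rw [pow_succ]
    linear_combination h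

variable (hd : ∀ k, 1 ≤ d k)

/-- The form on the top layer. -/
def topG (i : ℕ) (G : Matrix (Idx d) (Idx d) F) : Matrix {k // d k = i} {k // d k = i} F :=
  Matrix.of fun k l => ent G k.1 l.1 0 (d l.1 - 1)

include hd

theorem topG_congr (hG : (Cfsg.jordanTypeMatrix d F)ᵀ * G * Cfsg.jordanTypeMatrix d F = G)
    {X Y : Matrix (Idx d) (Idx d) F} (hX : Com d X) (hY : Com d Y) (i : ℕ) :
    topG i (Xᵀ * G * Y) = (top d hd i (col hd X))ᵀ * topG i G * top d hd i (col hd Y) := by
  classical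
  obtain ⟨hXT, hXok⟩ := eq_T hd hX
  obtain ⟨hYT, hYok⟩ := eq_T hd hY
  ext ⟨k, hk⟩ ⟨l, hl⟩
  have hk1 := hd k
  have hl1 := hd l
  let f : Fin t → Fin t → F := fun m n =>
    if d m = i ∧ d n = i then col hd X ⟨m, ⟨0, hd m⟩⟩ k * ent G m n 0 (d n - 1) * col hd Y ⟨n, ⟨0, hd n⟩⟩ l else 0
  have hterm : ∀ (m n : Fin t) (a : Fin (d m)) (b : Fin (d n)),
      X ⟨m, a⟩ ⟨k, ⟨0, hk1⟩⟩ * G ⟨m, a⟩ ⟨n, b⟩ * Y ⟨n, b⟩ ⟨l, ⟨d l - 1, by omega⟩⟩ =
        if a.1 = 0 ∧ b.1 + 1 = d n then f m n else 0 := by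
    intro m n a b
    by_cases hG0 : G ⟨m, a⟩ ⟨n, b⟩ = 0
    · rw [hG0, mul_zero, zero_mul]
      split_ifs with h
      · simp only [f]
        split_ifs with h'
        · rw [ent_eq G] at hG0
          simp only at hG0
          rw [h.1, show (b : ℕ) = d n - 1 by omega] at hG0
          rw [hG0, mul_zero, zero_mul]
        · rfl
      · rfl
    rw [ent_eq G] at hG0
    simp only at hG0
    have h1 : a.1 + b.1 < d m := not_le.1 fun h => hG0 (ent_zero_left hG m n _ _ h)
    have h2 : a.1 + b.1 < d n := not_le.1 fun h => hG0 (ent_zero_right hG m n _ _ h)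
    have hYv : Y ⟨n, b⟩ ⟨l, ⟨d l - 1, by omega⟩⟩ =
        if h : d l - 1 ≤ b.1 then col hd Y ⟨n, ⟨b.1 - (d l - 1), by omega⟩⟩ l else 0 := by
      conv_lhs => rw [hYT]
      rfl
    by_cases hXz : X ⟨m, a⟩ ⟨k, ⟨0, hk1⟩⟩ = 0
    · rw [hXz, zero_mul, zero_mul]
      split_ifs with h
      · simp only [f]
        split_ifs with h'
        · rw [show a = ⟨0, hd m⟩ from Fin.ext h.1] at hXz
          rw [show col hd X ⟨m, ⟨0, hd m⟩⟩ k = 0 from hXz, zero_mul, zero_mul]
        · rfl
      · rfl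
    have h3 : d m ≤ a.1 + d k := not_lt.1 fun h => hXz (hXok ⟨m, a⟩ k h)
    rw [hYv]
    by_cases hb : d l - 1 ≤ b.1
    · rw [dif_pos hb]
      by_cases hYz : col hd Y ⟨n, ⟨b.1 - (d l - 1), by omega⟩⟩ l = 0
      · rw [hYz, mul_zero]
        split_ifs with h
        · simp only [f]
          split_ifs with h'
          · rw [show (⟨b.1 - (d l - 1), by omega⟩ : Fin (d n)) = ⟨0, hd n⟩ from Fin.ext (by simp; omega)] at hYz
            rw [hYz, mul_zero]
          · rfl
        · rfl
      have h4 : d n ≤ b.1 - (d l - 1) + d l := not_lt.1 fun h => hYz (hYok _ l h)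
      rw [if_pos (by omega)]
      simp only [f]
      rw [if_pos (by omega), show (⟨b.1 - (d l - 1), by omega⟩ : Fin (d n)) = ⟨0, hd n⟩ from Fin.ext (by simp; omega),
        ent_eq G]
      obtain rfl : a = ⟨0, hd m⟩ := Fin.ext (by simp; omega)
      simp only
      rw [show (b : ℕ) = d n - 1 by omega]
      rfl
    · rw [dif_neg hb, mul_zero]
      split_ifs with h
      · simp only [f]
        rw [if_neg (by omega)]
      · rfl
  have hlhs : (Xᵀ * G * Y) ⟨k, ⟨0, hk1⟩⟩ ⟨l, ⟨d l - 1, by omega⟩⟩ = ∑ m, ∑ n, f m n := by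
    rw [Matrix.mul_assoc, Matrix.mul_apply, Fintype.sum_sigma]
    refine Finset.sum_congr rfl fun m _ => ?_
    simp only [Matrix.mul_apply, Finset.mul_sum, transpose_apply, Fintype.sum_sigma]
    rw [Finset.sum_comm]
    refine Finset.sum_congr rfl fun n _ => ?_
    simp only [← mul_assoc]
    rw [Finset.sum_congr rfl fun a _ => Finset.sum_congr rfl fun b _ => hterm m n a b,
      Finset.sum_eq_single (⟨0, hd m⟩ : Fin (d m))
        (fun a _ ha => Finset.sum_eq_zero fun b _ => if_neg fun h => ha (Fin.ext h.1)) (by simp),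
      Finset.sum_eq_single (⟨d n - 1, by have := hd n; omega⟩ : Fin (d n))
        (fun b _ hb => if_neg fun h => hb (Fin.ext (by simp; omega))) (by simp)]
    exact if_pos ⟨rfl, by have := hd n; simp; omega⟩
  simp only [topG, of_apply, ent]
  rw [dif_pos ⟨hk1, by omega⟩, hlhs, Finset.sum_comm, Matrix.mul_apply]
  rw [← Finset.sum_subset (Finset.subset_univ (Finset.univ.filter fun n => d n = i)) fun n _ hn =>
      Finset.sum_eq_zero fun m _ => if_neg fun h => hn (by simpa using h.2),
    Finset.sum_subtype (p := fun n => d n = i) _ (fun n => by simp)]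
  refine Finset.sum_congr rfl fun n _ => ?_
  rw [Matrix.mul_apply, Finset.sum_mul,
    ← Finset.sum_subset (Finset.subset_univ (Finset.univ.filter fun m => d m = i)) fun m _ hm =>
      if_neg fun h => hm (by simpa using h.1),
    Finset.sum_subtype (p := fun m => d m = i) _ (fun m => by simp)]
  refine Finset.sum_congr rfl fun m _ => ?_
  refine (if_pos ⟨m.2, n.2⟩).trans ?_
  simp only [transpose_apply, top, topG, of_apply]
  rfl

omit hd

theorem topG_transpose (hG : IsForm d G) (i : ℕ) (hi : 1 ≤ i) : (topG i G)ᵀ = (-1 : F) ^ i • topG i G := by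
  ext ⟨k, hk⟩ ⟨l, hl⟩
  have h1 : ent G l k 0 (d k - 1) = -ent G k l (d k - 1) 0 := by
    simp only [ent]
    rw [dif_pos ⟨by omega, by omega⟩, dif_pos ⟨by omega, by omega⟩]
    exact congrFun (congrFun hG.skew _) _
  simp only [topG, transpose_apply, of_apply, Matrix.smul_apply, smul_eq_mul]
  rw [h1, ent_anti hG.inv (hk.trans hl.symm) (d k - 1) 0 (by omega), hk, ← neg_mul]
  congr 1
  obtain ⟨j, rfl⟩ : ∃ j, i = j + 1 := ⟨i - 1, by omega⟩
  rw [Nat.add_sub_cancel, pow_succ]
  ring

/-! ### A model with given top layers. -/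

/-- The scalar invariant form on one part size, with first anti-diagonal entry one. -/
def hh (n a b : ℕ) : F :=
  (if Even n then JordanTypeForms.h0 (n / 2) 0 (n - 1) else JordanTypeForms.s0 n 0 (n - 1))⁻¹ *
    (if Even n then JordanTypeForms.h0 (n / 2) a b else JordanTypeForms.s0 n a b)

theorem inv_base (h2 : (2 : F) ≠ 0) (n : ℕ) :
    JordanTypeForms.Inv (F := F) n fun a b => if Even n then JordanTypeForms.h0 (n / 2) a b else JordanTypeForms.s0 n a b := by
  by_cases h : Even n
  · have := JordanTypeForms.inv_h0 (F := F) (n / 2)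
    rw [Nat.two_mul_div_two_of_even h] at this
    simp only [if_pos h]
    exact this
  · simp only [if_neg h]
    exact JordanTypeForms.inv_s0 h2 (Nat.not_even_iff_odd.1 h)

theorem inv_hh (h2 : (2 : F) ≠ 0) {n : ℕ} (hn : 1 ≤ n) :
    JordanTypeForms.Inv (F := F) n (hh n) ∧ hh (F := F) n 0 (n - 1) = 1 := by
  have h := inv_base h2 n
  have h0 := h.anti 0 (n - 1) (by omega)
  refine ⟨⟨fun a b hab => ?_, fun a b => ?_, fun a b hab => ?_⟩, inv_mul_cancel₀ h0⟩
  · rw [hh, h.zero a b hab, mul_zero]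
  · simp only [hh]
    linear_combination (if Even n then JordanTypeForms.h0 (n / 2) 0 (n - 1) else JordanTypeForms.s0 n 0 (n - 1) : F)⁻¹ * h.rel a b
  · exact mul_ne_zero (inv_ne_zero h0) (h.anti a b hab)

theorem hh_swap (n a b : ℕ) : hh (F := F) n b a = (-1) ^ (n + 1) * hh n a b := by
  simp only [hh, JordanTypeForms.h0, JordanTypeForms.s0]
  by_cases h : Even n
  · simp only [if_pos h]
    rw [(Nat.even_add_one.not_left.2 h |> Nat.not_even_iff_odd.1).neg_one_pow]
    ring
  · simp only [if_neg h]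
    rw [(Nat.even_add_one.2 h).neg_one_pow]
    ring

/-- The model form. -/
def model (d : Fin t → ℕ) (A : Matrix (Fin t) (Fin t) F) : Matrix (Idx d) (Idx d) F :=
  Matrix.of fun x y => if d y.1 = d x.1 then A x.1 y.1 * hh (d x.1) x.2.1 y.2.1 else 0

theorem ent_model (h2 : (2 : F) ≠ 0) (hd : ∀ k, 1 ≤ d k) (A : Matrix (Fin t) (Fin t) F) (k l : Fin t) (a b : ℕ) :
    ent (model d A) k l a b = if d l = d k then A k l * hh (d k) a b else 0 := by
  simp only [ent, model, of_apply]
  by_cases h : a < d k ∧ b < d l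
  · rw [dif_pos h]
  · rw [dif_neg h]
    split_ifs with hkl
    · rw [(inv_hh (F := F) h2 (hd k)).1.zero a b (by omega), mul_zero]
    · rfl

include hd

theorem topG_model (h2 : (2 : F) ≠ 0) (A : Matrix (Fin t) (Fin t) F) (i : ℕ) :
    topG i (model d A) = A.submatrix (Subtype.val : {k // d k = i} → Fin t) Subtype.val := by
  ext ⟨k, hk⟩ ⟨l, hl⟩
  simp only [topG, of_apply, submatrix_apply]
  rw [ent_model h2 hd, if_pos (hl.trans hk.symm), hl, hk, (inv_hh h2 (hk ▸ hd k)).2, mul_one]

theorem isForm_model (h2 : (2 : F) ≠ 0) (A : Matrix (Fin t) (Fin t) F)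
    (hA : ∀ k l, d k = d l → A l k = (-1) ^ d k * A k l)
    (hAu : ∀ i, IsUnit (A.submatrix (Subtype.val : {k // d k = i} → Fin t) Subtype.val).det) :
    IsForm d (model d A) := by
  classical
  refine ⟨?_, ?_, ?_⟩
  · ext ⟨k, a⟩ ⟨l, b⟩
    simp only [model, transpose_apply, Matrix.neg_apply, of_apply]
    by_cases h : d l = d k
    · rw [if_pos h, if_pos h.symm]
      have e1 : ∀ x y : ℕ, hh (F := F) (d l) y x = (-1) ^ d k * (-1) * hh (d k) x y := fun x y => by
        rw [h, hh_swap, pow_succ]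
      have hs : (-1 : F) ^ d k * (-1) ^ d k = 1 := by rw [← mul_pow]; simp
      linear_combination (hh (F := F) (d l) b.1 a.1) * (hA k l h.symm) + ((-1 : F) ^ d k * A k l) * e1 a.1 b.1 -
        (A k l * hh (d k) a.1 b.1) * hs
    · rw [if_neg h, if_neg (Ne.symm h), neg_zero]
  · rw [← Matrix.isUnit_iff_isUnit_det, ← Matrix.mulVec_injective_iff_isUnit]
    show Function.Injective (Matrix.mulVecLin (model d A))
    rw [injective_iff_map_eq_zero]
    intro v hv
    have key : ∀ j, ∀ n : Fin t, ∀ hj : j < d n, v ⟨n, ⟨j, hj⟩⟩ = 0 := by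
      intro j
      induction j using Nat.strong_induction_on with
      | _ j ih =>
        intro n hj
        set i := d n with hi
        let w : {k // d k = i} → F := fun m => v ⟨m.1, ⟨j, by omega⟩⟩
        have hw : A.submatrix (Subtype.val : {k // d k = i} → Fin t) Subtype.val *ᵥ w = 0 := by
          funext k
          have hk := k.2
          have h := congrFun hv ⟨k.1, ⟨i - 1 - j, by omega⟩⟩
          rw [Matrix.mulVecLin_apply, Matrix.mulVec, dotProduct, Fintype.sum_sigma, Pi.zero_apply] at h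
          have hne : hh (F := F) i (i - 1 - j) j ≠ 0 := (inv_hh h2 (by omega)).1.anti _ _ (by omega)
          refine (mul_eq_zero.1 (?_ : hh (F := F) i (i - 1 - j) j * (A.submatrix Subtype.val Subtype.val *ᵥ w) k = 0)).resolve_left hne
          rw [← h, Matrix.mulVec, dotProduct, Finset.mul_sum,
            ← Finset.sum_subset (Finset.subset_univ (Finset.univ.filter fun m => d m = i)) fun m _ hm =>
              Finset.sum_eq_zero fun c _ => by
                simp only [model, of_apply]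
                rw [if_neg (fun h' => hm (by simpa using h'.trans hk)), zero_mul],
            Finset.sum_subtype (p := fun m => d m = i) _ (fun m => by simp)]
          refine Finset.sum_congr rfl fun m _ => ?_
          have hm := m.2
          rw [Finset.sum_eq_single (⟨j, by omega⟩ : Fin (d m.1)) (fun c _ hc => ?_) (by simp)]
          · simp only [model, of_apply, submatrix_apply, w]
            rw [if_pos (hm.trans hk.symm), hk]
            ring
          · rcases lt_trichotomy c.1 j with hlt | heq | hgt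
            · rw [ih c.1 hlt m.1 c.2, mul_zero]
            · exact absurd (Fin.ext heq) hc
            · simp only [model, of_apply]
              rw [if_pos (hm.trans hk.symm), (inv_hh (F := F) h2 (hd k.1)).1.zero _ _ (by omega), mul_zero, zero_mul]
        have := (Matrix.mulVec_injective_iff_isUnit.2 ((Matrix.isUnit_iff_isUnit_det _).2 (hAu i)))
          (hw.trans (Matrix.mulVec_zero _).symm)
        exact congrFun this ⟨n, rfl⟩
    funext x
    obtain ⟨k, j, hj⟩ := x
    exact key j k hj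
  · rw [jordanType_eq, transpose_add, transpose_one, add_mul, one_mul, mul_add, mul_one, add_mul]
    ext ⟨k, a⟩ ⟨l, b⟩
    rw [Matrix.add_apply, Matrix.add_apply, Matrix.add_apply, mul_E_ent, mul_E_ent, E_transpose_mul_apply]
    have hlast : ent ((E d F)ᵀ * model d A) k l a.1 (b.1 + 1) = ent (model d A) k l (a.1 + 1) (b.1 + 1) := by
      by_cases hb : b.1 + 1 < d l
      · rw [ent, dif_pos ⟨a.2, hb⟩, E_transpose_mul_apply]
      · rw [ent, ent, dif_neg (fun h => hb h.2), dif_neg (fun h => hb h.2)]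
    simp only at *
    rw [hlast, ent_model h2 hd, ent_model h2 hd, ent_model h2 hd]
    by_cases h : d l = d k
    · rw [if_pos h, if_pos h, if_pos h]
      linear_combination A k l * (inv_hh (F := F) h2 (hd k)).1.rel a.1 b.1
    · rw [if_neg h, if_neg h, if_neg h]; ring

omit hd

/-- Invariant forms differ by an element of the commutant. -/
theorem com_ratio {G G' : Matrix (Idx d) (Idx d) F} (hG : IsForm d G) (hG' : IsForm d G') : Com d (G'⁻¹ * G) := by
  set J := Cfsg.jordanTypeMatrix d F with hJ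
  have hJu : IsUnit Jᵀ := IsUnit.of_mul_eq_one (G' * J * G'⁻¹) (by
    rw [← mul_assoc, ← mul_assoc, hG'.inv, Matrix.mul_nonsing_inv _ hG'.unit])
  rw [com_iff]
  refine ((Matrix.isUnit_iff_isUnit_det _).2 hG'.unit).mul_left_cancel (hJu.mul_left_cancel ?_)
  have hGX : G' * (G'⁻¹ * G) = G := by rw [← mul_assoc, Matrix.mul_nonsing_inv _ hG'.unit, one_mul]
  calc Jᵀ * (G' * (G'⁻¹ * G * J)) = Jᵀ * (G' * (G'⁻¹ * G)) * J := by simp only [mul_assoc]
    _ = G := by rw [hGX, hG.inv]
    _ = Jᵀ * G' * J * (G'⁻¹ * G) := by rw [hG'.inv, hGX]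
    _ = Jᵀ * (G' * (J * (G'⁻¹ * G))) := by simp only [mul_assoc]

include hd

theorem topG_isUnit [Fintype F] (h2 : (2 : F) ≠ 0) (hG : IsForm d G) (A : Matrix (Fin t) (Fin t) F)
    (hA : ∀ k l, d k = d l → A l k = (-1) ^ d k * A k l)
    (hAu : ∀ i, IsUnit (A.submatrix (Subtype.val : {k // d k = i} → Fin t) Subtype.val).det) (i : ℕ) :
    IsUnit (topG i G).det := by
  have hM := isForm_model hd h2 A hA hAu
  set X := (model d A)⁻¹ * G with hX
  have hXc : Com d X := com_ratio hG hM
  have hGX : G = (1 : Matrix (Idx d) (Idx d) F)ᵀ * model d A * X := by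
    rw [transpose_one, one_mul, hX, ← mul_assoc, Matrix.mul_nonsing_inv _ hM.unit, one_mul]
  have hXu : IsUnit X := ((Matrix.isUnit_nonsing_inv_iff).2 ((Matrix.isUnit_iff_isUnit_det _).2 hM.unit)).mul
    ((Matrix.isUnit_iff_isUnit_det _).2 hG.unit)
  obtain ⟨u, hu⟩ := hXu
  rw [hGX, topG_congr hd hM.inv com_one hXc, top_one, transpose_one, one_mul, topG_model hd h2, Matrix.det_mul]
  refine (hAu i).mul ((Matrix.isUnit_iff_isUnit_det _).1 ?_)
  rw [← hu] at hXc ⊢
  exact GUUnipotentCent.top_isUnit hd hXc i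

end Cfsg.Agent.Linear.AltJordan
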