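import Mathlib

/-!
# A recursion bounding the number of classes of `GL_n(q)`
-/

set_option autoImplicit false

namespace Cfsg.Agent.Linear.GLClassArith

/-- The number of monic degree `m` polynomials with nonzero constant term. -/
def w (q m : ℕ) : ℕ := if m = 0 then 1 else (q - 1) * q ^ (m - 1)

/-- The count of invariant tuples with at most `k` entries. -/
def A (q : ℕ) : ℕ → ℕ → ℕ
  | 0, n => if n = 0 then 1 else 0
  | k + 1, n => ∑ m ∈ Finset.range (n / (k + 1) + 1), w q m * A q k (n - (k + 1) * m)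

theorem A_lt {q k n : ℕ} (h : n < k + 1) : A q (k + 1) n = A q k n := by
  rw [A, Nat.div_eq_of_lt h]
  simp [w]

theorem A_rec {q : ℕ} (hq : 2 ≤ q) {k n : ℕ} (h : k + 1 ≤ n) :
    (A q (k + 1) n : ℤ) = A q k n + q * A q (k + 1) (n - (k + 1)) - A q k (n - (k + 1)) := by
  set d := (n - (k + 1)) / (k + 1) with hd
  have hdiv : n / (k + 1) = d + 1 := by
    rw [hd, Nat.div_eq_sub_div (by omega) h]
  have hsub : ∀ m, n - (k + 1) - (k + 1) * m = n - (k + 1) * (m + 1) := fun m => by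
    rw [Nat.mul_succ, Nat.sub_sub, add_comm]
  rw [A, A, hdiv, ← hd, Finset.sum_range_succ', Finset.sum_range_succ' _ d, Finset.sum_range_succ' _ d]
  simp only [hsub, w, Nat.add_eq_zero_iff, one_ne_zero, and_false, if_false, if_true, mul_zero, Nat.sub_zero,
    zero_add, mul_one, one_mul, pow_zero, Nat.add_sub_cancel]
  push_cast [Nat.cast_sub (show 1 ≤ q by omega)]
  rw [mul_add, Finset.mul_sum]
  have : ∀ x : ℕ, ((q : ℤ) - 1) * (q : ℤ) ^ (x + 1) * (A q k (n - (k + 1) * (x + 1 + 1)) : ℤ) =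
      q * (((q : ℤ) - 1) * (q : ℤ) ^ x * (A q k (n - (k + 1) * (x + 1 + 1)) : ℤ)) := fun x => by ring
  simp only [this]
  ring

theorem A_one {q : ℕ} (n : ℕ) : A q 1 n = w q n := by
  rw [A, Finset.sum_eq_single n (fun m hm hne => by
    rw [Finset.mem_range, Nat.zero_add, Nat.div_one] at hm
    rw [A, if_neg (by omega), mul_zero]) (fun h => by simp at h)]
  simp [A]

theorem A_bound {q : ℕ} (hq : 2 ≤ q) : ∀ k, 1 ≤ k →
    (∀ n, (A q k n : ℤ) ≤ (q : ℤ) ^ n) ∧ ∀ n, k ≤ n → (A q k n : ℤ) ≤ (q : ℤ) ^ n - (q : ℤ) ^ (n - k) := by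
  have hq1 : (1 : ℤ) ≤ q := by exact_mod_cast (show 1 ≤ q by omega)
  intro k hk
  induction k, hk using Nat.le_induction with
  | base =>
    have h : ∀ n, 1 ≤ n → (A q 1 n : ℤ) = (q : ℤ) ^ n - (q : ℤ) ^ (n - 1) := fun n hn => by
      rw [A_one, w, if_neg (by omega)]
      push_cast [Nat.cast_sub (show 1 ≤ q by omega)]
      conv_rhs => rw [show n = n - 1 + 1 by omega, pow_succ]
      rw [Nat.add_sub_cancel]
      ring
    refine ⟨fun n => ?_, fun n hn => (h n hn).le⟩
    rcases Nat.eq_zero_or_pos n with rfl | hn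
    · simp [A_one, w]
    · rw [h n hn]
      have : (0 : ℤ) ≤ (q : ℤ) ^ (n - 1) := by positivity
      linarith
  | succ k hk ih =>
    obtain ⟨hc, ha⟩ := ih
    have key : ∀ n, ((q : ℤ) ^ n - A q k n ≤ q * ((q : ℤ) ^ n - A q (k + 1) n)) ∧
        (k + 1 ≤ n → (A q (k + 1) n : ℤ) ≤ (q : ℤ) ^ n - (q : ℤ) ^ (n - (k + 1))) := by
      intro n
      induction n using Nat.strong_induction_on with
      | _ n ihn =>
        rcases Nat.lt_or_ge n (k + 1) with hn | hn
        · rw [A_lt hn]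
          refine ⟨?_, fun h => absurd h (by omega)⟩
          exact le_mul_of_one_le_left (sub_nonneg.2 (hc n)) hq1
        · have hX := (ihn (n - (k + 1)) (by omega)).1
          have hG := ha n (by omega)
          have hrec := A_rec hq hn
          have hpow : (q : ℤ) ^ (n - k) = q * (q : ℤ) ^ (n - (k + 1)) := by
            rw [← pow_succ', show n - (k + 1) + 1 = n - k by omega]
          have h1 : (A q (k + 1) n : ℤ) ≤ (q : ℤ) ^ n - (q : ℤ) ^ (n - (k + 1)) := by linarith
          refine ⟨?_, fun _ => h1⟩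
          have h2 : (A q (k + 1) n : ℤ) ≤ A q k n + (q : ℤ) ^ (n - k) - (q : ℤ) ^ (n - (k + 1)) := by linarith
          nlinarith
    refine ⟨fun n => ?_, fun n hn => (key n).2 hn⟩
    have h1 := (key n).1
    have h2 := hc n
    nlinarith

theorem A_le {q : ℕ} (hq : 2 ≤ q) {n : ℕ} (hn : 1 ≤ n) : A q n n ≤ q ^ n := by
  exact_mod_cast (A_bound hq n hn).1 n

end Cfsg.Agent.Linear.GLClassArith
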