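import Cfsg.Agent.Linear.GLClassArith
import Cfsg.Agent.Linear.PrimeOrderClasses

/-!
# Bounds on the number of classes of `GL_n(q)`
-/

set_option autoImplicit false
set_option linter.unusedSectionVars false

namespace Cfsg.Agent.Linear.GLClasses

open Polynomial GLClassArith DirectSum UniqueFactorizationMonoid

universe u

variable {F : Type u} [Field F] [Fintype F]

theorem card_polys {q : ℕ} (hq : Fintype.card F = q) (m : ℕ) :
    Finite {f : F[X] // f.Monic ∧ f.coeff 0 ≠ 0 ∧ f.natDegree = m} ∧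
      Nat.card {f : F[X] // f.Monic ∧ f.coeff 0 ≠ 0 ∧ f.natDegree = m} ≤ w q m := by
  rcases m with _ | m
  · haveI : Subsingleton {f : F[X] // f.Monic ∧ f.coeff 0 ≠ 0 ∧ f.natDegree = 0} := ⟨fun f g => Subtype.ext (by
      rw [f.2.1.natDegree_eq_zero.1 f.2.2.2, g.2.1.natDegree_eq_zero.1 g.2.2.2])⟩
    exact ⟨inferInstance, Finite.card_le_one_iff_subsingleton.2 inferInstance⟩
  · let φ : {f : F[X] // f.Monic ∧ f.coeff 0 ≠ 0 ∧ f.natDegree = m + 1} → Fˣ × (Fin m → F) :=
      fun f => (Units.mk0 _ f.2.2.1, fun i => f.1.coeff (i + 1))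
    have hφ : Function.Injective φ := fun f g h => by
      refine Subtype.ext (Polynomial.ext fun i => ?_)
      rcases lt_trichotomy i (m + 1) with hi | rfl | hi
      · rcases i with _ | i
        · exact congrArg (fun x : Fˣ × (Fin m → F) => (x.1 : F)) h
        · exact congrFun (congrArg Prod.snd h) ⟨i, by omega⟩
      · have hf := f.2.1.coeff_natDegree
        have hg := g.2.1.coeff_natDegree
        rw [f.2.2.2] at hf
        rw [g.2.2.2] at hg
        rw [hf, hg]
      · rw [coeff_eq_zero_of_natDegree_lt (by rw [f.2.2.2]; exact hi),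
          coeff_eq_zero_of_natDegree_lt (by rw [g.2.2.2]; exact hi)]
    refine ⟨Finite.of_injective φ hφ, (Nat.card_le_card_of_injective φ hφ).trans_eq ?_⟩
    rw [Nat.card_prod, Nat.card_units, Nat.card_fun, Nat.card_fin, Nat.card_eq_fintype_card, hq, w,
      if_neg (Nat.succ_ne_zero m), Nat.add_sub_cancel]

theorem card_tuples {q : ℕ} (hq : Fintype.card F = q) : ∀ k n : ℕ,
    Finite {h : Fin k → F[X] // (∀ i, (h i).Monic ∧ (h i).coeff 0 ≠ 0) ∧ ∑ i, (i.1 + 1) * (h i).natDegree = n} ∧
      Nat.card {h : Fin k → F[X] // (∀ i, (h i).Monic ∧ (h i).coeff 0 ≠ 0) ∧ ∑ i, (i.1 + 1) * (h i).natDegree = n}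
        ≤ A q k n := by
  intro k
  induction k with
  | zero =>
    intro n
    refine ⟨inferInstance, ?_⟩
    rw [A]
    split_ifs with hn
    · exact Finite.card_le_one_iff_subsingleton.2 inferInstance
    · haveI : IsEmpty {h : Fin 0 → F[X] // (∀ i, (h i).Monic ∧ (h i).coeff 0 ≠ 0) ∧
          ∑ i, (i.1 + 1) * (h i).natDegree = n} := ⟨fun h => hn (by simpa using h.2.2.symm)⟩
      exact le_of_eq Nat.card_of_isEmpty
  | succ k ih =>
    intro n
    haveI : ∀ m : Fin (n / (k + 1) + 1), Finite ({f : F[X] // f.Monic ∧ f.coeff 0 ≠ 0 ∧ f.natDegree = m.1} ×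
        {h : Fin k → F[X] // (∀ i, (h i).Monic ∧ (h i).coeff 0 ≠ 0) ∧
          ∑ i, (i.1 + 1) * (h i).natDegree = n - (k + 1) * m.1}) := fun m => by
      haveI := (card_polys hq m.1).1
      haveI := (ih (n - (k + 1) * m.1)).1
      infer_instance
    have hsum : ∀ h : {h : Fin (k + 1) → F[X] // (∀ i, (h i).Monic ∧ (h i).coeff 0 ≠ 0) ∧
        ∑ i, (i.1 + 1) * (h i).natDegree = n},
        ∑ i : Fin k, (i.1 + 1) * (h.1 i.castSucc).natDegree + (k + 1) * (h.1 (Fin.last k)).natDegree = n := fun h => by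
      conv_rhs => rw [← h.2.2, Fin.sum_univ_castSucc]
      simp
    let φ : {h : Fin (k + 1) → F[X] // (∀ i, (h i).Monic ∧ (h i).coeff 0 ≠ 0) ∧
        ∑ i, (i.1 + 1) * (h i).natDegree = n} →
        Σ m : Fin (n / (k + 1) + 1), ({f : F[X] // f.Monic ∧ f.coeff 0 ≠ 0 ∧ f.natDegree = m.1} ×
          {h : Fin k → F[X] // (∀ i, (h i).Monic ∧ (h i).coeff 0 ≠ 0) ∧
            ∑ i, (i.1 + 1) * (h i).natDegree = n - (k + 1) * m.1}) := fun h =>
      ⟨⟨(h.1 (Fin.last k)).natDegree, by
          have := hsum h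
          rw [Nat.lt_succ_iff, Nat.le_div_iff_mul_le (Nat.succ_pos k), Nat.mul_comm (h.1 (Fin.last k)).natDegree]
          exact le_of_le_of_eq (Nat.le_add_left _ _) this⟩,
        ⟨h.1 (Fin.last k), (h.2.1 _).1, (h.2.1 _).2, rfl⟩,
        ⟨fun i => h.1 i.castSucc, fun i => h.2.1 _, Nat.eq_sub_of_add_eq (hsum h)⟩⟩
    have hφ : Function.Injective φ := fun h h' e => by
      refine Subtype.ext (funext (Fin.lastCases ?_ fun i => ?_))
      · exact congrArg (fun x : Σ m : Fin (n / (k + 1) + 1), _ × _ => x.2.1.1) e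
      · exact congrArg (fun x : Σ m : Fin (n / (k + 1) + 1), _ × _ => x.2.2.1 i) e
    refine ⟨Finite.of_injective φ hφ, (Nat.card_le_card_of_injective φ hφ).trans ?_⟩
    rw [Nat.card_sigma, A, Finset.sum_range]
    exact Finset.sum_le_sum fun m _ => by
      rw [Nat.card_prod]
      exact Nat.mul_le_mul (card_polys hq m.1).2 (ih _).2

variable {n : ℕ}

/-- The module of a matrix. -/
abbrev Mod (g : Matrix (Fin n) (Fin n) F) := Module.AEval' (Matrix.toLin' g)

theorem isTorsion (g : Matrix (Fin n) (Fin n) F) : Module.IsTorsion F[X] (Mod g) := by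
  intro x
  refine ⟨⟨(Matrix.toLin' g).charpoly, mem_nonZeroDivisors_of_ne_zero (LinearMap.charpoly_monic _).ne_zero⟩, ?_⟩
  obtain ⟨v, rfl⟩ := (Module.AEval'.of (Matrix.toLin' g)).surjective x
  show (Matrix.toLin' g).charpoly • Module.AEval'.of (Matrix.toLin' g) v = 0
  rw [← Module.AEval.of_aeval_smul, LinearMap.aeval_self_charpoly, zero_smul, map_zero]

theorem conj_of_iso {g g' : GL (Fin n) F} (ψ : Mod g.1 ≃ₗ[F[X]] Mod g'.1) : IsConj g g' := by
  let L : (Fin n → F) ≃ₗ[F] (Fin n → F) :=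
    (Module.AEval'.of (Matrix.toLin' g.1)).trans ((ψ.restrictScalars F).trans (Module.AEval'.of (Matrix.toLin' g'.1)).symm)
  have hL : ∀ v, L (Matrix.toLin' g.1 v) = Matrix.toLin' g'.1 (L v) := fun v => by
    simp only [L, LinearEquiv.trans_apply, LinearEquiv.restrictScalars_apply]
    rw [← Module.AEval'.X_smul_of, map_smul, Module.AEval'.of_symm_X_smul]
  let P : GL (Fin n) F := ⟨LinearMap.toMatrix' L.toLinearMap, LinearMap.toMatrix' L.symm.toLinearMap,
    by rw [← LinearMap.toMatrix'_comp]; simp, by rw [← LinearMap.toMatrix'_comp]; simp⟩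
  refine isConj_iff.2 ⟨P, ?_⟩
  rw [mul_inv_eq_iff_eq_mul]
  refine Units.ext ?_
  rw [Units.val_mul, Units.val_mul]
  apply Matrix.toLin'.injective
  rw [Matrix.toLin'_mul, Matrix.toLin'_mul, Matrix.toLin'_toMatrix']
  exact LinearMap.ext hL

theorem finrank_quot (f : F[X]) (hf : f.Monic) :
    Module.finrank F (F[X] ⧸ (F[X] ∙ f)) = f.natDegree :=
  finrank_quotient_span_eq_natDegree' hf

theorem exists_data [DecidableEq F] (g : GL (Fin n) F) :
    ∃ (J : Type u) (_ : Fintype J) (key : J → F[X] × ℕ),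
      (∀ j, Irreducible (key j).1 ∧ (key j).1.Monic ∧ (key j).1.coeff 0 ≠ 0 ∧ 1 ≤ (key j).2 ∧ (key j).2 ≤ n) ∧
      ∑ j, (key j).2 * (key j).1.natDegree = n ∧
      Nonempty (Mod g.1 ≃ₗ[F[X]] ∀ j, F[X] ⧸ (F[X] ∙ (key j).1 ^ (key j).2)) := by
  classical
  obtain ⟨ι, _, p, hp, e, ⟨ψ⟩⟩ := Module.equiv_directSum_of_isTorsion (isTorsion g.1)
  let J := {i : ι // e i ≠ 0}
  let key : J → F[X] × ℕ := fun j => (normalize (p j.1), e j.1)
  have hspan : ∀ i, (F[X] ∙ p i ^ e i) = F[X] ∙ normalize (p i) ^ e i := fun i => by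
    refine Ideal.span_singleton_eq_span_singleton.2 ?_
    exact (associated_normalize (p i)).pow_pow
  haveI hsub : ∀ i, ¬ e i ≠ 0 → Subsingleton (F[X] ⧸ (F[X] ∙ p i ^ e i)) := fun i hi => by
    push Not at hi
    rw [Submodule.Quotient.subsingleton_iff, hi, pow_zero]
    exact Ideal.span_singleton_one
  let res : (∀ i, F[X] ⧸ (F[X] ∙ p i ^ e i)) ≃ₗ[F[X]] ∀ j : J, F[X] ⧸ (F[X] ∙ p j.1 ^ e j.1) :=
    { toFun := fun v j => v j.1
      map_add' := fun _ _ => rfl
      map_smul' := fun _ _ => rfl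
      invFun := fun w i => if h : e i ≠ 0 then w ⟨i, h⟩ else 0
      left_inv := fun v => funext fun i => by
        by_cases h : e i ≠ 0
        · simp [h]
        · haveI := hsub i h
          exact Subsingleton.elim _ _
      right_inv := fun w => funext fun j => dif_pos j.2 }
  let Ψ : Mod g.1 ≃ₗ[F[X]] ∀ j : J, F[X] ⧸ (F[X] ∙ (key j).1 ^ (key j).2) :=
    ψ.trans ((DirectSum.linearEquivFunOnFintype F[X] ι _).trans
      (res.trans (LinearEquiv.piCongrRight fun j => Submodule.quotEquivOfEq _ _ (hspan j.1))))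
  have hmon : ∀ j, (key j).1.Monic := fun j => monic_normalize (hp j.1).ne_zero
  have hdeg : ∑ j, (key j).2 * (key j).1.natDegree = n := by
    haveI : ∀ j : J, Module.Finite F (F[X] ⧸ (F[X] ∙ (key j).1 ^ (key j).2)) := fun j =>
      ((hmon j).pow _).finite_quotient
    have h1 : Module.finrank F (Mod g.1) = n := by
      rw [← (Module.AEval'.of (Matrix.toLin' g.1)).finrank_eq, Module.finrank_fin_fun]
    conv_rhs => rw [← h1, (Ψ.restrictScalars F).finrank_eq, Module.finrank_pi_fintype]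
    exact Finset.sum_congr rfl fun j _ => by rw [finrank_quot _ ((hmon j).pow _), natDegree_pow]
  refine ⟨J, inferInstance, key, fun j => ⟨(associated_normalize (p j.1)).irreducible (hp j.1), hmon j, ?_,
    Nat.one_le_iff_ne_zero.2 j.2, ?_⟩, hdeg, ⟨Ψ⟩⟩
  · intro h0
    have hX : (key j).1 = X := by
      have h1 : X ∣ (key j).1 := X_dvd_iff.2 h0
      exact (eq_of_monic_of_associated monic_X (hmon j)
        (Polynomial.irreducible_X.associated_of_dvd ((associated_normalize (p j.1)).irreducible (hp j.1)) h1)).symm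
    obtain ⟨e', he'⟩ : ∃ e', (key j).2 = e' + 1 := ⟨(key j).2 - 1, by have h : (key j).2 ≠ 0 := j.2; omega⟩
    let v : ∀ i : J, F[X] ⧸ (F[X] ∙ (key i).1 ^ (key i).2) := Pi.single j (Submodule.Quotient.mk (X ^ e'))
    have hv : v ≠ 0 := fun h => by
      have h2 := congrFun h j
      simp only [v, Pi.single_eq_same, Pi.zero_apply] at h2
      rw [Submodule.Quotient.mk_eq_zero, Submodule.mem_span_singleton, hX, he'] at h2
      obtain ⟨a, ha⟩ := h2
      have h3 : (X : F[X]) ^ (e' + 1) ∣ X ^ e' := ⟨a, by rw [← ha, smul_eq_mul, mul_comm]⟩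
      have := natDegree_le_of_dvd h3 (pow_ne_zero _ X_ne_zero)
      rw [natDegree_X_pow, natDegree_X_pow] at this
      omega
    have hXv : (X : F[X]) • v = 0 := funext fun i => by
      by_cases hi : i = j
      · subst hi
        simp only [v, Pi.smul_apply, Pi.single_eq_same, Pi.zero_apply]
        rw [ ← Submodule.Quotient.mk_smul,
          Submodule.Quotient.mk_eq_zero, Submodule.mem_span_singleton]
        exact ⟨1, by rw [one_smul, smul_eq_mul, hX, he', pow_succ, mul_comm]⟩
      · simp only [v, Pi.smul_apply, Pi.single_eq_of_ne hi, smul_zero, Pi.zero_apply]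
    obtain ⟨x, hx⟩ := (Module.AEval'.of (Matrix.toLin' g.1)).surjective (Ψ.symm v)
    have h4 : Module.AEval'.of (Matrix.toLin' g.1) (Matrix.toLin' g.1 x) = 0 := by
      rw [← Module.AEval'.X_smul_of, hx, ← map_smul, hXv, map_zero]
    have h5 : Matrix.toLin' g.1 x = 0 := (Module.AEval'.of (Matrix.toLin' g.1)).map_eq_zero_iff.1 h4
    have h6 : x = 0 := by
      have h7 := congrArg (Matrix.toLin' (g⁻¹ : GL (Fin n) F).1) h5
      rwa [← LinearMap.comp_apply, ← Matrix.toLin'_mul, ← Units.val_mul, inv_mul_cancel, Units.val_one,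
        Matrix.toLin'_one, LinearMap.id_apply, map_zero] at h7
    rw [h6, map_zero] at hx
    exact hv (Ψ.symm.map_eq_zero_iff.1 hx.symm)
  · have h1 := Finset.single_le_sum (f := fun j => (key j).2 * (key j).1.natDegree) (fun i _ => Nat.zero_le _)
      (Finset.mem_univ j)
    rw [hdeg] at h1
    exact le_trans (Nat.le_mul_of_pos_right _ ((associated_normalize (p j.1)).irreducible (hp j.1)).natDegree_pos) h1

theorem card_classes_le [DecidableEq F] {q : ℕ} (hq : Fintype.card F = q) (hn : 1 ≤ n) :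
    Nat.card (ConjClasses (GL (Fin n) F)) ≤ q ^ n := by
  classical
  have hsurj := ConjClasses.mk_surjective (α := GL (Fin n) F)
  choose rep hrep using hsurj
  choose J instJ key hkey hdeg hiso using fun C : ConjClasses (GL (Fin n) F) => exists_data (rep C)
  let slot : ∀ C, Fin n → Multiset F[X] := fun C i =>
    ((letI := instJ C; Finset.univ.filter fun j : J C => (key C j).2 = i.1 + 1).val).map fun j => (key C j).1
  have hslot : ∀ C i, ∀ f ∈ slot C i, Irreducible f ∧ f.Monic ∧ f.coeff 0 ≠ 0 := fun C i f hf => by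
    simp only [slot, Multiset.mem_map] at hf
    obtain ⟨j, -, rfl⟩ := hf
    exact ⟨(hkey C j).1, (hkey C j).2.1, (hkey C j).2.2.1⟩
  haveI := (card_tuples hq n n).1
  refine le_trans (Nat.card_le_card_of_injective (fun C => (⟨fun i => (slot C i).prod, fun i => ?_, ?_⟩ :
    {h : Fin n → F[X] // (∀ i, (h i).Monic ∧ (h i).coeff 0 ≠ 0) ∧ ∑ i, (i.1 + 1) * (h i).natDegree = n})) ?_)
    ((card_tuples hq n n).2.trans (A_le (hq ▸ Fintype.one_lt_card) hn))
  · have hm : (slot C i).prod.Monic := monic_multiset_prod_of_monic _ id (fun f hf => (hslot C i f hf).2.1) |> fun h => by simpa using h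
    refine ⟨hm, ?_⟩
    rw [coeff_zero_multiset_prod]
    intro h0
    rw [Multiset.prod_eq_zero_iff, Multiset.mem_map] at h0
    obtain ⟨f, hf, hf0⟩ := h0
    exact (hslot C i f hf).2.2 hf0
  · letI := instJ C
    conv_rhs => rw [← hdeg C]
    rw [← Finset.sum_fiberwise_of_maps_to (s := Finset.univ) (t := Finset.univ)
      (g := fun j : J C => (⟨(key C j).2 - 1, by have := (hkey C j).2.2.2; omega⟩ : Fin n)) (fun _ _ => Finset.mem_univ _)]
    refine Finset.sum_congr rfl fun i _ => ?_
    rw [natDegree_multiset_prod_of_monic _ fun f hf => (hslot C i f hf).2.1]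
    have hfil : (Finset.univ.filter fun j : J C => (key C j).2 = i.1 + 1) =
        Finset.univ.filter fun j : J C => (⟨(key C j).2 - 1, by have := (hkey C j).2.2.2; omega⟩ : Fin n) = i := by
      ext j
      have := (hkey C j).2.2.2
      simp only [Finset.mem_filter, Finset.mem_univ, true_and, Fin.ext_iff]
      omega
    rw [← hfil]
    simp only [slot, Multiset.map_map, Function.comp_def]
    rw [← Finset.sum_eq_multiset_sum, Finset.mul_sum]
    exact Finset.sum_congr rfl fun j hj => by rw [(Finset.mem_filter.1 hj).2]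
  · intro C D hCD
    letI := instJ C
    letI := instJ D
    have hs : ∀ i, slot C i = slot D i := fun i => by
      have h1 : (slot C i).prod = (slot D i).prod := congrFun (congrArg Subtype.val hCD) i
      rw [← PrimeOrderClasses.normalizedFactors_prod_monic (slot C i) (fun f hf => ⟨(hslot C i f hf).1, (hslot C i f hf).2.1⟩),
        ← PrimeOrderClasses.normalizedFactors_prod_monic (slot D i) (fun f hf => ⟨(hslot D i f hf).1, (hslot D i f hf).2.1⟩), h1]
    have hfib : ∀ x : F[X] × ℕ, Fintype.card {j // key C j = x} = Fintype.card {j // key D j = x} := by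
      intro x
      by_cases hx : 1 ≤ x.2 ∧ x.2 ≤ n
      · have hc : ∀ C, (letI := instJ C; Fintype.card {j // key C j = x}) = (slot C ⟨x.2 - 1, by omega⟩).count x.1 := by
          intro C
          letI := instJ C
          rw [Fintype.card_subtype]
          simp only [slot, Multiset.count_map, ← Finset.filter_val, Finset.card_val, Finset.filter_filter]
          congr 1
          ext j
          simp only [Finset.mem_filter, Finset.mem_univ, true_and, Prod.ext_iff]
          constructor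
          · rintro ⟨h1, h2⟩; exact ⟨by omega, h1.symm⟩
          · rintro ⟨h1, h2⟩; exact ⟨h2.symm, by omega⟩
        rw [hc C, hc D, hs]
      · have hz : ∀ C, (letI := instJ C; Fintype.card {j // key C j = x}) = 0 := fun C => by
          letI := instJ C
          rw [Fintype.card_eq_zero_iff]
          exact ⟨fun j => hx (j.2 ▸ (hkey C j.1).2.2.2)⟩
        rw [hz C, hz D]
    let σ : J C ≃ J D := Equiv.ofFiberEquiv fun x => Fintype.equivOfCardEq (hfib x)
    have hσ : ∀ j, key D (σ j) = key C j := fun j => Equiv.ofFiberEquiv_map _ j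
    obtain ⟨ψC⟩ := hiso C
    obtain ⟨ψD⟩ := hiso D
    let Q : J D → Type u := fun j => F[X] ⧸ (F[X] ∙ (key D j).1 ^ (key D j).2)
    let E : (∀ j, F[X] ⧸ (F[X] ∙ (key C j).1 ^ (key C j).2)) ≃ₗ[F[X]] ∀ j, F[X] ⧸ (F[X] ∙ (key D j).1 ^ (key D j).2) :=
      (LinearEquiv.piCongrRight fun j => Submodule.quotEquivOfEq _ _ (by rw [hσ j])).trans
        (LinearEquiv.piCongrLeft F[X] (fun j => F[X] ⧸ (F[X] ∙ (key D j).1 ^ (key D j).2)) σ)
    rw [← hrep C, ← hrep D, ConjClasses.mk_eq_mk_iff_isConj]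
    exact conj_of_iso (ψC.trans (E.trans ψD.symm))

theorem le_card_classes {q : ℕ} (hq : Fintype.card F = q) (hn : 1 ≤ n) :
    q ^ n - q ^ (n - 1) ≤ Nat.card (ConjClasses (GL (Fin n) F)) := by
  classical
  obtain ⟨m, rfl⟩ : ∃ m, n = m + 1 := ⟨n - 1, by omega⟩
  let f : Fˣ × (Fin m → F) → F[X] := fun x =>
    X ^ (m + 1) + ((∑ i : Fin m, C (x.2 i) * X ^ (i.1 + 1)) + C (x.1 : F))
  have hlt : ∀ x : Fˣ × (Fin m → F), ((∑ i : Fin m, C (x.2 i) * X ^ (i.1 + 1)) + C (x.1 : F)).degree < (m + 1 : ℕ) := by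
    intro x
    refine lt_of_le_of_lt (degree_add_le _ _) (max_lt ?_ ?_)
    · refine lt_of_le_of_lt (degree_sum_le _ _) ((Finset.sup_lt_iff (WithBot.bot_lt_coe _)).2 fun i _ => ?_)
      exact lt_of_le_of_lt (degree_C_mul_X_pow_le _ _) (by exact_mod_cast (by omega : i.1 + 1 < m + 1))
    · exact lt_of_le_of_lt degree_C_le (by exact_mod_cast Nat.succ_pos m)
  have hmon : ∀ x, (f x).Monic := fun x => monic_X_pow_add (hlt x)
  have hdeg : ∀ x, (f x).natDegree = m + 1 := fun x =>
    natDegree_eq_of_degree_eq_some ((degree_add_eq_left_of_degree_lt (by rw [degree_X_pow]; exact hlt x)).trans (degree_X_pow _))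
  have hc0 : ∀ x, (f x).coeff 0 = (x.1 : F) := fun x => by
    simp [f, finset_sum_coeff, coeff_X_pow]
  have hcs : ∀ x (i : Fin m), (f x).coeff (i.1 + 1) = x.2 i := fun x i => by
    simp only [f, coeff_add, finset_sum_coeff, coeff_C_mul_X_pow, coeff_X_pow, coeff_C]
    rw [if_neg (by omega), Finset.sum_eq_single i (fun j _ hj => if_neg (fun h => hj (Fin.ext (by omega)))) (by simp)]
    simp
  have hex : ∀ x, ∃ g : GL (Fin (m + 1)) F, (g.1).charpoly = f x := fun x => by
    let pb := AdjoinRoot.powerBasis (hmon x).ne_zero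
    let e : Fin pb.dim ≃ Fin (m + 1) := finCongr ((AdjoinRoot.powerBasis_dim _).trans (hdeg x))
    set M := Matrix.reindex e e (Algebra.leftMulMatrix pb.basis pb.gen) with hM
    have hchar : M.charpoly = f x := by
      rw [hM, Matrix.charpoly_reindex, charpoly_leftMulMatrix, AdjoinRoot.minpoly_powerBasis_gen_of_monic (hmon x)]
    have hdet : M.det ≠ 0 := by
      rw [Matrix.det_eq_sign_charpoly_coeff, hchar, hc0]
      exact mul_ne_zero (pow_ne_zero _ (neg_ne_zero.2 one_ne_zero)) x.1.ne_zero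
    exact ⟨Matrix.GeneralLinearGroup.mkOfDetNeZero M hdet, hchar⟩
  choose g hg using hex
  have hinj : Function.Injective fun x => ConjClasses.mk (g x) := fun x y hxy => by
    obtain ⟨c, hc⟩ := isConj_iff.1 (ConjClasses.mk_eq_mk_iff_isConj.1 hxy)
    have h1 : f x = f y := by
      rw [← hg x, ← hg y, ← hc, Units.val_mul, Units.val_mul, Matrix.coe_units_inv, Matrix.charpoly_units_conj]
    exact Prod.ext (Units.ext (by rw [← hc0 x, ← hc0 y, h1])) (funext fun i => by rw [← hcs x i, ← hcs y i, h1])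
  refine le_trans (le_of_eq ?_) (Nat.card_le_card_of_injective _ hinj)
  rw [Nat.card_prod, Nat.card_units, Nat.card_fun, Nat.card_fin, Nat.card_eq_fintype_card, hq, Nat.add_sub_cancel,
    pow_succ', Nat.sub_mul, one_mul]

end Cfsg.Agent.Linear.GLClasses
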