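import Cfsg.Agent.Linear.HermJordan

/-!
# Centralisers of unipotent elements of the general unitary group
-/

set_option autoImplicit false
set_option linter.unusedSectionVars false

namespace Cfsg.Agent.Linear.GUUnipotentCent

open Matrix Cfsg.Agent.Forms Cfsg.Agent.Linear.HermRoot Cfsg.Agent.Linear.UnipotentCent Cfsg.Agent.Linear.HermJordan

/-- Fibre counting for a map `g ↦ φ g` whose fibres are right translates. -/
theorem card_split {G : Type*} [Group G] {α : Type*} (C S : Subgroup G) (hSC : S ≤ C) (φ : C → α)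
    (hfib : ∀ g g' : C, φ g = φ g' ↔ g.1 * g'.1⁻¹ ∈ S) (hsurj : Function.Surjective φ) :
    Nat.card C = Nat.card α * Nat.card S := by
  rw [← Nat.card_prod]
  choose sec hsec using hsurj
  refine Nat.card_congr
    { toFun := fun g => (φ g, ⟨g.1 * (sec (φ g)).1⁻¹, (hfib _ _).1 (hsec _).symm⟩)
      invFun := fun p => ⟨p.2.1 * (sec p.1).1, C.mul_mem (hSC p.2.2) (sec p.1).2⟩
      left_inv := fun g => Subtype.ext (by simp)
      right_inv := fun p => by
        have h : φ ⟨p.2.1 * (sec p.1).1, C.mul_mem (hSC p.2.2) (sec p.1).2⟩ = p.1 :=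
          ((hfib _ _).2 (by simp)).trans (hsec p.1)
        refine Prod.ext h (Subtype.ext ?_)
        show p.2.1 * (sec p.1).1 * (sec (φ _)).1⁻¹ = p.2.1
        rw [h, mul_inv_cancel_right] }

section Gen

variable {K : Type*} [Field K] [Fintype K] {σ : K →+* K} {ι : Type*} [Fintype ι] [DecidableEq ι]

/-- The unitary group of the standard form. -/
def U (σ : K →+* K) (ι : Type*) [Fintype ι] [DecidableEq ι] : Subgroup (GL ι K) where
  carrier := {g | H σ g.1 * g.1 = 1}
  one_mem' := by simp [H_one]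
  mul_mem' {a b} ha hb := by
    show H σ (a * b).1 * (a * b).1 = 1
    rw [Units.val_mul, H_mul, mul_assoc, ← mul_assoc (H σ a.1), show H σ a.1 * a.1 = 1 from ha, one_mul]
    exact hb
  inv_mem' {a} ha := by
    show H σ (a⁻¹ : GL ι K).1 * (a⁻¹ : GL ι K).1 = 1
    have h1 : (a⁻¹ : GL ι K).1 = H σ a.1 := by
      calc (a⁻¹ : GL ι K).1 = H σ a.1 * a.1 * (a⁻¹ : GL ι K).1 := by rw [show H σ a.1 * a.1 = 1 from ha, one_mul]
        _ = H σ a.1 := by rw [mul_assoc, Units.mul_inv, mul_one]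
    rw [h1]
    calc H σ (H σ a.1) * H σ a.1 = H σ (a.1 * H σ a.1) := by rw [H_mul]
      _ = 1 := by rw [mul_eq_one_comm.1 (show H σ a.1 * a.1 = 1 from ha), H_one]

theorem card_GL_eq (hσ2 : ∀ c, σ (σ c) = c) (hσ : σ ≠ RingHom.id K) :
    Nat.card (GL ι K) = Nat.card {A : Matrix ι ι K // H σ A = A ∧ IsUnit A} * Nat.card (U σ ι) := by
  rw [← Subgroup.card_top (G := GL ι K)]
  refine card_split ⊤ (U σ ι) le_top (fun g => ⟨H σ g.1.1 * g.1.1, by rw [H_mul, H_H σ hσ2],
    (isUnit_H σ g.1.isUnit).mul g.1.isUnit⟩) (fun g g' => ?_) fun A => ?_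
  · rw [Subtype.ext_iff]
    show H σ g.1.1 * g.1.1 = H σ g'.1.1 * g'.1.1 ↔ H σ (g.1 * g'.1⁻¹).1 * (g.1 * g'.1⁻¹).1 = 1
    rw [Units.val_mul, H_mul]
    constructor
    · intro h
      rw [mul_assoc, ← mul_assoc (H σ g.1.1), h, mul_assoc, Units.mul_inv, mul_one, ← H_mul, Units.mul_inv, H_one]
    · intro h
      have h1 := congrArg (fun z => H σ g'.1.1 * z * g'.1.1) h
      simp only [mul_one] at h1
      rw [← h1, ← mul_assoc (H σ g'.1.1), ← mul_assoc (H σ g'.1.1), ← H_mul, Units.inv_mul, H_one, one_mul,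
        ← mul_assoc, mul_assoc _ (g'.1⁻¹ : GL ι K).1, Units.inv_mul, mul_one]
  · obtain ⟨y, hy, hyA⟩ := factor hσ2 hσ A.2.1 A.2.2
    exact ⟨⟨hy.unit, Subgroup.mem_top _⟩, Subtype.ext hyA⟩

/-- Fixed points of a semilinear involution: the square of their number. -/
theorem card_fixed_sq {A : Type*} [AddCommGroup A] [Module K A] {s : A → A} (hs : ∀ a, s (s a) = a)
    (hadd : ∀ a b, s (a + b) = s a + s b) (hsmul : ∀ (r : K) a, s (r • a) = σ r • s a)
    (hσ2 : ∀ c, σ (σ c) = c) (hσ : σ ≠ RingHom.id K) :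
    Nat.card A = Nat.card {a : A // s a = a} ^ 2 := by
  obtain ⟨r, hr⟩ : ∃ r, σ r ≠ r := by
    by_contra h
    push Not at h
    exact hσ (RingHom.ext h)
  have h0 : r - σ r ≠ 0 := sub_ne_zero.2 (Ne.symm hr)
  rw [pow_two, ← Nat.card_prod]
  refine Nat.card_congr
    { toFun := fun a => (⟨a + s a, by rw [hadd, hs, add_comm]⟩,
        ⟨r • a + σ r • s a, by rw [hadd, hsmul, hsmul, hs, hσ2, add_comm]⟩)
      invFun := fun p => (r - σ r)⁻¹ • (p.2.1 - σ r • p.1.1)
      left_inv := fun a => by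
        show (r - σ r)⁻¹ • (r • a + σ r • s a - σ r • (a + s a)) = a
        rw [smul_add, show r • a + σ r • s a - (σ r • a + σ r • s a) = (r - σ r) • a by rw [sub_smul]; abel,
          smul_smul, inv_mul_cancel₀ h0, one_smul]
      right_inv := fun p => by
        obtain ⟨⟨u, hu⟩, ⟨v, hv⟩⟩ := p
        have hsub : s (v - σ r • u) = v - r • u := by
          have h := hadd (v - σ r • u) (σ r • u)
          rw [sub_add_cancel, hv, hsmul, hσ2, hu] at h
          exact eq_sub_of_add_eq h.symm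
        have hinv : σ ((r - σ r)⁻¹) = -(r - σ r)⁻¹ := by
          rw [map_inv₀, map_sub, hσ2, ← inv_neg, neg_sub]
        refine Prod.ext (Subtype.ext ?_) (Subtype.ext ?_)
        · show (r - σ r)⁻¹ • (v - σ r • u) + s ((r - σ r)⁻¹ • (v - σ r • u)) = u
          rw [hsmul, hsub, hinv]
          match_scalars <;> field_simp <;> ring
        · show r • (r - σ r)⁻¹ • (v - σ r • u) + σ r • s ((r - σ r)⁻¹ • (v - σ r • u)) = v
          rw [hsmul, hsub, hinv]
          match_scalars <;> field_simp <;> ring }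

end Gen

variable {K : Type*} [Field K] [Fintype K] {σ : K →+* K} {t : ℕ} {d : Fin t → ℕ}

variable (hσ2 : ∀ x, σ (σ x) = x) (hσ : σ ≠ RingHom.id K) {c : ℕ → K} (hc : Good σ c) (hd : ∀ k, 1 ≤ d k)

/-- The adjoint on the commutant. -/
local notation "S" => st σ (Gram σ c d)

theorem col_add (X Y : Matrix (Idx d) (Idx d) K) : col hd (X + Y) = col hd X + col hd Y := rfl

theorem top_add (i : ℕ) (a b : Idx d → Fin t → K) : top d hd i (a + b) = top d hd i a + top d hd i b := rfl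

theorem top_smul (i : ℕ) (r : K) (a : Idx d → Fin t → K) : top d hd i (r • a) = r • top d hd i a := rfl

theorem col_smul (r : K) (X : Matrix (Idx d) (Idx d) K) : col hd (r • X) = r • col hd X := rfl

theorem top_sub (i : ℕ) (a b : Idx d → Fin t → K) : top d hd i (a - b) = top d hd i a - top d hd i b := rfl

theorem col_sub (X Y : Matrix (Idx d) (Idx d) K) : col hd (X - Y) = col hd X - col hd Y := rfl

/-- A commutant element with prescribed top coefficients. -/
def liftTop (A : ∀ i : Fin (Finset.univ.sup d + 1), Matrix {k // d k = i.1} {k // d k = i.1} K) :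
    Idx d → Fin t → K := fun x l =>
  if h : x.2.1 = 0 ∧ d x.1 = d l then
    A ⟨d x.1, Nat.lt_succ_of_le (Finset.le_sup (Finset.mem_univ _))⟩ ⟨x.1, rfl⟩ ⟨l, h.2.symm⟩ else 0

theorem ok_liftTop (A : ∀ i : Fin (Finset.univ.sup d + 1), Matrix {k // d k = i.1} {k // d k = i.1} K) :
    Ok (liftTop A) := fun x l h => dif_neg fun h' => by omega

theorem top_liftTop (A : ∀ i : Fin (Finset.univ.sup d + 1), Matrix {k // d k = i.1} {k // d k = i.1} K)
    (i : Fin (Finset.univ.sup d + 1)) : top d hd i.1 (liftTop A) = A i := by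
  ext ⟨k, hk⟩ ⟨l, hl⟩
  simp only [top, of_apply, liftTop]
  rw [dif_pos ⟨trivial, hk.trans hl.symm⟩]
  have hi : (⟨d k, Nat.lt_succ_of_le (Finset.le_sup (Finset.mem_univ _))⟩ : Fin (Finset.univ.sup d + 1)) = i :=
    Fin.ext hk
  subst hi
  rfl

include hd in
theorem com_T {v : Idx d → Fin t → K} (hv : Ok v) : Com d (T v) := commute_T hd hv

include hd in
theorem isUnit_of_top_com {X : Matrix (Idx d) (Idx d) K} (hX : Com d X)
    (h : ∀ i : Fin (Finset.univ.sup d + 1), IsUnit (top d hd i.1 (col hd X))) : IsUnit X := by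
  rw [(eq_T hd hX).1]
  refine isUnit_of_top hd (eq_T hd hX).2 fun i => ?_
  by_cases hi : i < Finset.univ.sup d + 1
  · exact h ⟨i, hi⟩
  · haveI : IsEmpty {k // d k = i} := ⟨fun k => hi (k.2 ▸ Nat.lt_succ_of_le (Finset.le_sup (Finset.mem_univ _)))⟩
    exact isUnit_of_subsingleton _

theorem com_inv {g : GL (Idx d) K} (hg : Com d g.1) : Com d (g⁻¹ : GL (Idx d) K).1 :=
  (Commute.units_inv_left (show Commute g.1 (E d K) from hg)).eq

theorem top_isUnit {g : GL (Idx d) K} (hg : Com d g.1) (i : ℕ) : IsUnit (top d hd i (col hd g.1)) :=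
  IsUnit.of_mul_eq_one (top d hd i (col hd (g⁻¹ : GL (Idx d) K).1))
    (by rw [← top_mul hd hg (com_inv hg), Units.mul_inv, top_one])

variable (K d) in
/-- The centraliser of the Jordan matrix. -/
def Cn : Subgroup (GL (Idx d) K) where
  carrier := {g | Com d g.1}
  one_mem' := com_one
  mul_mem' ha hb := ha.mul hb
  inv_mem' ha := com_inv ha

include hc in
/-- The unitary part of the centraliser. -/
def Sn : Subgroup (GL (Idx d) K) where
  carrier := {g | Com d g.1 ∧ S g.1 * g.1 = 1}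
  one_mem' := ⟨com_one, by rw [Units.val_one, st_one (Gram_det hc), one_mul]⟩
  mul_mem' {a b} ha hb := ⟨ha.1.mul hb.1, by
    rw [Units.val_mul, st_mul (Gram_det hc), mul_assoc, ← mul_assoc (S a.1), ha.2, one_mul]
    exact hb.2⟩
  inv_mem' {a} ha := ⟨com_inv ha.1, by
    have h1 : (a⁻¹ : GL (Idx d) K).1 = S a.1 := by
      calc (a⁻¹ : GL (Idx d) K).1 = S a.1 * a.1 * (a⁻¹ : GL (Idx d) K).1 := by rw [ha.2, one_mul]
        _ = S a.1 := by rw [mul_assoc, Units.mul_inv, mul_one]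
    rw [h1]
    calc S (S a.1) * S a.1 = S (a.1 * S a.1) := by rw [st_mul (Gram_det hc) a.1]
      _ = 1 := by rw [mul_eq_one_comm.1 ha.2, st_one (Gram_det hc)]⟩

include hσ2 hσ hc hd in
/-- Every self-adjoint unit of the commutant is a norm. -/
theorem surj {a : Matrix (Idx d) (Idx d) K} (hac : Com d a) (ha : S a = a) (hau : IsUnit a) :
    ∃ g : GL (Idx d) K, Com d g.1 ∧ S g.1 * g.1 = a := by
  classical
  have hG := Gram_det (d := d) hc
  have hfac : ∀ i : Fin (Finset.univ.sup d + 1),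
      ∃ y, IsUnit y ∧ H σ y * y = top d hd i.1 (col hd a) := fun i =>
    factor hσ2 hσ (by rw [← top_st hc hd hac, ha]) (by
      obtain ⟨u, rfl⟩ := hau
      exact top_isUnit hd hac i.1)
  choose Y hYu hY using hfac
  have hY0c : Com d (T (liftTop Y)) := com_T hd (ok_liftTop Y)
  obtain ⟨y, hy⟩ : IsUnit (T (liftTop Y)) := isUnit_of_top_com hd hY0c fun i => by
    rw [col_T, top_liftTop]; exact hYu i
  have hyc : Com d y.1 := hy ▸ hY0c
  have hyc' := com_inv hyc
  set y' := (y⁻¹ : GL (Idx d) K).1 with hy'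
  set b := S y' * a * y' with hb
  have hbc : Com d b := ((com_st hc hyc').mul hac).mul hyc'
  have hbst : S b = b := by
    rw [hb, st_mul hG, st_mul hG, st_st hG hσ2 (Gram_H hσ2), ha, ← mul_assoc]
  have htop : ∀ i, top d hd i (col hd (b - 1)) = 0 := fun i => by
    rw [col_sub, top_sub, top_one, sub_eq_zero, hb, top_mul hd ((com_st hc hyc').mul hac) hyc',
      top_mul hd (com_st hc hyc') hac, top_st hc hd hyc']
    by_cases hi : i < Finset.univ.sup d + 1
    · have h1 : top d hd i (col hd y.1) = Y ⟨i, hi⟩ := by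
        rw [hy, col_T]; exact top_liftTop hd Y ⟨i, hi⟩
      have h2 : top d hd i (col hd y') * Y ⟨i, hi⟩ = 1 := by
        rw [← h1, ← top_mul hd hyc' hyc, hy', Units.inv_mul, top_one]
      have h3 : Y ⟨i, hi⟩ * top d hd i (col hd y') = 1 := mul_eq_one_comm.1 h2
      rw [← hY ⟨i, hi⟩, mul_assoc (H σ _), mul_assoc, h3, mul_one, ← H_mul, h3, H_one]
    · haveI : IsEmpty {k // d k = i} := ⟨fun k => hi (k.2 ▸ Nat.lt_succ_of_le (Finset.le_sup (Finset.mem_univ _)))⟩
      exact Subsingleton.elim _ _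
  obtain ⟨z, hzu, hz⟩ := factor hσ2 hσ (Gram_H (c := c) (d := d) hσ2) ((Matrix.isUnit_iff_isUnit_det _).2 hG)
  obtain ⟨Z, rfl⟩ := hzu
  set Z' := (Z⁻¹ : GL (Idx d) K).1
  have hH : ∀ X, Z.1 * S X * Z' = H σ (Z.1 * X * Z') := conj_st hG hz (Units.mul_inv Z)
  obtain ⟨k, hk⟩ := nilpotent_of_top hd (hbc.sub com_one) htop
  set bt := Z.1 * b * Z' with hbt
  have hconj : ∀ X Y, Z.1 * X * Z' * (Z.1 * Y * Z') = Z.1 * (X * Y) * Z' := fun X Y => by
    simp only [mul_assoc]
    rw [← mul_assoc Z', Units.inv_mul, one_mul]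
  have hbtH : H σ bt = bt := by rw [hbt, ← hH, hbst]
  have hnil : (bt - 1) ^ k = 0 := by
    have : ∀ n : ℕ, (bt - 1) ^ n = Z.1 * (b - 1) ^ n * Z' := by
      intro n
      induction n with
      | zero => rw [pow_zero, pow_zero, mul_one, Units.mul_inv]
      | succ n ih => rw [pow_succ, ih, pow_succ, ← hconj, mul_sub Z.1 b 1, mul_one, sub_mul (Z.1 * b), Units.mul_inv]
    rw [this, hk, mul_zero, zero_mul]
  have hne : ∃ x, σ x ≠ x := by
    by_contra h
    push Not at h
    exact hσ (RingHom.ext h)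
  obtain ⟨θ, hθ⟩ := exists_trace_one hσ2 hne
  obtain ⟨x, hxu, hx, hxc⟩ := root_unipotent hσ2 hθ k bt hbtH hnil
  have hEc : Commute (Z.1 * E d K * Z') bt := by
    show _ * _ = _ * _
    rw [hbt, hconj, hconj, hbc]
  have hxE := hxc _ hEc
  set x0 := Z' * x * Z.1 with hx0
  have hx0Z : Z.1 * x0 * Z' = x := by
    rw [hx0]; simp only [mul_assoc]
    rw [Units.mul_inv, mul_one, ← mul_assoc, Units.mul_inv, one_mul]
  have hx0c : Com d x0 := by
    have h := hxE.eq
    rw [← hx0Z, hconj, hconj] at h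
    exact ((Units.mul_right_inj Z).1 ((Units.mul_left_inj Z⁻¹).1 h)).symm
  have hx0b : S x0 * x0 = b := by
    have h : Z.1 * (S x0 * x0) * Z' = Z.1 * b * Z' := by
      rw [← hconj, hH, hx0Z, hx]
    exact (Units.mul_right_inj Z).1 ((Units.mul_left_inj Z⁻¹).1 h)
  obtain ⟨X0, hX0⟩ : IsUnit x0 := (Z⁻¹.isUnit.mul hxu).mul Z.isUnit
  refine ⟨X0 * y, (hX0 ▸ hx0c).mul hyc, ?_⟩
  rw [Units.val_mul, hX0, st_mul hG, mul_assoc, ← mul_assoc (S x0), hx0b, hb, ← mul_assoc, ← mul_assoc,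
    ← mul_assoc (S y.1), ← st_mul hG, hy', Units.inv_mul, st_one hG, one_mul, mul_assoc, Units.inv_mul, mul_one]

include hσ2 hσ hc hd in
theorem card_Cn : Nat.card (Cn K d) = Nat.card {a : Matrix (Idx d) (Idx d) K // Com d a ∧ S a = a ∧ IsUnit a} *
    Nat.card (Sn hc (d := d)) := by
  have hG := Gram_det (d := d) hc
  refine card_split (Cn K d) (Sn hc) (fun g hg => hg.1)
    (fun g => ⟨S g.1.1 * g.1.1, (com_st hc g.2).mul g.2, by rw [st_mul hG, st_st hG hσ2 (Gram_H hσ2)],
      (IsUnit.of_mul_eq_one (S (g.1⁻¹ : GL (Idx d) K).1) (by rw [← st_mul hG, Units.inv_mul, st_one hG])).mul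
        g.1.isUnit⟩)
    (fun g g' => ?_) fun a => ?_
  · rw [Subtype.ext_iff]
    show S g.1.1 * g.1.1 = S g'.1.1 * g'.1.1 ↔ Com d (g.1 * g'.1⁻¹).1 ∧ S (g.1 * g'.1⁻¹).1 * (g.1 * g'.1⁻¹).1 = 1
    rw [Units.val_mul, st_mul hG]
    constructor
    · intro h
      refine ⟨Com.mul g.2 (com_inv g'.2), ?_⟩
      rw [mul_assoc, ← mul_assoc (S g.1.1), h, mul_assoc, Units.mul_inv, mul_one, ← st_mul hG, Units.mul_inv,
        st_one hG]
    · rintro ⟨-, h⟩
      have h1 := congrArg (fun z => S g'.1.1 * z * g'.1.1) h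
      simp only [mul_one] at h1
      rw [← h1, ← mul_assoc (S g'.1.1), ← mul_assoc (S g'.1.1), ← st_mul hG, Units.inv_mul, st_one hG, one_mul,
        ← mul_assoc, mul_assoc _ (g'.1⁻¹ : GL (Idx d) K).1, Units.inv_mul, mul_one]
  · obtain ⟨g, hgc, hg⟩ := surj hσ2 hσ hc hd a.2.1 a.2.2.1 a.2.2.2
    exact ⟨⟨g, hgc⟩, Subtype.ext hg⟩

variable (K d) in
/-- The kernel of the top map. -/
def Ker : Submodule K (Matrix (Idx d) (Idx d) K) where
  carrier := {X | Com d X ∧ ∀ i, top d hd i (col hd X) = 0}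
  zero_mem' := ⟨by rw [Com, zero_mul, mul_zero], fun i => rfl⟩
  add_mem' {a b} ha hb := ⟨ha.1.add hb.1, fun i => by rw [col_add, top_add, ha.2, hb.2, add_zero]⟩
  smul_mem' r a ha := ⟨ha.1.smul r, fun i => by rw [col_smul, top_smul, ha.2, smul_zero]⟩

theorem card_Ker {q : ℕ} (hK : Fintype.card K = q) : Nat.card (Ker K d hd) = q ^ Nat.card (Rest d) := by
  classical
  let φ : Ker K d hd → (Rest d → K) := fun X x => col hd X.1 x.1.1 x.1.2
  have hφ : Function.Bijective φ := by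
    refine ⟨fun X Y h => ?_, fun r => ?_⟩
    · refine Subtype.ext ?_
      obtain ⟨h1, hok⟩ := eq_T hd X.2.1
      obtain ⟨h1', hok'⟩ := eq_T hd Y.2.1
      rw [h1, h1']
      congr 1
      funext x l
      by_cases hlt : x.2.1 + d l < d x.1
      · rw [hok x l hlt, hok' x l hlt]
      by_cases htop : x.2.1 = 0 ∧ d x.1 = d l
      · have e : (⟨x.1, ⟨0, hd x.1⟩⟩ : Idx d) = x := Sigma.ext rfl (heq_of_eq (Fin.ext htop.1.symm))
        have a1 := congrFun (congrFun (X.2.2 (d x.1)) ⟨x.1, rfl⟩) ⟨l, htop.2.symm⟩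
        have a2 := congrFun (congrFun (Y.2.2 (d x.1)) ⟨x.1, rfl⟩) ⟨l, htop.2.symm⟩
        simp only [top, of_apply, e, Matrix.zero_apply] at a1 a2
        rw [a1, a2]
      · exact congrFun h ⟨(x, l), not_lt.1 hlt, htop⟩
    · let v : Idx d → Fin t → K := fun x l =>
        if h : d x.1 ≤ x.2.1 + d l ∧ ¬ (x.2.1 = 0 ∧ d x.1 = d l) then r ⟨(x, l), h⟩ else 0
      have hok : Ok v := fun x l hlt => dif_neg fun h => by omega
      refine ⟨⟨T v, com_T hd hok, fun i => ?_⟩, funext fun x => ?_⟩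
      · ext ⟨k, hk⟩ ⟨l, hl⟩
        rw [col_T]
        simp only [top, of_apply, v, Matrix.zero_apply]
        exact dif_neg fun h => h.2 ⟨trivial, hk.trans hl.symm⟩
      · show col hd (T v) x.1.1 x.1.2 = r x
        rw [col_T]
        exact dif_pos x.2
  rw [Nat.card_congr (Equiv.ofBijective φ hφ), Nat.card_fun, Nat.card_eq_fintype_card (α := K), hK]

include hσ2 hσ hc hd in
theorem card_SA {q : ℕ} (hK : Fintype.card K = q ^ 2) :
    Nat.card {a : Matrix (Idx d) (Idx d) K // Com d a ∧ S a = a ∧ IsUnit a} =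
      q ^ Nat.card (Rest d) * ∏ i : Fin (Finset.univ.sup d + 1),
        Nat.card {A : Matrix {k // d k = i.1} {k // d k = i.1} K // H σ A = A ∧ IsUnit A} := by
  classical
  have hG := Gram_det (d := d) hc
  have hne : ∃ x, σ x ≠ x := by
    by_contra h
    push Not at h
    exact hσ (RingHom.ext h)
  obtain ⟨θ, hθ⟩ := exists_trace_one hσ2 hne
  let lift : (∀ i : Fin (Finset.univ.sup d + 1), {A : Matrix {k // d k = i.1} {k // d k = i.1} K // H σ A = A ∧ IsUnit A}) →
      Matrix (Idx d) (Idx d) K := fun A =>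
    θ • T (liftTop fun i => (A i).1) + σ θ • S (T (liftTop fun i => (A i).1))
  have hlc : ∀ A, Com d (lift A) := fun A =>
    ((com_T hd (ok_liftTop _)).smul θ).add ((com_st hc (com_T hd (ok_liftTop _))).smul _)
  have hls : ∀ A, S (lift A) = lift A := fun A => by
    simp only [lift]
    rw [st_add hG, st_smul hG, st_smul hG, st_st hG hσ2 (Gram_H hσ2), hσ2, add_comm]
  have hlt : ∀ A (i : Fin (Finset.univ.sup d + 1)), top d hd i.1 (col hd (lift A)) = (A i).1 := fun A i => by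
    simp only [lift]
    rw [col_add, top_add, col_smul, col_smul, top_smul, top_smul, top_st hc hd (com_T hd (ok_liftTop _)), col_T,
      top_liftTop, (A i).2.1, ← add_smul, hθ, one_smul]
  let Φ : (∀ i : Fin (Finset.univ.sup d + 1), {A : Matrix {k // d k = i.1} {k // d k = i.1} K // H σ A = A ∧ IsUnit A}) ×
      {X : Ker K d hd // S X.1 = X.1} → {a : Matrix (Idx d) (Idx d) K // Com d a ∧ S a = a ∧ IsUnit a} :=
    fun p => ⟨lift p.1 + p.2.1.1, (hlc p.1).add p.2.1.2.1, by rw [st_add hG, hls, p.2.2],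
      isUnit_of_top_com hd ((hlc p.1).add p.2.1.2.1) fun i => by
        rw [col_add, top_add, hlt, p.2.1.2.2, add_zero]; exact (p.1 i).2.2⟩
  have hΦ : Function.Bijective Φ := by
    refine ⟨fun p p' h => ?_, fun a => ?_⟩
    · have h' : lift p.1 + p.2.1.1 = lift p'.1 + p'.2.1.1 := congrArg Subtype.val h
      have h1 : p.1 = p'.1 := funext fun i => Subtype.ext (by
        have := congrArg (fun X => top d hd i.1 (col hd X)) h'
        simpa only [col_add, top_add, hlt, p.2.1.2.2, p'.2.1.2.2, add_zero] using this)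
      rw [h1] at h'
      exact Prod.ext h1 (Subtype.ext (Subtype.ext (add_left_cancel h')))
    · let A : ∀ i : Fin (Finset.univ.sup d + 1), {A : Matrix {k // d k = i.1} {k // d k = i.1} K // H σ A = A ∧ IsUnit A} :=
        fun i => ⟨top d hd i.1 (col hd a.1), by rw [← top_st hc hd a.2.1, a.2.2.1], by
          obtain ⟨u, hu⟩ := a.2.2.2
          have := top_isUnit hd (g := u) (hu ▸ a.2.1) i.1
          rwa [hu] at this⟩
      refine ⟨(A, ⟨⟨a.1 - lift A, a.2.1.sub (hlc A), fun i => ?_⟩, by show S (a.1 - lift A) = a.1 - lift A; rw [st_sub hG, hls, a.2.2.1]⟩),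
        Subtype.ext (add_sub_cancel _ _)⟩
      rw [col_sub, top_sub]
      by_cases hi : i < Finset.univ.sup d + 1
      · rw [hlt A ⟨i, hi⟩, sub_self]
      · haveI : IsEmpty {k // d k = i} := ⟨fun k => hi (k.2 ▸ Nat.lt_succ_of_le (Finset.le_sup (Finset.mem_univ _)))⟩
        exact Subsingleton.elim _ _
  rw [← Nat.card_congr (Equiv.ofBijective Φ hΦ), Nat.card_prod, Nat.card_pi, mul_comm]
  congr 1
  have hmem : ∀ X : Ker K d hd, S X.1 ∈ Ker K d hd := fun X =>
    ⟨com_st hc X.2.1, fun i => by rw [top_st hc hd X.2.1, X.2.2]; ext; simp [H]⟩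
  have hsq := card_fixed_sq (K := K) (A := Ker K d hd) (s := fun X => ⟨S X.1, hmem X⟩)
    (fun X => Subtype.ext (st_st hG hσ2 (Gram_H hσ2) _)) (fun X Y => Subtype.ext (st_add hG _ _))
    (fun r X => Subtype.ext (st_smul hG r _)) hσ2 hσ
  rw [card_Ker hd hK, ← pow_mul, mul_comm 2, pow_mul] at hsq
  rw [Nat.pow_left_injective two_ne_zero hsq]
  exact Nat.card_congr (Equiv.subtypeEquivRight fun X => by rw [Subtype.ext_iff])

include hσ2 hσ hc hd in
theorem card_Sn {q : ℕ} (hK : Fintype.card K = q ^ 2) :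
    Nat.card (Sn hc (d := d)) =
      q ^ Nat.card (Rest d) * ∏ i : Fin (Finset.univ.sup d + 1), Nat.card (U σ {k // d k = i.1}) := by
  classical
  have h1 := card_Cn hσ2 hσ hc hd (d := d)
  rw [card_SA hσ2 hσ hc hd hK] at h1
  have h2 : Nat.card (Cn K d) = (q ^ 2) ^ Nat.card (Rest d) *
      ∏ i : Fin (Finset.univ.sup d + 1), Nat.card (GL {k // d k = i.1} K) := by
    have e : Nat.card (Cn K d) = Nat.card {g : GL (Idx d) K // (g : Matrix (Idx d) (Idx d) K) *
        Cfsg.jordanTypeMatrix d K = Cfsg.jordanTypeMatrix d K * (g : Matrix (Idx d) (Idx d) K)} :=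
      Nat.card_congr (Equiv.subtypeEquivRight fun g => com_iff g.1)
    rw [e, card_cent hK hd, Finset.prod_range]
    congr 1
    refine Finset.prod_congr rfl fun i _ => ?_
    let ε : {k // d k = i.1} ≃ Fin ((Finset.univ.filter (fun k : Fin t => d k = i.1)).card) :=
      Fintype.equivFinOfCardEq (Fintype.card_subtype _)
    rw [Nat.card_congr (Units.mapEquiv (Matrix.reindexAlgEquiv K K ε).toMulEquiv).toEquiv, Matrix.card_GL_field, hK]
  have h3 : ∀ i : Fin (Finset.univ.sup d + 1), Nat.card (GL {k // d k = i.1} K) =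
      Nat.card {A : Matrix {k // d k = i.1} {k // d k = i.1} K // H σ A = A ∧ IsUnit A} *
        Nat.card (U σ {k // d k = i.1}) := fun i => card_GL_eq hσ2 hσ
  rw [h2, Finset.prod_congr rfl (fun i _ => h3 i), Finset.prod_mul_distrib] at h1
  have hq : 0 < q := Nat.pos_of_ne_zero fun h => by
    have := Fintype.card_pos (α := K)
    rw [hK, h] at this
    simp at this
  have hpos : 0 < q ^ Nat.card (Rest d) * ∏ i : Fin (Finset.univ.sup d + 1),
      Nat.card {A : Matrix {k // d k = i.1} {k // d k = i.1} K // H σ A = A ∧ IsUnit A} :=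
    Nat.mul_pos (pow_pos hq _) (Finset.prod_pos fun i _ =>
      @Nat.card_pos _ ⟨⟨1, H_one σ, isUnit_one⟩⟩ _)
  refine Nat.eq_of_mul_eq_mul_left hpos ?_
  rw [← h1, pow_right_comm]
  ring

end Cfsg.Agent.Linear.GUUnipotentCent
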