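import Cfsg.Agent.Linear.HermRoot
import Cfsg.Agent.Linear.SpRegUnipotent
import Cfsg.Agent.Forms.UnitaryElements
import Cfsg.Agent.Forms.UnitaryOrder

/-!
# Regular unipotent classes of `SU_n(q)`
-/

set_option autoImplicit false
set_option linter.unusedSectionVars false

namespace Cfsg.Agent.Linear.SURegUnipotent

open Matrix Cfsg.Agent.Forms Cfsg.Agent.Linear.HermRoot Cfsg.Agent.Linear.RegSkew Cfsg.Agent.Linear.SpRegUnipotent

variable {K : Type*} [Field K] [Fintype K] {q n : ℕ}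

local notation "Mn" => Matrix (Fin n) (Fin n) K

theorem herm_mulVec (hK : Fintype.card K = q ^ 2) (A : Mn) (u v : Fin n → K) :
    Cfsg.hermForm n K q (A *ᵥ u) (A *ᵥ v) = u ⬝ᵥ ((Aᵀ * A.map (frobQ hK)) *ᵥ fun i => frobQ hK (v i)) := by
  have h1 : Cfsg.hermForm n K q (A *ᵥ u) (A *ᵥ v) = (A *ᵥ u) ⬝ᵥ fun i => frobQ hK ((A *ᵥ v) i) := rfl
  rw [h1, ← Matrix.mulVec_mulVec, Matrix.dotProduct_mulVec u, Matrix.vecMul_transpose]
  congr 1
  funext i
  simp [Matrix.mulVec, dotProduct, map_sum, map_mul]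

theorem mem_GU (hK : Fintype.card K = q ^ 2) (g : GL (Fin n) K) :
    g ∈ Cfsg.GU n K q ↔ H (frobQ hK) g.1 * g.1 = 1 := by
  have e : H (frobQ hK) g.1 * g.1 = (g.1ᵀ * g.1.map (frobQ hK))ᵀ := by rw [transpose_mul, transpose_transpose]; rfl
  rw [e, ← transpose_one, Function.Injective.eq_iff (transpose_injective)]
  constructor
  · intro h
    refine Matrix.ext fun i j => ?_
    have h1 := h (Pi.single i 1) (Pi.single j 1)
    simp only [Units.coeHom_apply] at h1
    rw [herm_mulVec hK] at h1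
    have e2 : (fun k => frobQ hK ((Pi.single j 1 : Fin n → K) k)) = Pi.single j 1 := funext fun k => by
      rcases eq_or_ne k j with rfl | hk
      · simp
      · rw [Pi.single_eq_of_ne hk, map_zero]
    have e3 : Cfsg.hermForm n K q (Pi.single i 1) (Pi.single j 1) = (Pi.single i 1 : Fin n → K) ⬝ᵥ Pi.single j 1 :=
      congrArg ((Pi.single i 1 : Fin n → K) ⬝ᵥ ·) e2
    rw [e2, e3] at h1
    simp only [mulVec_single_one, Matrix.col_apply, single_one_dotProduct] at h1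
    simpa [Matrix.one_apply, Pi.single_apply, eq_comm] using h1
  · intro h u v
    simp only [Units.coeHom_apply]
    rw [herm_mulVec hK, h, one_mulVec]
    rfl

/-- Regular unipotent matrices. -/
def IsReg (M : Mn) : Prop := (M - 1) ^ n = 0 ∧ (M - 1).rank = n - 1

local notation "E" => (Matrix.toLinAlgEquiv' : Mn ≃ₐ[K] Module.End K (Fin n → K))

theorem isReg_iff {e : ℕ} (he : n = e + 1) (M : Mn) : IsReg M ↔ ∃ v, Cyc (E (M - 1)) v e := by
  have hd : Module.finrank K (Fin n → K) = e + 1 := by rw [Module.finrank_fin_fun, he]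
  have hr : Module.finrank K (LinearMap.range (E (M - 1))) = (M - 1).rank := rfl
  rw [IsReg, ← hr, ← (E).injective.eq_iff, map_pow, map_zero, show n - 1 = e by omega]
  constructor
  · rintro ⟨h1, h2⟩
    obtain ⟨v, hv⟩ := exists_top_of_rank hd h2
    exact ⟨v, hd, by rw [← he]; exact h1, hv⟩
  · rintro ⟨v, hv⟩
    exact ⟨(congrArg (E (M - 1) ^ ·) he).trans hv.nil, finrank_range_of_cyc hv⟩

theorem commutant {M : Mn} (hM : IsReg M) (hn : 1 ≤ n) {A : Mn} (hA : Commute A M) :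
    ∃ c : K, IsNilpotent (A - c • 1) := by
  obtain ⟨e, he⟩ : ∃ e, n = e + 1 := ⟨n - 1, by omega⟩
  obtain ⟨v, hv⟩ := (isReg_iff he M).1 hM
  obtain ⟨co, hco⟩ := hv.exists_el ((hA.sub_right (Commute.one_right A)).map (E))
  refine ⟨co 0, ?_⟩
  rw [← IsNilpotent.map_iff (E).injective, map_sub, map_smul, map_one, hco, el, Fin.sum_univ_succ, Fin.val_zero,
    pow_zero, add_sub_cancel_left]
  refine Commute.isNilpotent_sum (fun i _ => ?_) fun i j _ _ => ?_
  · exact (IsNilpotent.pow_succ i.1 ⟨e + 1, hv.nil⟩).smul (co i.succ)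
  · exact ((((Commute.refl _).pow_pow _ _)).smul_left _).smul_right _

theorem exists_reg (hK : Fintype.card K = q ^ 2) (hn : 1 ≤ n) :
    ∃ g : GL (Fin n) K, g ∈ Cfsg.GU n K q ∧ IsReg g.1 := by
  obtain ⟨l, rfl⟩ : ∃ l, n = l + 1 := ⟨n - 1, by omega⟩
  obtain ⟨B, u, hB, hu, h1, h2⟩ := exists_herm_unipotent hK l
  let S : (Fin (l + 1) → K) →ₗ[K] (Fin (l + 1) → K) →ₛₗ[frobQ hK] K :=
    LinearMap.mk₂'ₛₗ (RingHom.id K) (frobQ hK) (fun x y => hermB (l + 1) hK y x)
      (fun x x' y => map_add _ _ _) (fun c x y => map_smul _ _ _)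
      (fun x y y' => LinearMap.map_add₂ _ _ _ _) (fun c x y => by rw [LinearMap.map_smulₛₗ₂])
  have hS : NondegHerm (frobQ hK) S := by
    refine ⟨fun x y => (hermB_isSymm hK).eq y x, fun x hx => ?_⟩
    funext i
    have h3 := hx (Pi.single i 1)
    simp only [S, LinearMap.mk₂'ₛₗ_apply, hermB_apply, Cfsg.hermForm] at h3
    rw [Finset.sum_eq_single i (fun j _ hj => by
      rw [Pi.single_eq_of_ne hj, zero_pow (by have := two_le_q hK; omega), mul_zero]) (by simp)] at h3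
    simpa using h3
  obtain ⟨e, he⟩ := exists_herm_isometryEquiv (frobQ_frobQ hK) (frobQ_ne_id hK) (Module.finrank_fin_fun K) B hB S hS
  set g₀ : (Fin (l + 1) → K) ≃ₗ[K] (Fin (l + 1) → K) := (e.symm.trans u).trans e
  set g := (glEquiv (Fin (l + 1)) K).symm g₀
  have hgv : ∀ x, g.1 *ᵥ x = g₀ x := glEquiv_symm_mulVec g₀
  refine ⟨g, fun x y => ?_, ?_⟩
  · simp only [Units.coeHom_apply, hgv]
    show S (g₀ x) (g₀ y) = S x y
    simp only [g₀, LinearEquiv.trans_apply]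
    rw [he, hu, ← he, e.apply_symm_apply, e.apply_symm_apply]
  · refine (isReg_iff rfl _).2 ?_
    have hconj : Matrix.toLinAlgEquiv' (g.1 - 1) =
        e.conjAlgEquiv K ((u : Module.End K (Fin (l + 1) → K)) - 1) := by
      rw [map_sub, map_sub, map_one, map_one]
      congr 1
      refine LinearMap.ext fun x => ?_
      rw [Matrix.toLinAlgEquiv'_apply, hgv]
      rfl
    obtain ⟨v, hv⟩ : ∃ v, (((u : Module.End K (Fin (l + 1) → K)) - 1) ^ l) v ≠ 0 := by
      by_contra hc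
      push Not at hc
      exact h2 (LinearMap.ext hc)
    refine ⟨e v, Module.finrank_fin_fun K, by rw [hconj, ← map_pow, h1, map_zero], fun h => hv ?_⟩
    rw [hconj, ← map_pow] at h
    exact e.injective (by simpa [LinearEquiv.conjAlgEquiv_apply] using h)

theorem gu_conj (hK : Fintype.card K = q ^ 2) (hn : 1 ≤ n) {g g' : GL (Fin n) K} (hg : g ∈ Cfsg.GU n K q)
    (hg' : g' ∈ Cfsg.GU n K q) (hr : IsReg g.1) (hr' : IsReg g'.1) :
    ∃ y : GL (Fin n) K, y ∈ Cfsg.GU n K q ∧ y * g = g' * y := by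
  haveI : Nonempty (Fin n) := ⟨⟨0, hn⟩⟩
  obtain ⟨e, he⟩ : ∃ e, n = e + 1 := ⟨n - 1, by omega⟩
  obtain ⟨v, hv⟩ := (isReg_iff he g.1).1 hr
  obtain ⟨v', hv'⟩ := (isReg_iff he g'.1).1 hr'
  obtain ⟨Y, hY⟩ := pow_apply_intertwine hv hv'
  set y := (glEquiv (Fin n) K).symm Y with hy
  have hyv : ∀ x, y.1 *ᵥ x = Y x := glEquiv_symm_mulVec Y
  have hyg : y.1 * g.1 = g'.1 * y.1 := by
    refine matrix_ext_mulVec fun x => ?_
    have h := hY x
    simp only [map_sub, map_one, LinearMap.sub_apply, Module.End.one_apply, Matrix.toLinAlgEquiv'_apply] at h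
    rw [← mulVec_mulVec, ← mulVec_mulVec, hyv, hyv]
    exact sub_left_inj.1 h
  have hσ2 := frobQ_frobQ hK
  have hσ : ∃ c, frobQ hK c ≠ c := by
    by_contra h
    push Not at h
    exact frobQ_ne_id hK (RingHom.ext h)
  set a := H (frobQ hK) y.1 * y.1 with ha
  have hac : Commute a g.1 := by
    have h1 := (mem_GU hK g).1 hg
    have h1' : g.1 * H (frobQ hK) g.1 = 1 := mul_eq_one_comm.1 h1
    have h2 := (mem_GU hK g').1 hg'
    have h3 : H (frobQ hK) g.1 * H (frobQ hK) y.1 = H (frobQ hK) y.1 * H (frobQ hK) g'.1 := by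
      rw [← H_mul, ← H_mul, hyg]
    show a * g.1 = g.1 * a
    calc a * g.1 = H (frobQ hK) y.1 * (g'.1 * y.1) := by rw [ha, mul_assoc, hyg]
      _ = g.1 * (H (frobQ hK) g.1 * H (frobQ hK) y.1) * (g'.1 * y.1) := by rw [← mul_assoc g.1, h1', one_mul]
      _ = g.1 * (H (frobQ hK) y.1 * (H (frobQ hK) g'.1 * g'.1) * y.1) := by rw [h3]; simp only [mul_assoc]
      _ = g.1 * a := by rw [h2, mul_one, ha]
  have hau : IsUnit a := (isUnit_H _ y.isUnit).mul y.isUnit
  obtain ⟨s, hs⟩ := commutant hr hn hac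
  obtain ⟨x, hxu, hx, hxc⟩ := herm_root hσ2 hσ (by rw [ha, H_mul, H_H _ hσ2]) hau hs
  set X := hxu.unit with hXdef
  refine ⟨y * X⁻¹, (mem_GU hK _).2 ?_, Units.ext ?_⟩
  · have h1 : x * (X⁻¹ : GL (Fin n) K).1 = 1 := by rw [← hxu.unit_spec, ← hXdef, Units.mul_inv]
    rw [Units.val_mul, H_mul, mul_assoc, ← mul_assoc (H (frobQ hK) y.1), ← ha, ← hx, mul_assoc (H _ x), h1, mul_one,
      ← H_mul, h1, H_one]
  · have hXg : Commute g.1 (X⁻¹ : GL (Fin n) K).1 := Commute.units_inv_right (by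
      rw [hxu.unit_spec]; exact hxc g.1 hac.symm)
    simp only [Units.val_mul]
    rw [mul_assoc, ← hXg.eq, ← mul_assoc, hyg, mul_assoc]

theorem card_classes (hK : Fintype.card K = q ^ 2) (hn : 2 ≤ n) :
    Nat.card {C : ConjClasses ↥(Cfsg.SU n K q) // ∃ u : ↥(Cfsg.SU n K q), ConjClasses.mk u = C ∧
      IsReg ((u : GL (Fin n) K) : Mn)} = Nat.gcd n (q + 1) := by
  classical
  haveI : Nonempty (Fin n) := ⟨⟨0, by omega⟩⟩
  set G := Cfsg.GU n K q
  let ι := suToGU (F := K) (n := n) (q := q)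
  have hι : Function.Injective ι := suToGU_injective hK
  set δ := guDet (n := n) hK with hδ
  have hmem : ∀ g : G, g ∈ ι.range ↔ δ g = 1 := fun g => by rw [suToGU_range hK, MonoidHom.mem_ker]
  obtain ⟨g₀, hg₀, hr₀⟩ := exists_reg hK (show 1 ≤ n by omega)
  have hregdet : ∀ g : G, IsReg g.1.1 → δ g = 1 := fun g hg => by
    refine Subtype.ext (Units.ext ?_)
    show g.1.1.det = 1
    have := det_one_add (A := g.1.1 - 1) ⟨n, hg.1⟩
    rwa [add_sub_cancel] at this
  let u₀ : G := ⟨g₀, hg₀⟩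
  let D : Subgroup (normOne K q) := (powMonoidHom n : normOne K q →* normOne K q).range
  have hC : ∀ c : G, c * u₀ = u₀ * c → δ c ∈ D := fun c hc => by
    have hc' : Commute c.1.1 g₀.1 := congrArg (fun x : G => x.1.1) hc
    obtain ⟨s, hs⟩ := commutant hr₀ (by omega) hc'
    have h1 := (mem_GU hK c.1).1 c.2
    have hs0 : s ≠ 0 := by
      rintro rfl
      rw [zero_smul, sub_zero] at hs
      obtain ⟨k, hk⟩ := hs
      exact (c.1.isUnit.pow k).ne_zero hk
    have hnil : IsNilpotent (H (frobQ hK) c.1.1 * c.1.1 - (frobQ hK s * s) • 1) := by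
      obtain ⟨k, hk⟩ := hs
      have hH : IsNilpotent (H (frobQ hK) c.1.1 - frobQ hK s • 1) := ⟨k, by
        rw [show H (frobQ hK) c.1.1 - frobQ hK s • 1 = H (frobQ hK) (c.1.1 - s • 1) by rw [H_sub, H_smul, H_one],
          ← H_pow, hk]
        ext i j; simp [H, -frobQ_apply]⟩
      have e : H (frobQ hK) c.1.1 * c.1.1 - (frobQ hK s * s) • 1 =
          (H (frobQ hK) c.1.1 - frobQ hK s • 1) * c.1.1 + frobQ hK s • (c.1.1 - s • 1) := by
        rw [sub_mul, smul_mul_assoc, one_mul, smul_sub, smul_smul]; abel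
      have hcc : Commute (H (frobQ hK) c.1.1) c.1.1 := by
        show _ = _
        rw [h1, mul_eq_one_comm.1 h1]
      rw [e]
      refine Commute.isNilpotent_add ?_ ?_ (IsNilpotent.smul (⟨k, hk⟩ : IsNilpotent (c.1.1 - s • 1)) _)
      · refine Commute.smul_right ?_ _
        have h5 : Commute (H (frobQ hK) c.1.1 - frobQ hK s • 1) (c.1.1 - s • 1) :=
          ((hcc.sub_right ((Commute.one_right _).smul_right _))).sub_left ((Commute.one_left _).smul_left _)
        exact h5.mul_left ((Commute.refl c.1.1).sub_right ((Commute.one_right _).smul_right _))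
      · exact Commute.isNilpotent_mul_right ((hcc.sub_left ((Commute.one_left _).smul_left _))) hH
    rw [h1] at hnil
    have hs1 : frobQ hK s * s = 1 := eigen_unique hnil ⟨1, by rw [pow_one, one_smul, sub_self]⟩
    let sμ : normOne K q := ⟨Units.mk0 s hs0, (mem_normOne hK).2 (by rw [Units.val_mk0, mul_comm]; exact hs1)⟩
    refine ⟨sμ, Subtype.ext (Units.ext ?_)⟩
    show s ^ n = c.1.1.det
    rw [det_of_nilpotent hs0 hs, Fintype.card_fin]
  have hD : ∀ d ∈ D, ∃ c : G, c * u₀ = u₀ * c ∧ δ c = d := by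
    rintro _ ⟨s, rfl⟩
    have hs := (mem_normOne hK).1 s.2
    let S : GL (Fin n) K := Units.map (algebraMap K Mn).toMonoidHom s.1
    have hS : S ∈ G := (mem_GU hK S).2 (by
      show H (frobQ hK) (algebraMap K Mn (s.1 : K)) * algebraMap K Mn (s.1 : K) = 1
      rw [Algebra.algebraMap_eq_smul_one, H_smul, H_one, smul_mul_assoc, one_mul, smul_smul, mul_comm, hs, one_smul])
    refine ⟨⟨S, hS⟩, Subtype.ext (Units.ext ?_), Subtype.ext (Units.ext ?_)⟩
    · exact Algebra.commutes (s.1 : K) g₀.1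
    · show (algebraMap K Mn (s.1 : K)).det = (s.1 : K) ^ n
      rw [Algebra.algebraMap_eq_smul_one, det_smul, det_one, mul_one, Fintype.card_fin]
  choose gc hgc using guDet_surjective hK (show 1 ≤ n by omega) (n := n)
  have hreg_conj : ∀ g : G, IsReg (g * u₀ * g⁻¹).1.1 := fun g => by
    have e : (g * u₀ * g⁻¹).1.1 - 1 = g.1.1 * (g₀.1 - 1) * (g⁻¹ : G).1.1 := by
      rw [mul_sub, sub_mul, mul_one, show g.1.1 * (g⁻¹ : G).1.1 = 1 from Units.mul_inv g.1]; rfl
    refine ⟨?_, ?_⟩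
    · have : ((g * u₀ * g⁻¹).1.1 - 1) ^ n = g.1.1 * (g₀.1 - 1) ^ n * (g⁻¹ : G).1.1 := by
        rw [e]; exact Units.conj_pow g.1 (g₀.1 - 1) n
      rw [this, hr₀.1, mul_zero, zero_mul]
    · rw [e, Matrix.rank_mul_eq_left_of_isUnit_det _ _ ((Matrix.isUnit_iff_isUnit_det _).1 (g⁻¹ : G).1.isUnit),
        Matrix.rank_mul_eq_right_of_isUnit_det _ _ ((Matrix.isUnit_iff_isUnit_det _).1 g.1.isUnit)]
      exact hr₀.2
  choose uc huc using fun c => (hmem (gc c * u₀ * (gc c)⁻¹)).2 (hregdet _ (hreg_conj (gc c)))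
  let X := {C : ConjClasses ↥(Cfsg.SU n K q) // ∃ u : ↥(Cfsg.SU n K q), ConjClasses.mk u = C ∧ IsReg ((u : GL (Fin n) K) : Mn)}
  have hιcoe : ∀ u : ↥(Cfsg.SU n K q), (ι u).1 = (u : GL (Fin n) K) := fun u => rfl
  let f : normOne K q → X := fun c => ⟨ConjClasses.mk (uc c), uc c, rfl, by
    rw [← hιcoe, huc]; exact hreg_conj (gc c)⟩
  have hf : ∀ c c', f c = f c' ↔ c⁻¹ * c' ∈ D := by
    intro c c'
    rw [Subtype.ext_iff]
    show ConjClasses.mk (uc c) = ConjClasses.mk (uc c') ↔ _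
    rw [ConjClasses.mk_eq_mk_iff_isConj, isConj_iff]
    constructor
    · rintro ⟨s, hs⟩
      have h1 : ι s * (gc c * u₀ * (gc c)⁻¹) * (ι s)⁻¹ = gc c' * u₀ * (gc c')⁻¹ := by
        rw [← huc, ← huc, ← map_inv, ← map_mul, ← map_mul, hs]
      set w := (gc c')⁻¹ * ι s * gc c with hw
      have hwu : w * u₀ = u₀ * w := by
        calc w * u₀ = (gc c')⁻¹ * (ι s * (gc c * u₀ * (gc c)⁻¹) * (ι s)⁻¹) * (ι s * gc c) := by rw [hw]; group
          _ = u₀ * w := by rw [h1, hw]; group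
      have h2 := hC w hwu
      rw [hw, map_mul, map_mul, map_inv, hgc, hgc, (hmem (ι s)).1 ⟨s, rfl⟩, mul_one] at h2
      have := inv_mem h2
      rwa [_root_.mul_inv_rev, inv_inv] at this
    · intro hd
      obtain ⟨w, hwu, hwd⟩ := hD _ hd
      obtain ⟨s, hs⟩ := (hmem (gc c' * w⁻¹ * (gc c)⁻¹)).2 (by
        rw [map_mul, map_mul, map_inv, map_inv, hgc, hgc, hwd]
        group)
      refine ⟨s, hι ?_⟩
      rw [map_mul, map_mul, map_inv, hs, huc, huc]
      calc gc c' * w⁻¹ * (gc c)⁻¹ * (gc c * u₀ * (gc c)⁻¹) * (gc c' * w⁻¹ * (gc c)⁻¹)⁻¹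
          = gc c' * w⁻¹ * (u₀ * w) * (gc c')⁻¹ := by group
        _ = gc c' * u₀ * (gc c')⁻¹ := by rw [← hwu]; group
  let Φ : normOne K q ⧸ D → X := Quotient.lift f fun c c' h => (hf c c').2 (QuotientGroup.leftRel_apply.1 h)
  have hΦ : Function.Bijective Φ := by
    refine ⟨fun a b hab => ?_, ?_⟩
    · induction a using QuotientGroup.induction_on with
      | H c => induction b using QuotientGroup.induction_on with
        | H c' => exact QuotientGroup.eq.2 ((hf c c').1 hab)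
    · rintro ⟨C, u, rfl, hu⟩
      obtain ⟨y, hy, hyu⟩ := gu_conj hK (show 1 ≤ n by omega) hg₀ (ι u).2 hr₀ hu
      set Y : G := ⟨y, hy⟩
      refine ⟨QuotientGroup.mk (δ Y), Subtype.ext ?_⟩
      show ConjClasses.mk (uc (δ Y)) = ConjClasses.mk u
      rw [ConjClasses.mk_eq_mk_iff_isConj, isConj_iff]
      have hYu : Y * u₀ = ι u * Y := Subtype.ext hyu
      obtain ⟨s, hs⟩ := (hmem (Y * (gc (δ Y))⁻¹)).2 (by rw [map_mul, map_inv, hgc, mul_inv_cancel])
      refine ⟨s, hι ?_⟩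
      rw [map_mul, map_mul, map_inv, hs, huc]
      calc Y * (gc (δ Y))⁻¹ * (gc (δ Y) * u₀ * (gc (δ Y))⁻¹) * (Y * (gc (δ Y))⁻¹)⁻¹ = Y * u₀ * Y⁻¹ := by group
        _ = ι u := by rw [hYu]; group
  rw [← Nat.card_congr (Equiv.ofBijective Φ hΦ), ← Subgroup.index_eq_card, IsCyclic.index_powMonoidHom_range,
    card_normOne hK, Nat.gcd_comm]

end Cfsg.Agent.Linear.SURegUnipotent
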