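import Cfsg.Agent.Linear.JordanTypeForms
import Cfsg.Agent.Linear.SURegUnipotent

/-!
# The unitary adjoint on the commutant of a unipotent Jordan matrix
-/

set_option autoImplicit false
set_option linter.unusedSectionVars false

namespace Cfsg.Agent.Linear.HermJordan

open Matrix Cfsg.Agent.Forms Cfsg.Agent.Linear.HermRoot Cfsg.Agent.Linear.UnipotentCent

section General

variable {K : Type*} [Field K] {σ : K →+* K} {ι : Type*} [Fintype ι] [DecidableEq ι]

theorem H_reindex {κ : Type*} [Fintype κ] [DecidableEq κ] (e : ι ≃ κ) (A : Matrix ι ι K) :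
    H σ (Matrix.reindex e e A) = Matrix.reindex e e (H σ A) := rfl

theorem factor_fin [Fintype K] (hσ2 : ∀ c, σ (σ c) = c) (hσ : σ ≠ RingHom.id K) {n : ℕ}
    {A : Matrix (Fin n) (Fin n) K} (hA : H σ A = A) (hAu : IsUnit A) :
    ∃ y, IsUnit y ∧ H σ y * y = A := by
  have hnd : ∀ A : Matrix (Fin n) (Fin n) K, H σ A = A → IsUnit A →
      ∃ S : (Fin n → K) →ₗ[K] (Fin n → K) →ₛₗ[σ] K, NondegHerm σ S ∧
        ∀ x y, S x y = ∑ i, σ (y i) * (A *ᵥ x) i := by
    intro A hA hAu
    let S : (Fin n → K) →ₗ[K] (Fin n → K) →ₛₗ[σ] K :=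
      LinearMap.mk₂'ₛₗ (RingHom.id K) σ (fun x y => ∑ i, σ (y i) * (A *ᵥ x) i)
        (fun x x' y => by simp [Matrix.mulVec_add, mul_add, Finset.sum_add_distrib])
        (fun c x y => by
          simp only [Matrix.mulVec_smul, Pi.smul_apply, smul_eq_mul, RingHom.id_apply, Finset.mul_sum]
          exact Finset.sum_congr rfl fun i _ => by ring)
        (fun x y y' => by simp [add_mul, Finset.sum_add_distrib])
        (fun c x y => by
          simp only [Pi.smul_apply, smul_eq_mul, map_mul, Finset.mul_sum]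
          exact Finset.sum_congr rfl fun i _ => by ring)
    refine ⟨S, ⟨fun x y => ?_, fun x hx => ?_⟩, fun _ _ => rfl⟩
    · show σ (∑ i, σ (y i) * (A *ᵥ x) i) = ∑ i, σ (x i) * (A *ᵥ y) i
      simp only [Matrix.mulVec, dotProduct, map_sum, map_mul, hσ2, Finset.mul_sum]
      rw [Finset.sum_comm]
      refine Finset.sum_congr rfl fun i _ => Finset.sum_congr rfl fun j _ => ?_
      have : σ (A j i) = A i j := congrFun (congrFun hA i) j
      rw [this]; ring
    · have h0 : A *ᵥ x = 0 := funext fun i => by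
        have := hx (Pi.single i 1)
        simp only [S, LinearMap.mk₂'ₛₗ_apply] at this
        rw [Finset.sum_eq_single i (fun j _ hj => by rw [Pi.single_eq_of_ne hj, map_zero, zero_mul]) (by simp)] at this
        simpa using this
      exact (Matrix.mulVec_injective_iff_isUnit.2 hAu) (h0.trans (Matrix.mulVec_zero _).symm)
  obtain ⟨SA, hSA, hSAv⟩ := hnd A hA hAu
  obtain ⟨S1, hS1, hS1v⟩ := hnd 1 (H_one σ) isUnit_one
  obtain ⟨e, he⟩ := exists_herm_isometryEquiv hσ2 hσ (Module.finrank_fin_fun K) SA hSA S1 hS1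
  set Y := (glEquiv (Fin n) K).symm e
  have hYv : ∀ x, Y.1 *ᵥ x = e x := glEquiv_symm_mulVec e
  refine ⟨Y.1, Y.isUnit, Matrix.ext fun i j => ?_⟩
  have h := he (Pi.single j 1) (Pi.single i 1)
  rw [hS1v, hSAv, ← hYv, ← hYv, Finset.sum_eq_single i (f := fun k => σ ((Pi.single i 1 : Fin n → K) k) *
    (A *ᵥ Pi.single j 1) k) (fun k _ hk => by rw [Pi.single_eq_of_ne hk, map_zero, zero_mul]) (by simp)] at h
  simp only [Matrix.mulVec_single_one, Matrix.col_apply, Matrix.one_mulVec, Pi.single_eq_same, map_one, one_mul] at h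
  rw [Matrix.mul_apply]
  exact h

/-- A self-adjoint invertible matrix is a norm. -/
theorem factor [Fintype K] (hσ2 : ∀ c, σ (σ c) = c) (hσ : σ ≠ RingHom.id K) {A : Matrix ι ι K}
    (hA : H σ A = A) (hAu : IsUnit A) : ∃ y, IsUnit y ∧ H σ y * y = A := by
  let e := Fintype.equivFin ι
  obtain ⟨y, hy, hyA⟩ := factor_fin hσ2 hσ (A := Matrix.reindexAlgEquiv K K e A)
    (by rw [Matrix.coe_reindexAlgEquiv, H_reindex, hA]) (hAu.map (Matrix.reindexAlgEquiv K K e))
  refine ⟨Matrix.reindexAlgEquiv K K e.symm y, hy.map _, ?_⟩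
  rw [Matrix.coe_reindexAlgEquiv, H_reindex, ← Matrix.coe_reindexAlgEquiv K, ← map_mul, hyA,
    Matrix.coe_reindexAlgEquiv, Matrix.coe_reindexAlgEquiv, Matrix.reindex_apply, Matrix.reindex_apply,
    Matrix.submatrix_submatrix]
  simp

/-- The adjoint for the form with matrix `G`. -/
noncomputable def st (σ : K →+* K) (G X : Matrix ι ι K) : Matrix ι ι K := G⁻¹ * H σ X * G

variable {G : Matrix ι ι K} (hG : IsUnit G.det)
include hG

theorem mul_st (X : Matrix ι ι K) : G * st σ G X = H σ X * G := by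
  rw [st, ← mul_assoc, ← mul_assoc, Matrix.mul_nonsing_inv _ hG, one_mul]

theorem eq_st {X W : Matrix ι ι K} (h : G * W = H σ X * G) : W = st σ G X := by
  rw [st, mul_assoc, ← h, ← mul_assoc, Matrix.nonsing_inv_mul _ hG, one_mul]

theorem st_mul (X Y : Matrix ι ι K) : st σ G (X * Y) = st σ G Y * st σ G X :=
  (eq_st hG (by rw [← mul_assoc, mul_st hG, mul_assoc, mul_st hG, ← mul_assoc, H_mul])).symm

theorem st_one : st σ G 1 = 1 := (eq_st hG (by rw [H_one, mul_one, one_mul])).symm

theorem st_st (hσ2 : ∀ c, σ (σ c) = c) (hGH : H σ G = G) (X : Matrix ι ι K) : st σ G (st σ G X) = X := by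
  refine (eq_st hG ?_).symm
  have h := congrArg (H σ) (mul_st hG (σ := σ) X)
  rw [H_mul, H_mul, H_H σ hσ2, hGH] at h
  exact h.symm

theorem st_add (X Y : Matrix ι ι K) : st σ G (X + Y) = st σ G X + st σ G Y := by
  rw [st, H_add, mul_add, add_mul]; rfl

theorem st_sub (X Y : Matrix ι ι K) : st σ G (X - Y) = st σ G X - st σ G Y := by
  rw [st, H_sub, mul_sub, sub_mul]; rfl

theorem st_smul (c : K) (X : Matrix ι ι K) : st σ G (c • X) = σ c • st σ G X := by
  rw [st, H_smul, mul_smul_comm, smul_mul_assoc]; rfl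

/-- Transporting to the standard form. -/
theorem conj_st {z : Matrix ι ι K} (hz : H σ z * z = G) {z' : Matrix ι ι K} (hzz : z * z' = 1)
    (X : Matrix ι ι K) : z * st σ G X * z' = H σ (z * X * z') := by
  have hHz : H σ z' * H σ z = 1 := by rw [← H_mul, hzz, H_one]
  calc z * st σ G X * z' = H σ z' * (H σ z * z) * st σ G X * z' := by rw [← mul_assoc (H σ z'), hHz, one_mul]
    _ = H σ z' * (G * st σ G X) * z' := by rw [hz]; simp only [mul_assoc]
    _ = H σ z' * H σ X * H σ z := by
      rw [mul_st hG, ← hz]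
      simp only [mul_assoc]
      rw [hzz, mul_one]
    _ = _ := by rw [H_mul, H_mul, mul_assoc]

end General

variable {K : Type*} [Field K] {σ : K →+* K} {t : ℕ} {d : Fin t → ℕ}

/-- The block coefficients. -/
def blk (σ : K →+* K) (c : ℕ → K) (d : Fin t → ℕ) (k : Fin t) (a b : ℕ) : K :=
  c (d k) * JordanTypeForms.g0 (d k) a b + σ (c (d k)) * JordanTypeForms.g0 (d k) b a

/-- The invariant hermitian matrix. -/
def Gram (σ : K →+* K) (c : ℕ → K) (d : Fin t → ℕ) : Matrix (Idx d) (Idx d) K :=
  JordanTypeForms.M d id (blk σ c d)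

theorem map_g0 (n a b : ℕ) : σ (JordanTypeForms.g0 n a b : K) = JordanTypeForms.g0 n a b := by
  simp [JordanTypeForms.g0, apply_ite σ]

/-- The coefficient condition. -/
def Good (σ : K →+* K) (c : ℕ → K) : Prop := ∀ j, c j + (-1) ^ (j + 1) * σ (c j) ≠ 0

theorem exists_good (hσ2 : ∀ x, σ (σ x) = x) (hσ : σ ≠ RingHom.id K) : ∃ c, Good σ c := by
  have hne : ∃ x, σ x ≠ x := by
    by_contra h
    push Not at h
    exact hσ (RingHom.ext h)
  obtain ⟨θ, hθ⟩ := exists_trace_one hσ2 hne
  obtain ⟨x, hx⟩ := hne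
  refine ⟨fun j => if Even (j + 1) then θ else x, fun j => ?_⟩
  simp only
  split_ifs with h
  · rw [h.neg_one_pow, one_mul, hθ]; exact one_ne_zero
  · rw [(Nat.not_even_iff_odd.1 h).neg_one_pow, neg_one_mul, ← sub_eq_add_neg]
    exact sub_ne_zero.2 fun h' => hx h'.symm

theorem inv_blk {c : ℕ → K} (hc : Good σ c) (k : Fin t) :
    JordanTypeForms.Inv (d k) (blk σ c d k) := by
  have h0 := JordanTypeForms.inv_g0 (F := K) (d k)
  refine ⟨fun a b h => ?_, fun a b => ?_, fun a b h => ?_⟩
  · rw [blk, h0.zero a b h, h0.zero b a (by omega), mul_zero, mul_zero, add_zero]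
  · simp only [blk]
    linear_combination c (d k) * h0.rel a b + σ (c (d k)) * h0.rel b a
  · simp only [blk, JordanTypeForms.g0]
    rw [if_pos (by omega), if_pos (by omega), show d k - 1 - a = b by omega, show d k - 1 - b = a by omega,
      Nat.choose_self, Nat.choose_self, Nat.cast_one, mul_one, mul_one]
    have hp : ((-1 : K)) ^ a = (-1) ^ (d k + 1) * (-1) ^ b := by
      rw [← pow_add, show d k + 1 + b = a + 2 * (b + 1) by omega, pow_add, pow_mul]
      simp
    rw [hp, show c (d k) * (-1) ^ b + σ (c (d k)) * ((-1) ^ (d k + 1) * (-1) ^ b) =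
      (c (d k) + (-1) ^ (d k + 1) * σ (c (d k))) * (-1) ^ b by ring]
    exact mul_ne_zero (hc _) (pow_ne_zero _ (neg_ne_zero.2 one_ne_zero))

variable {c : ℕ → K} (hc : Good σ c)

theorem Gram_H (hσ2 : ∀ x, σ (σ x) = x) : H σ (Gram σ c d) = Gram σ c d := by
  ext ⟨k, i⟩ ⟨l, j⟩
  simp only [H, Gram, JordanTypeForms.M, transpose_apply, Matrix.map_apply, of_apply, id_eq]
  by_cases h : l = k
  · subst h
    rw [if_pos rfl, if_pos rfl]
    simp only [blk, map_add, map_mul, map_g0, hσ2]
    ring
  · rw [if_neg (Ne.symm h), if_neg h, map_zero]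

theorem jordan_map : (Cfsg.jordanTypeMatrix d K).map σ = Cfsg.jordanTypeMatrix d K := by
  rw [jordanType_eq]
  ext x y
  simp [E, Matrix.one_apply, apply_ite σ]

include hc in
theorem Gram_det : IsUnit (Gram σ c d).det :=
  JordanTypeForms.M_det (σ := id) (fun _ => rfl) (fun _ => rfl) _ (inv_blk hc)

include hc in
theorem Gram_inv : H σ (Cfsg.jordanTypeMatrix d K) * Gram σ c d * Cfsg.jordanTypeMatrix d K = Gram σ c d := by
  rw [H, jordan_map]
  exact JordanTypeForms.M_invariant (σ := id) (fun _ => rfl) _ (inv_blk hc)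

/-- Commuting with the shift. -/
def Com (d : Fin t → ℕ) (X : Matrix (Idx d) (Idx d) K) : Prop := X * E d K = E d K * X

theorem com_iff (X : Matrix (Idx d) (Idx d) K) :
    Com d X ↔ X * Cfsg.jordanTypeMatrix d K = Cfsg.jordanTypeMatrix d K * X := by
  rw [Com, jordanType_eq, mul_add, add_mul, mul_one, one_mul, add_right_inj]

theorem com_one : Com d (1 : Matrix (Idx d) (Idx d) K) := by rw [Com, one_mul, mul_one]

theorem Com.mul {X Y : Matrix (Idx d) (Idx d) K} (hX : Com d X) (hY : Com d Y) : Com d (X * Y) :=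
  (show Commute X (E d K) from hX).mul_left hY

theorem Com.add {X Y : Matrix (Idx d) (Idx d) K} (hX : Com d X) (hY : Com d Y) : Com d (X + Y) :=
  (show Commute X (E d K) from hX).add_left hY

theorem Com.sub {X Y : Matrix (Idx d) (Idx d) K} (hX : Com d X) (hY : Com d Y) : Com d (X - Y) :=
  (show Commute X (E d K) from hX).sub_left hY

theorem Com.smul {X : Matrix (Idx d) (Idx d) K} (hX : Com d X) (r : K) : Com d (r • X) :=
  (show Commute X (E d K) from hX).smul_left r

include hc in
theorem com_st {X : Matrix (Idx d) (Idx d) K} (hX : Com d X) : Com d (st σ (Gram σ c d) X) := by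
  set J := Cfsg.jordanTypeMatrix d K
  set G := Gram σ c d
  have hinv : H σ J * G * J = G := Gram_inv hc
  have hG : IsUnit G.det := Gram_det hc
  have hJu : IsUnit (H σ J) := by
    refine IsUnit.of_mul_eq_one (G * J * G⁻¹) ?_
    rw [← mul_assoc, ← mul_assoc, hinv, Matrix.mul_nonsing_inv _ hG]
  rw [com_iff]
  refine ((Matrix.isUnit_iff_isUnit_det _).2 hG).mul_left_cancel (hJu.mul_left_cancel ?_)
  have hcomm : H σ J * H σ X = H σ X * H σ J := by
    rw [← H_mul, (com_iff X).1 hX, H_mul]
  calc H σ J * (G * (st σ G X * J)) = H σ J * H σ X * (G * J) := by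
        rw [← mul_assoc G, mul_st hG]; simp only [mul_assoc]
    _ = H σ X * (H σ J * G * J) := by rw [hcomm]; simp only [mul_assoc]
    _ = H σ J * G * J * st σ G X := by rw [hinv, mul_st hG]
    _ = H σ J * (G * (J * st σ G X)) := by simp only [mul_assoc]

variable (hd : ∀ k, 1 ≤ d k)

include hc in
theorem top_st {X : Matrix (Idx d) (Idx d) K} (hX : Com d X) (i : ℕ) :
    top d hd i (col hd (st σ (Gram σ c d) X)) = H σ (top d hd i (col hd X)) := by
  ext ⟨k, hk⟩ ⟨l, hl⟩
  have hi : 1 ≤ i := hk ▸ hd k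
  have h := congrFun (congrFun (mul_st (Gram_det (d := d) hc) (σ := σ) X) ⟨k, ⟨d k - 1, by omega⟩⟩) ⟨l, ⟨0, hd l⟩⟩
  rw [Matrix.mul_apply, Matrix.mul_apply,
    Finset.sum_eq_single (⟨k, ⟨0, hd k⟩⟩ : Idx d) (fun z _ hz => ?_) (by simp),
    Finset.sum_eq_single (⟨l, ⟨d l - 1, by omega⟩⟩ : Idx d) (fun z _ hz => ?_) (by simp)] at h
  · have hT : X ⟨l, ⟨d l - 1, by omega⟩⟩ ⟨k, ⟨d k - 1, by omega⟩⟩ = col hd X ⟨l, ⟨0, hd l⟩⟩ k := by
      conv_lhs => rw [(eq_T hd hX).1]
      simp only [T, of_apply]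
      rw [dif_pos (by omega)]
      exact congrArg (fun a : Fin (d l) => col hd X ⟨l, a⟩ k) (Fin.ext (by simp; omega))
    simp only [Gram, JordanTypeForms.M, H, transpose_apply, Matrix.map_apply, of_apply, id_eq, if_true, hT] at h
    rw [show blk σ c d l (d l - 1) 0 = blk σ c d k (d k - 1) 0 by simp only [blk, hk, hl],
      mul_comm (σ _)] at h
    have hne : blk σ c d k (d k - 1) 0 ≠ 0 := (inv_blk hc k).anti _ _ (by omega)
    simp only [top, of_apply, H, transpose_apply, Matrix.map_apply]
    exact mul_left_cancel₀ hne h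
  · obtain ⟨m, a⟩ := z
    simp only [Gram, JordanTypeForms.M, of_apply, id_eq]
    split_ifs with hm
    · subst hm
      rcases Nat.eq_zero_or_pos a.1 with ha | ha
      · rcases lt_or_ge a.1 (d l - 1) with h1 | h1
        · simp only [H, transpose_apply, Matrix.map_apply]
          rw [(eq_T hd hX).1]
          simp only [T, of_apply]
          rw [dif_neg (by omega), map_zero, zero_mul]
        · exact absurd (congrArg (Sigma.mk l) (Fin.ext (by simp; omega))) hz
      · rcases lt_or_ge a.1 (d l - 1) with h1 | h1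
        · simp only [H, transpose_apply, Matrix.map_apply]
          rw [(eq_T hd hX).1]
          simp only [T, of_apply]
          rw [dif_neg (by omega), map_zero, zero_mul]
        · exact absurd (congrArg (Sigma.mk l) (Fin.ext (by simp; omega))) hz
    · rw [mul_zero]
  · obtain ⟨m, a⟩ := z
    simp only [Gram, JordanTypeForms.M, of_apply, id_eq]
    split_ifs with hm
    · subst hm
      have ha : a.1 ≠ 0 := fun h0 => hz (congrArg (Sigma.mk m) (Fin.ext h0))
      rw [(inv_blk hc m).zero _ _ (by omega), zero_mul]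
    · rw [zero_mul]

include hd in
/-- Elements of the commutant with vanishing top coefficients are nilpotent. -/
theorem nilpotent_of_top {X : Matrix (Idx d) (Idx d) K} (hX : Com d X)
    (htop : ∀ i, top d hd i (col hd X) = 0) : IsNilpotent X := by
  classical
  set M := Finset.univ.sup d
  have hM : ∀ k, d k ≤ M := fun k => Finset.le_sup (Finset.mem_univ k)
  let w : Idx d → ℕ := fun x => x.2.1 * (M + 1) + (M - d x.1)
  have hstep : ∀ x y, X x y ≠ 0 → w y < w x := by
    intro x y h
    rw [(eq_T hd hX).1] at h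
    simp only [T, of_apply] at h
    split_ifs at h with hle
    · rcases lt_or_eq_of_le hle with hlt | heq
      · have := Nat.mul_le_mul_right (M + 1) (show y.2.1 + 1 ≤ x.2.1 from hlt)
        simp only [w]
        rw [add_mul] at this
        omega
      · have hok := (eq_T hd hX).2
        have e : (⟨x.1, ⟨x.2.1 - y.2.1, by omega⟩⟩ : Idx d) = ⟨x.1, ⟨0, hd x.1⟩⟩ :=
          congrArg (Sigma.mk x.1) (Fin.ext (by simp; omega))
        rw [e] at h
        have h1 : ¬ d y.1 < d x.1 := fun hlt => h (hok _ _ (by simpa using hlt))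
        have h2 : d y.1 ≠ d x.1 := fun he => h (by
          have := congrFun (congrFun (htop (d x.1)) ⟨x.1, rfl⟩) ⟨y.1, he⟩
          simpa [top] using this)
        have := hM y.1
        simp only [w]
        rw [heq]
        omega
    · exact absurd rfl h
  have key : ∀ (n : ℕ) x y, (X ^ n) x y ≠ 0 → n + w y ≤ w x := by
    intro n
    induction n with
    | zero =>
      intro x y h
      rw [pow_zero, Matrix.one_apply] at h
      split_ifs at h with he
      · rw [he, zero_add]
      · exact absurd rfl h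
    | succ n ih =>
      intro x y h
      rw [pow_succ, Matrix.mul_apply] at h
      obtain ⟨z, -, hz⟩ := Finset.exists_ne_zero_of_sum_ne_zero h
      obtain ⟨h1, h2⟩ := mul_ne_zero_iff.1 hz
      have := ih x z h1
      have := hstep z y h2
      omega
  refine ⟨Finset.univ.sup w + 1, Matrix.ext fun x y => ?_⟩
  by_contra h
  have := key _ x y h
  have := Finset.le_sup (f := w) (Finset.mem_univ x)
  omega

end Cfsg.Agent.Linear.HermJordan
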