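import Cfsg.Agent.Linear.IsoAlternating

/-! # `PSL_4(2) ≅ A_8`: the action on the eight heptads of the Klein quadric -/

set_option maxRecDepth 10000
set_option maxHeartbeats 4000000

namespace Cfsg.Agent.Linear

open Matrix

/-- Congruence on finite sets of matrices. -/
def congAct {F : Type*} [Field F] [DecidableEq F] {n : Type*} [Fintype n] [DecidableEq n]
    (g : SpecialLinearGroup n F) (S : Finset (Matrix n n F)) : Finset (Matrix n n F) :=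
  S.image fun M => g.1 * M * g.1ᵀ

lemma congAct_one {F : Type*} [Field F] [DecidableEq F] {n : Type*} [Fintype n] [DecidableEq n]
    (S : Finset (Matrix n n F)) : congAct (1 : SpecialLinearGroup n F) S = S := by
  simp [congAct]

lemma congAct_mul {F : Type*} [Field F] [DecidableEq F] {n : Type*} [Fintype n] [DecidableEq n]
    (g h : SpecialLinearGroup n F) (S : Finset (Matrix n n F)) :
    congAct (g * h) S = congAct g (congAct h S) := by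
  simp [congAct, Finset.image_image, Function.comp_def, Matrix.mul_assoc]

/-- A Boolean as an element of `ZMod 2`. -/
def b2z (b : Bool) : ZMod 2 := bif b then 1 else 0

lemma b2z_xor : ∀ a b : Bool, b2z (a ^^ b) = b2z a + b2z b := by decide

lemma b2z_injective : Function.Injective b2z := by decide

/-- Entry `(x, y)` of a `4 × 4` bit matrix coded by a number. -/
def entry (m x y : ℕ) : Bool := Nat.testBit m (4 * x + y)

/-- The matrix with a given code. -/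
def decM (m : ℕ) : Matrix (Fin 4) (Fin 4) (ZMod 2) := Matrix.of fun x y => b2z (entry m x y)

/-- Entry `(x, y)` of `T_ij(1) M T_ij(1)ᵀ`. -/
def congEntry (i j m x y : ℕ) : Bool :=
  entry m x y ^^ (bif x == i then entry m j y else false)
    ^^ (bif y == i then entry m x j else false)
    ^^ (bif x == i && y == i then entry m j j else false)

lemma congEntry_eq (i j : Fin 4) (h : i ≠ j) (m : ℕ) (x y : Fin 4) :
    (Matrix.transvection i j (1 : ZMod 2) * decM m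
      * (Matrix.transvection i j (1 : ZMod 2))ᵀ) x y = b2z (congEntry i j m x y) := by
  have hT : (Matrix.transvection i j (1 : ZMod 2))ᵀ = Matrix.transvection j i 1 := by
    simp [Matrix.transvection]
  rw [hT]
  rcases eq_or_ne y i with hy | hy <;> rcases eq_or_ne x i with hx | hx
  · subst hx hy
    simp [congEntry, transvection_mul_apply_same, mul_transvection_apply_same, decM, b2z_xor]
    try abel
  · subst hy
    have hxb : ((x : ℕ) == (y : ℕ)) = false := beq_eq_false_iff_ne.2 (Fin.val_ne_of_ne hx)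
    simp [congEntry, transvection_mul_apply_of_ne, mul_transvection_apply_same, hx, hxb,
      decM, b2z_xor]
  · subst hx
    have hyb : ((y : ℕ) == (x : ℕ)) = false := beq_eq_false_iff_ne.2 (Fin.val_ne_of_ne hy)
    simp [congEntry, transvection_mul_apply_same, mul_transvection_apply_of_ne, hy, hyb,
      decM, b2z_xor]
  · have hxb : ((x : ℕ) == (i : ℕ)) = false := beq_eq_false_iff_ne.2 (Fin.val_ne_of_ne hx)
    have hyb : ((y : ℕ) == (i : ℕ)) = false := beq_eq_false_iff_ne.2 (Fin.val_ne_of_ne hy)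
    simp [congEntry, transvection_mul_apply_of_ne, mul_transvection_apply_of_ne, hx, hy,
      hxb, hyb, decM]

lemma congr_decM {i j : Fin 4} (h : i ≠ j) {m m' : ℕ}
    (he : ∀ x y : Fin 4, congEntry i j m x y = entry m' x y) :
    Matrix.transvection i j (1 : ZMod 2) * decM m * (Matrix.transvection i j (1 : ZMod 2))ᵀ
      = decM m' :=
  Matrix.ext fun x y => (congEntry_eq i j h m x y).trans (congrArg b2z (he x y))

/-- Codes of the eight heptads of non-singular alternating forms. -/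
def a8Codes : List (List ℕ) :=
  [[4680, 9156, 31116, 27346, 22554, 19286, 12702],
   [4680, 27588, 12684, 19026, 30874, 9174, 22814],
   [23112, 9156, 12684, 26770, 4698, 18710, 31710],
   [23112, 27588, 31116, 18450, 13018, 8598, 4958],
   [13000, 8580, 23372, 27346, 30874, 18710, 4958],
   [13000, 27012, 4940, 19026, 22554, 8598, 31710],
   [31432, 8580, 4940, 26770, 13018, 19286, 22814],
   [31432, 27012, 23372, 18450, 4698, 9174, 12702]]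

/-- The eight heptads. -/
def a8List : List (List (Matrix (Fin 4) (Fin 4) (ZMod 2))) := a8Codes.map fun o => o.map decM

/-- The index table of the action of `T_ij(1)`, at position `4 i + j`. -/
def a8Cert : List (List (ℕ × List ℕ)) :=
  [[(0, [0, 1, 2, 3, 4, 5, 6]), (1, [0, 1, 2, 3, 4, 5, 6]), (2, [0, 1, 2, 3, 4, 5, 6]), (3, [0, 1, 2, 3, 4, 5, 6]), (4, [0, 1, 2, 3, 4, 5, 6]), (5, [0, 1, 2, 3, 4, 5, 6]), (6, [0, 1, 2, 3, 4, 5, 6]), (7, [0, 1, 2, 3, 4, 5, 6])],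
   [(5, [2, 0, 1, 6, 4, 3, 5]), (6, [2, 0, 1, 5, 3, 4, 6]), (4, [2, 0, 1, 4, 6, 5, 3]), (7, [2, 0, 1, 3, 5, 6, 4]), (2, [1, 2, 0, 6, 3, 5, 4]), (0, [1, 2, 0, 5, 4, 6, 3]), (1, [1, 2, 0, 4, 5, 3, 6]), (3, [1, 2, 0, 3, 6, 4, 5])],
   [(7, [4, 5, 1, 0, 3, 2, 6]), (2, [4, 6, 2, 0, 3, 1, 5]), (1, [3, 5, 2, 4, 0, 6, 1]), (5, [3, 6, 1, 4, 0, 5, 2]), (6, [4, 1, 5, 0, 3, 6, 2]), (3, [4, 2, 6, 0, 3, 5, 1]), (4, [3, 1, 6, 4, 0, 2, 5]), (0, [3, 2, 5, 4, 0, 1, 6])],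
   [(1, [0, 5, 4, 1, 6, 3, 2]), (0, [0, 3, 6, 5, 2, 1, 4]), (7, [2, 5, 6, 1, 4, 3, 0]), (4, [2, 3, 4, 5, 0, 1, 6]), (3, [4, 5, 0, 1, 2, 3, 6]), (6, [4, 3, 2, 5, 6, 1, 0]), (5, [6, 5, 2, 1, 0, 3, 4]), (2, [6, 3, 0, 5, 4, 1, 2])],
   [(4, [0, 1, 2, 3, 4, 5, 6]), (5, [0, 1, 2, 3, 4, 5, 6]), (6, [0, 1, 2, 3, 4, 5, 6]), (7, [0, 1, 2, 3, 4, 5, 6]), (0, [0, 1, 2, 3, 4, 5, 6]), (1, [0, 1, 2, 3, 4, 5, 6]), (2, [0, 1, 2, 3, 4, 5, 6]), (3, [0, 1, 2, 3, 4, 5, 6])],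
   [(0, [0, 1, 2, 3, 4, 5, 6]), (1, [0, 1, 2, 3, 4, 5, 6]), (2, [0, 1, 2, 3, 4, 5, 6]), (3, [0, 1, 2, 3, 4, 5, 6]), (4, [0, 1, 2, 3, 4, 5, 6]), (5, [0, 1, 2, 3, 4, 5, 6]), (6, [0, 1, 2, 3, 4, 5, 6]), (7, [0, 1, 2, 3, 4, 5, 6])],
   [(1, [0, 5, 6, 3, 4, 1, 2]), (0, [0, 5, 6, 3, 4, 1, 2]), (7, [0, 5, 6, 3, 4, 1, 2]), (6, [0, 5, 6, 3, 4, 1, 2]), (5, [0, 5, 6, 3, 4, 1, 2]), (4, [0, 5, 6, 3, 4, 1, 2]), (3, [0, 5, 6, 3, 4, 1, 2]), (2, [0, 5, 6, 3, 4, 1, 2])],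
   [(2, [4, 1, 6, 3, 0, 5, 2]), (7, [4, 1, 6, 3, 0, 5, 2]), (0, [4, 1, 6, 3, 0, 5, 2]), (5, [4, 1, 6, 3, 0, 5, 2]), (6, [4, 1, 6, 3, 0, 5, 2]), (3, [4, 1, 6, 3, 0, 5, 2]), (4, [4, 1, 6, 3, 0, 5, 2]), (1, [4, 1, 6, 3, 0, 5, 2])],
   [(2, [0, 1, 2, 3, 4, 5, 6]), (3, [0, 1, 2, 3, 4, 5, 6]), (0, [0, 1, 2, 3, 4, 5, 6]), (1, [0, 1, 2, 3, 4, 5, 6]), (6, [0, 1, 2, 3, 4, 5, 6]), (7, [0, 1, 2, 3, 4, 5, 6]), (4, [0, 1, 2, 3, 4, 5, 6]), (5, [0, 1, 2, 3, 4, 5, 6])],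
   [(1, [0, 1, 2, 5, 6, 3, 4]), (0, [0, 1, 2, 5, 6, 3, 4]), (3, [0, 1, 2, 5, 6, 3, 4]), (2, [0, 1, 2, 5, 6, 3, 4]), (7, [0, 1, 2, 5, 6, 3, 4]), (6, [0, 1, 2, 5, 6, 3, 4]), (5, [0, 1, 2, 5, 6, 3, 4]), (4, [0, 1, 2, 5, 6, 3, 4])],
   [(0, [0, 1, 2, 3, 4, 5, 6]), (1, [0, 1, 2, 3, 4, 5, 6]), (2, [0, 1, 2, 3, 4, 5, 6]), (3, [0, 1, 2, 3, 4, 5, 6]), (4, [0, 1, 2, 3, 4, 5, 6]), (5, [0, 1, 2, 3, 4, 5, 6]), (6, [0, 1, 2, 3, 4, 5, 6]), (7, [0, 1, 2, 3, 4, 5, 6])],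
   [(6, [2, 1, 0, 3, 6, 5, 4]), (5, [2, 1, 0, 3, 6, 5, 4]), (4, [2, 1, 0, 3, 6, 5, 4]), (7, [2, 1, 0, 3, 6, 5, 4]), (2, [2, 1, 0, 3, 6, 5, 4]), (1, [2, 1, 0, 3, 6, 5, 4]), (0, [2, 1, 0, 3, 6, 5, 4]), (3, [2, 1, 0, 3, 6, 5, 4])],
   [(1, [0, 1, 2, 3, 4, 5, 6]), (0, [0, 1, 2, 3, 4, 5, 6]), (3, [0, 1, 2, 3, 4, 5, 6]), (2, [0, 1, 2, 3, 4, 5, 6]), (5, [0, 1, 2, 3, 4, 5, 6]), (4, [0, 1, 2, 3, 4, 5, 6]), (7, [0, 1, 2, 3, 4, 5, 6]), (6, [0, 1, 2, 3, 4, 5, 6])],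
   [(3, [0, 1, 2, 4, 3, 6, 5]), (2, [0, 1, 2, 4, 3, 6, 5]), (1, [0, 1, 2, 4, 3, 6, 5]), (0, [0, 1, 2, 4, 3, 6, 5]), (6, [0, 1, 2, 4, 3, 6, 5]), (7, [0, 1, 2, 4, 3, 6, 5]), (4, [0, 1, 2, 4, 3, 6, 5]), (5, [0, 1, 2, 4, 3, 6, 5])],
   [(5, [0, 2, 1, 3, 4, 6, 5]), (4, [0, 2, 1, 3, 4, 6, 5]), (6, [0, 2, 1, 3, 4, 6, 5]), (7, [0, 2, 1, 3, 4, 6, 5]), (1, [0, 2, 1, 3, 4, 6, 5]), (0, [0, 2, 1, 3, 4, 6, 5]), (2, [0, 2, 1, 3, 4, 6, 5]), (3, [0, 2, 1, 3, 4, 6, 5])],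
   [(0, [0, 1, 2, 3, 4, 5, 6]), (1, [0, 1, 2, 3, 4, 5, 6]), (2, [0, 1, 2, 3, 4, 5, 6]), (3, [0, 1, 2, 3, 4, 5, 6]), (4, [0, 1, 2, 3, 4, 5, 6]), (5, [0, 1, 2, 3, 4, 5, 6]), (6, [0, 1, 2, 3, 4, 5, 6]), (7, [0, 1, 2, 3, 4, 5, 6])]]

/-- Target set index. -/
def a8Sigma (s a : ℕ) : ℕ := ((a8Cert.getD s []).getD a (0, [])).1

/-- Target element index. -/
def a8Pi (s a k : ℕ) : ℕ := ((a8Cert.getD s []).getD a (0, [])).2.getD k 0

lemma a8_shape0 : a8Codes.length = 8 ∧ (∀ a : Fin 8, (a8Codes.getD a []).length = 7) := by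
  decide +kernel

lemma a8_codes_inj : ∀ a ∈ a8Codes.flatten, ∀ b ∈ a8Codes.flatten,
    (∀ x y : Fin 4, entry a x y = entry b x y) → a = b := by decide +kernel

lemma a8_nodup : ∀ o ∈ a8Codes, o.Nodup := by decide +kernel

lemma a8_distinct : a8Codes.Nodup ∧ ∀ o ∈ a8Codes, ∀ o' ∈ a8Codes, o ≠ o' →
    ∃ m ∈ o, m ∉ o' := by decide +kernel

lemma a8_cert0 : ∀ i j : Fin 4, i ≠ j → ∀ a : Fin 8, a8Sigma (4 * i + j) a < 8 ∧
    ∀ k : Fin 7, a8Pi (4 * i + j) a k < 7 ∧ ∀ x y : Fin 4,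
      congEntry i j ((a8Codes.getD a []).getD k 0) x y =
        entry ((a8Codes.getD (a8Sigma (4 * i + j) a) []).getD (a8Pi (4 * i + j) a k) 0) x y := by
  decide +kernel

lemma decM_inj_on {a b : ℕ} (ha : a ∈ a8Codes.flatten) (hb : b ∈ a8Codes.flatten)
    (h : decM a = decM b) : a = b :=
  a8_codes_inj a ha b hb fun x y => b2z_injective (congr_fun₂ h x y)

lemma getD_map_map {α β : Type*} (f : α → β) (L : List (List α)) {a : ℕ} (ha : a < L.length) :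
    (L.map fun o => o.map f).getD a [] = (L.getD a []).map f := by
  simp [List.getD_eq_getElem, ha]

lemma getD_map_of_lt {α β : Type*} (f : α → β) (o : List α) (d : α) (e : β) {k : ℕ}
    (hk : k < o.length) : (o.map f).getD k e = f (o.getD k d) := by
  simp [List.getD_eq_getElem, hk]

lemma a8List_getD (a : Fin 8) : a8List.getD a [] = (a8Codes.getD a []).map decM :=
  getD_map_map _ _ (a8_shape0.1.symm ▸ a.2)

lemma a8_getD_mem (a : Fin 8) : a8Codes.getD a [] ∈ a8Codes := by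
  rw [List.getD_eq_getElem _ _ (a8_shape0.1.symm ▸ a.2)]
  exact List.getElem_mem _

lemma a8_shape : a8List.length = 8 ∧ (∀ a : Fin 8, (a8List.getD a []).length = 7) ∧
    (∀ a : Fin 8, (a8List.getD a []).toFinset.card = 7) ∧ (ptsOf a8List).card = 8 := by
  have hlen : a8List.length = 8 := by rw [a8List, List.length_map, a8_shape0.1]
  refine ⟨hlen, fun a => ?_, fun a => ?_, ?_⟩
  · rw [a8List_getD, List.length_map, a8_shape0.2]
  · rw [a8List_getD, List.toFinset_card_of_nodup, List.length_map, a8_shape0.2]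
    exact (a8_nodup _ (a8_getD_mem a)).map_on fun x hx y hy h => decM_inj_on
      (List.mem_flatten.2 ⟨_, a8_getD_mem a, hx⟩) (List.mem_flatten.2 ⟨_, a8_getD_mem a, hy⟩) h
  · rw [ptsOf, List.toFinset_card_of_nodup, List.length_map, hlen]
    rw [a8List, List.map_map]
    refine a8_distinct.1.map_on fun o ho o' ho' he => ?_
    by_contra hne
    obtain ⟨m, hm, hm'⟩ := a8_distinct.2 o ho o' ho' hne
    simp only [Function.comp_apply] at he
    have : decM m ∈ (o'.map decM).toFinset :=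
      he ▸ List.mem_toFinset.2 (List.mem_map_of_mem hm)
    obtain ⟨k, hk, hk'⟩ := List.mem_map.1 (List.mem_toFinset.1 this)
    have := decM_inj_on (List.mem_flatten.2 ⟨_, ho', hk⟩) (List.mem_flatten.2 ⟨_, ho, hm⟩) hk'
    exact hm' (this ▸ hk)

lemma a8_cert (i j : Fin 4) (h : i ≠ j) : ∀ a : Fin 8, a8Sigma (4 * i + j) a < 8 ∧
    ∀ k : Fin 7, a8Pi (4 * i + j) a k < 7 ∧
      Matrix.transvection i j (1 : ZMod 2) * (a8List.getD a []).getD k 1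
          * (Matrix.transvection i j (1 : ZMod 2))ᵀ =
        (a8List.getD (a8Sigma (4 * i + j) a) []).getD (a8Pi (4 * i + j) a k) 1 := by
  intro a
  obtain ⟨hs, hk⟩ := a8_cert0 i j h a
  refine ⟨hs, fun k => ⟨(hk k).1, ?_⟩⟩
  rw [a8List_getD, a8List_getD ⟨_, hs⟩,
    getD_map_of_lt decM _ 0 1 (by rw [a8_shape0.2]; exact k.2),
    getD_map_of_lt decM _ 0 1 (by rw [a8_shape0.2 ⟨_, hs⟩]; exact (hk k).1)]
  exact congr_decM h (hk k).2

lemma a8_moved0 : ∃ o ∈ a8Codes, ∃ m ∈ o, ∀ m' ∈ o, ∃ x y : Fin 4,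
    congEntry 0 1 m x y ≠ entry m' x y := by decide +kernel

lemma a8_moved : ∃ x ∈ a8List, ∃ M ∈ x, ∀ N ∈ x,
    Matrix.transvection (0 : Fin 4) 1 (1 : ZMod 2) * M
      * (Matrix.transvection (0 : Fin 4) 1 (1 : ZMod 2))ᵀ ≠ N := by
  obtain ⟨o, ho, m, hm, hne⟩ := a8_moved0
  refine ⟨o.map decM, List.mem_map_of_mem ho, decM m, List.mem_map_of_mem hm, ?_⟩
  intro N hN he
  obtain ⟨m', hm', rfl⟩ := List.mem_map.1 hN
  obtain ⟨x, y, hxy⟩ := hne m' hm'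
  refine hxy (b2z_injective ?_)
  have := congr_fun₂ he x y
  rw [congEntry_eq 0 1 (by decide) m x y] at this
  exact this

lemma congAct_mem_of_cert {F : Type*} [Field F] [DecidableEq F] {n : Type*} [Fintype n]
    [DecidableEq n] (L : List (List (Matrix n n F))) (g : SpecialLinearGroup n F) {m k : ℕ}
    (hlen : L.length = m) (hk : ∀ a : Fin m, (L.getD a []).length = k)
    (hcard : ∀ a : Fin m, (L.getD a []).toFinset.card = k) (σ : ℕ → ℕ) (π : ℕ → ℕ → ℕ)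
    (h : ∀ a : Fin m, σ a < m ∧ ∀ i : Fin k, π a i < k ∧
      g.1 * (L.getD a []).getD i 1 * g.1ᵀ = (L.getD (σ a) []).getD (π a i) 1) :
    ∀ S ∈ ptsOf L, congAct g S ∈ ptsOf L := by
  intro S hS
  obtain ⟨x, hx, rfl⟩ := mem_ptsOf.1 hS
  obtain ⟨a, ha, rfl⟩ := List.mem_iff_getElem.1 hx
  have ea : L.getD a [] = L[a] := List.getD_eq_getElem _ _ ha
  obtain ⟨hy, hi⟩ := h ⟨a, hlen ▸ ha⟩
  simp only at hy hi
  have hyl : σ a < L.length := hlen.symm ▸ hy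
  have ey : L.getD (σ a) [] = L[σ a] := List.getD_eq_getElem _ _ hyl
  refine mem_ptsOf.2 ⟨L[σ a], List.getElem_mem hyl, (Finset.eq_of_subset_of_card_le ?_ ?_).symm⟩
  · intro N hN
    simp only [congAct, Finset.mem_image, List.mem_toFinset] at hN
    obtain ⟨M, hM, rfl⟩ := hN
    obtain ⟨i, hi', rfl⟩ := List.mem_iff_getElem.1 hM
    have hla : L[a].length = k := ea ▸ hk ⟨a, hlen ▸ ha⟩
    have hly : L[σ a].length = k := ey ▸ hk ⟨σ a, hy⟩
    obtain ⟨hlt, heq⟩ := hi ⟨i, hla ▸ hi'⟩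
    simp only [ea, ey] at heq hlt
    rw [List.getD_eq_getElem _ _ hi', List.getD_eq_getElem _ _ (hly.symm ▸ hlt)] at heq
    rw [heq]
    exact List.mem_toFinset.2 (List.getElem_mem _)
  · have c1 : L[a].toFinset.card = k := ea ▸ hcard ⟨a, hlen ▸ ha⟩
    have c2 : L[σ a].toFinset.card = k := ey ▸ hcard ⟨σ a, hy⟩
    rw [c2, ← c1, congAct, Finset.card_image_of_injective _ ?_]
    intro A B hAB
    have e := congrArg (fun Z => adjugate g.1 * Z * adjugate g.1ᵀ) hAB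
    have h1 : adjugate g.1 * g.1 = 1 := by rw [adjugate_mul, g.2, one_smul]
    have h2 : g.1ᵀ * adjugate g.1ᵀ = 1 := by rw [mul_adjugate, det_transpose, g.2, one_smul]
    simp only [Matrix.mul_assoc, h2, Matrix.mul_one] at e
    simpa [← Matrix.mul_assoc, h1] using e

theorem PSL4_two_iso {F : Type*} [Field F] [Fintype F] (hF : Fintype.card F = 2) :
    Nonempty (ProjectiveSpecialLinearGroup (Fin 4) F ≃* alternatingGroup (Fin 8)) := by
  have : IsSimpleGroup (ProjectiveSpecialLinearGroup (Fin 4) (ZMod 2)) :=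
    isSimpleGroup_PSL (by simp)
  have hinv : ∀ (i j : Fin 4) (h : i ≠ j) (c : ZMod 2), ∀ x ∈ ptsOf a8List,
      congAct (SpecialLinearGroup.transvection h c) x ∈ ptsOf a8List := by
    intro i j h c
    have key : ∀ r : ZMod 2, r = 0 ∨ r = 1 := by decide
    rcases key c with rfl | rfl
    · intro x hx
      rw [SpecialLinearGroup.transvection_coeff_zero, congAct_one]
      exact hx
    · exact congAct_mem_of_cert _ _ a8_shape.1 a8_shape.2.1 a8_shape.2.2.1 _ _ (a8_cert i j h)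
  let f := permHom congAct congAct_one congAct_mul (ptsOf a8List)
    (invariant_of_transvection congAct congAct_mul _ hinv)
  have hne : f ≠ 1 := by
    obtain ⟨x, hx, M, hM, hN⟩ := a8_moved
    intro he
    have h01 : (0 : Fin 4) ≠ 1 := by decide
    have h1 : congAct (SpecialLinearGroup.transvection h01 (1 : ZMod 2)) x.toFinset = x.toFinset :=
      congrArg Subtype.val (congrArg (fun g : _ →* Equiv.Perm (ptsOf a8List) =>
        g (SpecialLinearGroup.transvection h01 1) ⟨_, mem_ptsOf.2 ⟨x, hx, rfl⟩⟩) he)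
    have h2 : (SpecialLinearGroup.transvection h01 (1 : ZMod 2)).1 * M
        * (SpecialLinearGroup.transvection h01 (1 : ZMod 2)).1ᵀ ∈ x.toFinset :=
      h1 ▸ Finset.mem_image_of_mem _ (List.mem_toFinset.2 hM)
    exact hN _ (List.mem_toFinset.1 h2) rfl
  have hz : Subgroup.center (SpecialLinearGroup (Fin 4) (ZMod 2)) ≤ f.ker := by
    have : Subgroup.center (SpecialLinearGroup (Fin 4) (ZMod 2)) = ⊥ := by
      rw [← Subgroup.card_eq_one, card_center_SL]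
      rfl
    rw [this]
    exact bot_le
  have hc : 2 * Nat.card (ProjectiveSpecialLinearGroup (Fin 4) (ZMod 2)) = Nat.factorial 8 := by
    have h := card_PSL (F := ZMod 2) 4
    simp only [ZMod.card, Nat.gcd_one_right, Nat.reduceSub, one_mul, Fin.prod_univ_four] at h
    rw [h]
    decide
  obtain ⟨e⟩ := PSL_iso_alternating_of_perm f hz hne a8_shape.2.2.2 (by norm_num) hc
  exact ⟨(pslCongr (ZMod.ringEquivOfPrime F Nat.prime_two hF)).symm.trans e⟩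

end Cfsg.Agent.Linear
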