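import Cfsg.Agent.Linear.JordanTypeParity

/-!
# Jordan types of unipotent isometries: invariant forms of a prescribed type
-/

set_option autoImplicit false
set_option linter.unusedSectionVars false

namespace Cfsg.Agent.Linear.JordanTypeForms

open Matrix Module Cfsg.Agent.Linear.UnipotentCent

variable {F : Type*} [Field F]

/-- An invariant bilinear form of one Jordan block of size `d`. -/
structure Inv (d : ℕ) (g : ℕ → ℕ → F) : Prop where
  zero : ∀ a b, d ≤ a + b → g a b = 0
  rel : ∀ a b, g (a + 1) b + g a (b + 1) + g (a + 1) (b + 1) = 0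
  anti : ∀ a b, a + b + 1 = d → g a b ≠ 0

theorem Inv.swap {d : ℕ} {g : ℕ → ℕ → F} (h : Inv d g) : Inv d fun a b => g b a :=
  ⟨fun a b hab => h.zero b a (by omega), fun a b => by linear_combination h.rel b a,
    fun a b hab => h.anti b a (by omega)⟩

theorem Inv.neg {d : ℕ} {g : ℕ → ℕ → F} (h : Inv d g) : Inv d fun a b => -g a b :=
  ⟨fun a b hab => by rw [h.zero a b hab, neg_zero], fun a b => by linear_combination -h.rel a b,
    fun a b hab => neg_ne_zero.2 (h.anti a b hab)⟩

/-- The basic invariant form. -/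
def g0 (d a b : ℕ) : F := if a + b < d then (-1) ^ (d - 1 - a) * ((d - 1 - a).choose b : F) else 0

theorem inv_g0 (d : ℕ) : Inv d (g0 d : ℕ → ℕ → F) := by
  refine ⟨fun a b h => if_neg (by omega), fun a b => ?_, fun a b h => ?_⟩
  · by_cases h : a + 1 + b < d
    · obtain ⟨m, rfl⟩ : ∃ m, d = a + 1 + m + 1 := ⟨d - 1 - (a + 1), by omega⟩
      simp only [g0]
      rw [if_pos h, if_pos (by omega), show a + 1 + m + 1 - 1 - (a + 1) = m by omega,
        show a + 1 + m + 1 - 1 - a = m + 1 by omega]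
      split_ifs with h3
      · rw [pow_succ, Nat.choose_succ_succ, Nat.cast_add]
        ring
      · rw [pow_succ, Nat.choose_succ_succ, Nat.choose_eq_zero_of_lt (show m < b + 1 by omega), Nat.add_zero]
        ring
    · simp only [g0]
      rw [if_neg h, if_neg (by omega), if_neg (by omega)]
      simp
  · simp only [g0]
    rw [if_pos (by omega), show d - 1 - a = b by omega, Nat.choose_self, Nat.cast_one, mul_one]
    exact pow_ne_zero _ (neg_ne_zero.2 one_ne_zero)

/-- The symmetrised basic form. -/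
def s0 (d a b : ℕ) : F := g0 d a b + g0 d b a

theorem inv_s0 (h2 : (2 : F) ≠ 0) {d : ℕ} (hd : Odd d) : Inv d (s0 d : ℕ → ℕ → F) := by
  refine ⟨fun a b h => ?_, fun a b => ?_, fun a b h => ?_⟩
  · rw [s0, (inv_g0 d).zero a b h, (inv_g0 d).zero b a (by omega), add_zero]
  · simp only [s0]
    linear_combination (inv_g0 (F := F) d).rel a b + (inv_g0 (F := F) d).rel b a
  · have hpar : ((-1 : F)) ^ b = (-1) ^ a := by
      obtain ⟨c, rfl⟩ := hd
      rw [neg_one_pow_eq_pow_mod_two, neg_one_pow_eq_pow_mod_two (n := a), show b % 2 = a % 2 by omega]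
    simp only [s0, g0]
    rw [if_pos (by omega), if_pos (by omega), show d - 1 - a = b by omega, show d - 1 - b = a by omega,
      Nat.choose_self, Nat.choose_self, Nat.cast_one, mul_one, mul_one, hpar, ← two_mul]
    exact mul_ne_zero h2 (pow_ne_zero _ (neg_ne_zero.2 one_ne_zero))

/-- The strictly upper half of the alternating form of a block of even size. -/
def u (k a b : ℕ) : F :=
  if a < k ∧ a + b < 2 * k then (-1) ^ (k - 1 - a) * ((k - 1 - a).choose (2 * k - 1 - a - b) : F) else 0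

theorem u_rel (k a b : ℕ) :
    u k (a + 1) b + u k a (b + 1) + u k (a + 1) (b + 1) = if a + 1 = k ∧ b + 1 = k then (1 : F) else 0 := by
  simp only [u]
  by_cases h : a + b + 1 < 2 * k
  swap
  · rw [if_neg (by omega), if_neg (by omega), if_neg (by omega), if_neg (by omega)]
    simp
  by_cases ha : a + 1 < k
  · obtain ⟨m, rfl⟩ : ∃ m, k = a + 1 + m + 1 := ⟨k - a - 2, by omega⟩
    rw [if_pos (by omega), if_pos (by omega), if_neg (show ¬ (a + 1 = _ ∧ b + 1 = _) by omega),
      show a + 1 + m + 1 - 1 - (a + 1) = m by omega, show a + 1 + m + 1 - 1 - a = m + 1 by omega]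
    obtain ⟨j, hj⟩ : ∃ j, a + b + 2 + j = 2 * (a + 1 + m + 1) := ⟨2 * (a + 1 + m + 1) - (a + b + 2), by omega⟩
    rw [show 2 * (a + 1 + m + 1) - 1 - (a + 1) - b = j by omega,
      show 2 * (a + 1 + m + 1) - 1 - a - (b + 1) = j by omega]
    rcases j with _ | j
    · rw [if_neg (by omega), pow_succ]
      simp
    · rw [if_pos (by omega), show 2 * (a + 1 + m + 1) - 1 - (a + 1) - (b + 1) = j by omega, pow_succ,
        Nat.choose_succ_succ, Nat.cast_add]
      ring
  · rw [if_neg (show ¬ (a + 1 < k ∧ a + 1 + b < 2 * k) by omega),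
      if_neg (show ¬ (a + 1 < k ∧ a + 1 + (b + 1) < 2 * k) by omega), zero_add, add_zero]
    by_cases hak : a + 1 = k
    · subst hak
      rw [if_pos (by omega), show a + 1 - 1 - a = 0 by omega, pow_zero, one_mul]
      by_cases hb : b = a
      · subst hb
        rw [if_pos ⟨rfl, rfl⟩, show 2 * (b + 1) - 1 - b - (b + 1) = 0 by omega]
        simp
      · rw [if_neg (by omega), Nat.choose_eq_zero_of_lt (by omega), Nat.cast_zero]
    · rw [if_neg (by omega), if_neg (by omega)]

/-- The alternating form of a block of even size. -/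
def h0 (k a b : ℕ) : F := u k a b - u k b a

theorem inv_h0 (k : ℕ) : Inv (2 * k) (h0 k : ℕ → ℕ → F) := by
  refine ⟨fun a b h => ?_, fun a b => ?_, fun a b h => ?_⟩
  · simp only [h0, u]
    rw [if_neg (by omega), if_neg (by omega), sub_zero]
  · simp only [h0]
    have h1 := u_rel (F := F) k a b
    have h2 := u_rel (F := F) k b a
    rw [if_congr (show (b + 1 = k ∧ a + 1 = k) ↔ (a + 1 = k ∧ b + 1 = k) from and_comm) rfl rfl] at h2
    linear_combination h1 - h2
  · simp only [h0, u]
    by_cases ha : a < k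
    · rw [if_pos ⟨ha, by omega⟩, if_neg (by omega), show 2 * k - 1 - a - b = 0 by omega, Nat.choose_zero_right,
        Nat.cast_one, mul_one, sub_zero]
      exact pow_ne_zero _ (neg_ne_zero.2 one_ne_zero)
    · rw [if_neg (by omega), if_pos ⟨by omega, by omega⟩, show 2 * k - 1 - b - a = 0 by omega,
        Nat.choose_zero_right, Nat.cast_one, mul_one, zero_sub]
      exact neg_ne_zero.2 (pow_ne_zero _ (neg_ne_zero.2 one_ne_zero))

variable {t : ℕ}

theorem exists_pairing (d : Fin t → ℕ) : ∃ σ : Fin t → Fin t, (∀ k, σ (σ k) = k) ∧ (∀ k, d (σ k) = d k) ∧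
    ∀ k, σ k = k → Odd (Finset.univ.filter (fun l : Fin t => d l = d k)).card := by
  classical
  let e := fun j : ℕ => Fintype.equivFin {l : Fin t // d l = j}
  let σ : Fin t → Fin t := fun k => ((e (d k)).symm (Fin.rev (e (d k) ⟨k, rfl⟩))).1
  have hσ : ∀ j k, ∀ h : d k = j, σ k = ((e j).symm (Fin.rev (e j ⟨k, h⟩))).1 := fun j k h => by
    subst h; rfl
  have hd : ∀ k, d (σ k) = d k := fun k => ((e (d k)).symm (Fin.rev (e (d k) ⟨k, rfl⟩))).2
  refine ⟨σ, fun k => ?_, hd, fun k hk => ?_⟩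
  · rw [hσ (d k) (σ k) (hd k)]
    have h1 : (⟨σ k, hd k⟩ : {l : Fin t // d l = d k}) = (e (d k)).symm (Fin.rev (e (d k) ⟨k, rfl⟩)) :=
      Subtype.ext rfl
    rw [h1, Equiv.apply_symm_apply, Fin.rev_rev, Equiv.symm_apply_apply]
  · have h1 : (e (d k)).symm (Fin.rev (e (d k) ⟨k, rfl⟩)) = ⟨k, rfl⟩ := Subtype.ext hk
    have h2 := congrArg Fin.val ((Equiv.symm_apply_eq _).1 h1)
    rw [Fin.val_rev] at h2
    rw [← Fintype.card_subtype]
    have := (e (d k) ⟨k, rfl⟩).isLt
    exact ⟨(e (d k) ⟨k, rfl⟩).1, by omega⟩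

variable (d : Fin t → ℕ) (σ : Fin t → Fin t)

/-- The block matrix with the blocks `f k` in the positions `(k, σ k)`. -/
def M (f : Fin t → ℕ → ℕ → F) : Matrix (Idx d) (Idx d) F :=
  Matrix.of fun x y => if y.1 = σ x.1 then f x.1 x.2.1 y.2.1 else 0

variable {d σ} (hd : ∀ k, d (σ k) = d k)
include hd

theorem M_mul_E (f : Fin t → ℕ → ℕ → F) (hf : ∀ k a b, d k ≤ a + b → f k a b = 0) :
    M d σ f * E d F = M d σ fun k a b => f k a (b + 1) := by
  ext ⟨k, i⟩ ⟨l, j⟩
  rw [mul_E_apply]
  simp only [M, of_apply]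
  split_ifs with h1 h2 h2
  · rfl
  · rfl
  · subst h2
    exact (hf _ _ _ (by have := hd k; omega)).symm
  · rfl

theorem tE_mul_M (f : Fin t → ℕ → ℕ → F) (hf : ∀ k a b, d k ≤ a + b → f k a b = 0) :
    (E d F)ᵀ * M d σ f = M d σ fun k a b => f k (a + 1) b := by
  ext ⟨k, i⟩ y
  rw [← transpose_transpose ((E d F)ᵀ * M d σ f), transpose_mul, transpose_transpose, transpose_apply, mul_E_apply]
  simp only [transpose_apply, M, of_apply]
  split_ifs with h1 h2 h2
  · rfl
  · rfl
  · exact (hf _ _ _ (by omega)).symm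
  · rfl

theorem M_invariant (f : Fin t → ℕ → ℕ → F) (hf : ∀ k, Inv (d k) (f k)) :
    (Cfsg.jordanTypeMatrix d F)ᵀ * M d σ f * Cfsg.jordanTypeMatrix d F = M d σ f := by
  have hz : ∀ k a b, d k ≤ a + b → f k a b = 0 := fun k => (hf k).zero
  rw [jordanType_eq, transpose_add, transpose_one, add_mul, one_mul, mul_add, mul_one, add_mul, M_mul_E hd f hz,
    tE_mul_M hd f hz, M_mul_E hd _ fun k a b h => hz k _ _ (by omega)]
  ext x y
  simp only [M, Matrix.add_apply, of_apply]
  split_ifs with h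
  · linear_combination (hf x.1).rel x.2.1 y.2.1
  · simp

theorem M_det (hσ : ∀ k, σ (σ k) = k) (f : Fin t → ℕ → ℕ → F) (hf : ∀ k, Inv (d k) (f k)) :
    IsUnit (M d σ f).det := by
  classical
  rw [← Matrix.isUnit_iff_isUnit_det, ← Matrix.mulVec_injective_iff_isUnit]
  show Function.Injective (Matrix.mulVecLin (M d σ f))
  rw [injective_iff_map_eq_zero]
  intro v hv
  have key : ∀ j, ∀ k, ∀ hj : j < d (σ k), v ⟨σ k, ⟨j, hj⟩⟩ = 0 := by
    intro j
    induction j using Nat.strong_induction_on with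
    | _ j ih =>
      intro k hj
      have h := congrFun hv ⟨k, ⟨d k - 1 - j, by rw [hd] at hj; omega⟩⟩
      rw [Matrix.mulVecLin_apply, Matrix.mulVec, dotProduct, Pi.zero_apply,
        Finset.sum_eq_single (⟨σ k, ⟨j, hj⟩⟩ : Idx d) (fun z _ hz => ?_) (by simp)] at h
      · simp only [M, of_apply, if_true] at h
        exact (mul_eq_zero.1 h).resolve_left ((hf k).anti _ _ (by rw [hd] at hj; omega))
      · obtain ⟨l, c⟩ := z
        simp only [M, of_apply]
        split_ifs with hl
        · subst hl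
          rcases lt_trichotomy c.1 j with hc | hc | hc
          · rw [ih c.1 hc k c.2, mul_zero]
          · exact absurd (congrArg (Sigma.mk (σ k)) (Fin.ext hc)) hz
          · rw [(hf k).zero _ _ (by rw [hd] at hj; omega), zero_mul]
        · rw [zero_mul]
  funext x
  obtain ⟨k, j, hj⟩ := x
  obtain ⟨l, rfl⟩ : ∃ l, σ l = k := ⟨σ k, hσ k⟩
  exact key j l hj

omit hd

/-- An invariant non-degenerate alternating form of Jordan type `d`. -/
theorem exists_altForm (d : Fin t → ℕ)
    (hpar : ∀ j : ℕ, Odd j → Even (Finset.univ.filter (fun k : Fin t => d k = j)).card) :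
    ∃ G : Matrix (Idx d) (Idx d) F, IsUnit G.det ∧ (∀ v, v ⬝ᵥ G *ᵥ v = 0) ∧ Gᵀ = -G ∧
      (Cfsg.jordanTypeMatrix d F)ᵀ * G * Cfsg.jordanTypeMatrix d F = G := by
  obtain ⟨σ, hσ, hd, hfix⟩ := exists_pairing d
  have heven : ∀ k, σ k = k → 2 * (d k / 2) = d k := fun k hk => by
    refine Nat.mul_div_cancel' (even_iff_two_dvd.1 (Nat.not_odd_iff_even.1 fun ho => ?_))
    exact Nat.not_even_iff_odd.2 (hfix k hk) (hpar _ ho)
  let f : Fin t → ℕ → ℕ → F := fun k =>
    if σ k = k then h0 (d k / 2) else if k < σ k then g0 (d k) else fun a b => -g0 (d k) b a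
  have hf : ∀ k, Inv (d k) (f k) := fun k => by
    simp only [f]
    split_ifs with h1 h2
    · have := inv_h0 (F := F) (d k / 2)
      rwa [heven k h1] at this
    · exact inv_g0 _
    · exact (inv_g0 _).swap.neg
  let U : Matrix (Idx d) (Idx d) F := M d σ fun k =>
    if σ k = k then u (d k / 2) else if k < σ k then g0 (d k) else fun _ _ => 0
  have hU : M d σ f = U - Uᵀ := by
    ext ⟨k, i⟩ ⟨l, j⟩
    simp only [M, U, f, Matrix.sub_apply, transpose_apply, of_apply]
    by_cases hl : l = σ k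
    · subst hl
      rw [if_pos rfl, if_pos rfl, if_pos (hσ k).symm, hσ k]
      generalize (i : ℕ) = a, (j : ℕ) = b
      rw [hd k]
      by_cases h1 : σ k = k
      · rw [if_pos h1, if_pos h1, if_pos h1.symm]
        rfl
      · rw [if_neg h1, if_neg h1, if_neg (Ne.symm h1)]
        rcases lt_or_gt_of_ne h1 with h2 | h2
        · rw [if_neg (not_lt.2 h2.le), if_pos h2, if_neg (not_lt.2 h2.le)]
          exact (zero_sub _).symm
        · rw [if_pos h2, if_neg (not_lt.2 h2.le), if_pos h2]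
          exact (sub_zero _).symm
    · rw [if_neg hl, if_neg hl, if_neg (fun h => hl (by rw [h, hσ]))]
      exact (sub_zero _).symm
  refine ⟨M d σ f, M_det hd hσ f hf, fun v => ?_, ?_, M_invariant hd f hf⟩
  · rw [hU, Matrix.sub_mulVec, dotProduct_sub, sub_eq_zero, Matrix.dotProduct_mulVec v Uᵀ,
      Matrix.vecMul_transpose, dotProduct_comm]
  · rw [hU, transpose_sub, transpose_transpose, neg_sub]

/-- An invariant non-degenerate symmetric form of Jordan type `d`. -/
theorem exists_symForm (h2 : (2 : F) ≠ 0) (d : Fin t → ℕ) (hd1 : ∀ k, 1 ≤ d k)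
    (hpar : ∀ j : ℕ, Even j → 0 < j → Even (Finset.univ.filter (fun k : Fin t => d k = j)).card) :
    ∃ G : Matrix (Idx d) (Idx d) F, IsUnit G.det ∧ Gᵀ = G ∧
      (Cfsg.jordanTypeMatrix d F)ᵀ * G * Cfsg.jordanTypeMatrix d F = G := by
  obtain ⟨σ, hσ, hd, hfix⟩ := exists_pairing d
  let f : Fin t → ℕ → ℕ → F := fun k =>
    if σ k = k then s0 (d k) else if k < σ k then g0 (d k) else fun a b => g0 (d k) b a
  have hf : ∀ k, Inv (d k) (f k) := fun k => by
    simp only [f]
    split_ifs with h1 h3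
    · refine inv_s0 h2 (Nat.not_even_iff_odd.1 fun he => ?_)
      exact Nat.not_even_iff_odd.2 (hfix k h1) (hpar _ he (hd1 k))
    · exact inv_g0 _
    · exact (inv_g0 _).swap
  refine ⟨M d σ f, M_det hd hσ f hf, ?_, M_invariant hd f hf⟩
  ext ⟨k, i⟩ ⟨l, j⟩
  simp only [M, f, transpose_apply, of_apply]
  by_cases hl : l = σ k
  · subst hl
    rw [if_pos rfl, if_pos (hσ k).symm, hσ k]
    generalize (i : ℕ) = a, (j : ℕ) = b
    rw [hd k]
    by_cases h1 : σ k = k
    · rw [if_pos h1, if_pos h1.symm]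
      exact add_comm _ _
    · rw [if_neg h1, if_neg (Ne.symm h1)]
      rcases lt_or_gt_of_ne h1 with h3 | h3
      · rw [if_pos h3, if_neg (not_lt.2 h3.le)]
      · rw [if_neg (not_lt.2 h3.le), if_pos h3]
  · rw [if_neg hl, if_neg (fun h => hl (by rw [h, hσ]))]

end Cfsg.Agent.Linear.JordanTypeForms
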