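import Cfsg.Agent.Linear.UnipotentCent
import Cfsg.Agent.Forms.FormTransfer

/-!
# Jordan types of unipotent isometries: the parity condition
-/

set_option autoImplicit false
set_option linter.unusedSectionVars false

namespace Cfsg.Agent.Linear.JordanTypeParity

open Matrix Module Cfsg.Agent.Linear.UnipotentCent

variable {F : Type*} [Field F] {t : ℕ} {d : Fin t → ℕ}

/-- The rank of the `j`-th power of the shift. -/
def r (d : Fin t → ℕ) (j : ℕ) : ℕ := ∑ k, (d k - j)

theorem r_parity (d : Fin t → ℕ) {j : ℕ} (hj : 1 ≤ j) (h1 : Even (r d (j - 1))) (h2 : Even (r d (j + 1))) :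
    Even (Finset.univ.filter (fun k : Fin t => d k = j)).card := by
  have h : r d (j - 1) + r d (j + 1) = 2 * r d j + (Finset.univ.filter (fun k : Fin t => d k = j)).card := by
    rw [r, r, r, Finset.card_filter, Finset.mul_sum, ← Finset.sum_add_distrib, ← Finset.sum_add_distrib]
    refine Finset.sum_congr rfl fun k _ => ?_
    split_ifs <;> omega
  obtain ⟨a, ha⟩ := h1
  obtain ⟨b, hb⟩ := h2
  exact ⟨a + b - r d j, by omega⟩

theorem E_pow_apply (d : Fin t → ℕ) (j : ℕ) (x y : Idx d) :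
    (E d F ^ j) x y = if x.1 = y.1 ∧ x.2.1 = y.2.1 + j then 1 else 0 := by
  induction j generalizing x y with
  | zero =>
    rw [pow_zero, Matrix.one_apply]
    refine if_congr ⟨fun h => by subst h; simp, fun h => ?_⟩ rfl rfl
    obtain ⟨k, i⟩ := x
    obtain ⟨l, i'⟩ := y
    obtain ⟨rfl, h2⟩ := h
    exact congrArg (Sigma.mk k) (Fin.ext (by simpa using h2))
  | succ j ih =>
    obtain ⟨k, i⟩ := x
    rw [pow_succ', E_mul_apply]
    split_ifs with h h1 h1
    · rw [ih, if_pos ⟨h1.1, by have := h1.2; simp at this ⊢; omega⟩]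
    · rw [ih, if_neg fun h2 => h1 ⟨h2.1, by have := h2.2; simp at this ⊢; omega⟩]
    · exfalso; have := h1.2; simp at this; omega
    · rfl

theorem rank_E_pow (d : Fin t → ℕ) (j : ℕ) : (E d F ^ j).rank = r d j := by
  classical
  set M := E d F ^ j with hM
  set D : Matrix (Idx d) (Idx d) F := Matrix.diagonal fun x => if j ≤ x.2.1 then 1 else 0 with hD
  have h1 : M * Mᵀ = D := by
    ext x y
    rw [Matrix.mul_apply, hD]
    simp only [transpose_apply, hM, E_pow_apply, ← ite_and, mul_ite, mul_one, mul_zero]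
    rcases eq_or_ne x y with rfl | hne
    · rw [diagonal_apply_eq]
      by_cases hx : j ≤ x.2.1
      · rw [if_pos hx, Finset.sum_eq_single (⟨x.1, ⟨x.2.1 - j, by omega⟩⟩ : Idx d) (fun z _ hz => ?_) (by simp)]
        · rw [if_pos (by simp; omega)]
        · rw [if_neg]
          rintro ⟨⟨ha, hb⟩, -⟩
          obtain ⟨k, i⟩ := z
          obtain ⟨l, i'⟩ := x
          simp only at ha hb
          subst ha
          exact hz (congrArg (Sigma.mk l) (Fin.ext (by simp; omega)))
      · rw [if_neg hx]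
        exact Finset.sum_eq_zero fun z _ => if_neg fun h => hx (by omega)
    · rw [diagonal_apply_ne _ hne]
      refine Finset.sum_eq_zero fun z _ => if_neg fun h => hne ?_
      obtain ⟨k, i⟩ := z
      obtain ⟨l, i'⟩ := x
      obtain ⟨l', i''⟩ := y
      obtain ⟨⟨ha, hb⟩, ⟨hc, hd⟩⟩ := h
      simp only at ha hb hc hd
      subst ha
      subst hc
      exact congrArg (Sigma.mk _) (Fin.ext (by omega))
  have h2 : D * M = M := by
    ext x y
    rw [hD, diagonal_mul, hM, E_pow_apply]
    by_cases ha : j ≤ x.2.1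
    · rw [if_pos ha, one_mul]
    · rw [if_neg ha, zero_mul, if_neg]
      exact fun h => ha (by omega)
  have h3 : M.rank = D.rank := le_antisymm
    (by conv_lhs => rw [← h2]
        exact Matrix.rank_mul_le_left D M)
    (by rw [← h1]; exact Matrix.rank_mul_le_left M Mᵀ)
  rw [h3, hD, Matrix.rank_diagonal, r]
  rw [show ∑ k, (d k - j) = Fintype.card ((k : Fin t) × Fin (d k - j)) by simp]
  refine Fintype.card_congr
    { toFun := fun x => ⟨x.1.1, ⟨x.1.2.1 - j, by
        have := x.2; simp at this; omega⟩⟩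
      invFun := fun x => ⟨⟨x.1, ⟨x.2.1 + j, by omega⟩⟩, by simp⟩
      left_inv := fun x => by
        obtain ⟨⟨k, i⟩, hx⟩ := x
        simp at hx
        refine Subtype.ext ?_
        exact congrArg (Sigma.mk k) (Fin.ext (by simp; omega))
      right_inv := fun x => by
        obtain ⟨k, i⟩ := x
        exact congrArg (Sigma.mk k) (Fin.ext (by simp)) }

/-- A matrix similar to the Jordan matrix of type `d` has the same ranks. -/
theorem rank_sub_one_pow {ι : Type*} [Fintype ι] [DecidableEq ι] (e : Idx d ≃ ι) {A : Matrix ι ι F}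
    (h : IsConj (Matrix.reindex e e (Cfsg.jordanTypeMatrix d F)) A) (j : ℕ) : ((A - 1) ^ j).rank = r d j := by
  obtain ⟨c, hc⟩ := h
  have h1 : SemiconjBy (c : Matrix ι ι F) (Matrix.reindex e e (E d F)) (A - 1) := by
    have h2 : Matrix.reindex e e (E d F) = Matrix.reindex e e (Cfsg.jordanTypeMatrix d F) - 1 := by
      rw [← Matrix.coe_reindexAlgEquiv F, jordanType_eq, map_add, map_one, add_sub_cancel_left]
    rw [h2]
    exact hc.sub_right (SemiconjBy.one_right _)
  have h3 := (h1.pow_right j).eq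
  have hu : IsUnit (c : Matrix ι ι F).det := (Matrix.isUnit_iff_isUnit_det _).1 c.isUnit
  rw [← Matrix.rank_mul_eq_left_of_isUnit_det (c : Matrix ι ι F) _ hu, ← h3,
    Matrix.rank_mul_eq_right_of_isUnit_det (c : Matrix ι ι F) _ hu, ← Matrix.coe_reindexAlgEquiv F, ← map_pow,
    Matrix.coe_reindexAlgEquiv, Matrix.reindex_apply, Matrix.rank_submatrix, rank_E_pow]

variable {ι : Type*} [Fintype ι] [DecidableEq ι]

theorem even_rank_of_alt (S : Matrix ι ι F) (h : ∀ v, v ⬝ᵥ S *ᵥ v = 0) : Even S.rank := by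
  let D : LinearMap.BilinForm F (ι → F) := Matrix.toBilin' S
  have hD : D.IsAlt := fun v => by
    show Matrix.toBilin' S v v = 0
    rw [Matrix.toBilin'_apply']
    exact h v
  obtain ⟨W, hW⟩ := Submodule.exists_isCompl (LinearMap.ker D)
  have hev : Even (finrank F W) := by
    refine Forms.alt_finrank_even (B := D.compl₁₂ W.subtype W.subtype) (fun x => hD x.1) fun x hx => ?_
    have hx0 : D x.1 = 0 := by
      refine LinearMap.ext fun y => ?_
      have hy : y ∈ LinearMap.ker D ⊔ W := by rw [hW.sup_eq_top]; exact Submodule.mem_top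
      obtain ⟨a, ha, b, hb, rfl⟩ := Submodule.mem_sup.1 hy
      have h1 : D x.1 b = 0 := hx ⟨b, hb⟩
      rw [map_add, h1, add_zero, ← hD.neg_eq, LinearMap.mem_ker.1 ha]
      simp
    exact Subtype.ext (Submodule.disjoint_def.1 hW.disjoint x.1 hx0 x.2)
  have hker : LinearMap.ker D = LinearMap.ker Sᵀ.mulVecLin := by
    ext x
    simp only [LinearMap.mem_ker, Matrix.mulVecLin_apply]
    constructor
    · intro hx
      ext i
      have := congrArg (fun f : (ι → F) →ₗ[F] F => f (Pi.single i 1)) hx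
      simp [D, Matrix.toBilin'_apply'] at this
      rw [Matrix.mulVec_transpose]
      exact this
    · intro hx
      refine LinearMap.ext fun y => ?_
      show Matrix.toBilin' S x y = 0
      rw [Matrix.toBilin'_apply', Matrix.dotProduct_mulVec, ← Matrix.mulVec_transpose, hx, zero_dotProduct]
  have h1 := LinearMap.finrank_range_add_finrank_ker Sᵀ.mulVecLin
  have h2 := Submodule.finrank_add_eq_of_isCompl hW
  have h3 : finrank F W = Sᵀ.rank := by rw [Matrix.rank]; rw [hker] at h2; omega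
  rw [← Matrix.rank_transpose, ← h3]
  exact hev

variable {G A : Matrix ι ι F}

theorem exists_inverse (hG : IsUnit G.det) (hA : Aᵀ * G * A = G) :
    ∃ B, B * A = 1 ∧ A * B = 1 ∧ G * B = Aᵀ * G := by
  refine ⟨G⁻¹ * Aᵀ * G, ?_, ?_, ?_⟩
  · rw [Matrix.mul_assoc, Matrix.mul_assoc, ← Matrix.mul_assoc Aᵀ, hA, Matrix.nonsing_inv_mul _ hG]
  · rw [mul_eq_one_comm, Matrix.mul_assoc, Matrix.mul_assoc, ← Matrix.mul_assoc Aᵀ, hA, Matrix.nonsing_inv_mul _ hG]
  · rw [Matrix.mul_assoc, ← Matrix.mul_assoc G, Matrix.mul_nonsing_inv _ hG, Matrix.one_mul]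

theorem transpose_pow_mul {B : Matrix ι ι F} (hBA : B * A = 1) (hAB : A * B = 1) (hGB : G * B = Aᵀ * G) (k : ℕ) :
    ((A - 1) ^ k)ᵀ * G = G * ((-B) ^ k * (A - 1) ^ k) := by
  have h1 : SemiconjBy G (B - 1) (A - 1)ᵀ := by
    show G * (B - 1) = (A - 1)ᵀ * G
    rw [Matrix.transpose_sub, Matrix.transpose_one, mul_sub, sub_mul, hGB, mul_one, one_mul]
  have hc : Commute (-B) (A - 1) := by
    refine ((Commute.sub_right ?_ (Commute.one_right B))).neg_left
    exact hBA.trans hAB.symm
  have h2 : B - 1 = -B * (A - 1) := by rw [mul_sub, neg_mul, hBA, mul_one]; abel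
  rw [Matrix.transpose_pow, ← (h1.pow_right k).eq, h2, hc.mul_pow]

theorem isUnit_neg {B : Matrix ι ι F} (hBA : B * A = 1) : IsUnit (-B) := by
  refine IsUnit.neg ?_
  exact (Matrix.isUnit_iff_isUnit_det _).2 (Matrix.isUnit_det_of_right_inverse hBA)

/-- Even powers: an alternating form forces even rank. -/
theorem even_rank_sp (hG : IsUnit G.det) (hA : Aᵀ * G * A = G) (halt : ∀ v, v ⬝ᵥ G *ᵥ v = 0) (k : ℕ) :
    Even ((A - 1) ^ (2 * k)).rank := by
  obtain ⟨B, hBA, hAB, hGB⟩ := exists_inverse hG hA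
  have h := even_rank_of_alt (((A - 1) ^ k)ᵀ * G * (A - 1) ^ k) fun v => by
    rw [← Matrix.mulVec_mulVec, ← Matrix.mulVec_mulVec, Matrix.dotProduct_mulVec, Matrix.vecMul_transpose]
    exact halt _
  have hu : IsUnit (G * (-B) ^ k).det :=
    (Matrix.isUnit_iff_isUnit_det _).1 (((Matrix.isUnit_iff_isUnit_det _).2 hG).mul ((isUnit_neg hBA).pow k))
  rwa [transpose_pow_mul hBA hAB hGB, mul_assoc, mul_assoc, ← pow_add, ← two_mul, ← mul_assoc,
    Matrix.rank_mul_eq_right_of_isUnit_det _ _ hu] at h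

/-- Odd powers: a symmetric form in odd characteristic forces even rank. -/
theorem even_rank_orth (h2 : (2 : F) ≠ 0) (hG : IsUnit G.det) (hA : Aᵀ * G * A = G) (hsym : Gᵀ = G)
    (hnil : IsNilpotent (A - 1)) (k : ℕ) : Even ((A - 1) ^ (2 * k + 1)).rank := by
  obtain ⟨B, hBA, hAB, hGB⟩ := exists_inverse hG hA
  have h := even_rank_of_alt (((A - 1) ^ k)ᵀ * G * ((A - B) * (A - 1) ^ k)) fun v => by
    rw [← Matrix.mulVec_mulVec, ← Matrix.mulVec_mulVec, Matrix.dotProduct_mulVec, Matrix.vecMul_transpose]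
    generalize (A - 1) ^ k = P
    rw [← Matrix.mulVec_mulVec]
    generalize P *ᵥ v = w
    rw [Matrix.mulVec_mulVec, mul_sub, hGB, Matrix.sub_mulVec, dotProduct_sub, sub_eq_zero,
      ← Matrix.mulVec_mulVec, ← Matrix.mulVec_mulVec, Matrix.dotProduct_mulVec w Aᵀ, Matrix.vecMul_transpose,
      Matrix.dotProduct_mulVec w G, dotProduct_comm, ← Matrix.mulVec_transpose, hsym]
  have hAB' : A - B = B * (A + 1) * (A - 1) := by
    rw [mul_assoc, add_mul, one_mul, mul_sub, mul_one, ← add_sub_assoc, sub_add_cancel, mul_sub, ← mul_assoc,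
      hBA, one_mul, mul_one]
  have hc : Commute B (A - 1) := Commute.sub_right (hBA.trans hAB.symm) (Commute.one_right B)
  have hc' : Commute ((A - 1) ^ k) (B * (A + 1)) :=
    Commute.mul_right (hc.symm.pow_left k)
      ((Commute.add_right ((Commute.refl A).sub_left (Commute.one_left A)) (Commute.one_right _)).pow_left k)
  have hu1 : IsUnit (A + 1) := by
    have h4 : A + 1 = (algebraMap F (Matrix ι ι F) 2) * (1 + algebraMap F (Matrix ι ι F) 2⁻¹ * (A - 1)) := by
      rw [mul_add, mul_one, ← mul_assoc, ← map_mul, mul_inv_cancel₀ h2, map_one, one_mul,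
        show (2 : F) = 1 + 1 from one_add_one_eq_two.symm, map_add, map_one]
      abel
    rw [h4]
    refine ((IsUnit.mk0 (2 : F) h2).map (algebraMap F (Matrix ι ι F))).mul ?_
    exact IsNilpotent.isUnit_one_add (Commute.isNilpotent_mul_left (Algebra.commutes _ _) hnil)
  have hu : IsUnit (G * ((-B) ^ k * (B * (A + 1)))).det :=
    (Matrix.isUnit_iff_isUnit_det _).1 (((Matrix.isUnit_iff_isUnit_det _).2 hG).mul
      (((isUnit_neg hBA).pow k).mul (((Matrix.isUnit_iff_isUnit_det _).2
        (Matrix.isUnit_det_of_right_inverse hBA)).mul hu1)))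
  have hS : ((A - 1) ^ k)ᵀ * G * ((A - B) * (A - 1) ^ k) =
      G * ((-B) ^ k * (B * (A + 1))) * (A - 1) ^ (2 * k + 1) := by
    rw [transpose_pow_mul hBA hAB hGB, hAB', mul_assoc G, mul_assoc G]
    congr 1
    rw [mul_assoc (B * (A + 1)) (A - 1), ← pow_succ', ← mul_assoc _ (B * (A + 1)), mul_assoc _ _ (B * (A + 1)), hc'.eq,
      ← mul_assoc, mul_assoc _ ((A - 1) ^ k), ← pow_add, ← add_assoc, ← two_mul]
  rwa [hS, Matrix.rank_mul_eq_right_of_isUnit_det _ _ hu] at h

end Cfsg.Agent.Linear.JordanTypeParity
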