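import Cfsg.Agent.Linear.PGL2MaxTypes
import Mathlib

/-!
# Maximal subgroups of `PGL₂(q)` meet `PSL₂(q)` maximally
-/

set_option autoImplicit false
set_option linter.unusedSectionVars false

namespace Cfsg.Agent.Linear.PGL2Max

open Matrix Cfsg.Agent.Dickson Cfsg.Agent.Linear.PSL2Borel Cfsg.Agent.Linear.PSL2Dickson
  Cfsg.Agent.Linear.PSL2Ext Cfsg.Agent.Linear.PSL2Max

variable {F : Type*} [Field F] [Fintype F]

local notation "PSL" => Matrix.ProjectiveSpecialLinearGroup (Fin 2) F

variable (p : ℕ) [Fact p.Prime] [CharP F p] (hodd : Fintype.card F % 2 = 1) (hq : 5 ≤ Fintype.card F)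

include hodd hq p in
theorem dihedral_coatom (h7 : Fintype.card F ≠ 7) (h9 : Fintype.card F ≠ 9) (h11 : Fintype.card F ≠ 11)
    {N : Subgroup (Matrix.ProjectiveSpecialLinearGroup (Fin 2) F)} (hNt : N ≠ ⊤) {k : ℕ} (hk3 : 3 ≤ k)
    (hk : k = np F ∨ k = nm F) (e : N ≃* DihedralGroup k) : IsCoatom N := by
  obtain ⟨M, hM, hNM⟩ := exists_maximal_ge hNt
  suffices N = M by rwa [this]
  rcases parity (F := F) with ⟨h, -⟩ | ⟨-, hd, hnm, hnp⟩
  · omega
  have hNc : Nat.card N = 2 * k := by rw [Nat.card_congr e.toEquiv, DihedralGroup.nat_card]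
  have hdvd : 2 * k ∣ Nat.card M := hNc ▸ Subgroup.card_dvd_of_le hNM
  refine Subgroup.eq_of_le_of_card_ge hNM ?_
  rw [hNc]
  set x : M := Subgroup.inclusion hNM (e.symm (DihedralGroup.r 1))
  have hxo : orderOf x = k := by
    rw [orderOf_injective _ (Subgroup.inclusion_injective hNM), e.symm.orderOf_eq, DihedralGroup.orderOf_r_one]
  rcases maximal_cases p (by omega) hM with ⟨k', hk', hc, -⟩ | hb | hexc | ⟨P, L, r, hr, hLr, hL, -, hi, hi'⟩
  · have hkk : k ∣ k' := Nat.dvd_of_mul_dvd_mul_left (by norm_num) (hc ▸ hdvd)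
    rw [hc]
    have heq : k = k' := by
      obtain ⟨c, hc'⟩ := hkk
      rcases c with _ | _ | c
      · omega
      · omega
      · exfalso
        have : k * 2 ≤ k * (c + 1 + 1) := Nat.mul_le_mul_left k (by omega)
        omega
    omega
  · exfalso
    have h2 := card_mul_of_index hb
    rw [hd] at h2
    obtain ⟨c, hc⟩ := hdvd
    rw [hc] at h2
    rcases hk with rfl | rfl
    · have h3 : Fintype.card F + 1 ∣ Fintype.card F * (Fintype.card F - 1) :=
        ⟨2 * c, by rw [← h2, ← hnp]; ring⟩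
      obtain ⟨a, ha⟩ : ∃ a, Fintype.card F = a + 2 := ⟨Fintype.card F - 2, by omega⟩
      rw [ha, show (a + 2) * (a + 2 - 1) = (a + 2 + 1) * a + 2 by
        rw [show a + 2 - 1 = a + 1 by omega]; ring] at h3
      have := Nat.le_of_dvd (by norm_num) ((Nat.dvd_add_right (dvd_mul_right _ a)).1 h3)
      omega
    · rw [← hnm] at h2
      have h4 : 2 * c = Fintype.card F :=
        Nat.eq_of_mul_eq_mul_right (show 0 < 2 * nm F by omega) (by rw [← h2]; ring)
      omega
  · exfalso
    rcases hexc with ⟨-, -, -, -, ⟨f⟩⟩ | ⟨hp, h5, h8, ⟨f⟩⟩ | ⟨h10, -, ⟨f⟩⟩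
    · have h3 := orderOf_alt_four (f x)
      rw [f.orderOf_eq, hxo] at h3
      refine no_six_alt_four ((N.subgroupOf M).map f.toMonoidHom) ?_
      rw [Nat.card_congr (Subgroup.equivMapOfInjective _ _ f.injective).toEquiv.symm,
        Nat.card_congr (Subgroup.subgroupOfEquivOfLe hNM).toEquiv, hNc]
      omega
    · have h4 := orderOf_perm_four (f x)
      rw [f.orderOf_eq, hxo] at h4
      omega
    · have h5 := orderOf_alt_five (f x)
      rw [f.orderOf_eq, hxo] at h5
      omega
  · exfalso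
    haveI := Fintype.ofFinite L
    have hbound : k ≤ 2 * Fintype.card L := by
      have hLodd : Fintype.card L % 2 = 1 := by
        rw [← hLr, Nat.card_eq_fintype_card, Nat.pow_mod] at hodd
        rcases Nat.mod_two_eq_zero_or_one (Fintype.card L) with h | h
        · rw [h, zero_pow hr.ne_zero] at hodd; simp at hodd
        · exact h
      rcases hr.eq_two_or_odd' with rfl | hro
      · obtain ⟨f⟩ := hi' ⟨hodd, rfl⟩
        have h := orderOf_pgl_le (f x)
        rw [f.orderOf_eq, hxo, if_neg (by omega)] at h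
        exact h
      · obtain ⟨f⟩ := hi (Or.inr hro)
        have h := orderOf_psl_le (f x)
        rw [f.orderOf_eq, hxo, if_neg (by omega)] at h
        exact le_trans (Nat.le_mul_of_pos_left _ (Nat.gcd_pos_of_pos_left _ (by norm_num))) h
    rw [Nat.card_eq_fintype_card] at hLr
    have hl2 : 2 ≤ Fintype.card L := Fintype.one_lt_card
    have h1 : Fintype.card L * Fintype.card L ≤ Fintype.card F := by
      rw [← hLr, ← pow_two]; exact Nat.pow_le_pow_right (by omega) hr.two_le
    by_cases h5 : 5 ≤ Fintype.card L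
    · have : 5 * Fintype.card L ≤ Fintype.card F := le_trans (Nat.mul_le_mul_right _ h5) h1
      omega
    have h3 : Fintype.card L = 3 := by
      rw [← hLr, Nat.pow_mod] at hodd
      interval_cases hl : Fintype.card L
      · norm_num [zero_pow hr.ne_zero] at hodd
      · rfl
      · norm_num [zero_pow hr.ne_zero] at hodd
    rw [h3] at hLr hbound
    rcases Nat.lt_or_ge r 3 with h | h
    · obtain rfl : r = 2 := le_antisymm (by omega) hr.two_le
      exact h9 (by rw [← hLr]; norm_num)
    · have : 27 ≤ Fintype.card F := hLr ▸ le_trans (by norm_num) (Nat.pow_le_pow_right (show 0 < 3 by norm_num) h)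
      omega

include hodd hq p in
theorem borel_coatom : IsCoatom (borelP F) := by
  obtain ⟨M, hM, hBM⟩ := exists_maximal_ge (borelP_ne_top (F := F))
  suffices borelP F = M by rwa [this]
  refine Subgroup.eq_of_le_of_card_ge hBM ?_
  rcases parity (F := F) with ⟨h, -⟩ | ⟨-, hd, -, -⟩
  · omega
  have hB := card_mul_of_index (index_borelP (F := F))
  rw [hd] at hB
  have hdvd : Fintype.card F * (Fintype.card F - 1) ∣ 2 * Nat.card M :=
    hB ▸ Nat.mul_dvd_mul_left 2 (Subgroup.card_dvd_of_le hBM)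
  have hpp := (Fact.out : p.Prime)
  obtain ⟨f, -, hf⟩ := FiniteField.card F p
  have hp2 : p ≠ 2 := fun e => by
    rw [hf, e, Nat.pow_mod, Nat.mod_self, zero_pow f.pos.ne'] at hodd; simp at hodd
  have hle : 2 * Nat.card M < Fintype.card F * (Fintype.card F - 1) → False := fun h => by
    have := Nat.le_of_dvd (Nat.mul_pos two_pos Nat.card_pos) hdvd
    omega
  rcases maximal_cases p (by omega) hM with ⟨k, hk, hc, -⟩ | hb | hexc | ⟨P, L, r, hr, hLr, hL, -, hi, hi'⟩
  · exfalso
    have hpd : p ∣ 2 * (2 * k) := hc ▸ ((dvd_mul_of_dvd_left (hf ▸ dvd_pow_self p f.pos.ne') _).trans hdvd)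
    have hp2' : ¬ p ∣ 2 := fun h => hp2 ((Nat.prime_dvd_prime_iff_eq hpp Nat.prime_two).1 h)
    exact not_dvd_of_dvd p (hk.imp dvd_of_eq dvd_of_eq) (((hpp.dvd_mul.1 ((hpp.dvd_mul.1 hpd).resolve_left hp2')).resolve_left hp2'))
  · have := card_mul_of_index hb
    rw [hd] at this
    omega
  · exfalso
    obtain ⟨a4, s4, a5⟩ := card_four_five
    rcases hexc with ⟨hp, h5, h8, -, ⟨e⟩⟩ | ⟨hp, h5, h8, ⟨e⟩⟩ | ⟨h10, -, ⟨e⟩⟩ <;>
      rw [Nat.card_congr e.toEquiv] at hdvd
    · rw [a4] at hdvd
      have : Fintype.card F < 6 := by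
        by_contra h
        have := Nat.mul_le_mul (show 6 ≤ Fintype.card F by omega) (show 5 ≤ Fintype.card F - 1 by omega)
        have := Nat.le_of_dvd (by norm_num) hdvd
        omega
      rw [show Fintype.card F = 5 by omega] at hdvd
      norm_num at hdvd
    · rw [s4] at hdvd
      have : Fintype.card F < 8 := by
        by_contra h
        have := Nat.mul_le_mul (show 8 ≤ Fintype.card F by omega) (show 7 ≤ Fintype.card F - 1 by omega)
        have := Nat.le_of_dvd (by norm_num) hdvd
        omega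
      rw [show Fintype.card F = 7 by omega] at hdvd
      norm_num at hdvd
    · rw [a5] at hdvd
      have : Fintype.card F < 12 := by
        by_contra h
        have := Nat.mul_le_mul (show 12 ≤ Fintype.card F by omega) (show 11 ≤ Fintype.card F - 1 by omega)
        have := Nat.le_of_dvd (by norm_num) hdvd
        omega
      rcases (show Fintype.card F = 9 ∨ Fintype.card F = 11 by omega) with h | h <;> rw [h] at hdvd <;>
        norm_num at hdvd
  · exfalso
    haveI := Fintype.ofFinite L
    have hb : Nat.card M ≤ Fintype.card L * (Fintype.card L ^ 2 - 1) := by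
      rcases hr.eq_two_or_odd' with rfl | hro
      · obtain ⟨e⟩ := hi' ⟨hodd, rfl⟩
        exact (Nat.card_congr e.toEquiv).trans_le card_pgl_le.2
      · obtain ⟨e⟩ := hi (Or.inr hro)
        exact (Nat.card_congr e.toEquiv).trans_le card_pgl_le.1
    rw [Nat.card_eq_fintype_card] at hLr
    have hl : 3 ≤ Fintype.card L := by
      have h2 : 2 ≤ Fintype.card L := Fintype.one_lt_card
      rcases h2.lt_or_eq with h | h
      · exact h
      · rw [← hLr, ← h, Nat.pow_mod, Nat.mod_self, zero_pow hr.ne_zero] at hodd; simp at hodd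
    have h1 : Fintype.card L ^ 2 ≤ Fintype.card F := hLr ▸ Nat.pow_le_pow_right (by omega) hr.two_le
    refine hle (lt_of_le_of_lt (Nat.mul_le_mul_left 2 hb) ?_)
    calc 2 * (Fintype.card L * (Fintype.card L ^ 2 - 1))
        = (2 * Fintype.card L) * (Fintype.card L ^ 2 - 1) := by ring
      _ < Fintype.card L ^ 2 * (Fintype.card L ^ 2 - 1) := by
          refine Nat.mul_lt_mul_of_pos_right (by nlinarith) ?_
          have : 9 ≤ Fintype.card L ^ 2 := by nlinarith
          omega
      _ ≤ _ := Nat.mul_le_mul h1 (Nat.sub_le_sub_right h1 1)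

include hodd hq p in
/-- The intersection with `PSL₂` is maximal. -/
theorem comap_coatom (h7 : Fintype.card F ≠ 7) (h9 : Fintype.card F ≠ 9) (h11 : Fintype.card F ≠ 11)
    (h40 : (Fintype.card F).Prime → Fintype.card F % 40 ∉ ({11, 19, 21, 29} : Finset ℕ))
    {M : Subgroup (Matrix.ProjGenLinGroup (Fin 2) F)} (hM : IsCoatom M) (hML : ¬ (T (F := F)).range ≤ M) :
    IsCoatom (M.comap T) := by
  rcases cases p hodd hq hM hML with
    ⟨⟨g, hg⟩, -⟩ | ⟨k, hk3, hk, ⟨e⟩, -⟩ | ⟨hqp, h8, ⟨e⟩, -⟩ | ⟨P, K, m, hm, hmo, hKm, hP, -⟩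
  · refine ((MulAut.conj g).mapSubgroup.isCoatom_iff _).1 ?_
    show IsCoatom ((M.comap T).map (MulAut.conj g).toMonoidHom)
    rw [hg]
    exact borel_coatom p hodd hq
  · exact dihedral_coatom p hodd hq h7 h9 h11 (comap_ne_top hq hM hML) hk3 hk e
  · have h40' := h40 (hqp.symm ▸ (Fact.out : p.Prime))
    rw [hqp] at h40'
    simp at h40'
    exact a4_coatom p hqp (by omega) h8 ⟨by omega, by omega⟩ e
  · refine ((glAut P).mapSubgroup.isCoatom_iff _).1 ?_
    show IsCoatom ((M.comap T).map (glAut P).toMonoidHom)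
    rw [hP]
    rw [← extP_eq_stdP fun c hc => odd_degree_no_root p K hmo hKm hc]
    refine extP_coatom p hm hKm fun hp2 => ?_
    obtain ⟨f, -, hf⟩ := FiniteField.card F p
    rw [hf, hp2, Nat.pow_mod, Nat.mod_self, zero_pow f.pos.ne'] at hodd
    simp at hodd

/-- In even characteristic there is nothing to do. -/
theorem comap_coatom_even (heven : Fintype.card F % 2 = 0)
    {M : Subgroup (Matrix.ProjGenLinGroup (Fin 2) F)} (hM : IsCoatom M) : IsCoatom (M.comap T) := by
  have hb : Function.Bijective (T (F := F)) :=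
    ⟨T_injective, MonoidHom.range_eq_top.1 (range_T_eq_top heven)⟩
  let E := MulEquiv.ofBijective T hb
  refine (E.mapSubgroup.isCoatom_iff _).1 ?_
  show IsCoatom ((M.comap T).map E.toMonoidHom)
  rwa [show E.toMonoidHom = T from rfl,
    Subgroup.map_comap_eq_self_of_surjective hb.2]

end Cfsg.Agent.Linear.PGL2Max
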