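import Cfsg.Agent.Linear.PGL2MaxCases
import Mathlib

/-!
# The maximal subgroups of `PGL₂(q)`, `q` odd
-/

set_option autoImplicit false
set_option linter.unusedSectionVars false

namespace Cfsg.Agent.Linear.PGL2Max

open scoped Pointwise
open Matrix Cfsg.Agent.Dickson Cfsg.Agent.Linear.PSL2Borel Cfsg.Agent.Linear.PSL2Dickson
  Cfsg.Agent.Linear.PSL2Ext Cfsg.Agent.Linear.PSL2Max Cfsg.Agent.KnownA.GL2

variable {F : Type*} [Field F] [Fintype F]

local notation "SL" => Matrix.SpecialLinearGroup (Fin 2) F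
local notation "PSL" => Matrix.ProjectiveSpecialLinearGroup (Fin 2) F
local notation "PGL" => Matrix.ProjGenLinGroup (Fin 2) F

/-- The triangular matrices. -/
def borelGL (F : Type*) [Field F] : Subgroup (GL (Fin 2) F) where
  carrier := {P | P.1 1 0 = 0}
  one_mem' := by simp
  mul_mem' := fun {a b} (ha : a.1 1 0 = 0) (hb : b.1 1 0 = 0) => by
    simp [Set.mem_setOf_eq, Matrix.mul_apply, Fin.sum_univ_two, ha, hb]
  inv_mem' := fun {a} (ha : a.1 1 0 = 0) => by
    have e : ((↑a⁻¹ : Matrix (Fin 2) (Fin 2) F) * a.1) 1 0 = (1 : Matrix (Fin 2) (Fin 2) F) 1 0 := by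
      rw [Units.inv_mul]
    simp [Matrix.mul_apply, Fin.sum_univ_two, ha, -Units.inv_mul] at e
    have h0 : a.1 0 0 ≠ 0 := fun h => GeneralLinearGroup.det_ne_zero a (by
      rw [Matrix.det_fin_two, ha, h]; ring)
    simpa [h0] using e

theorem mk_mem_GB {P : GL (Fin 2) F} : ProjGenLinGroup.mk P ∈ (borelGL F).map ProjGenLinGroup.mk ↔ P.1 1 0 = 0 := by
  refine ⟨?_, fun h => Subgroup.mem_map_of_mem _ h⟩
  rintro ⟨Q, hQ, e⟩
  obtain ⟨u, rfl⟩ := ProjGenLinGroup.mk_eq_mk_iff.1 e
  simp [Matrix.mul_diagonal, show Q.1 1 0 = 0 from hQ]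

theorem GK_le_range {K : Subfield F} (hsq : ∀ x : K, IsSquare (x : F)) : GK K ≤ (T (F := F)).range := by
  rintro _ ⟨Q, rfl⟩
  obtain ⟨s, hs⟩ := hsq Q.1.det
  have hd0 : ((Q.1.det : K) : F) ≠ 0 := fun e => GeneralLinearGroup.det_ne_zero Q (Subtype.ext e)
  have hs0 : s ≠ 0 := fun h => hd0 (by rw [hs, h, mul_zero])
  let g : SL := ⟨s⁻¹ • Q.1.map K.subtype, by
    rw [Matrix.det_smul, Fintype.card_fin, ← RingHom.mapMatrix_apply, ← RingHom.map_det,
      show (K.subtype : K →+* F) Q.1.det = s * s from hs]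
    field_simp⟩
  exact ⟨toPSL g, mk_eq_of_smul (w := s) (by
    show Q.1.map K.subtype = s • (s⁻¹ • Q.1.map K.subtype)
    rw [smul_smul, mul_inv_cancel₀ hs0, one_smul])⟩

theorem sign_trivial (φ : alternatingGroup (Fin 4) →* ℤˣ) (a : alternatingGroup (Fin 4)) : φ a = 1 := by
  have h1 := φ.ker.index_mul_card
  rw [card_four_five.1] at h1
  have h2 : φ.ker.index ≤ 2 := by
    rw [Subgroup.index_ker]
    refine (Subgroup.card_le_card_group φ.range).trans ?_
    rw [Nat.card_eq_fintype_card]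
    decide
  have h6 := no_six_alt_four φ.ker
  have h3 : φ.ker.index = 1 := by
    have h0 : φ.ker.index ≠ 0 := Subgroup.index_ne_zero_of_finite
    by_contra h
    rw [show φ.ker.index = 2 by omega] at h1
    omega
  exact MonoidHom.mem_ker.1 ((Subgroup.index_eq_one.1 h3).symm ▸ Subgroup.mem_top a)

theorem fix_a4 (h2 : (2 : F) ≠ 0) (f : alternatingGroup (Fin 4) →* PSL) (hf : Function.Injective f)
    {P : GL (Fin 2) F} (h : ∀ a, glAut P (f a) = f a) : ProjGenLinGroup.mk P = 1 := by
  obtain ⟨a, b, -, -, hall⟩ := a4_lifts (F := F) h2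
  obtain ⟨g, g', hg, hg', t1, t2, t3⟩ := hall f hf
  refine mk_eq_one_of_fix (g := g) (h := g') ?_ h2 (by rw [t2]; exact one_ne_zero)
    (Or.inr (by rw [t3]; exact one_ne_zero)) (by rw [hg]; exact h a) (by rw [hg']; exact h b)
  rw [PSL2Pairs.cdet_eq, t1, t2, t3]; norm_num; exact h2

theorem card_mulAut {n : ℕ} (hn : 4 ≤ n) (h6 : n ≠ 6) :
    Nat.card (MulAut (alternatingGroup (Fin n))) = n.factorial := by
  rw [← Nat.card_eq_of_bijective _ (Cfsg.Agent.S2119.result n hn h6), Nat.card_perm, Nat.card_fin]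

section Maximal

variable {M : Subgroup (Matrix.ProjGenLinGroup (Fin 2) F)}

theorem comap_conj (P : GL (Fin 2) F) :
    (M.map (MulAut.conj (ProjGenLinGroup.mk P)).toMonoidHom).comap T = (M.comap T).map (glAut P).toMonoidHom := by
  ext x
  constructor
  · rintro ⟨y, hy, e⟩
    refine ⟨(glAut P).symm x, ?_, (glAut P).apply_symm_apply x⟩
    show T ((glAut P).symm x) ∈ M
    have e' := T_glAut P ((glAut P).symm x)
    rw [MulEquiv.apply_symm_apply, ← e] at e'
    have : y = T ((glAut P).symm x) := by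
      have e'' : MulAut.conj (ProjGenLinGroup.mk P) y = MulAut.conj (ProjGenLinGroup.mk P) (T ((glAut P).symm x)) :=
        e'
      exact (MulAut.conj _).injective e''
    rwa [← this]
  · rintro ⟨y, hy, rfl⟩
    exact ⟨T y, hy, (T_glAut P y).symm⟩

theorem conj_hyps (hM : IsCoatom M) (hML : ¬ (T (F := F)).range ≤ M) (P : GL (Fin 2) F) :
    IsCoatom (M.map (MulAut.conj (ProjGenLinGroup.mk P)).toMonoidHom) ∧
      ¬ (T (F := F)).range ≤ M.map (MulAut.conj (ProjGenLinGroup.mk P)).toMonoidHom := by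
  refine ⟨((MulAut.conj (ProjGenLinGroup.mk P)).mapSubgroup.isCoatom_iff M).2 hM, fun h => hML ?_⟩
  rintro _ ⟨x, rfl⟩
  obtain ⟨y, hy, e⟩ := h ⟨glAut P x, rfl⟩
  rw [T_glAut] at e
  have e' : MulAut.conj (ProjGenLinGroup.mk P) y = MulAut.conj (ProjGenLinGroup.mk P) (T x) := e
  exact (MulAut.conj _).injective e' ▸ hy

/-- The action on a normalised copy of a group. -/
theorem exists_aut_hom {A : Type*} [Group A] (f : A →* PSL) (hf : Function.Injective f)
    (hst : ∀ P : GL (Fin 2) F, ProjGenLinGroup.mk P ∈ M → ∀ a, ∃ b, glAut P (f a) = f b) :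
    ∃ ψ : M →* MulAut A, ∀ (P : GL (Fin 2) F) (hP : ProjGenLinGroup.mk P ∈ M) (a : A),
      glAut P (f a) = f (ψ ⟨ProjGenLinGroup.mk P, hP⟩ a) := by
  have hex : ∀ (y : M) (a : A), ∃ b, (y : PGL) * T (f a) * (y : PGL)⁻¹ = T (f b) := by
    rintro ⟨y, hy⟩ a
    induction y using ProjGenLinGroup.induction_on with | mk P =>
    obtain ⟨b, hb⟩ := hst P hy a
    exact ⟨b, by rw [← T_glAut, hb]⟩
  choose φ hφ using hex
  have inj : Function.Injective fun a => T (f a) := T_injective.comp hf
  have hmul : ∀ (y z : M) (a : A), φ (y * z) a = φ y (φ z a) := fun y z a => inj (by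
    show T (f _) = T (f _)
    rw [← hφ, ← hφ, ← hφ, Subgroup.coe_mul]
    group)
  have hone : ∀ a : A, φ 1 a = a := fun a => inj (by
    show T (f _) = T (f _)
    rw [← hφ]; simp)
  refine ⟨MonoidHom.mk' (fun y =>
    { toFun := φ y
      invFun := φ y⁻¹
      left_inv := fun a => by rw [← hmul, inv_mul_cancel, hone]
      right_inv := fun a => by rw [← hmul, mul_inv_cancel, hone]
      map_mul' := fun a b => inj (by
        show T (f _) = T (f _)
        rw [← hφ, map_mul, map_mul, map_mul, map_mul, ← hφ, ← hφ]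
        group) })
    (fun y z => MulEquiv.ext (hmul y z)), fun P hP a => T_injective ?_⟩
  rw [T_glAut]
  exact hφ ⟨_, hP⟩ a

variable (p : ℕ) [Fact p.Prime] [CharP F p] (hodd : Fintype.card F % 2 = 1) (hq : 5 ≤ Fintype.card F)
  (hM : IsCoatom M) (hML : ¬ (T (F := F)).range ≤ M)

include hodd hq hM hML p in
/-- The triangular case. -/
theorem borel_case {g : PSL} (hg : (M.comap T).map (MulAut.conj g).toMonoidHom ≤ borelP F) :
    (M.comap T).map (MulAut.conj g).toMonoidHom = borelP F ∧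
      Nat.card M = Fintype.card F * (Fintype.card F - 1) := by
  classical
  set N := M.comap T with hN
  obtain ⟨G, rfl⟩ := toPSL_surjective g
  choose s hs using fun y : N => toPSL_surjective (MulAut.conj (toPSL G) y.1)
  have hs0 : ∀ y : N, (s y).1 1 0 = 0 := fun y =>
    toPSL_mem_borelP.1 ((hs y).symm ▸ hg ⟨y.1, y.2, rfl⟩)
  by_cases hp : p ∣ Nat.card N
  swap
  · exfalso
    let χ : N →* F := MonoidHom.mk
      ⟨fun y => (s y).1 0 0 ^ 2, by
        have h1 : toPSL (s 1) = 1 := by rw [hs]; simp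
        rcases toPSL_eq_one_iff.1 h1 with h | h <;> simp [h]⟩
      (fun y z => by
        show (s (y * z)).1 0 0 ^ 2 = (s y).1 0 0 ^ 2 * (s z).1 0 0 ^ 2
        have h : toPSL (s (y * z)) = toPSL (s y * s z) := by rw [map_mul, hs, hs, hs, Subgroup.coe_mul, map_mul]
        rcases toPSL_eq_iff.1 h with h | h <;> simp [h, mul_apply2, Matrix.mul_apply, Fin.sum_univ_two, hs0 z, mul_pow])
    have hinj : Function.Injective χ := (injective_iff_map_eq_one χ).2 fun y hy => by
      have hy' : (s y).1 0 0 ^ 2 = 1 := hy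
      have hd := det_eq (s y)
      rw [hs0 y, mul_zero, sub_zero] at hd
      have hpow : toPSL (s y) ^ p = 1 := by
        have hu : ∀ b : F, toPSL (uel b) ^ p = 1 := fun b => by
          rw [← map_pow, uel_pow, CharP.cast_eq_zero F p, zero_mul, uel_zero, map_one]
        rcases mul_self_eq_one_iff.1 ((pow_two ((s y).1 0 0)).symm.trans hy') with a | a
        · have : s y = uel ((s y).1 0 1) := by
            rw [a, one_mul] at hd
            apply ext2 <;> simp [hs0 y, a, hd]
          rw [this]; exact hu _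
        · have : s y = -uel (-(s y).1 0 1) := by
            rw [a] at hd
            have : (s y).1 1 1 = -1 := by linear_combination -hd
            apply ext2 <;> simp [hs0 y, a, this]
          rw [toPSL_eq_iff.2 (Or.inr this)]; exact hu _
      rw [hs, ← map_pow] at hpow
      have hyp : y ^ p = 1 := Subtype.ext ((MulAut.conj (toPSL G)).injective (hpow.trans (map_one _).symm))
      rcases (Nat.dvd_prime (Fact.out : p.Prime)).1 (orderOf_dvd_of_pow_eq_one hyp) with e | e
      · exact orderOf_eq_one_iff.1 e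
      · exact absurd (e ▸ orderOf_dvd_natCard y) hp
    exact cyclic_false p hodd hq hM hML (isCyclic_of_subgroup_isDomain χ hinj) hp
  -- a unipotent element
  obtain ⟨y, hy⟩ := exists_prime_orderOf_dvd_card' p hp
  obtain ⟨b, hb0, hb⟩ : ∃ b : F, b ≠ 0 ∧ toPSL (uel b) = MulAut.conj (toPSL G) y.1 := by
    have hd := det_eq (s y)
    rw [hs0 y, mul_zero, sub_zero] at hd
    have hsp : toPSL (s y ^ p) = 1 := by
      rw [map_pow, hs, ← map_pow, ← Subgroup.coe_pow, ← hy, pow_orderOf_eq_one]; simp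
    have h00 : (s y ^ p).1 0 0 = (s y).1 0 0 ^ p ∧ (s y ^ p).1 1 0 = 0 := by
      generalize p = m
      induction m with
      | zero => simp
      | succ m ih => simp [pow_succ, mul_apply2, ih.1, ih.2, hs0 y]
    have hsq : (s y).1 0 0 ^ 2 = 1 := by
      have h1 : ((s y).1 0 0 ^ 2) ^ p = 1 := by
        rw [← pow_mul, mul_comm, pow_mul, ← h00.1]
        rcases toPSL_eq_one_iff.1 hsp with h | h <;> simp [h]
      have h2 := sub_pow_char ((s y).1 0 0 ^ 2) (1 : F) (p := p)
      rw [h1, one_pow, sub_self] at h2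
      exact sub_eq_zero.1 (eq_zero_of_pow_eq_zero h2)
    have hne : MulAut.conj (toPSL G) y.1 ≠ 1 := fun e => by
      have : y = 1 := Subtype.ext ((MulAut.conj (toPSL G)).injective (e.trans (map_one _).symm))
      rw [this, orderOf_one] at hy
      exact (Fact.out : p.Prime).one_lt.ne hy
    rw [← hs] at hne ⊢
    obtain ⟨b, hb⟩ : ∃ b, toPSL (uel b) = toPSL (s y) := by
      rcases mul_self_eq_one_iff.1 ((pow_two ((s y).1 0 0)).symm.trans hsq) with a | a
      · refine ⟨(s y).1 0 1, congrArg _ ?_⟩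
        rw [a, one_mul] at hd
        apply ext2 <;> simp [hs0 y, a, hd]
      · refine ⟨-(s y).1 0 1, (toPSL_eq_iff.2 (Or.inr ?_)).symm⟩
        rw [a] at hd
        have : (s y).1 1 1 = -1 := by linear_combination -hd
        apply ext2 <;> simp [hs0 y, a, this]
    exact ⟨b, fun e => hne (by rw [← hb, e, uel_zero, map_one]), hb⟩
  set P0 := SpecialLinearGroup.toGL G
  set M' := M.map (MulAut.conj (ProjGenLinGroup.mk P0)).toMonoidHom with hM'
  obtain ⟨hcM, hcML⟩ := conj_hyps hM hML P0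
  have hN' : M'.comap T = N.map (MulAut.conj (toPSL G)).toMonoidHom := by
    rw [hM', comap_conj]
    congr 1
    exact MonoidHom.ext fun x => glAut_toGL G x
  have hle : M' ≤ (borelGL F).map ProjGenLinGroup.mk := by
    intro z hz
    induction z using ProjGenLinGroup.induction_on with | mk P =>
    have h1 : glAut P (toPSL (uel b)) ∈ borelP F := by
      refine hg ?_
      rw [← hN', ← comap_map_stable hz]
      refine Subgroup.mem_map_of_mem _ ?_
      rw [hN', hb]
      exact Subgroup.mem_map_of_mem _ y.2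
    rw [glAut_toPSL, toPSL_mem_borelP] at h1
    rw [mk_mem_GB]
    have h2 : ((conjGL P (uel b)).1 * P.1) 1 0 = (P.1 * (uel b : SL).1) 1 0 := by
      show ((P.1 * (uel b : SL).1 * (↑P⁻¹ : Matrix (Fin 2) (Fin 2) F)) * P.1) 1 0 = _
      rw [mul_assoc _ _ P.1, Units.inv_mul, mul_one]
    have h3 : ((conjGL P (uel b)).1 * P.1) 1 1 = (P.1 * (uel b : SL).1) 1 1 := by
      show ((P.1 * (uel b : SL).1 * (↑P⁻¹ : Matrix (Fin 2) (Fin 2) F)) * P.1) 1 1 = _
      rw [mul_assoc _ _ P.1, Units.inv_mul, mul_one]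
    simp [Matrix.mul_apply, Fin.sum_univ_two, h1] at h2 h3
    by_contra h10
    have h11 : (conjGL P (uel b)).1 1 1 = 1 := mul_right_cancel₀ h10 (by rw [one_mul]; exact h2)
    rw [h11, one_mul] at h3
    exact mul_ne_zero h10 hb0 (by linear_combination -h3)
  have heq : M' = (borelGL F).map ProjGenLinGroup.mk := by
    refine hle.lt_or_eq.resolve_left fun h => ?_
    have htop := hcM.2 _ h
    have := htop ▸ Subgroup.mem_top (T (toPSL (lel 1 : SL)))
    rw [T_toPSL, mk_mem_GB] at this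
    simp at this
  have hB : N.map (MulAut.conj (toPSL G)).toMonoidHom = borelP F := by
    refine le_antisymm hg fun x hx => ?_
    obtain ⟨s, rfl⟩ := toPSL_surjective x
    rw [← hN', heq, Subgroup.mem_comap, T_toPSL, mk_mem_GB]
    exact toPSL_mem_borelP.1 hx
  refine ⟨hB, ?_⟩
  have hi : N.index = Fintype.card F + 1 := by
    rw [← index_borelP, ← hB]
    exact (Subgroup.index_map_equiv N (MulAut.conj (toPSL G))).symm
  have hc := card_mul_of_index hi
  rw [show Nat.gcd 2 (Fintype.card F - 1) = 2 by rw [Nat.gcd_eq_left_iff_dvd]; omega] at hc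
  rw [card_eq hodd hM hML, ← hc]

include hodd hq hM hML p in
/-- No `A₅`. -/
theorem a5_false (hp : ¬ p ∣ Nat.card (M.comap T) ∨ p = 3) (e : M.comap T ≃* alternatingGroup (Fin 5)) : False := by
  have h2 : (2 : F) ≠ 0 := PSL2Classes.two_ne_zero_of_odd hodd
  set N := M.comap T with hN
  let f : alternatingGroup (Fin 5) →* PSL := N.subtype.comp e.symm.toMonoidHom
  have hf : Function.Injective f := Subtype.val_injective.comp e.symm.injective
  have hNc : Nat.card N = 60 := (Nat.card_congr e.toEquiv).trans card_four_five.2.2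
  obtain ⟨ψ, hψ⟩ := exists_aut_hom (M := M) f hf fun P hP a => by
    refine ⟨e ⟨glAut P (f a), ?_⟩, by simp [f]⟩
    show glAut P (f a) ∈ M.comap T
    rw [← comap_map_stable hP]; exact Subgroup.mem_map_of_mem _ (SetLike.coe_mem _)
  obtain ⟨H4, ⟨e4⟩⟩ := Cfsg.Agent.Linear.exists_A4_in_A5
  have hinj : Function.Injective ψ := (injective_iff_map_eq_one ψ).2 fun y hy => by
    obtain ⟨y, hym⟩ := y
    induction y using ProjGenLinGroup.induction_on with | mk P =>
    refine Subtype.ext (fix_a4 h2 (f.comp (H4.subtype.comp e4.symm.toMonoidHom))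
      (hf.comp (Subtype.val_injective.comp e4.symm.injective)) fun a => ?_)
    show glAut P (f _) = f _
    rw [hψ P hym, hy]; rfl
  have hbij : Function.Bijective ψ := by
    refine (Nat.bijective_iff_injective_and_card ψ).2 ⟨hinj, ?_⟩
    rw [card_eq hodd hM hML, ← hN, hNc, card_mulAut (by norm_num) (by norm_num)]; rfl
  obtain ⟨c, π, hc, hc1, hπ⟩ : ∃ (c : alternatingGroup (Fin 5)) (π : Equiv.Perm (Fin 5)),
      c ^ 5 = 1 ∧ c ≠ 1 ∧ π * (c : Equiv.Perm (Fin 5)) * π⁻¹ = (c : Equiv.Perm (Fin 5)) ^ 2 := by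
    refine ⟨⟨finRotate 5, Equiv.Perm.mem_alternatingGroup.2 (by decide)⟩, Equiv.swap 1 2 * Equiv.swap 2 4 * Equiv.swap 4 3, by decide, by decide, ?_⟩
    decide
  obtain ⟨⟨y, hym⟩, hy⟩ := hbij.2 (MulAut.conjNormal π)
  induction y using ProjGenLinGroup.induction_on with | mk P =>
  have hPc : glAut P (f c) = f (c ^ 2) := by
    rw [hψ P hym, hy]
    congr 1
    exact Subtype.ext (by rw [MulAut.conjNormal_apply, hπ, Subgroup.coe_pow])
  obtain ⟨g, hg⟩ := toPSL_surjective (f c)
  haveI : Fact (Nat.Prime 5) := ⟨by norm_num⟩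
  have ho : orderOf (toPSL g) = 5 := by
    rw [hg, orderOf_injective f hf, orderOf_eq_prime hc hc1]
  have hτ := tr_order_five ho
  rw [map_pow, ← hg, glAut_toPSL, ← map_pow] at hPc
  have htr2 : tr (g ^ 2) = tr g ^ 2 - 2 := by
    have hd := det_eq g
    simp [pow_two, tr, mul_apply2]
    linear_combination -2 * hd
  have hsq : tr g ^ 2 = (tr g ^ 2 - 2) ^ 2 := by
    rw [← htr2]
    rcases toPSL_eq_iff.1 hPc with h | h
    · rw [← h, tr_conjGL]
    · have := congrArg tr h
      rw [tr_conjGL, tr_neg] at this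
      rw [this]; ring
  have h5 : (5 : F) = 0 := by
    have h3 : 2 * tr g ^ 2 = 3 := by linear_combination hτ + hsq
    linear_combination (-4 : F) * hτ + (2 * tr g ^ 2 - 3) * h3
  have hp5 : p = 5 := by
    have := (CharP.cast_eq_zero_iff F p 5).1 (by exact_mod_cast h5)
    exact (Nat.prime_dvd_prime_iff_eq (Fact.out : p.Prime) (by norm_num)).1 this
  rcases hp with hp | hp
  · exact hp (by rw [hNc, hp5]; norm_num)
  · omega

include hodd hq hM hML p in
/-- No `S₄`. -/
theorem s4_false (e : M.comap T ≃* Equiv.Perm (Fin 4)) : False := by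
  have h2 : (2 : F) ≠ 0 := PSL2Classes.two_ne_zero_of_odd hodd
  set N := M.comap T with hN
  let f : alternatingGroup (Fin 4) →* PSL :=
    N.subtype.comp (e.symm.toMonoidHom.comp (alternatingGroup (Fin 4)).subtype)
  have hf : Function.Injective f := Subtype.val_injective.comp (e.symm.injective.comp Subtype.val_injective)
  obtain ⟨ψ, hψ⟩ := exists_aut_hom (M := M) f hf fun P hP a => by
    have hmem : ∀ z, glAut P (f z) ∈ N := fun z => by
      show glAut P (f z) ∈ M.comap T
      rw [← comap_map_stable hP]; exact Subgroup.mem_map_of_mem _ (SetLike.coe_mem _)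
    let φ : alternatingGroup (Fin 4) →* N := ((glAut P).toMonoidHom.comp f).codRestrict N hmem
    have := sign_trivial (Equiv.Perm.sign.comp (e.toMonoidHom.comp φ)) a
    refine ⟨⟨e (φ a), Equiv.Perm.mem_alternatingGroup.2 this⟩, ?_⟩
    simp [f, φ]
  have hinj : Function.Injective ψ := (injective_iff_map_eq_one ψ).2 fun y hy => by
    obtain ⟨y, hym⟩ := y
    induction y using ProjGenLinGroup.induction_on with | mk P =>
    refine Subtype.ext (fix_a4 h2 f hf fun a => ?_)
    rw [hψ P hym, hy]; rfl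
  haveI : Finite (MulAut (alternatingGroup (Fin 4))) :=
    Finite.of_surjective _ (Cfsg.Agent.S2119.result 4 le_rfl (by norm_num)).2
  have h := Nat.card_le_card_of_injective ψ hinj
  rw [card_eq hodd hM hML, ← hN, Nat.card_congr e.toEquiv, card_four_five.2.1,
    card_mulAut le_rfl (by norm_num)] at h
  norm_num [Nat.factorial] at h

include hodd hq hM hML p in
/-- The `A₄` case. -/
theorem a4_case (hp : ¬ p ∣ Nat.card (M.comap T)) (e : M.comap T ≃* alternatingGroup (Fin 4)) :
    Fintype.card F = p ∧ (p % 8 = 3 ∨ p % 8 = 5) ∧ Nonempty (M ≃* Equiv.Perm (Fin 4)) := by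
  have h2 : (2 : F) ≠ 0 := PSL2Classes.two_ne_zero_of_odd hodd
  set N := M.comap T with hN
  have hNc : Nat.card N = 12 := (Nat.card_congr e.toEquiv).trans card_four_five.1
  have hp5 : 5 ≤ p := five_le_of_not_dvd p (M := N) (by rw [hNc]; norm_num) hp
  let f : alternatingGroup (Fin 4) →* PSL := N.subtype.comp e.symm.toMonoidHom
  have hf : Function.Injective f := Subtype.val_injective.comp e.symm.injective
  have hstab : ∀ P : GL (Fin 2) F, ProjGenLinGroup.mk P ∈ M → ∀ v ∈ N, glAut P v ∈ N := fun P hP v hv => by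
    show glAut P v ∈ M.comap T
    rw [← comap_map_stable hP]; exact Subgroup.mem_map_of_mem _ hv
  obtain ⟨ψ, hψ⟩ := exists_aut_hom (M := M) f hf fun P hP a =>
    ⟨e ⟨glAut P (f a), hstab P hP _ (SetLike.coe_mem _)⟩, by simp [f]⟩
  have hinj : Function.Injective ψ := (injective_iff_map_eq_one ψ).2 fun y hy => by
    obtain ⟨y, hym⟩ := y
    induction y using ProjGenLinGroup.induction_on with | mk P =>
    refine Subtype.ext (fix_a4 h2 f hf fun a => ?_)
    rw [hψ P hym, hy]; rfl
  have hbij : Function.Bijective ψ := by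
    refine (Nat.bijective_iff_injective_and_card ψ).2 ⟨hinj, ?_⟩
    rw [card_eq hodd hM hML, ← hN, hNc, card_mulAut (by norm_num) (by norm_num)]; rfl
  have hM4 : Nonempty (M ≃* Equiv.Perm (Fin 4)) :=
    ⟨(MulEquiv.ofBijective ψ hbij).trans
      (MulEquiv.ofBijective _ (Cfsg.Agent.S2119.result 4 le_rfl (by norm_num))).symm⟩
  -- `q ≡ ±3 (mod 8)`
  have h8 : Fintype.card F % 8 = 3 ∨ Fintype.card F % 8 = 5 := by
    by_contra hcon
    have h16 : Fintype.card F ^ 2 % 16 = 1 := by
      have : Fintype.card F % 16 = 1 ∨ Fintype.card F % 16 = 7 ∨ Fintype.card F % 16 = 9 ∨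
          Fintype.card F % 16 = 15 := by omega
      rw [Nat.pow_mod]; rcases this with h | h | h | h <;> rw [h]
    obtain ⟨H, ⟨eH⟩⟩ := (Cfsg.Agent.S0803.result rfl).2 h16
    let f' : alternatingGroup (Fin 4) →* PSL :=
      H.subtype.comp (eH.symm.toMonoidHom.comp (alternatingGroup (Fin 4)).subtype)
    obtain ⟨Q, hQ⟩ := a4_conj h2 f f' hf
      (Subtype.val_injective.comp (eH.symm.injective.comp Subtype.val_injective))
    have hle : H.map (glAut Q).symm.toMonoidHom ≤ N := by
      rintro _ ⟨z, hz, rfl⟩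
      refine normalizer_le_comap hq hM (comap_ne_bot hodd hq hM hML) (comap_ne_top hq hM hML) hstab
        (Subgroup.mem_normalizer_fintype fun v hv => ?_)
      obtain ⟨w, hw⟩ : ∃ w, z * f' (e ⟨v, hv⟩) * z⁻¹ = f' w := by
        refine ⟨⟨eH ⟨z, hz⟩ * (e ⟨v, hv⟩ : Equiv.Perm (Fin 4)) * (eH ⟨z, hz⟩)⁻¹,
          (inferInstance : (alternatingGroup (Fin 4)).Normal).conj_mem _ (e ⟨v, hv⟩).2 _⟩, ?_⟩
        simp [f']
      have hv' : (glAut Q).symm (f' (e ⟨v, hv⟩)) = v := by
        rw [← hQ, MulEquiv.symm_apply_apply]; simp [f]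
      show (glAut Q).symm z * v * ((glAut Q).symm z)⁻¹ ∈ N
      nth_rewrite 1 [← hv']
      rw [← map_inv, ← map_mul, ← map_mul, hw, ← hQ, MulEquiv.symm_apply_apply]
      exact SetLike.coe_mem _
    have := Subgroup.card_le_of_le hle
    have hc24 : Nat.card (H.map (glAut Q).symm.toMonoidHom) = 24 :=
      (Nat.card_congr ((glAut Q).symm.subgroupMap H).toEquiv).symm.trans
        ((Nat.card_congr eH.toEquiv).trans card_four_five.2.1)
    rw [hc24, hNc] at this
    omega
  -- `q = p`
  obtain ⟨P, hP⟩ := a4_into h2 ⊥ f hf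
  obtain ⟨hcM, hcML⟩ := conj_hyps hM hML P
  have hN' : (M.map (MulAut.conj (ProjGenLinGroup.mk P)).toMonoidHom).comap T = N.map (glAut P).toMonoidHom :=
    comap_conj P
  have hN'std : N.map (glAut P).toMonoidHom ≤ stdP ⊥ := by
    rintro _ ⟨v, hv, rfl⟩
    have := hP (e ⟨v, hv⟩)
    simpa [f] using this
  have hle : M.map (MulAut.conj (ProjGenLinGroup.mk P)).toMonoidHom ≤ GK ⊥ := by
    intro z hz
    induction z using ProjGenLinGroup.induction_on with | mk R =>
    obtain ⟨a, b, -, -, hall⟩ := a4_lifts (F := F) h2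
    obtain ⟨g, g', hg, hg', t1, t2, t3⟩ := hall ((glAut P).toMonoidHom.comp f) ((glAut P).injective.comp hf)
    have hm : ∀ a, glAut R (glAut P (f a)) ∈ stdP (⊥ : Subfield F) := fun a => by
      refine hN'std ?_
      rw [← hN', ← comap_map_stable hz]
      refine Subgroup.mem_map_of_mem _ ?_
      rw [hN']
      exact Subgroup.mem_map_of_mem _ (SetLike.coe_mem _)
    refine descend (g := g) (h := g') (toPSL_entries (hg ▸ hP a)) (toPSL_entries (hg' ▸ hP b)) ?_
      (by rw [hg]; exact hm a) (by rw [hg']; exact hm b)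
    rw [PSL2Pairs.cdet_eq, t1, t2, t3]; norm_num; exact h2
  have hqp : Fintype.card F = p := by
    refine (bot_eq_top_iff p).1 (by_contra fun hbot => ?_)
    rcases hle.lt_or_eq with h | h
    · exact GK_ne_top hbot (hcM.2 _ h)
    · have h1 : stdP (⊥ : Subfield F) ≤ N.map (glAut P).toMonoidHom := by
        rw [← hN', h]
        intro x hx
        exact T_stdP_le ⊥ (Subgroup.mem_map_of_mem T hx)
      have h2' := Subgroup.card_le_of_le h1
      obtain ⟨i⟩ := nonempty_stdP_equiv (⊥ : Subfield F)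
      have hc12 : Nat.card (N.map (glAut P).toMonoidHom) = 12 :=
        (Nat.card_congr ((glAut P).subgroupMap N).toEquiv).symm.trans hNc
      rw [Nat.card_congr i.toEquiv, hc12] at h2'
      haveI := Fintype.ofFinite (⊥ : Subfield F)
      have := (sixty_le_psl (K := (⊥ : Subfield F)) (by rw [← Nat.card_eq_fintype_card, card_bot p]; omega)).1
      omega
  exact ⟨hqp, hqp ▸ h8, hM4⟩

include hodd hq hM hML p in
/-- The subfield case. -/
theorem subfield_case {P : GL (Fin 2) F} {K : Subfield F}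
    (h : (M.comap T).map (glAut P).toMonoidHom = stdP K ∨
      ((M.comap T).map (glAut P).toMonoidHom = extP K ∧ ∃ c : F, c ∉ K ∧ c * c ∈ K)) :
    ∃ m : ℕ, m.Prime ∧ Odd m ∧ Nat.card K ^ m = Fintype.card F ∧
      (M.comap T).map (glAut P).toMonoidHom = stdP K ∧ Nonempty (M ≃* Matrix.ProjGenLinGroup (Fin 2) K) := by
  classical
  have h2 : (2 : F) ≠ 0 := PSL2Classes.two_ne_zero_of_odd hodd
  obtain ⟨hcM, hcML⟩ := conj_hyps hM hML P
  set M' := M.map (MulAut.conj (ProjGenLinGroup.mk P)).toMonoidHom with hM'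
  have hN' : M'.comap T = (M.comap T).map (glAut P).toMonoidHom := comap_conj P
  rw [← hN'] at h
  have hK : K ≠ ⊤ := by
    rintro rfl
    rcases h with e | ⟨-, c, hc, -⟩
    · exact comap_ne_top hq hcM hcML (e.trans stdP_top)
    · exact hc trivial
  have hstd : stdP K ≤ M'.comap T := by
    rcases h with e | ⟨e, -⟩
    · exact e.ge
    · exact (stdP_le_extP K).trans e.ge
  have hdown : ∀ k : SL, tr k = 2 → toPSL k ∈ extP K → toPSL k ∈ stdP K := by
    rintro k hk ⟨k', c, hk', hc, hkK⟩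
    rw [← hk']
    have htr : tr k' = 2 ∨ tr k' = -2 := by
      rcases toPSL_eq_iff.1 hk' with rfl | rfl
      · exact Or.inl hk
      · exact Or.inr (by rw [tr_neg, hk])
    have hct : c * tr k' ∈ K := by
      rw [show tr k' = k'.1 0 0 + k'.1 1 1 from rfl, mul_add]; exact K.add_mem (hkK 0 0) (hkK 1 1)
    have hcK : c ∈ K := by
      rcases htr with e | e <;> rw [e] at hct
      · have := K.div_mem hct (ofNat_mem K 2)
        rwa [mul_div_cancel_right₀ _ h2] at this
      · have := K.div_mem hct (K.neg_mem (ofNat_mem K 2))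
        rwa [mul_div_cancel_right₀ _ (neg_ne_zero.2 h2)] at this
    refine Subgroup.mem_map_of_mem _ fun i j => ?_
    have := K.div_mem (hkK i j) hcK
    rwa [mul_div_cancel_left₀ _ hc] at this
  have hle : M' ≤ GK K := by
    intro z hz
    induction z using ProjGenLinGroup.induction_on with | mk R =>
    have hin : ∀ k : SL, tr k = 2 → k ∈ entriesIn K → glAut R (toPSL k) ∈ stdP K := by
      intro k hk hke
      have hm : glAut R (toPSL k) ∈ M'.comap T := by
        rw [← comap_map_stable hz]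
        exact Subgroup.mem_map_of_mem _ (hstd (Subgroup.mem_map_of_mem _ hke))
      rcases h with e | ⟨e, -⟩
      · rwa [e] at hm
      · rw [e, glAut_toPSL] at hm
        exact hdown _ (by rw [← hk]; exact tr_conjGL R k) hm
    exact descend (uel_mem_entries K) (lel_mem_entries K) cdet_uel_lel
      (hin _ (by simp [tr]; norm_num) (uel_mem_entries K)) (hin _ (by simp [tr]; norm_num) (lel_mem_entries K))
  have heq : M' = GK K := hle.lt_or_eq.resolve_left fun h => GK_ne_top hK (hcM.2 _ h)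
  have hnsq : ¬ ∀ x : K, IsSquare (x : F) := fun hsq => by
    obtain ⟨R, hR, hRn⟩ := exists_not_mem hodd hcM hcML
    exact hRn (GK_le_range hsq (heq ▸ hR))
  rcases h with e | ⟨-, c, hc, hc2⟩
  swap
  · exact absurd (isSquare_of_mem hc hc2) hnsq
  obtain ⟨m, hm1, hm, hmtop⟩ := degree K
  have hm2 : 2 ≤ m := by
    by_contra hlt
    exact hK (hmtop (by omega))
  have hmp : m.Prime := by
    by_contra hnp
    obtain ⟨a, ha⟩ := Nat.exists_dvd_of_not_prime2 hm2 hnp
    obtain ⟨⟨b, hb⟩, ha2, ham⟩ := ha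
    have hb2 : 2 ≤ b := by
      by_contra hh
      interval_cases b <;> omega
    obtain ⟨L, hKL, hLtop⟩ := exists_intermediate K ha2 hb2 (by rw [← hb, hm])
    have h1 : M' ≤ GK L := heq.le.trans (GK_mono hKL.le)
    rcases h1.lt_or_eq with h' | h'
    · exact GK_ne_top hLtop (hcM.2 _ h')
    · refine hKL.not_ge fun x hx => mem_of_uel_mem_GK ?_
      rw [← heq, h']
      exact T_stdP_le L (Subgroup.mem_map_of_mem T (Subgroup.mem_map_of_mem _ fun i j => by
        fin_cases i <;> fin_cases j <;> simp [hx, L.one_mem, L.zero_mem]))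
  refine ⟨m, hmp, hmp.odd_of_ne_two ?_, hm, hN' ▸ e, ?_⟩
  · rintro rfl
    obtain ⟨c, hc, hc2⟩ := even_degree_root K hodd hm
    exact hnsq (isSquare_of_mem hc hc2)
  · obtain ⟨i⟩ := nonempty_GK_equiv K
    exact ⟨((MulAut.conj (ProjGenLinGroup.mk P)).subgroupMap M).trans ((MulEquiv.subgroupCongr heq).trans i)⟩

include hodd hq hM hML p in
/-- The maximal subgroups of `PGL₂(q)` not containing `PSL₂(q)`. -/
theorem cases :
    ((∃ g : PSL, (M.comap T).map (MulAut.conj g).toMonoidHom = borelP F) ∧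
        Nat.card M = Fintype.card F * (Fintype.card F - 1)) ∨
    (∃ k, 3 ≤ k ∧ (k = np F ∨ k = nm F) ∧ Nonempty (M.comap T ≃* DihedralGroup k) ∧
        Nonempty (M ≃* DihedralGroup (2 * k))) ∨
    (Fintype.card F = p ∧ (p % 8 = 3 ∨ p % 8 = 5) ∧ Nonempty (M.comap T ≃* alternatingGroup (Fin 4)) ∧
        Nonempty (M ≃* Equiv.Perm (Fin 4))) ∨
    (∃ (P : GL (Fin 2) F) (K : Subfield F) (m : ℕ), m.Prime ∧ Odd m ∧ Nat.card K ^ m = Fintype.card F ∧
        (M.comap T).map (glAut P).toMonoidHom = stdP K ∧ Nonempty (M ≃* Matrix.ProjGenLinGroup (Fin 2) K)) := by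
  rcases dickson' p (M.comap T) with ⟨k, hk, hc⟩ | ⟨g, hg⟩ | hexc | ⟨P, K, h⟩
  · rcases hc with ⟨hcy, hcard⟩ | ⟨hk2, -, ⟨e⟩⟩
    · exact (cyclic_false p hodd hq hM hML hcy (hcard.symm ▸ not_dvd_of_dvd p hk)).elim
    · obtain ⟨h3, hk', he⟩ := dihedral_case p hodd hq hM hML hk hk2 e
      exact Or.inr (Or.inl ⟨k, h3, hk', ⟨e⟩, he⟩)
  · obtain ⟨h1, h2⟩ := borel_case p hodd hq hM hML hg
    exact Or.inl ⟨⟨g, h1⟩, h2⟩
  · rcases hexc with ⟨hp, h | h | h⟩ | ⟨h3, h⟩ <;> obtain ⟨e⟩ := h
    · obtain ⟨a, b, c⟩ := a4_case p hodd hq hM hML hp e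
      exact Or.inr (Or.inr (Or.inl ⟨a, b, ⟨e⟩, c⟩))
    · exact (s4_false p hodd hq hM hML e).elim
    · exact (a5_false p hodd hq hM hML (Or.inl hp) e).elim
    · exact (a5_false p hodd hq hM hML (Or.inr h3) e).elim
  · obtain ⟨m, a, b, c, d, e⟩ := subfield_case p hodd hq hM hML (P := P) (K := K)
      (h.imp And.left fun h => ⟨h.1, h.2.2⟩)
    exact Or.inr (Or.inr (Or.inr ⟨P, K, m, a, b, c, d, e⟩))

end Maximal

end Cfsg.Agent.Linear.PGL2Max
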