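import Mathlib
import Cfsg.Agent.SmallOrder.PGL2Spectrum
import Cfsg.Agent.Linear.Card

/-!
# Sylow `2`-subgroups of `PGL₂(q)` for a Mersenne prime `q`
-/

set_option autoImplicit false

namespace Cfsg.Agent.Linear.Mersenne

open Matrix
open scoped Pointwise

variable {F : Type*} [Field F]

local notation "GL2" => GL (Fin 2) F
local notation "PGL" => GL (Fin 2) F ⧸ Subgroup.center (GL (Fin 2) F)

theorem mk_eq_mk {g h : GL2} :
    (QuotientGroup.mk g : PGL) = QuotientGroup.mk h ↔ ∃ r : Fˣ, (h : Matrix (Fin 2) (Fin 2) F) = (r : F) • g := by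
  rw [QuotientGroup.eq, Matrix.GeneralLinearGroup.center_eq_range_scalar]
  constructor
  · rintro ⟨r, hr⟩
    refine ⟨r, ?_⟩
    rw [show h = g * (g⁻¹ * h) by group, ← hr, Units.val_mul]
    simp [Matrix.scalar_apply, ← Matrix.smul_one_eq_diagonal]
  · rintro ⟨r, hr⟩
    refine ⟨r, ?_⟩
    rw [eq_inv_mul_iff_mul_eq]
    refine Units.ext ?_
    rw [Units.val_mul, hr]
    simp [Matrix.scalar_apply, ← Matrix.smul_one_eq_diagonal]

/-- An involution lifts to a trace zero element. -/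
theorem exists_trace_zero {z : PGL} (h1 : z ≠ 1) (h2 : z * z = 1) :
    ∃ Z : GL2, (QuotientGroup.mk Z : PGL) = z ∧ (Z : Matrix (Fin 2) (Fin 2) F).trace = 0 := by
  obtain ⟨Z, rfl⟩ := QuotientGroup.mk_surjective z
  refine ⟨Z, rfl, ?_⟩
  rw [← QuotientGroup.mk_mul, eq_comm, ← QuotientGroup.mk_one, mk_eq_mk] at h2
  obtain ⟨r, hr⟩ := h2
  rw [Units.val_mul, SmallOrder.cayley2, Units.val_one] at hr
  by_contra ht
  set t := (Z : Matrix (Fin 2) (Fin 2) F).trace
  set d := (Z : Matrix (Fin 2) (Fin 2) F).det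
  have hsc : (Z : Matrix (Fin 2) (Fin 2) F) = (t⁻¹ * (r + d)) • (1 : Matrix (Fin 2) (Fin 2) F) := by
    rw [← smul_smul, add_smul, ← hr, sub_add_cancel, smul_smul, inv_mul_cancel₀ ht, one_smul]
  have hne : t⁻¹ * (r + d) ≠ 0 := fun h0 => by
    have := ((Matrix.isUnit_iff_isUnit_det _).1 Z.isUnit).ne_zero
    rw [hsc, h0, zero_smul, Matrix.det_zero] at this
    exact this rfl
  exact h1 (Eq.symm (mk_eq_mk.2 ⟨Units.mk0 _ hne, by rw [Units.val_one]; exact hsc⟩))

theorem anticommute_of_trace {M Z : Matrix (Fin 2) (Fin 2) F} (hM : M.trace = 0) (hZ : Z.trace = 0)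
    (h : (M * Z).trace = 0) : M * Z = -(Z * M) := by
  simp only [Matrix.trace_fin_two, Matrix.mul_apply, Fin.sum_univ_two] at hM hZ h
  ext i j
  fin_cases i <;> fin_cases j <;> simp [Matrix.mul_apply, Fin.sum_univ_two]
  · linear_combination h - (M 1 1) * hZ + (Z 0 0) * hM
  · linear_combination (M 0 1) * hZ + (Z 0 1) * hM
  · linear_combination (M 1 0) * hZ + (Z 1 0) * hM
  · linear_combination h - (Z 0 0) * hM + (M 1 1) * hZ

/-- Two trace zero matrices have a common orthogonal trace zero matrix. -/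
theorem exists_cross (Z W : Matrix (Fin 2) (Fin 2) F) (h2 : (2 : F) ≠ 0) (hZ : Z.trace = 0)
    (hW : W.trace = 0) (hnp : ∀ r : F, W ≠ r • Z) (hZ0 : Z ≠ 0) :
    ∃ M : Matrix (Fin 2) (Fin 2) F, M ≠ 0 ∧ M.trace = 0 ∧ (M * Z).trace = 0 ∧ (M * W).trace = 0 := by
  rw [Matrix.trace_fin_two] at hZ hW
  refine ⟨!![Z 1 0 * W 0 1 - Z 0 1 * W 1 0, 2 * (Z 0 1 * W 0 0 - Z 0 0 * W 0 1);
    2 * (Z 0 0 * W 1 0 - Z 1 0 * W 0 0), -(Z 1 0 * W 0 1 - Z 0 1 * W 1 0)], ?_, ?_, ?_, ?_⟩
  · intro h
    have e1 : Z 1 0 * W 0 1 - Z 0 1 * W 1 0 = 0 := by simpa using congrFun (congrFun h 0) 0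
    have e2 : Z 0 1 * W 0 0 - Z 0 0 * W 0 1 = 0 :=
      (mul_eq_zero.1 (by simpa using congrFun (congrFun h 0) 1)).resolve_left h2
    have e3 : Z 0 0 * W 1 0 - Z 1 0 * W 0 0 = 0 :=
      (mul_eq_zero.1 (by simpa using congrFun (congrFun h 1) 0)).resolve_left h2
    have hz11 : Z 1 1 = -Z 0 0 := by linear_combination hZ
    have hw11 : W 1 1 = -W 0 0 := by linear_combination hW
    by_cases ha : Z 0 0 = 0
    · by_cases hb : Z 0 1 = 0
      · have hc : Z 1 0 ≠ 0 := by
          intro hc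
          exact hZ0 (by ext i j; fin_cases i <;> fin_cases j <;> simp [ha, hb, hc, hz11])
        refine hnp (W 1 0 / Z 1 0) ?_
        ext i j
        fin_cases i <;> fin_cases j <;> simp [ha, hb, hz11, hw11] <;> (try field_simp)
        · rw [ha] at e3
          exact (mul_eq_zero.1 (show Z 1 0 * W 0 0 = 0 by linear_combination -e3)).resolve_left hc
        · rw [hb] at e1
          exact (mul_eq_zero.1 (show Z 1 0 * W 0 1 = 0 by linear_combination e1)).resolve_left hc
        · rw [ha] at e3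
          exact (mul_eq_zero.1 (show Z 1 0 * W 0 0 = 0 by linear_combination -e3)).resolve_left hc
      · refine hnp (W 0 1 / Z 0 1) ?_
        ext i j
        fin_cases i <;> fin_cases j <;> simp [ha, hz11, hw11] <;> (try field_simp)
        · rw [ha] at e2
          exact (mul_eq_zero.1 (show Z 0 1 * W 0 0 = 0 by linear_combination e2)).resolve_left hb
        · linear_combination -e1
        · rw [ha] at e2
          exact (mul_eq_zero.1 (show Z 0 1 * W 0 0 = 0 by linear_combination e2)).resolve_left hb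
    · refine hnp (W 0 0 / Z 0 0) ?_
      ext i j
      fin_cases i <;> fin_cases j <;> simp [hz11, hw11] <;> (try field_simp)
      · linear_combination -e2
      · linear_combination e3
  · simp [Matrix.trace_fin_two]
  · simp [Matrix.trace_fin_two, Matrix.mul_apply, Matrix.vecMul, dotProduct, Fin.sum_univ_two]
    linear_combination (-(Z 1 0 * W 0 1 - Z 0 1 * W 1 0)) * hZ
  · simp [Matrix.trace_fin_two, Matrix.mul_apply, Matrix.vecMul, dotProduct, Fin.sum_univ_two]
    linear_combination (-(Z 1 0 * W 0 1 - Z 0 1 * W 1 0)) * hW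

/-- The centraliser of an involution with trace zero lift. -/
theorem card_centralizer_le [Fintype F] (h2 : (2 : F) ≠ 0) {Z : GL2}
    (ht : (Z : Matrix (Fin 2) (Fin 2) F).trace = 0) :
    Nat.card (Subgroup.centralizer ({(QuotientGroup.mk Z : PGL)} : Set PGL)) ≤ 2 * (Fintype.card F + 1) ∧
      ((∃ l : F, l ^ 2 + (Z : Matrix (Fin 2) (Fin 2) F).det = 0) →
        Nat.card (Subgroup.centralizer ({(QuotientGroup.mk Z : PGL)} : Set PGL)) ≤ 2 * (Fintype.card F - 1)) := by
  classical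
  set z : PGL := QuotientGroup.mk Z
  set Zm := (Z : Matrix (Fin 2) (Fin 2) F) with hZm
  set q := Fintype.card F
  have hz11 : Zm 1 1 = -Zm 0 0 := by rw [Matrix.trace_fin_two] at ht; linear_combination ht
  have hdZ : Zm.det ≠ 0 := ((Matrix.isUnit_iff_isUnit_det _).1 Z.isUnit).ne_zero
  let S : Finset GL2 := Finset.univ.filter fun g => (g : Matrix (Fin 2) (Fin 2) F) * Zm = Zm * g
  let A : Finset GL2 := Finset.univ.filter fun g => (g : Matrix (Fin 2) (Fin 2) F) * Zm = -(Zm * g)
  let K : Finset GL2 := Finset.univ.filter fun g =>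
    (QuotientGroup.mk g : PGL) ∈ Subgroup.centralizer ({z} : Set PGL)
  have hK : K.card = Nat.card (Subgroup.centralizer ({z} : Set PGL)) * (q - 1) := by
    have e : K.card = Nat.card (QuotientGroup.mk ⁻¹' ((Subgroup.centralizer ({z} : Set PGL) : Subgroup PGL) : Set PGL) : Set GL2) := by
      rw [Nat.card_eq_fintype_card, ← Set.toFinset_card]
      congr 1
      ext g
      simp [K]
    rw [e, Nat.card_congr (QuotientGroup.preimageMkEquivSubgroupProdSet _ _), Nat.card_prod, mul_comm]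
    congr 1
    rw [Nat.card_congr (MulEquiv.subgroupCongr Matrix.GeneralLinearGroup.center_eq_range_scalar).toEquiv,
      ← Nat.card_congr (MonoidHom.ofInjective (f := Matrix.GeneralLinearGroup.scalar (Fin 2) (R := F))
      (fun r s h => by
        have := congrArg (fun g : GL2 => (g : Matrix (Fin 2) (Fin 2) F) 0 0) h
        exact Units.ext (by simpa using this))).toEquiv, Nat.card_units, Nat.card_eq_fintype_card]
  have hKSA : K ⊆ S ∪ A := by
    intro g hg
    rw [Finset.mem_filter, Subgroup.mem_centralizer_singleton_iff] at hg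
    have hg2 : (QuotientGroup.mk (g * Z) : PGL) = QuotientGroup.mk (Z * g) := by
      rw [QuotientGroup.mk_mul, QuotientGroup.mk_mul]; exact hg.2
    obtain ⟨r, hr⟩ := mk_eq_mk.1 hg2
    rw [Units.val_mul, Units.val_mul] at hr
    have hd := congrArg Matrix.det hr
    rw [Matrix.det_mul, Matrix.det_smul, Matrix.det_mul, Fintype.card_fin, mul_comm Zm.det] at hd
    have hr2 : (r : F) ^ 2 = 1 := by
      have := mul_ne_zero ((Matrix.isUnit_iff_isUnit_det _).1 g.isUnit).ne_zero hdZ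
      exact (mul_eq_right₀ this).1 hd.symm
    rcases sq_eq_one_iff.1 hr2 with h | h <;> rw [h] at hr
    · rw [one_smul] at hr
      exact Finset.mem_union_left _ (Finset.mem_filter.2 ⟨Finset.mem_univ _, hr.symm⟩)
    · rw [neg_one_smul] at hr
      exact Finset.mem_union_right _ (Finset.mem_filter.2 ⟨Finset.mem_univ _, by rw [hr, neg_neg]⟩)
  have hAS : A.card ≤ S.card := by
    rcases A.eq_empty_or_nonempty with h | ⟨g₀, hg₀⟩
    · simp [h]
    · refine Finset.card_le_card_of_injOn (fun g => g₀⁻¹ * g) (fun g hg => ?_)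
        (fun _ _ _ _ h => mul_left_cancel h)
      rw [Finset.mem_coe, Finset.mem_filter] at hg
      rw [Finset.mem_filter] at hg₀
      refine Finset.mem_filter.2 ⟨Finset.mem_univ _, ?_⟩
      have h0 : ((g₀⁻¹ : GL2) : Matrix (Fin 2) (Fin 2) F) * Zm =
          -(Zm * ((g₀⁻¹ : GL2) : Matrix (Fin 2) (Fin 2) F)) := by
        have := congrArg (fun M => ((g₀⁻¹ : GL2) : Matrix (Fin 2) (Fin 2) F) * M *
          ((g₀⁻¹ : GL2) : Matrix (Fin 2) (Fin 2) F)) hg₀.2
        simp only [mul_neg, neg_mul, ← Matrix.mul_assoc, Units.inv_mul, Matrix.one_mul] at this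
        rw [Matrix.mul_assoc (_ * Zm), Units.mul_inv, Matrix.mul_one] at this
        rw [this, neg_neg]
      rw [Units.val_mul, Matrix.mul_assoc, hg.2, mul_neg, ← Matrix.mul_assoc, h0, neg_mul, neg_neg,
        Matrix.mul_assoc]
  have hne : ¬ (Zm 0 1 = 0 ∧ Zm 1 0 = 0 ∧ Zm 0 0 = 0) := by
    rintro ⟨h01, h10, h00⟩
    exact hdZ (by rw [Matrix.det_fin_two, h01, h00]; ring)
  have hcoef : ∀ g ∈ S, ∃ x y : F, (g : Matrix (Fin 2) (Fin 2) F) = x • (1 : Matrix (Fin 2) (Fin 2) F) + y • Zm := by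
    intro g hg
    have he := (Finset.mem_filter.1 hg).2
    have e00 := congrFun (congrFun he 0) 0
    have e01 := congrFun (congrFun he 0) 1
    have e10 := congrFun (congrFun he 1) 0
    simp [Matrix.mul_apply, Fin.sum_univ_two, hz11] at e00 e01 e10
    set G := (g : Matrix (Fin 2) (Fin 2) F)
    by_cases h01 : Zm 0 1 = 0
    · by_cases h10 : Zm 1 0 = 0
      · have h00 : Zm 0 0 ≠ 0 := fun h => hne ⟨h01, h10, h⟩
        have g01 : G 0 1 = 0 := (mul_eq_zero.1 (show (2 : F) * Zm 0 0 * G 0 1 = 0 by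
          rw [h01] at e01; linear_combination -e01)).resolve_left (mul_ne_zero h2 h00)
        have g10 : G 1 0 = 0 := (mul_eq_zero.1 (show (2 : F) * Zm 0 0 * G 1 0 = 0 by
          rw [h10] at e10; linear_combination e10)).resolve_left (mul_ne_zero h2 h00)
        refine ⟨(G 0 0 + G 1 1) / 2, (G 0 0 - G 1 1) / (2 * Zm 0 0), ?_⟩
        ext i j
        fin_cases i <;> fin_cases j <;> simp [g01, g10, h01, h10, hz11] <;> field_simp <;> ring
      · have g01 : G 0 1 = 0 := (mul_eq_zero.1 (show Zm 1 0 * G 0 1 = 0 by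
          rw [h01] at e00; linear_combination e00)).resolve_left h10
        refine ⟨G 0 0 - G 1 0 / Zm 1 0 * Zm 0 0, G 1 0 / Zm 1 0, ?_⟩
        ext i j
        fin_cases i <;> fin_cases j <;> simp [g01, h01, hz11] <;> field_simp
        linear_combination e10
    · refine ⟨G 0 0 - G 0 1 / Zm 0 1 * Zm 0 0, G 0 1 / Zm 0 1, ?_⟩
      ext i j
      fin_cases i <;> fin_cases j <;> simp [hz11] <;> field_simp
      · linear_combination -e00
      · linear_combination -e01
  choose X Y hXY using hcoef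
  have hdet : ∀ (g : GL2) (hg : g ∈ S), X g hg ^ 2 + Y g hg ^ 2 * Zm.det ≠ 0 := by
    intro g hg h
    refine ((Matrix.isUnit_iff_isUnit_det _).1 g.isUnit).ne_zero ?_
    rw [hXY g hg, Matrix.det_fin_two]
    rw [Matrix.det_fin_two, hz11] at h
    simp [hz11]
    linear_combination h
  have hS : S.card ≤ q ^ 2 - 1 := by
    have : ((Finset.univ : Finset (F × F)).erase 0).card = q ^ 2 - 1 := by
      rw [Finset.card_erase_of_mem (Finset.mem_univ _), Finset.card_univ, Fintype.card_prod, sq]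
    rw [← this]
    refine Finset.card_le_card_of_surjOn (fun v : F × F =>
      if h : (v.1 • (1 : Matrix (Fin 2) (Fin 2) F) + v.2 • Zm).det ≠ 0 then
        GeneralLinearGroup.mkOfDetNeZero _ h else 1) ?_
    intro g hg
    refine ⟨(X g hg, Y g hg), ?_, ?_⟩
    · rw [Finset.mem_coe, Finset.mem_erase]
      refine ⟨fun h => hdet g hg ?_, Finset.mem_univ _⟩
      rw [Prod.mk_eq_zero] at h
      rw [h.1, h.2]
      ring
    · have hd : (X g hg • (1 : Matrix (Fin 2) (Fin 2) F) + Y g hg • Zm).det ≠ 0 := by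
        rw [← hXY g hg]; exact ((Matrix.isUnit_iff_isUnit_det _).1 g.isUnit).ne_zero
      simp only [dif_pos hd]
      exact Units.ext (hXY g hg).symm
  have hq : 1 < q := Fintype.one_lt_card
  have hqm : 0 < q - 1 := by omega
  have hsum : K.card ≤ 2 * S.card :=
    (Finset.card_le_card hKSA).trans ((Finset.card_union_le _ _).trans (by omega))
  rw [hK] at hsum
  refine ⟨?_, ?_⟩
  · refine Nat.le_of_mul_le_mul_right (hsum.trans ?_) hqm
    rw [mul_assoc, show (q + 1) * (q - 1) = q ^ 2 - 1 by rw [← Nat.sq_sub_sq, one_pow]]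
    omega
  · rintro ⟨l, hl⟩
    have hl0 : l ≠ 0 := fun h => hdZ (by rw [h] at hl; linear_combination hl)
    have hS' : S.card ≤ (q - 1) * (q - 1) := by
      have : (((Finset.univ : Finset F).erase 0) ×ˢ ((Finset.univ : Finset F).erase 0)).card = (q - 1) * (q - 1) := by
        rw [Finset.card_product, Finset.card_erase_of_mem (Finset.mem_univ _), Finset.card_univ]
      rw [← this]
      refine Finset.card_le_card_of_surjOn (fun v : F × F =>
        if h : (((v.1 + v.2) / 2) • (1 : Matrix (Fin 2) (Fin 2) F) + ((v.1 - v.2) / (2 * l)) • Zm).det ≠ 0 then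
          GeneralLinearGroup.mkOfDetNeZero _ h else 1) ?_
      intro g hg
      refine ⟨(X g hg + l * Y g hg, X g hg - l * Y g hg), ?_, ?_⟩
      · have hprod : (X g hg + l * Y g hg) * (X g hg - l * Y g hg) ≠ 0 := by
          intro h; exact hdet g hg (by linear_combination h + Y g hg ^ 2 * hl)
        rw [Finset.mem_coe, Finset.mem_product]
        exact ⟨Finset.mem_erase.2 ⟨left_ne_zero_of_mul hprod, Finset.mem_univ _⟩,
          Finset.mem_erase.2 ⟨right_ne_zero_of_mul hprod, Finset.mem_univ _⟩⟩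
      · have e1 : (X g hg + l * Y g hg + (X g hg - l * Y g hg)) / 2 = X g hg := by field_simp; ring
        have e2 : (X g hg + l * Y g hg - (X g hg - l * Y g hg)) / (2 * l) = Y g hg := by field_simp; ring
        have hd : (X g hg • (1 : Matrix (Fin 2) (Fin 2) F) + Y g hg • Zm).det ≠ 0 := by
          rw [← hXY g hg]; exact ((Matrix.isUnit_iff_isUnit_det _).1 g.isUnit).ne_zero
        simp only [e1, e2, dif_pos hd]
        exact Units.ext (hXY g hg).symm
    refine Nat.le_of_mul_le_mul_right (hsum.trans ?_) hqm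
    rw [mul_assoc]
    omega

theorem card_pgl (q : ℕ) [Fact q.Prime] :
    Nat.card (GL (Fin 2) (ZMod q) ⧸ Subgroup.center (GL (Fin 2) (ZMod q))) = q * ((q + 1) * (q - 1)) := by
  have h1 := Subgroup.card_eq_card_quotient_mul_card_subgroup (Subgroup.center (GL (Fin 2) (ZMod q)))
  have hq : 1 < q := (Fact.out : q.Prime).one_lt
  have hc : Nat.card (Subgroup.center (GL (Fin 2) (ZMod q))) = q - 1 := by
    rw [Matrix.GeneralLinearGroup.center_eq_range_scalar,
      ← Nat.card_congr (MonoidHom.ofInjective (f := Matrix.GeneralLinearGroup.scalar (Fin 2) (R := ZMod q))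
        (fun r s h => by
          have := congrArg (fun g : GL (Fin 2) (ZMod q) => (g : Matrix (Fin 2) (Fin 2) (ZMod q)) 0 0) h
          exact Units.ext (by simpa using this))).toEquiv, Nat.card_units, Nat.card_zmod]
  rw [Matrix.card_GL_field, Fin.prod_univ_two, hc, ZMod.card] at h1
  simp only [Fin.val_zero, Fin.val_one, pow_zero, pow_one] at h1
  refine Nat.eq_of_mul_eq_mul_right (show 0 < q - 1 by omega) ?_
  rw [← h1]
  obtain ⟨m, rfl⟩ : ∃ m, q = m + 1 := ⟨q - 1, by omega⟩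
  rw [show m + 1 - 1 = m by omega, show (m + 1) ^ 2 - 1 = m * (m + 2) from Nat.sub_eq_of_eq_add (by ring),
    show (m + 1) ^ 2 - (m + 1) = (m + 1) * m from Nat.sub_eq_of_eq_add (by ring)]
  ring

/-- Two Sylow `2`-subgroups meet. -/
theorem sylow_inf_ne_bot {q k : ℕ} [Fact q.Prime] (hk : q + 1 = 2 ^ k) (hq : 7 ≤ q)
    (H : Sylow 2 (GL (Fin 2) (ZMod q) ⧸ Subgroup.center (GL (Fin 2) (ZMod q))))
    (x : GL (Fin 2) (ZMod q) ⧸ Subgroup.center (GL (Fin 2) (ZMod q))) :
    (H : Subgroup (GL (Fin 2) (ZMod q) ⧸ Subgroup.center (GL (Fin 2) (ZMod q)))) ⊓ MulAut.conj x • (H : Subgroup (GL (Fin 2) (ZMod q) ⧸ Subgroup.center (GL (Fin 2) (ZMod q)))) ≠ ⊥ := by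
  classical
  have hp2 : Fact (Nat.Prime 2) := ⟨Nat.prime_two⟩
  have h2 : (2 : ZMod q) ≠ 0 := by
    intro h
    have : q ∣ 2 := (ZMod.natCast_eq_zero_iff 2 q).1 (by exact_mod_cast h)
    exact absurd (Nat.le_of_dvd (by norm_num) this) (by omega)
  have hk3 : 3 ≤ k := by
    by_contra h
    push Not at h
    have : 2 ^ k ≤ 2 ^ 2 := Nat.pow_le_pow_right (by norm_num) (by omega)
    omega
  have hcard : Nat.card (H : Subgroup (GL (Fin 2) (ZMod q) ⧸ Subgroup.center (GL (Fin 2) (ZMod q)))) = 2 ^ (k + 1) := by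
    obtain ⟨n, hn⟩ : ∃ n, Nat.card (H : Subgroup (GL (Fin 2) (ZMod q) ⧸ Subgroup.center (GL (Fin 2) (ZMod q)))) = 2 ^ n := IsPGroup.iff_card.1 H.isPGroup'
    have h8 : 8 ∣ 2 ^ k := (dvd_of_eq (by norm_num : (8 : ℕ) = 2 ^ 3)).trans (pow_dvd_pow 2 hk3)
    have hodd : ¬ 2 ∣ q * ((q - 1) / 2) := by
      rw [Nat.Prime.dvd_mul Nat.prime_two]
      omega
    have hG : Nat.card (GL (Fin 2) (ZMod q) ⧸ Subgroup.center (GL (Fin 2) (ZMod q))) =
        2 ^ (k + 1) * (q * ((q - 1) / 2)) := by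
      rw [card_pgl, hk, pow_succ]
      have : q - 1 = 2 * ((q - 1) / 2) := by omega
      conv_lhs => rw [this]
      ring
    rw [H.card_eq_multiplicity, hG, Nat.factorization_mul (pow_ne_zero _ (by norm_num)) (fun h : q * ((q - 1) / 2) = 0 => hodd (h ▸ dvd_zero 2)),
      Nat.Prime.factorization_pow Nat.prime_two, Finsupp.add_apply, Finsupp.single_eq_same,
      Nat.factorization_eq_zero_of_not_dvd hodd, add_zero]
  have : Nontrivial (H : Subgroup (GL (Fin 2) (ZMod q) ⧸ Subgroup.center (GL (Fin 2) (ZMod q)))) := by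
    rw [← Finite.one_lt_card_iff_nontrivial, hcard]
    exact Nat.one_lt_two_pow (by omega)
  have hZnt : Nontrivial (Subgroup.center ↥(H : Subgroup (GL (Fin 2) (ZMod q) ⧸ Subgroup.center (GL (Fin 2) (ZMod q))))) := H.isPGroup'.center_nontrivial
  obtain ⟨z, hz⟩ := exists_prime_orderOf_dvd_card' (G := Subgroup.center ↥(H : Subgroup (GL (Fin 2) (ZMod q) ⧸ Subgroup.center (GL (Fin 2) (ZMod q))))) 2 (by
    obtain ⟨n, hn⟩ := IsPGroup.iff_card.1 (H.isPGroup'.to_subgroup (Subgroup.center ↥(H : Subgroup (GL (Fin 2) (ZMod q) ⧸ Subgroup.center (GL (Fin 2) (ZMod q))))))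
    rw [hn]
    refine dvd_pow_self 2 fun h0 => ?_
    rw [h0, pow_zero] at hn
    exact absurd hn (Finite.one_lt_card (α := Subgroup.center ↥(H : Subgroup (GL (Fin 2) (ZMod q) ⧸ Subgroup.center (GL (Fin 2) (ZMod q)))))).ne')
  set y : GL (Fin 2) (ZMod q) ⧸ Subgroup.center (GL (Fin 2) (ZMod q)) := z.1.1
  have hy1 : y ≠ 1 := fun h => by
    have : z = 1 := Subtype.ext (Subtype.ext h)
    rw [this, orderOf_one] at hz
    exact absurd hz (by norm_num)
  have hy2 : y * y = 1 := by
    have := pow_orderOf_eq_one z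
    rw [hz, sq] at this
    exact congrArg (fun w : Subgroup.center ↥(H : Subgroup (GL (Fin 2) (ZMod q) ⧸ Subgroup.center (GL (Fin 2) (ZMod q)))) => w.1.1) this
  have hle : (H : Subgroup (GL (Fin 2) (ZMod q) ⧸ Subgroup.center (GL (Fin 2) (ZMod q)))) ≤ Subgroup.centralizer ({y} : Set _) := fun g hg => by
    rw [Subgroup.mem_centralizer_singleton_iff]
    exact congrArg Subtype.val (Subgroup.mem_center_iff.1 z.2 ⟨g, hg⟩)
  obtain ⟨Z, hZy, hZt⟩ := exists_trace_zero hy1 hy2
  have hb := card_centralizer_le h2 hZt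
  rw [hZy, ZMod.card] at hb
  have hns : ¬ ∃ l : ZMod q, l ^ 2 + (Z : Matrix (Fin 2) (Fin 2) (ZMod q)).det = 0 := fun h => by
    have h' := (Subgroup.card_le_card_group _).trans' (Subgroup.card_le_of_le hle)
    have := (Subgroup.card_le_of_le hle).trans (hb.2 h)
    rw [hcard, pow_succ, ← hk] at this
    omega
  have hHeq : (H : Subgroup (GL (Fin 2) (ZMod q) ⧸ Subgroup.center (GL (Fin 2) (ZMod q)))) = Subgroup.centralizer ({y} : Set _) :=
    Subgroup.eq_of_le_of_card_ge hle (by rw [hcard, pow_succ, ← hk, mul_comm]; exact hb.1)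
  have hyH : y ∈ (H : Subgroup (GL (Fin 2) (ZMod q) ⧸ Subgroup.center (GL (Fin 2) (ZMod q)))) := (z : ↥(H : Subgroup (GL (Fin 2) (ZMod q) ⧸ Subgroup.center (GL (Fin 2) (ZMod q))))).2
  intro hbot
  have hmem : ∀ w, w ∈ (H : Subgroup (GL (Fin 2) (ZMod q) ⧸ Subgroup.center (GL (Fin 2) (ZMod q)))) → x⁻¹ * w * x ∈ (H : Subgroup (GL (Fin 2) (ZMod q) ⧸ Subgroup.center (GL (Fin 2) (ZMod q)))) → w = 1 := fun w h h' => by
    have : w ∈ (H : Subgroup (GL (Fin 2) (ZMod q) ⧸ Subgroup.center (GL (Fin 2) (ZMod q)))) ⊓ MulAut.conj x • (H : Subgroup (GL (Fin 2) (ZMod q) ⧸ Subgroup.center (GL (Fin 2) (ZMod q)))) :=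
      ⟨h, Subgroup.mem_pointwise_smul_iff_inv_smul_mem.2 (by
        simpa [MulAut.conj_inv_apply] using h')⟩
    rwa [hbot, Subgroup.mem_bot] at this
  obtain ⟨X, rfl⟩ := QuotientGroup.mk_surjective x
  set W : GL (Fin 2) (ZMod q) := X * Z * X⁻¹ with hW
  have hWy : (QuotientGroup.mk W : GL (Fin 2) (ZMod q) ⧸ Subgroup.center (GL (Fin 2) (ZMod q))) =
      QuotientGroup.mk X * y * (QuotientGroup.mk X)⁻¹ := by
    rw [hW, QuotientGroup.mk_mul, QuotientGroup.mk_mul, QuotientGroup.mk_inv, hZy]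
  have hWt : (W : Matrix (Fin 2) (Fin 2) (ZMod q)).trace = 0 := by
    rw [hW, Units.val_mul, Units.val_mul, Matrix.trace_mul_comm, ← Matrix.mul_assoc, Units.inv_mul,
      Matrix.one_mul, hZt]
  have hcentral : ∀ (M : GL (Fin 2) (ZMod q)) (V : GL (Fin 2) (ZMod q)),
      (M : Matrix (Fin 2) (Fin 2) (ZMod q)) * V = -((V : Matrix (Fin 2) (Fin 2) (ZMod q)) * M) →
      (QuotientGroup.mk M : GL (Fin 2) (ZMod q) ⧸ Subgroup.center (GL (Fin 2) (ZMod q))) * QuotientGroup.mk V =
        QuotientGroup.mk V * QuotientGroup.mk M := fun M V h => by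
    rw [← QuotientGroup.mk_mul, ← QuotientGroup.mk_mul, mk_eq_mk]
    exact ⟨-1, by rw [Units.val_mul, Units.val_mul, h]; simp⟩
  by_cases hprop : ∃ r : ZMod q, (W : Matrix (Fin 2) (Fin 2) (ZMod q)) = r • (Z : Matrix (Fin 2) (Fin 2) (ZMod q))
  · obtain ⟨r, hr⟩ := hprop
    have hr0 : r ≠ 0 := fun h => by
      rw [h, zero_smul] at hr
      exact Units.ne_zero W hr
    have hyy : QuotientGroup.mk X * y * (QuotientGroup.mk X)⁻¹ = y := by
      rw [← hWy, ← hZy]
      exact (mk_eq_mk.2 ⟨Units.mk0 r hr0, hr⟩).symm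
    refine hy1 (hmem y hyH ?_)
    have : (QuotientGroup.mk X)⁻¹ * y * QuotientGroup.mk X = y := by
      conv_lhs => rw [← hyy]
      group
    rw [this]; exact hyH
  · push Not at hprop
    obtain ⟨M, hM0, hMt, hMZ, hMW⟩ := exists_cross (Z : Matrix (Fin 2) (Fin 2) (ZMod q)) W h2 hZt hWt hprop
      (Units.ne_zero Z)
    have hMd : M.det ≠ 0 := by
      intro hd
      set Zm := (Z : Matrix (Fin 2) (Fin 2) (ZMod q))
      have hA : M * Zm = -(Zm * M) := anticommute_of_trace hMt hZt hMZ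
      obtain ⟨v, hv0, hv⟩ := Matrix.exists_mulVec_eq_zero_iff.2 hd
      have hv' : M *ᵥ (Zm *ᵥ v) = 0 := by
        rw [Matrix.mulVec_mulVec, hA, Matrix.neg_mulVec, ← Matrix.mulVec_mulVec, hv, Matrix.mulVec_zero, neg_zero]
      have hdep : v 0 * (Zm *ᵥ v) 1 - v 1 * (Zm *ᵥ v) 0 = 0 := by
        by_contra hne
        apply hM0
        have a0 := congrFun hv 0
        have a1 := congrFun hv 1
        have b0 := congrFun hv' 0
        have b1 := congrFun hv' 1
        set w := Zm *ᵥ v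
        simp [Matrix.mulVec, dotProduct, Fin.sum_univ_two] at a0 a1 b0 b1
        ext i j
        refine (mul_eq_zero.1 (?_ : (v 0 * w 1 - v 1 * w 0) * M i j = 0)).resolve_left hne
        fin_cases i <;> fin_cases j <;> simp only [Fin.isValue, Fin.zero_eta, Fin.mk_one]
        · linear_combination w 1 * a0 - v 1 * b0
        · linear_combination v 0 * b0 - w 0 * a0
        · linear_combination w 1 * a1 - v 1 * b1
        · linear_combination v 0 * b1 - w 0 * a1
      rw [Matrix.trace_fin_two] at hZt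
      simp [Matrix.mulVec, dotProduct, Fin.sum_univ_two] at hdep
      refine hns ?_
      rw [Matrix.det_fin_two]
      by_cases hv1 : v 1 = 0
      · have hv0' : v 0 ≠ 0 := fun h => hv0 (funext fun i => by fin_cases i <;> simp [h, hv1])
        have h10 : Zm 1 0 = 0 := by
          rw [hv1] at hdep
          simpa [hv0'] using hdep
        exact ⟨Zm 0 0, by rw [h10]; linear_combination Zm 0 0 * hZt⟩
      · refine ⟨Zm 1 0 * (v 0 / v 1) - Zm 0 0, ?_⟩
        field_simp
        linear_combination Zm 1 0 * hdep + (v 1 * (Zm 0 0 * v 1 - Zm 1 0 * v 0)) * hZt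
    set Mg : GL (Fin 2) (ZMod q) := GeneralLinearGroup.mkOfDetNeZero M hMd
    refine absurd (hmem (QuotientGroup.mk Mg) ?_ ?_) ?_
    · rw [hHeq, Subgroup.mem_centralizer_singleton_iff, ← hZy]
      exact hcentral Mg Z (anticommute_of_trace hMt hZt hMZ)
    · rw [hHeq, Subgroup.mem_centralizer_singleton_iff]
      have hc := hcentral Mg W (anticommute_of_trace hMt hWt hMW)
      rw [hWy] at hc
      calc _ = (QuotientGroup.mk X)⁻¹ * (QuotientGroup.mk Mg * (QuotientGroup.mk X * y * (QuotientGroup.mk X)⁻¹)) * QuotientGroup.mk X := by group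
        _ = _ := by rw [hc]; group
    · intro h
      rw [eq_comm, ← QuotientGroup.mk_one, mk_eq_mk] at h
      obtain ⟨r, hr⟩ := h
      change M = _ at hr
      rw [Units.val_one] at hr
      rw [hr, Matrix.trace_smul, Matrix.trace_one, Fintype.card_fin, smul_eq_mul, Nat.cast_ofNat] at hMt
      exact mul_ne_zero r.ne_zero h2 hMt

end Cfsg.Agent.Linear.Mersenne
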