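import Cfsg.Agent.Linear.PSL2Classes
import Cfsg.Agent.Linear.Torus

/-!
# `PSL₂(2^t) = ABA`
-/

set_option autoImplicit false

namespace Cfsg.Agent.Linear.PSL2Classes

open Matrix

variable {F : Type*} [Field F]

local notation "SL" => Matrix.SpecialLinearGroup (Fin 2) F
local notation "PSL" => Matrix.ProjectiveSpecialLinearGroup (Fin 2) F

/-- The upper unitriangular subgroup. -/
def upperUnip : Multiplicative F →* Matrix.SpecialLinearGroup (Fin 2) F where
  toFun m := ⟨!![1, Multiplicative.toAdd m; 0, 1], by simp [Matrix.det_fin_two]⟩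
  map_one' := Subtype.ext (by simp [one_fin_two])
  map_mul' s t := Subtype.ext (by
    change _ = !![(1 : F), Multiplicative.toAdd s; 0, 1] * !![(1 : F), Multiplicative.toAdd t; 0, 1]
    ext i j
    fin_cases i <;> fin_cases j <;> simp [Matrix.mul_apply, Fin.sum_univ_two, add_comm])

theorem exists_aba [Fintype F] (h2 : (2 : F) = 0) :
    ∃ A B : Subgroup PSL, IsCyclic A ∧ Nat.card A = Fintype.card F + 1 ∧ IsMulCommutative B ∧
      (∀ b ∈ B, b * b = 1) ∧ Nat.card B = Fintype.card F ∧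
      ∀ g : PSL, ∃ a ∈ A, ∃ b ∈ B, ∃ c ∈ A, g = a * b * c := by
  classical
  obtain ⟨a, b, hab⟩ := exists_nonroot (F := F)
  have : Fact (∀ r : F, r ^ 2 ≠ a + b * r) := ⟨hab⟩
  have hinj : Function.Injective (toPSL : SL → PSL) := fun g h e => by
    rcases toPSL_eq_iff.1 e with e | e
    · exact e
    · rw [e]
      refine Subtype.ext ?_
      ext i j
      simp
      linear_combination -(h.1 i j) * h2
  let τ : normOne a b →* PSL := (toPSL (F := F)).comp (nonsplitTorus a b)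
  let σ : Multiplicative F →* PSL := (toPSL (F := F)).comp upperUnip
  have hτ : Function.Injective τ := hinj.comp nonsplitTorus_injective
  have hσ : Function.Injective σ := hinj.comp fun s t h =>
    congrArg (fun g : SL => g.1 0 1) h
  have hN1 : ∀ x y : F, x ^ 2 + b * x * y - a * y ^ 2 = 1 →
      ∃ z : normOne a b, (nonsplitTorus a b z).1 *ᵥ ![1, 0] = ![x, y] := by
    intro x y h
    have hn : QuadraticAlgebra.norm (⟨x, y⟩ : QuadraticAlgebra F a b) = 1 := by
      rw [QuadraticAlgebra.norm_def]; linear_combination h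
    obtain ⟨w, hw⟩ := QuadraticAlgebra.isUnit_iff_norm_isUnit.2 (hn ▸ isUnit_one)
    refine ⟨⟨w, mem_normOne.2 (by rw [hw]; exact hn)⟩, ?_⟩
    change !![((w : QuadraticAlgebra F a b)).re, a * (w : QuadraticAlgebra F a b).im;
      (w : QuadraticAlgebra F a b).im, (w : QuadraticAlgebra F a b).re + b * (w : QuadraticAlgebra F a b).im] *ᵥ _ = _
    rw [hw]
    ext i
    fin_cases i <;> simp [Matrix.mulVec, dotProduct, Fin.sum_univ_two]
  refine ⟨τ.range, σ.range, isCyclic_of_surjective τ.rangeRestrict τ.rangeRestrict_surjective,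
    by rw [← Nat.card_congr (MonoidHom.ofInjective hτ).toEquiv, card_normOne],
    ⟨⟨fun s t => ?_⟩⟩, ?_,
    by rw [← Nat.card_congr (MonoidHom.ofInjective hσ).toEquiv, Nat.card_congr Multiplicative.toAdd,
      Nat.card_eq_fintype_card], ?_⟩
  · obtain ⟨s, s', rfl⟩ := s
    obtain ⟨t, t', rfl⟩ := t
    exact Subtype.ext (show σ s' * σ t' = σ t' * σ s' by rw [← map_mul, ← map_mul, mul_comm])
  · rintro _ ⟨s, rfl⟩
    rw [← map_mul, show s * s = 1 from Multiplicative.toAdd.injective (by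
      rw [toAdd_mul, toAdd_one]; linear_combination (Multiplicative.toAdd s) * h2), map_one]
  intro g
  obtain ⟨G, rfl⟩ := toPSL_surjective g
  set N : F → F → F := fun x y => x ^ 2 + b * x * y - a * y ^ 2 with hN
  have hd := G.2
  rw [Matrix.det_fin_two] at hd
  obtain ⟨sα, hα⟩ := Forms.exists_sq_of_two_eq_zero h2 (N (G.1 0 0) (G.1 1 0) + 1)
  obtain ⟨sγ, hγ⟩ := Forms.exists_sq_of_two_eq_zero h2 (N (G.1 0 1) (G.1 1 1) + (-a))
  have hdiff : ∀ x y : F, sα * x + sγ * y = 0 →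
      N (G.1 0 0 * x + G.1 0 1 * y) (G.1 1 0 * x + G.1 1 1 * y) = N x y := by
    intro x y h
    simp only [hN] at hα hγ ⊢
    linear_combination (-(x ^ 2)) * hα + (-(y ^ 2)) * hγ + (sα * x + sγ * y) * h + b * x * y * hd +
      (-(x * y * sα * sγ) + (G.1 0 0 * G.1 0 1 + b * G.1 0 1 * G.1 1 0 - a * G.1 1 0 * G.1 1 1) * x * y - x ^ 2 + a * y ^ 2) * h2
  obtain ⟨x, y, hxy, hne⟩ : ∃ x y : F, sα * x + sγ * y = 0 ∧ (x ≠ 0 ∨ y ≠ 0) := by
    rcases eq_or_ne sα 0 with h | h
    · exact ⟨1, 0, by simp [h], Or.inl one_ne_zero⟩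
    · exact ⟨-sγ, sα, by ring, Or.inr h⟩
  have hN0 : N x y ≠ 0 := by
    intro h
    simp only [hN] at h
    rcases eq_or_ne y 0 with hy | hy
    · exact (hne.resolve_right (not_not.2 hy)) (pow_eq_zero_iff two_ne_zero |>.1 (by simpa [hy] using h))
    · refine hab (-(x / y)) ?_
      field_simp
      linear_combination h
  obtain ⟨k, hk⟩ := Forms.exists_sq_of_two_eq_zero h2 (N x y)⁻¹
  have h1 : N (k * x) (k * y) = 1 := by
    have : N (k * x) (k * y) = k ^ 2 * N x y := by simp only [hN]; ring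
    rw [this, hk, inv_mul_cancel₀ hN0]
  have h1' : N (G.1 0 0 * (k * x) + G.1 0 1 * (k * y)) (G.1 1 0 * (k * x) + G.1 1 1 * (k * y)) = 1 := by
    rw [hdiff _ _ (by linear_combination k * hxy)]
    exact h1
  obtain ⟨z, hz⟩ := hN1 _ _ h1
  obtain ⟨w, hw⟩ := hN1 _ _ h1'
  set Z := nonsplitTorus a b z
  set W := nonsplitTorus a b w
  set U := W⁻¹ * G * Z with hU
  have hfix : U.1 *ᵥ ![1, 0] = ![1, 0] := by
    have hG : G.1 *ᵥ ![k * x, k * y] = W.1 *ᵥ ![1, 0] := by
      rw [hw]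
      ext i
      fin_cases i <;> simp [Matrix.mulVec, dotProduct, Fin.sum_univ_two]
    change (W⁻¹.1 * G.1 * Z.1) *ᵥ ![1, 0] = _
    rw [← Matrix.mulVec_mulVec, hz, ← Matrix.mulVec_mulVec, hG, Matrix.mulVec_mulVec, sl_inv_mul,
      Matrix.one_mulVec]
  have h00 : U.1 0 0 = 1 := by simpa [Matrix.mulVec, dotProduct, Fin.sum_univ_two] using congrFun hfix 0
  have h10 : U.1 1 0 = 0 := by simpa [Matrix.mulVec, dotProduct, Fin.sum_univ_two] using congrFun hfix 1
  have h11 : U.1 1 1 = 1 := by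
    have := U.2
    rwa [Matrix.det_fin_two, h00, h10, one_mul, mul_zero, sub_zero] at this
  have hUval : U = upperUnip (Multiplicative.ofAdd (U.1 0 1)) := by
    refine Subtype.ext ?_
    change U.1 = !![1, U.1 0 1; 0, 1]
    ext i j
    fin_cases i <;> fin_cases j <;> simp [h00, h10, h11]
  refine ⟨τ w, ⟨w, rfl⟩, σ (Multiplicative.ofAdd (U.1 0 1)), ⟨_, rfl⟩, (τ z)⁻¹, inv_mem ⟨z, rfl⟩, ?_⟩
  change toPSL G = toPSL W * toPSL (upperUnip (Multiplicative.ofAdd (U.1 0 1))) * (toPSL Z)⁻¹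
  rw [← hUval, ← map_inv, ← map_mul, ← map_mul, hU]
  congr 1
  group

end Cfsg.Agent.Linear.PSL2Classes
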