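import Cfsg.Agent.Linear.Transvection
import Mathlib

/-!
# `SL_n(q)` is generated by two conjugate regular unipotents

With `w = 1 + N`, `u = w⁻¹` and a root element `t = 1 + c E_{n-1,0}` the group generated by `u` and
`t u t⁻¹` contains the commutator `[x, [x, u x u⁻¹]]`, `x = t (u t u⁻¹)⁻¹`, which is a transvection;
the transvections of the orbit `u ^ i t u ^ (-i)` then multiply up to all elementary ones.
-/

set_option autoImplicit false
set_option linter.unusedSectionVars false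

namespace Cfsg.Agent.Linear.RegUniGen

open Matrix Polynomial

variable {F : Type*} [Field F] {n : ℕ}

/-- The nilpotent Jordan block. -/
def nilJ (F : Type*) [Field F] (n : ℕ) : Matrix (Fin n) (Fin n) F :=
  Matrix.of fun r c => if (c : ℕ) = (r : ℕ) + 1 then 1 else 0

theorem nilJ_pow_apply (k : ℕ) (r c : Fin n) :
    (nilJ F n ^ k) r c = if (c : ℕ) = (r : ℕ) + k then 1 else 0 := by
  induction k generalizing r c with
  | zero =>
    simp only [pow_zero, Matrix.one_apply, Fin.ext_iff, add_zero]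
    by_cases h : (r : ℕ) = c <;> simp [h, Ne.symm]
  | succ k ih =>
    rw [pow_succ', Matrix.mul_apply]
    by_cases h : (r : ℕ) + 1 < n
    · rw [Finset.sum_eq_single ⟨(r : ℕ) + 1, h⟩]
      · rw [ih]
        simp [nilJ, add_assoc, add_comm 1 k]
      · intro b _ hb
        have : (b : ℕ) ≠ (r : ℕ) + 1 := fun e => hb (Fin.ext e)
        simp [nilJ, this]
      · simp
    · rw [Finset.sum_eq_zero fun b _ => ?_]
      · have := c.isLt
        rw [if_neg (by omega)]
      · have : (b : ℕ) ≠ (r : ℕ) + 1 := by have := b.isLt; omega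
        simp [nilJ, this]

theorem aeval_apply (P : F[X]) (r c : Fin n) :
    (aeval (nilJ F n) P) r c = if (r : ℕ) ≤ c then P.coeff ((c : ℕ) - r) else 0 := by
  induction P using Polynomial.induction_on' with
  | add P Q hP hQ =>
    rw [map_add, Matrix.add_apply, hP, hQ, coeff_add]
    split_ifs <;> simp
  | monomial k a =>
    rw [aeval_monomial, ← Algebra.smul_def, Matrix.smul_apply, nilJ_pow_apply, coeff_monomial, smul_eq_mul]
    by_cases h : (r : ℕ) ≤ c
    · rw [if_pos h]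
      by_cases h2 : (c : ℕ) = (r : ℕ) + k
      · rw [if_pos h2, if_pos (by omega), mul_one]
      · rw [if_neg h2, if_neg (by omega), mul_zero]
    · rw [if_neg h, if_neg (by omega), mul_zero]

theorem nilJ_pow_eq_zero {k : ℕ} (h : n ≤ k) : nilJ F n ^ k = 0 := by
  ext r c
  rw [nilJ_pow_apply, Matrix.zero_apply, if_neg]
  have := c.isLt
  omega

/-- The inverse series of `1 + X`. -/
noncomputable def invS (F : Type*) [Field F] (n : ℕ) : F[X] := ∑ i ∈ Finset.range n, (-X) ^ i

theorem coeff_invS (i : ℕ) : (invS F n).coeff i = if i < n then (-1) ^ i else 0 := by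
  rw [invS, finset_sum_coeff]
  simp only [show ∀ k : ℕ, (-X : F[X]) ^ k = C ((-1) ^ k) * X ^ k from fun k => by
    rw [neg_pow, map_pow, map_neg, map_one], coeff_C_mul_X_pow]
  by_cases h : i < n
  · rw [if_pos h, Finset.sum_eq_single i] <;> simp +contextual [h, eq_comm]
  · rw [if_neg h, Finset.sum_eq_zero]
    intro k hk
    rw [Finset.mem_range] at hk
    rw [if_neg (by omega)]

theorem one_add_mul_invS : (1 + X : F[X]) * invS F n = 1 - (-X) ^ n := by
  rw [invS, ← mul_neg_geom_sum (-X : F[X]) n, sub_neg_eq_add]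

/-- The regular unipotent `(1 + N)⁻¹`. -/
noncomputable def uU (F : Type*) [Field F] (n : ℕ) : Matrix.SpecialLinearGroup (Fin n) F :=
  ⟨aeval (nilJ F n) (invS F n), by
    rw [Matrix.det_of_isUpperTriangular (fun r c h => by
      rw [aeval_apply, if_neg]; exact not_le.2 h)]
    refine Finset.prod_eq_one fun r _ => ?_
    rw [aeval_apply, if_pos le_rfl, Nat.sub_self, coeff_invS, if_pos (by have := r.isLt; omega), pow_zero]⟩

theorem uU_val : (uU F n).1 = aeval (nilJ F n) (invS F n) := rfl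

theorem uU_inv_val : ((uU F n)⁻¹).1 = aeval (nilJ F n) (1 + X : F[X]) := by
  have h2 : aeval (nilJ F n) (1 + X : F[X]) * (uU F n).1 = 1 := by
    rw [uU_val, ← map_mul, one_add_mul_invS, map_sub, map_one, map_pow, map_neg, aeval_X, neg_pow,
      nilJ_pow_eq_zero le_rfl, mul_zero, sub_zero]
  calc ((uU F n)⁻¹).1
      = aeval (nilJ F n) (1 + X : F[X]) * (uU F n).1 * ((uU F n)⁻¹).1 := by rw [h2, one_mul]
    _ = _ := by
        rw [mul_assoc, ← Matrix.SpecialLinearGroup.coe_mul, mul_inv_cancel, Matrix.SpecialLinearGroup.coe_one, mul_one]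

theorem uU_neg_pow (k : ℕ) : ((uU F n) ^ (-(k : ℤ))).1 = aeval (nilJ F n) ((1 + X) ^ k : F[X]) := by
  rw [_root_.zpow_neg, zpow_natCast, ← inv_pow, Matrix.SpecialLinearGroup.coe_pow, uU_inv_val, map_pow]

section Setting

variable [NeZero n]

/-- The first and the last index. -/
def fs (n : ℕ) [NeZero n] : Fin n := ⟨0, Nat.pos_of_neZero n⟩
def ls (n : ℕ) [NeZero n] : Fin n := ⟨n - 1, Nat.sub_lt (Nat.pos_of_neZero n) one_pos⟩

theorem fs_val : ((fs n : Fin n) : ℕ) = 0 := rfl
theorem ls_val : ((ls n : Fin n) : ℕ) = n - 1 := rfl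

theorem fs_ne_ls (hn : 2 ≤ n) : ls n ≠ fs n := fun h => by
  have := congrArg Fin.val h; rw [fs_val, ls_val] at this; omega

/-- The corner coefficient of the powers of `u`. -/
noncomputable def f (F : Type*) [Field F] (n : ℕ) [NeZero n] (e : ℤ) : F := ((uU F n) ^ e).1 (fs n) (ls n)

theorem f_neg (k : ℕ) : f F n (-(k : ℤ)) = (k.choose (n - 1) : F) := by
  rw [f, uU_neg_pow, aeval_apply, fs_val, ls_val, if_pos (by omega), Nat.sub_zero, coeff_one_add_X_pow]

theorem f_zero {e : ℤ} (h1 : e ≤ 0) (h2 : -((n : ℤ) - 2) ≤ e) : f F n e = 0 := by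
  obtain ⟨k, rfl⟩ : ∃ k : ℕ, e = -(k : ℤ) := ⟨(-e).toNat, by omega⟩
  rw [f_neg, Nat.choose_eq_zero_of_lt (by omega), Nat.cast_zero]

theorem f_wrap : f F n (1 - (n : ℤ)) = 1 := by
  have := Nat.pos_of_neZero n
  rw [show (1 : ℤ) - (n : ℤ) = -((n - 1 : ℕ) : ℤ) by omega, f_neg, Nat.choose_self, Nat.cast_one]

theorem f_one : f F n 1 = (-1) ^ (n - 1) := by
  have := Nat.pos_of_neZero n
  rw [f, zpow_one, uU_val, aeval_apply, fs_val, ls_val, if_pos (by omega), Nat.sub_zero, coeff_invS, if_pos (by omega)]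

/-- The coefficient used to shift by the `p`-part of `n`. -/
theorem f_shift (p j m : ℕ) [Fact p.Prime] [CharP F p] (hnm : n = p ^ j * m) :
    f F n (1 + ((p ^ j : ℕ) : ℤ)) = (m : F) * (-1) ^ (n - 1) := by
  have hn := Nat.pos_of_neZero n
  set g := p ^ j with hg
  have hg1 : 1 ≤ g := Nat.one_le_pow _ _ (Fact.out : p.Prime).pos
  set T : F[X] := ∑ l ∈ Finset.range n, (-(X ^ g)) ^ l with hT
  have hN : (nilJ F n ^ g) ^ n = 0 := by
    rw [← pow_mul]; exact nilJ_pow_eq_zero (Nat.le_mul_of_pos_left n hg1)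
  have hinv : aeval (nilJ F n) T = ((uU F n) ^ g).1 := by
    have h1 : aeval (nilJ F n) ((1 + X) ^ g : F[X]) * aeval (nilJ F n) T = 1 := by
      rw [← map_mul, hg, add_pow_char_pow, one_pow, ← hg, hT, show (1 + X ^ g : F[X]) = 1 - -(X ^ g) by ring,
        mul_neg_geom_sum, map_sub, map_one, map_pow, map_neg, map_pow, aeval_X, neg_pow, hN, mul_zero, sub_zero]
    calc aeval (nilJ F n) T
        = ((uU F n) ^ g).1 * (((uU F n)⁻¹ ^ g).1 * aeval (nilJ F n) T) := by
          rw [← mul_assoc, ← Matrix.SpecialLinearGroup.coe_mul, inv_pow, mul_inv_cancel, Matrix.SpecialLinearGroup.coe_one, one_mul]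
      _ = _ := by rw [Matrix.SpecialLinearGroup.coe_pow (uU F n)⁻¹, uU_inv_val, ← map_pow, h1, mul_one]
  rw [f, show (1 : ℤ) + (g : ℤ) = ((1 + g : ℕ) : ℤ) by push_cast; rfl, zpow_natCast, pow_add, pow_one,
    Matrix.SpecialLinearGroup.coe_mul, ← hinv, uU_val, ← map_mul, aeval_apply, fs_val, ls_val, if_pos (by omega),
    Nat.sub_zero, hT, Finset.mul_sum, finset_sum_coeff]
  have hterm : ∀ l ∈ Finset.range n, (invS F n * (-(X ^ g)) ^ l).coeff (n - 1) =
      if l < m then (-1) ^ (n - 1) else 0 := by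
    intro l _
    rw [show (-(X ^ g)) ^ l = C ((-1 : F) ^ l) * X ^ (g * l) by
      rw [neg_pow, map_pow, map_neg, map_one, pow_mul], ← mul_assoc, coeff_mul_X_pow', coeff_mul_C]
    by_cases h : l < m
    · have hlt : g * l + g ≤ n := by
        rw [hnm, ← Nat.mul_succ]; exact Nat.mul_le_mul_left g h
      rw [if_pos h, if_pos (by omega), coeff_invS, if_pos (by omega)]
      have e1 : (-1 : F) ^ (g * l) = (-1) ^ l := by
        rw [pow_mul, hg]
        congr 1
        exact neg_one_pow_char_pow F p j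
      rw [← e1, ← pow_add]
      congr 1
      omega
    · rw [if_neg h, if_neg]
      have : g * m ≤ g * l := Nat.mul_le_mul_left g (not_lt.1 h)
      omega
  rw [Finset.sum_congr rfl hterm, Finset.sum_ite, Finset.sum_const_zero, add_zero, Finset.sum_const,
    show (Finset.range n).filter (fun l => l < m) = Finset.range m by
      ext l
      simp only [Finset.mem_filter, Finset.mem_range]
      have : m ≤ n := hnm ▸ Nat.le_mul_of_pos_left m hg1
      omega, Finset.card_range, nsmul_eq_mul]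

/-- The root matrices of the orbit of `t` under `u`. -/
noncomputable def M (F : Type*) [Field F] (n : ℕ) [NeZero n] (i j : ℤ) : Matrix (Fin n) (Fin n) F :=
  ((uU F n) ^ i).1 * Matrix.single (ls n) (fs n) 1 * ((uU F n) ^ (-j)).1

theorem M_mul (i j k l : ℤ) : M F n i j * M F n k l = f F n (k - j) • M F n i l := by
  have e : ((uU F n) ^ (-j)).1 * ((uU F n) ^ k).1 = ((uU F n) ^ (k - j)).1 := by
    rw [← Matrix.SpecialLinearGroup.coe_mul, ← _root_.zpow_add, neg_add_eq_sub]
  have e2 : Matrix.single (ls n) (fs n) (1 : F) * ((uU F n) ^ (k - j)).1 * Matrix.single (ls n) (fs n) 1 =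
      f F n (k - j) • Matrix.single (ls n) (fs n) 1 := by
    rw [Matrix.single_mul_mul_single, Matrix.smul_single, smul_eq_mul, mul_one, one_mul, mul_one, f]
  calc M F n i j * M F n k l
      = ((uU F n) ^ i).1 * (Matrix.single (ls n) (fs n) (1 : F) * (((uU F n) ^ (-j)).1 * ((uU F n) ^ k).1) *
          Matrix.single (ls n) (fs n) 1) * ((uU F n) ^ (-l)).1 := by simp only [M, mul_assoc]
    _ = _ := by rw [e, e2, Matrix.mul_smul, Matrix.smul_mul]; rfl

theorem M_conj (a i j : ℤ) :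
    ((uU F n) ^ a).1 * M F n i j * (((uU F n) ^ a)⁻¹).1 = M F n (a + i) (a + j) := by
  have e1 : ((uU F n) ^ a).1 * ((uU F n) ^ i).1 = ((uU F n) ^ (a + i)).1 := by
    rw [← Matrix.SpecialLinearGroup.coe_mul, ← _root_.zpow_add]
  have e2 : ((uU F n) ^ (-j)).1 * ((uU F n) ^ (-a)).1 = ((uU F n) ^ (-(a + j))).1 := by
    rw [← Matrix.SpecialLinearGroup.coe_mul, ← _root_.zpow_add]; congr 2; ring
  rw [← _root_.zpow_neg]
  simp only [M, ← mul_assoc, e1]
  rw [mul_assoc _ (((uU F n) ^ (-j)).1), e2]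

/-- Membership of `1 + Y`. -/
def InG (G : Subgroup (Matrix.SpecialLinearGroup (Fin n) F)) (Y : Matrix (Fin n) (Fin n) F) : Prop :=
  ∃ g ∈ G, g.1 = 1 + Y

variable {G : Subgroup (Matrix.SpecialLinearGroup (Fin n) F)} {Y Y' : Matrix (Fin n) (Fin n) F}

theorem InG.inv_val {g : Matrix.SpecialLinearGroup (Fin n) F} (hg : g.1 = 1 + Y) (h : Y * Y = 0) :
    (g⁻¹).1 = 1 - Y := by
  calc (g⁻¹).1 = (g⁻¹).1 * (g.1 * (1 - Y)) := by
        rw [hg, add_mul, one_mul, mul_sub, mul_one, h, sub_zero, sub_add_cancel, mul_one]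
    _ = 1 - Y := by rw [← mul_assoc, ← Matrix.SpecialLinearGroup.coe_mul, inv_mul_cancel, Matrix.SpecialLinearGroup.coe_one, one_mul]

theorem InG.zero : InG G 0 := ⟨1, one_mem _, by rw [Matrix.SpecialLinearGroup.coe_one, add_zero]⟩

theorem InG.neg (hY : InG G Y) (h : Y * Y = 0) : InG G (-Y) := by
  obtain ⟨g, hg, e⟩ := hY
  exact ⟨g⁻¹, inv_mem hg, by rw [InG.inv_val e h, sub_eq_add_neg]⟩

theorem InG.add (hY : InG G Y) (hY' : InG G Y') (h : Y * Y' = 0) : InG G (Y + Y') := by
  obtain ⟨g, hg, e⟩ := hY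
  obtain ⟨g', hg', e'⟩ := hY'
  refine ⟨g * g', mul_mem hg hg', ?_⟩
  rw [Matrix.SpecialLinearGroup.coe_mul, e, e', add_mul, mul_add, mul_add, h, one_mul, one_mul, mul_one]
  abel

theorem InG.conj (hY : InG G Y) {g : Matrix.SpecialLinearGroup (Fin n) F} (hg : g ∈ G) :
    InG G (g.1 * Y * (g⁻¹).1) := by
  obtain ⟨h, hh, e⟩ := hY
  refine ⟨g * h * g⁻¹, mul_mem (mul_mem hg hh) (inv_mem hg), ?_⟩
  rw [Matrix.SpecialLinearGroup.coe_mul, Matrix.SpecialLinearGroup.coe_mul, e, mul_add, add_mul, mul_one,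
    ← Matrix.SpecialLinearGroup.coe_mul, mul_inv_cancel, Matrix.SpecialLinearGroup.coe_one]

theorem comm_val {g h : Matrix.SpecialLinearGroup (Fin n) F} (e : g.1 = 1 + Y) (e' : h.1 = 1 + Y')
    (h1 : Y * Y = 0) (h2 : Y' * Y' = 0) (h3 : Y' * Y = 0) : (g * h * g⁻¹ * h⁻¹).1 = 1 + Y * Y' := by
  rw [Matrix.SpecialLinearGroup.coe_mul, Matrix.SpecialLinearGroup.coe_mul, Matrix.SpecialLinearGroup.coe_mul, e, e',
    InG.inv_val e h1, InG.inv_val e' h2]
  simp only [add_mul, mul_add, sub_mul, mul_sub, one_mul, mul_one, mul_assoc, h1, h2, h3, mul_zero,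
    sub_zero, add_zero, zero_add, zero_sub, neg_zero]
  abel

theorem InG.comm (hY : InG G Y) (hY' : InG G Y') (h1 : Y * Y = 0) (h2 : Y' * Y' = 0) (h3 : Y' * Y = 0) :
    InG G (Y * Y') := by
  obtain ⟨g, hg, e⟩ := hY
  obtain ⟨g', hg', e'⟩ := hY'
  exact ⟨g * g' * g⁻¹ * g'⁻¹, mul_mem (mul_mem (mul_mem hg hg') (inv_mem hg)) (inv_mem hg'), comm_val e e' h1 h2 h3⟩

/-- Membership of all multiples. -/
def Full (G : Subgroup (Matrix.SpecialLinearGroup (Fin n) F)) (Y : Matrix (Fin n) (Fin n) F) : Prop :=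
  ∀ r : F, InG G (r • Y)

theorem Full.sub (hY : Full G Y) (hY' : Full G Y') (h : Y * Y' = 0) : Full G (Y - Y') := fun r => by
  rw [smul_sub, sub_eq_add_neg, ← neg_smul]
  exact (hY r).add (hY' (-r)) (by rw [smul_mul_smul_comm, h, smul_zero])

theorem Full.comm (hY : Full G Y) (hY' : Full G Y') (h1 : Y * Y = 0) (h2 : Y' * Y' = 0) (h3 : Y' * Y = 0) :
    Full G (Y * Y') := fun r => by
  rw [← Matrix.smul_mul, ← one_smul F Y']
  refine (hY r).comm (hY' 1) ?_ ?_ ?_ <;> simp [smul_mul_smul_comm, h1, h2, h3]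

theorem Full.conj (hY : Full G Y) {g : Matrix.SpecialLinearGroup (Fin n) F} (hg : g ∈ G) :
    Full G (g.1 * Y * (g⁻¹).1) := fun r => by
  rw [← Matrix.smul_mul, ← Matrix.mul_smul]
  exact (hY r).conj hg

theorem Full.of_smul {a : F} (ha : a ≠ 0) (hY : Full G (a • Y)) : Full G Y := fun r => by
  have := hY (r / a)
  rwa [smul_smul, div_mul_cancel₀ r ha] at this

/-- The coefficients of the transvections of shift `d`. -/
def D (G : Subgroup (Matrix.SpecialLinearGroup (Fin n) F)) (d : ℤ) (r : F) : Prop := InG G (r • M F n 0 d)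

section Closed

variable (hn : 4 ≤ n) (hu : uU F n ∈ G)

include hu in
theorem D_shift {d : ℤ} {r : F} (h : D G d r) (i : ℤ) : InG G (r • M F n i (i + d)) := by
  have := InG.conj (g := (uU F n) ^ i) h (zpow_mem hu i)
  rwa [Matrix.mul_smul, Matrix.smul_mul, M_conj, add_zero] at this

include hu in
theorem D_of_InG {i j : ℤ} {r : F} (h : InG G (r • M F n i j)) : D G (j - i) r := by
  have := InG.conj (g := (uU F n) ^ (-i)) h (zpow_mem hu _)
  rwa [Matrix.mul_smul, Matrix.smul_mul, M_conj, neg_add_cancel, neg_add_eq_sub] at this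

include hu in
theorem D_mul {d1 d2 e : ℤ} {r r' : F} (h : D G d1 r) (h' : D G d2 r') (z1 : f F n (-d1) = 0)
    (z2 : f F n (-d2) = 0) (z3 : f F n (-(d1 + e + d2)) = 0) : D G (d1 + e + d2) (r * r' * f F n e) := by
  have h2 := D_shift hu h' (d1 + e)
  have := InG.comm h h2 (by rw [smul_mul_smul_comm, M_mul, zero_sub, z1, zero_smul, smul_zero])
    (by rw [smul_mul_smul_comm, M_mul, sub_add_cancel_left, z2, zero_smul, smul_zero])
    (by rw [smul_mul_smul_comm, M_mul, zero_sub, z3, zero_smul, smul_zero])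
  rwa [smul_mul_smul_comm, M_mul, add_sub_cancel_left, smul_smul] at this

theorem D_add {d : ℤ} {r r' : F} (h : D G d r) (h' : D G d r') (z : f F n (-d) = 0) : D G d (r + r') := by
  rw [D, add_smul]
  exact InG.add h h' (by rw [smul_mul_smul_comm, M_mul, zero_sub, z, zero_smul, smul_zero])

theorem D_neg {d : ℤ} {r : F} (h : D G d r) (z : f F n (-d) = 0) : D G d (-r) := by
  rw [D, neg_smul]
  exact InG.neg h (by rw [smul_mul_smul_comm, M_mul, zero_sub, z, zero_smul, smul_zero])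

theorem D_zero (d : ℤ) : D G d 0 := by rw [D, zero_smul]; exact InG.zero

/-- Coordinates for the six root matrices of three consecutive orbit elements. -/
noncomputable def el (a b d e h w : F) : Matrix (Fin n) (Fin n) F :=
  1 + a • M F n 0 0 + b • M F n 1 1 + d • M F n 2 2 + e • M F n 0 1 + h • M F n 1 2 + w • M F n 0 2

include hn in
theorem el_mul (a b d e h w a' b' d' e' h' w' : F) :
    el (n := n) a b d e h w * el a' b' d' e' h' w' =
      el (a + a') (b + b') (d + d') (e + e' + f F n 1 * (a * b')) (h + h' + f F n 1 * (b * d'))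
        (w + w' + f F n 2 * (a * d') + f F n 1 * (e * d') + f F n 1 * (a * h')) := by
  have z0 : f F n 0 = 0 := f_zero le_rfl (by omega)
  have z1 : f F n (-1) = 0 := f_zero (by omega) (by omega)
  have z2 : f F n (-2) = 0 := f_zero (by omega) (by omega)
  simp only [el, add_mul, mul_add, one_mul, mul_one, smul_mul_smul_comm, M_mul]
  norm_num [z0, z1, z2]
  module

include hu hn in
/-- The first transvection. -/
theorem D_two {c : F} (hx : ∃ g ∈ G, g.1 = el (n := n) c (-c) 0 (-(c ^ 2 * f F n 1)) 0 0) :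
    D G 2 (c ^ 3 * f F n 1 ^ 2) := by
  obtain ⟨x, hxG, hx⟩ := hx
  have hel1 : (1 : Matrix (Fin n) (Fin n) F) = el 0 0 0 0 0 0 := by simp [el]
  have hxi : (x⁻¹).1 = el (n := n) (-c) c 0 0 0 0 := by
    calc (x⁻¹).1 = (x⁻¹).1 * (x.1 * el (n := n) (-c) c 0 0 0 0) := by
          rw [hx, el_mul hn,
            show el (n := n) (c + -c) (-c + c) (0 + 0) (-(c ^ 2 * f F n 1) + 0 + f F n 1 * (c * c))
              (0 + 0 + f F n 1 * (-c * 0))
              (0 + 0 + f F n 2 * (c * 0) + f F n 1 * (-(c ^ 2 * f F n 1) * 0) + f F n 1 * (c * 0)) = 1 by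
              rw [hel1]; congr 1 <;> ring, mul_one]
      _ = _ := by rw [← mul_assoc, ← Matrix.SpecialLinearGroup.coe_mul, inv_mul_cancel, Matrix.SpecialLinearGroup.coe_one, one_mul]
  set y := uU F n * x * (uU F n)⁻¹ with hy
  have hconj : ∀ a b e : F, (uU F n).1 * el (n := n) a b 0 e 0 0 * ((uU F n)⁻¹).1 = el (n := n) 0 a b 0 e 0 := by
    intro a b e
    have h1 := fun i j => M_conj (F := F) (n := n) 1 i j
    simp only [zpow_one] at h1
    simp only [el, mul_add, add_mul, Matrix.mul_smul, Matrix.smul_mul, mul_one, h1, zero_smul, add_zero,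
      ← Matrix.SpecialLinearGroup.coe_mul, mul_inv_cancel, Matrix.SpecialLinearGroup.coe_one]
    norm_num
  have hyv : y.1 = el (n := n) 0 c (-c) 0 (-(c ^ 2 * f F n 1)) 0 := by
    rw [hy, Matrix.SpecialLinearGroup.coe_mul, Matrix.SpecialLinearGroup.coe_mul, hx, hconj]
  have hyi : (y⁻¹).1 = el (n := n) 0 (-c) c 0 0 0 := by
    rw [hy, _root_.mul_inv_rev, _root_.mul_inv_rev, inv_inv, Matrix.SpecialLinearGroup.coe_mul,
      Matrix.SpecialLinearGroup.coe_mul, hxi, ← mul_assoc, hconj]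
  have hyG : y ∈ G := mul_mem (mul_mem hu hxG) (inv_mem hu)
  set z := x * (x * y * x⁻¹ * y⁻¹) * x⁻¹ * (y * x * y⁻¹ * x⁻¹)
  have hzG : z ∈ G := mul_mem (mul_mem (mul_mem hxG (mul_mem (mul_mem (mul_mem hxG hyG) (inv_mem hxG))
    (inv_mem hyG))) (inv_mem hxG)) (mul_mem (mul_mem (mul_mem hyG hxG) (inv_mem hyG)) (inv_mem hxG))
  have hzv : z.1 = el (n := n) 0 0 0 0 0 (c ^ 3 * f F n 1 ^ 2) := by
    simp only [z, Matrix.SpecialLinearGroup.coe_mul, hx, hxi, hyv, hyi, el_mul hn]
    congr 1 <;> ring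
  refine ⟨z, hzG, hzv.trans ?_⟩
  simp [el]

include hu hn in
/-- The group absorbs multiplication by `c`. -/
theorem D_step {c : F} (hx : ∃ g ∈ G, ∃ t : Matrix.SpecialLinearGroup (Fin n) F,
      t.1 = 1 + c • M F n 0 0 ∧ g = t * (uU F n * t⁻¹ * (uU F n)⁻¹))
    {d : ℕ} (hd : d + 3 ≤ n) {r : F} (h : D G d r) : D G ((d + 1 : ℕ) : ℤ) (r * -c * f F n 1) := by
  obtain ⟨g, hgG, t, ht, rfl⟩ := hx
  have z0 : f F n 0 = 0 := f_zero le_rfl (by omega)
  obtain ⟨y, hyG, hy⟩ := D_shift hu h (-(d : ℤ))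
  rw [neg_add_cancel] at hy
  set t1 := uU F n * t⁻¹ * (uU F n)⁻¹ with ht1def
  have hA : (c • M F n 0 0) * (c • M F n 0 0) = 0 := by
    rw [smul_mul_smul_comm, M_mul, sub_zero, z0, zero_smul, smul_zero]
  have ht1 : t1.1 = 1 + (-c) • M F n 1 1 := by
    rw [ht1def, Matrix.SpecialLinearGroup.coe_mul, Matrix.SpecialLinearGroup.coe_mul, InG.inv_val ht hA, mul_sub, mul_one,
      sub_mul, ← Matrix.SpecialLinearGroup.coe_mul, mul_inv_cancel, Matrix.SpecialLinearGroup.coe_one, Matrix.mul_smul,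
      Matrix.smul_mul, neg_smul, ← sub_eq_add_neg]
    have := M_conj (F := F) (n := n) 1 0 0
    rw [zpow_one] at this
    rw [this]
    norm_num
  have zd : f F n (-(d : ℤ)) = 0 := f_zero (by omega) (by omega)
  have zd1 : f F n (-(d : ℤ) - 1) = 0 := f_zero (by omega) (by omega)
  have hyt : y * t = t * y := Subtype.ext (by
    rw [Matrix.SpecialLinearGroup.coe_mul, Matrix.SpecialLinearGroup.coe_mul, hy, ht]
    simp only [add_mul, mul_add, one_mul, mul_one, smul_mul_smul_comm, M_mul, sub_zero, zd, z0, zero_smul,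
      smul_zero, add_zero]
    abel)
  have hk := comm_val hy ht1 (by rw [smul_mul_smul_comm, M_mul, sub_zero, zd, zero_smul, smul_zero])
    (by rw [smul_mul_smul_comm, M_mul, sub_self, z0, zero_smul, smul_zero])
    (by rw [smul_mul_smul_comm, M_mul, zd1, zero_smul, smul_zero])
  rw [smul_mul_smul_comm, M_mul, sub_zero, smul_smul] at hk
  set K := (r * -c * f F n 1) • M F n (-(d : ℤ)) 1
  have hkv : (y * (t * t1) * y⁻¹ * (t * t1)⁻¹).1 = 1 + K := by
    rw [show y * (t * t1) * y⁻¹ * (t * t1)⁻¹ = t * (y * t1 * y⁻¹ * t1⁻¹) * t⁻¹ by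
      rw [← mul_assoc y t t1, hyt]; group, Matrix.SpecialLinearGroup.coe_mul, Matrix.SpecialLinearGroup.coe_mul, hk, ht,
      InG.inv_val ht hA]
    have e1 : (c • M F n 0 0) * K = 0 := by
      rw [smul_mul_smul_comm, M_mul, sub_zero, zd, zero_smul, smul_zero]
    have e2 : K * (c • M F n 0 0) = 0 := by
      rw [smul_mul_smul_comm, M_mul, zero_sub, f_zero (e := -1) (by omega) (by omega), zero_smul, smul_zero]
    simp only [add_mul, mul_add, mul_sub, sub_mul, one_mul, mul_one, hA, e1, e2, mul_assoc, mul_zero, sub_zero,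
      add_zero, zero_add]
    abel
  have := D_of_InG hu ⟨_, mul_mem (mul_mem (mul_mem hyG hgG) (inv_mem hyG)) (inv_mem hgG), hkv⟩
  rwa [show (1 : ℤ) - -(d : ℤ) = ((d + 1 : ℕ) : ℤ) by push_cast; ring] at this

/-- The multipliers of the shift-zero coefficients. -/
def mult (G : Subgroup (Matrix.SpecialLinearGroup (Fin n) F)) (z : f F n 0 = 0) : Subring F where
  carrier := {r | ∀ x, D G 0 x → D G 0 (r * x)}
  mul_mem' := fun {a b} ha hb x hx => by rw [mul_assoc]; exact ha _ (hb x hx)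
  one_mem' := fun x hx => by rwa [one_mul]
  add_mem' := fun {a b} ha hb x hx => by
    rw [add_mul]; exact D_add (ha x hx) (hb x hx) (by rwa [neg_zero])
  zero_mem' := fun x _ => by rw [zero_mul]; exact D_zero 0
  neg_mem' := fun {a} ha x hx => by rw [neg_mul]; exact D_neg (ha x hx) (by rwa [neg_zero])

include hu hn in
/-- All shifts `0 ≤ d ≤ n - 2` carry the whole field. -/
theorem D_full [Fintype F] {c : F} (hc : c ≠ 0) (hgen : ∀ r : F, r ≠ 0 → ∃ i : ℕ, c ^ i = r)
    (h2 : D G 2 (c ^ 3 * f F n 1 ^ 2))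
    (hstep : ∀ {d : ℕ} {r : F}, d + 3 ≤ n → D G d r → D G ((d + 1 : ℕ) : ℤ) (r * -c * f F n 1))
    {d : ℕ} (hd : d + 2 ≤ n) (r : F) : D G d r := by
  classical
  have zr : ∀ k : ℕ, k + 2 ≤ n → f F n (-(k : ℤ)) = 0 := fun k hk => f_zero (by omega) (by omega)
  have z0 : f F n 0 = 0 := f_zero le_rfl (by omega)
  set σ := f F n 1 with hσdef
  have hσ : σ = (-1) ^ (n - 1) := f_one
  have hσ0 : σ ≠ 0 := by rw [hσ]; exact pow_ne_zero _ (neg_ne_zero.2 one_ne_zero)
  have up : ∀ (a b : ℕ) (x y : F), a + b + 3 ≤ n → D G a x → D G b y → D G ((a + 1 + b : ℕ) : ℤ) (x * y * σ) := by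
    intro a b x y h hx hy
    have := D_mul hu (e := 1) hx hy (zr a (by omega)) (zr b (by omega))
      (f_zero (by omega) (by omega))
    rwa [show (a : ℤ) + 1 + b = ((a + 1 + b : ℕ) : ℤ) by push_cast; rfl] at this
  have down : ∀ (a b k : ℕ) (x y : F), a + 2 ≤ n → b + 2 ≤ n → a + 1 + b = k + n → D G a x → D G b y →
      D G k (x * y) := by
    intro a b k x y ha hb h hx hy
    have := D_mul hu (e := 1 - (n : ℤ)) hx hy (zr a ha) (zr b hb) (f_zero (by omega) (by omega))
    rw [f_wrap, mul_one] at this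
    rwa [show (a : ℤ) + (1 - n) + b = (k : ℤ) by omega] at this
  -- nonzero coefficients
  have hclimb : ∀ k, 2 ≤ k → k + 2 ≤ n → ∃ x ≠ 0, D G k x := by
    intro k hk
    induction k, hk using Nat.le_induction with
    | base => exact fun _ => ⟨_, mul_ne_zero (pow_ne_zero 3 hc) (pow_ne_zero 2 hσ0), h2⟩
    | succ k hk ih =>
      intro hle
      obtain ⟨x, hx0, hx⟩ := ih (by omega)
      exact ⟨_, mul_ne_zero (mul_ne_zero hx0 (neg_ne_zero.2 hc)) hσ0, hstep (by omega) hx⟩
  obtain ⟨x2, hx20, hx2⟩ : ∃ x ≠ 0, D G ((2 : ℕ) : ℤ) x := hclimb 2 le_rfl (by omega)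
  obtain ⟨xt, hxt0, hxt⟩ := hclimb (n - 2) (by omega) (by omega)
  obtain ⟨r1, hr10, hr1⟩ : ∃ x ≠ 0, D G ((0 : ℕ) : ℤ) x := by
    refine ⟨x2 * xt * xt, mul_ne_zero (mul_ne_zero hx20 hxt0) hxt0, ?_⟩
    exact down 1 (n - 2) 0 _ _ (by omega) (by omega) (by omega)
      (down 2 (n - 2) 1 _ _ (by omega) (by omega) (by omega) hx2 hxt) hxt
  -- powers of `r1`
  have hpow : ∀ k : ℕ, k + 2 ≤ n → D G k (r1 ^ (k + 1) * σ ^ k) := by
    intro k
    induction k with
    | zero => intro _; rw [pow_one, pow_zero, mul_one]; exact hr1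
    | succ k ih =>
      intro hk
      have := up k 0 _ _ (by omega) (ih (by omega)) hr1
      rw [show r1 ^ (k + 1 + 1) * σ ^ (k + 1) = r1 ^ (k + 1) * σ ^ k * r1 * σ by ring]
      simpa using this
  set R := mult G z0 with hR
  have hσR : σ ∈ R := by rw [hσ]; exact pow_mem (neg_mem (one_mem R)) _
  have hσσ : σ * σ = 1 := by rw [hσ, ← pow_add, ← two_mul, pow_mul, neg_one_sq, one_pow]
  have hprod : ∀ (a b : ℕ) (x y : F), a + b + 2 = n → D G a x → D G b y → x * y ∈ R := by
    intro a b x y hab hx hy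
    suffices x * y * σ ∈ R by
      have := mul_mem this hσR
      rwa [mul_assoc, hσσ, mul_one] at this
    intro z hz
    rcases Nat.lt_or_ge (a + 2) n with ha | ha
    · have h1 := up 0 a z x (by omega) hz hx
      have := down (0 + 1 + a) b 0 _ y (by omega) (by omega) (by omega) h1 hy
      rw [show x * y * σ * z = z * x * σ * y by ring]
      exact_mod_cast this
    · have h1 := up 0 b z y (by omega) hz hy
      have := down (0 + 1 + b) a 0 _ x (by omega) (by omega) (by omega) h1 hx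
      rw [show x * y * σ * z = z * y * σ * x by ring]
      exact_mod_cast this
  have hinv : ∀ x ∈ R, x⁻¹ ∈ R := by
    intro x hx
    rcases eq_or_ne x 0 with rfl | h0
    · rw [_root_.inv_zero]; exact zero_mem R
    · have h1 : x ^ (Fintype.card F - 2) * x = 1 := by
        have := Fintype.one_lt_card (α := F)
        rw [← pow_succ, show Fintype.card F - 2 + 1 = Fintype.card F - 1 by omega,
          FiniteField.pow_card_sub_one_eq_one x h0]
      rw [← eq_inv_of_mul_eq_one_left h1]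
      exact pow_mem hx _
  have hratio : ∀ (a : ℕ) (x y : F), a + 2 ≤ n → y ≠ 0 → D G a x → D G a y → x / y ∈ R := by
    intro a x y ha hy0 hx hy
    have hz := hpow (n - 2 - a) (by omega)
    set z := r1 ^ (n - 2 - a + 1) * σ ^ (n - 2 - a)
    have hz0 : z ≠ 0 := mul_ne_zero (pow_ne_zero _ hr10) (pow_ne_zero _ hσ0)
    have := mul_mem (hprod a (n - 2 - a) x z (by omega) hx hz)
      (hinv _ (hprod a (n - 2 - a) y z (by omega) hy hz))
    rwa [← div_eq_mul_inv, mul_div_mul_right _ _ hz0] at this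
  have hcr : c / r1 ∈ R := by
    have h1 := hstep (d := 0) (r := r1) (by omega) hr1
    have := hratio (0 + 1) _ _ (by omega) (mul_ne_zero (pow_ne_zero _ hr10) (pow_ne_zero _ hσ0)) h1
      (hpow (0 + 1) (by omega))
    have h3 := neg_mem this
    rwa [show -(r1 * -c * σ / (r1 ^ (0 + 1 + 1) * σ ^ (0 + 1))) = c / r1 by field_simp; ring] at h3
  have hr1R : r1 ∈ R := by
    obtain ⟨p, hchar⟩ := CharP.exists F
    obtain ⟨e, hp, he⟩ := FiniteField.card F p
    haveI : Fact p.Prime := ⟨hp⟩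
    obtain ⟨j, m, hpm, hnm⟩ := Nat.exists_eq_pow_mul_and_not_dvd (show n ≠ 0 by omega) p hp.ne_one
    have hgR : r1 ^ (p ^ j) ∈ R := by
      have hm0 : m ≠ 0 := fun h => hpm (h ▸ dvd_zero p)
      rcases Nat.lt_or_ge m 2 with hm | hm
      · have hn' : n = p ^ j := by rw [hnm, show m = 1 by omega, mul_one]
        have := mul_mem (hprod 0 (n - 2) _ _ (by omega) hr1 (hpow (n - 2) (by omega))) (pow_mem hσR (n - 2))
        rwa [show r1 * (r1 ^ (n - 2 + 1) * σ ^ (n - 2)) * σ ^ (n - 2) = r1 ^ (n - 2 + 1 + 1) * (σ * σ) ^ (n - 2) by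
          ring, hσσ, one_pow, mul_one, show n - 2 + 1 + 1 = p ^ j by omega] at this
      · set g := p ^ j with hg
        have hg1 : 1 ≤ g := Nat.one_le_pow _ _ hp.pos
        have hle : g + 3 ≤ n := by
          by_contra hcon
          have h1 : g * 2 ≤ n := hnm ▸ Nat.mul_le_mul_left g hm
          have hg2 : g = 2 := by omega
          have h4 : n = 4 := by omega
          have hp2 : p = 2 :=
            (Nat.prime_dvd_prime_iff_eq hp Nat.prime_two).1 (hg2 ▸ dvd_pow_self p fun h0 => by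
              rw [hg, h0, pow_zero] at hg2; omega)
          apply hpm
          rw [hp2, show m = 2 by rw [hg2] at hnm; omega]
        have hshift := D_mul hu (e := 1 + ((g : ℕ) : ℤ)) (d1 := 0) (d2 := 0) hr1 hr1
          (by rwa [neg_zero]) (by rwa [neg_zero]) (f_zero (by omega) (by omega))
        rw [f_shift p j m hnm, ← f_one (F := F) (n := n), ← hσdef,
          show (0 : ℤ) + (1 + (g : ℤ)) + 0 = ((1 + g : ℕ) : ℤ) by push_cast; ring] at hshift
        have hmF : (m : F) ≠ 0 := fun h => hpm ((CharP.cast_eq_zero_iff F p m).1 h)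
        have := hratio (1 + g) _ _ (by omega)
          (mul_ne_zero (mul_ne_zero hr10 hr10) (mul_ne_zero hmF hσ0)) (hpow (1 + g) (by omega)) hshift
        have h4 := mul_mem this (mul_mem (natCast_mem R m) (mul_mem hσR (pow_mem hσR (1 + g))))
        rwa [show r1 ^ (1 + g + 1) * σ ^ (1 + g) / (r1 * r1 * ((m : F) * σ)) * ((m : F) * (σ * σ ^ (1 + g)))
            = r1 ^ g * (σ * σ) ^ (1 + g) by
              field_simp
              ring, hσσ, one_pow, mul_one] at h4
    have := pow_mem hgR (p ^ ((e : ℕ) * j - j))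
    rwa [← pow_mul, ← pow_add, show j + ((e : ℕ) * j - j) = (e : ℕ) * j from
      Nat.add_sub_cancel' (Nat.le_mul_of_pos_left j e.pos), pow_mul, ← he, FiniteField.pow_card_pow] at this
  have hcR : c ∈ R := by
    have := mul_mem hcr hr1R
    rwa [div_mul_cancel₀ _ hr10] at this
  have hall : ∀ x : F, x ∈ R := by
    intro x
    rcases eq_or_ne x 0 with rfl | hx
    · exact zero_mem R
    · obtain ⟨i, rfl⟩ := hgen x hx
      exact pow_mem hcR i
  have hD0 : ∀ x : F, D G 0 x := fun x => by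
    have := hall (x / r1) r1 hr1
    rwa [div_mul_cancel₀ _ hr10] at this
  revert r
  induction d with
  | zero => exact hD0
  | succ d ih =>
    intro r
    have := up d 0 (r * σ) 1 (by omega) (ih (by omega) _) (hD0 1)
    rw [mul_one, mul_assoc, hσσ, mul_one] at this
    simpa using this

end Closed

end Setting

end Cfsg.Agent.Linear.RegUniGen
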