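import Cfsg.Agent.Linear.RegUniGen
import Mathlib

/-!
# The group generated by `u` and `t u t⁻¹` is `SL_n`
-/

set_option autoImplicit false
set_option linter.unusedSectionVars false

namespace Cfsg.Agent.Linear.RegUniGen

open Matrix Polynomial

variable {F : Type*} [Field F] {n : ℕ}

theorem mul_single_mul_apply (A B : Matrix (Fin n) (Fin n) F) (i j : Fin n) (r c : Fin n) :
    (A * Matrix.single i j (1 : F) * B) r c = A r i * B j c := by
  rw [Matrix.mul_apply, Finset.sum_eq_single j]
  · rw [Matrix.mul_single_apply_same, mul_one]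
  · intro k _ hk
    rw [Matrix.mul_single_apply_of_ne _ _ _ _ _ hk, zero_mul]
  · simp

theorem natDegree_one_add_X_pow_mul (a l : ℕ) : (((1 + X) ^ a * X ^ l : F[X])).natDegree ≤ a + l := by
  refine le_trans natDegree_mul_le (Nat.add_le_add (le_trans natDegree_pow_le ?_) (natDegree_X_pow_le l))
  have : (1 + X : F[X]).natDegree ≤ 1 := le_trans (natDegree_add_le _ _) (by simp [natDegree_X_le])
  calc a * (1 + X : F[X]).natDegree ≤ a * 1 := Nat.mul_le_mul_left a this
    _ = a := mul_one a

variable [NeZero n]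

/-- The matrices `P(N) E Q(N)`. -/
noncomputable def psi (P Q : F[X]) : Matrix (Fin n) (Fin n) F :=
  aeval (nilJ F n) P * Matrix.single (ls n) (fs n) 1 * aeval (nilJ F n) Q

theorem psi_mul (P Q P' Q' : F[X]) :
    psi (n := n) P Q * psi P' Q' = (Q * P').coeff (n - 1) • psi P Q' := by
  have e2 : Matrix.single (ls n) (fs n) (1 : F) * (aeval (nilJ F n) Q * aeval (nilJ F n) P') *
      Matrix.single (ls n) (fs n) 1 = (Q * P').coeff (n - 1) • Matrix.single (ls n) (fs n) 1 := by
    rw [← map_mul, Matrix.single_mul_mul_single, Matrix.smul_single, smul_eq_mul, mul_one, one_mul, mul_one,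
      aeval_apply, fs_val, ls_val, if_pos (by omega), Nat.sub_zero]
  calc psi (n := n) P Q * psi P' Q'
      = aeval (nilJ F n) P * (Matrix.single (ls n) (fs n) (1 : F) * (aeval (nilJ F n) Q * aeval (nilJ F n) P') *
          Matrix.single (ls n) (fs n) 1) * aeval (nilJ F n) Q' := by simp only [psi, mul_assoc]
    _ = _ := by rw [e2, Matrix.mul_smul, Matrix.smul_mul]; rfl

theorem psi_mul_eq_zero (P Q' : F[X]) {Q P' : F[X]} (h : Q.natDegree + P'.natDegree < n - 1) :
    psi (n := n) P Q * psi P' Q' = 0 := by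
  rw [psi_mul, coeff_eq_zero_of_natDegree_lt (lt_of_le_of_lt natDegree_mul_le h), zero_smul]

theorem psi_apply (α β : ℕ) (r c : Fin n) :
    psi (F := F) (n := n) (X ^ α) (X ^ β) r c =
      if (r : ℕ) + α = n - 1 ∧ (c : ℕ) = β then 1 else 0 := by
  rw [psi, mul_single_mul_apply, map_pow, map_pow, aeval_X, nilJ_pow_apply, nilJ_pow_apply, fs_val, ls_val,
    zero_add]
  simp only [mul_ite, mul_one, mul_zero, ← ite_and]
  exact if_congr (by omega) rfl rfl

variable {G : Subgroup (Matrix.SpecialLinearGroup (Fin n) F)}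

theorem Full.smul {Y : Matrix (Fin n) (Fin n) F} (h : Full G Y) (a : F) : Full G (a • Y) := fun r => by
  rw [smul_smul]; exact h _

variable (hn : 4 ≤ n) (hu : uU F n ∈ G) (hD : ∀ d : ℕ, d + 2 ≤ n → ∀ r : F, D G d r)

include hu hD in
theorem full_psi_pow {k j : ℕ} (h : k + j + 2 ≤ n) : Full G (psi (n := n) ((1 + X) ^ k : F[X]) ((1 + X) ^ j)) := by
  intro r
  have := D_shift hu (hD (k + j) h r) (-(k : ℤ))
  rw [show -(k : ℤ) + ((k + j : ℕ) : ℤ) = (j : ℤ) by push_cast; ring] at this
  rwa [M, uU_neg_pow, uU_neg_pow] at this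

include hu hD in
theorem full_psi_right (l : ℕ) : ∀ k j : ℕ, k + j + l + 2 ≤ n →
    Full G (psi (n := n) ((1 + X) ^ k : F[X]) ((1 + X) ^ j * X ^ l)) := by
  induction l with
  | zero => intro k j h; rw [pow_zero, mul_one]; exact full_psi_pow hu hD (by omega)
  | succ l ih =>
    intro k j h
    have h0 : psi (n := n) ((1 + X) ^ k : F[X]) ((1 + X) ^ (j + 1) * X ^ l) *
        psi ((1 + X) ^ k) ((1 + X) ^ j * X ^ l) = 0 := by
      refine psi_mul_eq_zero _ _ ?_
      have h1 := natDegree_one_add_X_pow_mul (F := F) (j + 1) l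
      have h2 := natDegree_one_add_X_pow_mul (F := F) k 0
      rw [pow_zero, mul_one] at h2
      omega
    have := (ih k (j + 1) (by omega)).sub (ih k j (by omega)) h0
    rwa [psi, psi, ← mul_sub, ← map_sub, ← psi,
      show ((1 + X) ^ (j + 1) * X ^ l - (1 + X) ^ j * X ^ l : F[X]) = (1 + X) ^ j * X ^ (l + 1) by ring] at this

include hu hD in
theorem full_psi_left (m : ℕ) : ∀ k l : ℕ, k + m + l + 2 ≤ n →
    Full G (psi (n := n) ((1 + X) ^ k * X ^ m : F[X]) (X ^ l)) := by
  induction m with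
  | zero =>
    intro k l h
    have := full_psi_right hu hD l k 0 (by omega)
    rwa [pow_zero, one_mul, ← mul_one ((1 + X : F[X]) ^ k), ← pow_zero (X : F[X])] at this
  | succ m ih =>
    intro k l h
    have h0 : psi (n := n) ((1 + X) ^ (k + 1) * X ^ m : F[X]) (X ^ l) *
        psi ((1 + X) ^ k * X ^ m) (X ^ l) = 0 := by
      refine psi_mul_eq_zero _ _ ?_
      have h1 := natDegree_one_add_X_pow_mul (F := F) k m
      have h2 : (X ^ l : F[X]).natDegree ≤ l := natDegree_X_pow_le l
      omega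
    have := (ih (k + 1) l (by omega)).sub (ih k l (by omega)) h0
    rwa [psi, psi, ← sub_mul, ← sub_mul, ← map_sub, ← psi,
      show ((1 + X) ^ (k + 1) * X ^ m - (1 + X) ^ k * X ^ m : F[X]) = (1 + X) ^ k * X ^ (m + 1) by ring] at this

include hu hD in
theorem full_lower {r c : Fin n} (h : (c : ℕ) < r) : Full G (Matrix.single r c (1 : F)) := by
  have hr := r.isLt
  have := full_psi_left hu hD (n - 1 - r) 0 c (by omega)
  rw [pow_zero, one_mul] at this
  convert this using 1
  ext a b
  rw [psi_apply, Matrix.single_apply]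
  refine if_congr ?_ rfl rfl
  rw [Fin.ext_iff, Fin.ext_iff]
  omega

include hn hu hD in
theorem full_all {r c : Fin n} (hrc : r ≠ c) : Full G (Matrix.single r c (1 : F)) := by
  have hz : ((fs n : Fin n) : ℕ) = 0 := rfl
  set e0 := fs n
  set e1 : Fin n := ⟨1, by omega⟩ with he1
  have h10 : e0 ≠ e1 := fun e => by have := congrArg Fin.val e; simp [e0, he1, fs] at this
  have hne : e1 ≠ e0 := Ne.symm h10
  obtain ⟨L, hL, hLv⟩ := full_lower hu hD (r := e1) (c := e0) (by simp [e0, he1, fs]) (-1)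
  have hsq : ((-1 : F) • Matrix.single e1 e0 (1 : F)) * ((-1 : F) • Matrix.single e1 e0 (1 : F)) = 0 := by
    rw [smul_mul_smul_comm, Matrix.single_mul_single_of_ne _ _ _ _ h10, smul_zero]
  let ψ : Fin n → F := fun b => if b = e0 then 0 else (-1) ^ (b : ℕ)
  have hψ0 : ψ e0 = 0 := if_pos rfl
  let R : (Fin n → F) → Matrix (Fin n) (Fin n) F := fun φ a b => if a = e0 then φ b else 0
  have hR : ∀ φ φ' : Fin n → F, φ e0 = 0 → R φ * R φ' = 0 := by
    intro φ φ' h0
    ext a b
    rw [Matrix.mul_apply, Matrix.zero_apply]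
    refine Finset.sum_eq_zero fun k _ => ?_
    by_cases hk : k = e0
    · subst hk; simp [R, h0]
    · simp [R, hk]
  have hY0 : Full G (R ψ) := by
    have hg : L * (uU F n)⁻¹ ∈ G := mul_mem hL (inv_mem hu)
    have := (full_lower hu hD (r := e1) (c := e0) (by simp [e0, he1, fs])).conj hg
    convert this using 1
    rw [_root_.mul_inv_rev, inv_inv, Matrix.SpecialLinearGroup.coe_mul, Matrix.SpecialLinearGroup.coe_mul,
      InG.inv_val hLv hsq, hLv, uU_inv_val, uU_val]
    have hone : ∀ a : Fin n, ((a : ℕ) ≤ 1) ↔ a = e0 ∨ a = e1 := fun a => by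
      simp only [e0, he1, fs, Fin.ext_iff]; omega
    ext a b
    rw [mul_single_mul_apply, add_mul, mul_sub, one_mul, mul_one, Matrix.add_apply, Matrix.sub_apply,
      Matrix.smul_mul, Matrix.mul_smul, Matrix.smul_apply, Matrix.smul_apply]
    have hW : ∀ a : Fin n, (aeval (nilJ F n) (1 + X : F[X])) a e1 = if (a : ℕ) ≤ 1 then 1 else 0 := fun a => by
      rw [aeval_apply, coeff_add, coeff_one, coeff_X]
      by_cases ha : (a : ℕ) ≤ 1
      · rw [if_pos (by simpa [he1] using ha), if_pos ha]
        rcases Nat.le_one_iff_eq_zero_or_eq_one.1 ha with h | h <;> simp [he1, h]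
      · rw [if_neg (by simpa [he1] using ha), if_neg ha]
    have hU : ∀ b : Fin n, (aeval (nilJ F n) (invS F n)) e0 b = (-1) ^ (b : ℕ) := fun b => by
      rw [aeval_apply, hz, if_pos (by omega), Nat.sub_zero, coeff_invS, if_pos b.isLt]
    have hWa : (Matrix.single e1 e0 (1 : F) * aeval (nilJ F n) (1 + X : F[X])) a e1 =
        if a = e1 then 1 else 0 := by
      by_cases ha : a = e1
      · subst ha; rw [Matrix.single_mul_apply_same, one_mul, hW, if_pos (by simp [hz]), if_pos rfl]
      · rw [Matrix.single_mul_apply_of_ne _ _ _ _ _ ha, if_neg ha]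
    have hUb : (aeval (nilJ F n) (invS F n) * Matrix.single e1 e0 (1 : F)) e0 b =
        if b = e0 then -1 else 0 := by
      by_cases hb : b = e0
      · subst hb; rw [Matrix.mul_single_apply_same, mul_one, hU, if_pos rfl]; simp [he1]
      · rw [Matrix.mul_single_apply_of_ne _ _ _ _ _ hb, if_neg hb]
    rw [hW, hU, hWa, hUb]
    show (if a = e0 then ψ b else 0) = _
    by_cases ha0 : a = e0
    · subst ha0
      rw [if_pos rfl, if_pos (by simp [hz]), if_neg h10]
      by_cases hb : b = e0
      · subst hb; simp [ψ, hz]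
      · simp [ψ, hb]
    · by_cases ha1 : a = e1
      · subst ha1; rw [if_neg ha0, if_pos ((hone e1).2 (Or.inr rfl)), if_pos rfl]; simp
      · have : ¬ (a : ℕ) ≤ 1 := fun h => ((hone a).1 h).elim ha0 ha1
        simp [ha0, ha1, this]
  -- the first row
  have hrow : ∀ l : Fin n, 1 ≤ (l : ℕ) → (l : ℕ) + 2 ≤ n → Full G (Matrix.single e0 l (1 : F)) := by
    intro l h1 h2
    set k : Fin n := ⟨(l : ℕ) + 1, by omega⟩ with hk
    have hlk : l ≠ k := fun e => by have := congrArg Fin.val e; simp [hk] at this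
    have hk0 : k ≠ e0 := fun e => by have := congrArg Fin.val e; simp [hk, e0, fs] at this
    have hl0 : l ≠ e0 := fun e => by have := congrArg Fin.val e; simp [e0, fs] at this; omega
    have hEY : Matrix.single k l (1 : F) * R ψ = 0 := by
      ext a b
      by_cases ha : a = k
      · subst ha; rw [Matrix.single_mul_apply_same, one_mul, Matrix.zero_apply]; simp [R, hl0]
      · rw [Matrix.single_mul_apply_of_ne _ _ _ _ _ ha, Matrix.zero_apply]
    have hYE : R ψ * Matrix.single k l (1 : F) = ψ k • Matrix.single e0 l (1 : F) := by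
      ext a b
      by_cases hb : b = l
      · subst hb; rw [Matrix.mul_single_apply_same, mul_one, Matrix.smul_apply, Matrix.single_apply]
        by_cases ha : a = e0 <;> simp [R, ha, eq_comm]
      · rw [Matrix.mul_single_apply_of_ne _ _ _ _ _ hb, Matrix.smul_apply, Matrix.single_apply]
        simp [Ne.symm hb]
    have := hY0.comm (full_lower hu hD (r := k) (c := l) (by simp [hk])) (hR ψ ψ hψ0)
      (Matrix.single_mul_single_of_ne _ _ _ _ hlk _) hEY
    rw [hYE] at this
    exact this.of_smul (by simp [ψ, hk0])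
  have hlast : Full G (Matrix.single e0 (ls n) (1 : F)) := by
    have hind : ∀ m : ℕ, m + 2 ≤ n → Full G (R fun b => if (b : ℕ) ≤ m then 0 else ψ b) := by
      intro m
      induction m with
      | zero =>
        intro _
        convert hY0 using 2
        funext b
        by_cases hb : (b : ℕ) ≤ 0
        · rw [if_pos hb, show b = e0 from Fin.ext (by rw [hz]; omega), hψ0]
        · rw [if_neg hb]
      | succ m ih =>
        intro hm
        set l : Fin n := ⟨m + 1, by omega⟩ with hl
        set φ : Fin n → F := fun b => if (b : ℕ) ≤ m then 0 else ψ b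
        have h0 : φ e0 = 0 := by simp [φ, e0, fs]
        have e : ψ l • Matrix.single e0 l (1 : F) = R fun b => if b = l then ψ l else 0 := by
          ext a b
          by_cases ha : a = e0 <;> by_cases hb : b = l <;> simp [R, ha, hb, Matrix.single_apply, eq_comm]
        have := (ih (by omega)).sub ((hrow l (by simp [hl]) (by simp [hl]; omega)).smul (ψ l))
          (by rw [e]; exact hR _ _ h0)
        convert this using 1
        rw [e]
        ext a b
        rw [Matrix.sub_apply]
        show (if a = e0 then (if (b : ℕ) ≤ m + 1 then (0 : F) else ψ b) else 0) =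
          (if a = e0 then (if (b : ℕ) ≤ m then (0 : F) else ψ b) else 0) -
            (if a = e0 then (if b = l then ψ l else 0) else 0)
        by_cases ha : a = e0
        · simp only [if_pos ha]
          by_cases hb : b = l
          · subst hb; simp [hl]
          · have hb' : (b : ℕ) ≠ m + 1 := fun e => hb (Fin.ext e)
            rw [if_neg hb, sub_zero]
            by_cases hbm : (b : ℕ) ≤ m
            · rw [if_pos hbm, if_pos (by omega)]
            · rw [if_neg hbm, if_neg (by omega)]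
        · simp [ha]
    have hls : ψ (ls n) ≠ 0 := by
      have : ls n ≠ e0 := fs_ne_ls (by omega)
      simp [ψ, this]
    refine Full.of_smul hls ?_
    convert hind (n - 2) (by omega) using 1
    ext a b
    rw [Matrix.smul_apply, Matrix.single_apply]
    simp only [R]
    have hb := b.isLt
    by_cases ha : a = e0
    · rw [if_pos ha]
      by_cases hbl : b = ls n
      · subst hbl; rw [if_pos ⟨ha.symm, rfl⟩, if_neg (by rw [ls_val]; omega), smul_eq_mul, mul_one]
      · have : (b : ℕ) ≠ n - 1 := fun e => hbl (Fin.ext e)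
        rw [if_neg (fun h => hbl h.2.symm), if_pos (by omega), smul_zero]
    · rw [if_neg ha, if_neg (fun h => ha h.1.symm), smul_zero]
  have hfirst : ∀ l : Fin n, l ≠ e0 → Full G (Matrix.single e0 l (1 : F)) := by
    intro l hl
    have hl0 : (l : ℕ) ≠ 0 := fun e => hl (Fin.ext e)
    have hb := l.isLt
    rcases Nat.lt_or_ge ((l : ℕ) + 1) n with h | h
    · exact hrow l (by omega) (by omega)
    · rwa [show l = ls n from Fin.ext (by rw [ls_val]; omega)]
  by_cases hc : c = e0
  · subst hc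
    exact full_lower hu hD (by
      have : (r : ℕ) ≠ 0 := fun e => hrc (Fin.ext e)
      rw [hz]; omega)
  by_cases hr : r = e0
  · subst hr; exact hfirst c hc
  have h1 : Full G (Matrix.single r e0 (1 : F)) := full_lower hu hD (by
    have : (r : ℕ) ≠ 0 := fun e => hr (Fin.ext e)
    rw [hz]; omega)
  have := h1.comm (hfirst c hc) (Matrix.single_mul_single_of_ne _ _ _ _ (Ne.symm hr) _)
    (Matrix.single_mul_single_of_ne _ _ _ _ hc _) (Matrix.single_mul_single_of_ne _ _ _ _ (Ne.symm hrc) _)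
  rwa [Matrix.single_mul_single_same, one_mul] at this

/-- `u` is regular unipotent. -/
theorem uU_regular : IsNilpotent ((uU F n).1 - 1) ∧ ((uU F n).1 - 1) ^ (n - 1) ≠ 0 := by
  have h0 : (invS F n - 1).coeff 0 = 0 := by
    rw [coeff_sub, coeff_invS, if_pos (Nat.pos_of_neZero n), coeff_one_zero, pow_zero, sub_self]
  obtain ⟨Q, hQ⟩ := X_dvd_iff.2 h0
  have e : (uU F n).1 - 1 = aeval (nilJ F n) (X * Q) := by rw [← hQ, map_sub, map_one, uU_val]
  rw [e]
  refine ⟨⟨n, ?_⟩, fun h => ?_⟩
  · rw [← map_pow, mul_pow, map_mul, map_pow, aeval_X, nilJ_pow_eq_zero le_rfl, zero_mul]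
  · have := congrArg (fun A : Matrix (Fin n) (Fin n) F => A (fs n) (ls n)) h
    simp only [Matrix.zero_apply] at this
    rw [← map_pow, mul_pow, aeval_apply, fs_val, ls_val, if_pos (by omega), Nat.sub_zero] at this
    have hc : (X ^ (n - 1) * Q ^ (n - 1)).coeff (n - 1) = (Q ^ (n - 1)).coeff 0 := by
      have h' := coeff_X_pow_mul (Q ^ (n - 1)) (n - 1) 0
      rwa [zero_add] at h'
    rw [hc, coeff_zero_eq_eval_zero, eval_pow, ← coeff_zero_eq_eval_zero] at this
    rcases Nat.lt_or_ge n 2 with hn2 | hn2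
    · rw [show n - 1 = 0 by omega, pow_zero] at this; exact one_ne_zero this
    · have hq := eq_zero_of_pow_eq_zero this
      have h1 : (invS F n - 1).coeff 1 = 0 := by rw [hQ, coeff_X_mul, hq]
      rw [coeff_sub, coeff_invS, if_pos (by omega), coeff_one, if_neg one_ne_zero] at h1
      simp at h1

/-- Generation of `SL_n` by two conjugate regular unipotents. -/
theorem exists_generators [Fintype F] (n : ℕ) (hn : 4 ≤ n) :
    ∃ u g : Matrix.SpecialLinearGroup (Fin n) F,
      (IsNilpotent (u.1 - 1) ∧ (u.1 - 1) ^ (n - 1) ≠ 0) ∧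
      (IsNilpotent ((g * u * g⁻¹).1 - 1) ∧ ((g * u * g⁻¹).1 - 1) ^ (n - 1) ≠ 0) ∧
      Subgroup.closure ({u, g * u * g⁻¹} : Set (Matrix.SpecialLinearGroup (Fin n) F)) = ⊤ := by
  classical
  haveI : NeZero n := ⟨by omega⟩
  obtain ⟨cu, hcu⟩ := IsCyclic.exists_generator (α := Fˣ)
  set c : F := (cu : F)
  have hgen : ∀ r : F, r ≠ 0 → ∃ i : ℕ, c ^ i = r := fun r hr => by
    obtain ⟨i, hi⟩ := (mem_powers_iff_mem_zpowers.2 (hcu (Units.mk0 r hr)) :
      Units.mk0 r hr ∈ Submonoid.powers cu)
    exact ⟨i, by simpa [c] using congrArg Units.val hi⟩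
  set u := uU F n
  set t : Matrix.SpecialLinearGroup (Fin n) F := Matrix.SpecialLinearGroup.transvection (fs_ne_ls (n := n) (by omega)) c
  have htv : t.1 = 1 + c • M F n 0 0 := by
    show Matrix.transvection (ls n) (fs n) c = _
    rw [M, neg_zero, zpow_zero, Matrix.SpecialLinearGroup.coe_one, one_mul, mul_one, Matrix.smul_single, smul_eq_mul,
      mul_one]
    rfl
  refine ⟨u, t, uU_regular, ?_, ?_⟩
  · have hv : (t * u * t⁻¹).1 - 1 = t.1 * (u.1 - 1) * (t⁻¹).1 := by
      rw [mul_sub, sub_mul, mul_one, ← Matrix.SpecialLinearGroup.coe_mul, ← Matrix.SpecialLinearGroup.coe_mul,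
        ← Matrix.SpecialLinearGroup.coe_mul, mul_inv_cancel, Matrix.SpecialLinearGroup.coe_one]
    have hunit : t.1 * (t⁻¹).1 = 1 ∧ (t⁻¹).1 * t.1 = 1 := by
      rw [← Matrix.SpecialLinearGroup.coe_mul, ← Matrix.SpecialLinearGroup.coe_mul, mul_inv_cancel, inv_mul_cancel,
        Matrix.SpecialLinearGroup.coe_one]
      exact ⟨rfl, rfl⟩
    let tu : (Matrix (Fin n) (Fin n) F)ˣ := ⟨t.1, (t⁻¹).1, hunit.1, hunit.2⟩
    have hp : ∀ k : ℕ, ((t * u * t⁻¹).1 - 1) ^ k = t.1 * (u.1 - 1) ^ k * (t⁻¹).1 := fun k => by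
      rw [hv]; exact Units.conj_pow tu _ k
    obtain ⟨⟨k, hk⟩, hne⟩ := uU_regular (F := F) (n := n)
    refine ⟨⟨k, by rw [hp, hk, mul_zero, zero_mul]⟩, fun h => hne ?_⟩
    rw [hp] at h
    calc (u.1 - 1) ^ (n - 1) = (t⁻¹).1 * (t.1 * (u.1 - 1) ^ (n - 1) * (t⁻¹).1) * t.1 := by
          simp only [← mul_assoc, hunit.2, one_mul]
          rw [mul_assoc, hunit.2, mul_one]
      _ = 0 := by rw [h, mul_zero, zero_mul]
  set G := Subgroup.closure ({u, t * u * t⁻¹} : Set (Matrix.SpecialLinearGroup (Fin n) F))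
  have hu : u ∈ G := Subgroup.subset_closure (by simp)
  have hx : t * (u * t⁻¹ * u⁻¹) ∈ G := by
    rw [show t * (u * t⁻¹ * u⁻¹) = (t * u * t⁻¹) * u⁻¹ by group]
    exact mul_mem (Subgroup.subset_closure (by simp)) (inv_mem hu)
  have z0 : f F n 0 = 0 := f_zero le_rfl (by omega)
  have hA : (c • M F n 0 0) * (c • M F n 0 0) = 0 := by
    rw [smul_mul_smul_comm, M_mul, sub_zero, z0, zero_smul, smul_zero]
  have h1 : ∀ Y : Matrix (Fin n) (Fin n) F, u.1 * (1 - Y) * (u⁻¹).1 = 1 - u.1 * Y * (u⁻¹).1 := fun Y => by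
    rw [mul_sub, sub_mul, mul_one, ← Matrix.SpecialLinearGroup.coe_mul, mul_inv_cancel,
      Matrix.SpecialLinearGroup.coe_one]
  have hxv : (t * (u * t⁻¹ * u⁻¹)).1 = el (n := n) c (-c) 0 (-(c ^ 2 * f F n 1)) 0 0 := by
    rw [Matrix.SpecialLinearGroup.coe_mul, Matrix.SpecialLinearGroup.coe_mul, Matrix.SpecialLinearGroup.coe_mul,
      InG.inv_val htv hA, h1, Matrix.mul_smul, Matrix.smul_mul, htv]
    have := M_conj (F := F) (n := n) 1 0 0
    rw [zpow_one] at this
    rw [this, add_zero]
    simp only [el, add_mul, mul_sub, one_mul, mul_one, smul_mul_smul_comm, M_mul, zero_smul, add_zero, sub_zero]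
    module
  have hD : ∀ d : ℕ, d + 2 ≤ n → ∀ r : F, D G d r := fun d hd r =>
    D_full hn hu cu.ne_zero hgen (D_two hn hu ⟨_, hx, hxv⟩)
      (fun {d r} hd' h => D_step hn hu ⟨_, hx, t, htv, rfl⟩ hd' h) hd r
  haveI : Nontrivial (Fin n) := ⟨⟨ls n, fs n, fs_ne_ls (by omega)⟩⟩
  refine eq_top_of_transvection_mem fun i j hij b => ?_
  obtain ⟨g, hg, hgv⟩ := full_all hn hu hD hij b
  have : Matrix.SpecialLinearGroup.transvection hij b = g := by
    refine Subtype.ext ?_
    rw [hgv, Matrix.smul_single, smul_eq_mul, mul_one]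
    rfl
  rw [this]
  exact hg

end Cfsg.Agent.Linear.RegUniGen
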