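import Cfsg.Agent.Linear.SL2Quadratic
import Mathlib.Algebra.CharP.Two
import Mathlib.GroupTheory.QuotientGroup.Basic
import Mathlib.LinearAlgebra.Dimension.Finrank
import Mathlib.LinearAlgebra.FreeModule.Finite.Basic

/-!
# Modules of `SL_2(2^n)` with a fixed-point-free element of order three

An elementary abelian such module is a sum of natural modules; there is no equivariant biadditive
map between two of them, and no such module over the integers modulo four.
-/

set_option autoImplicit false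
set_option linter.style.haveILetI false
set_option linter.unusedSectionVars false

namespace Cfsg.Agent.Linear.SL2Fpf

open Matrix
open Cfsg.Agent.Linear.SL2Quad (up wl dia up_add up_zero dia_mul dia_one dia_up wl_dia wl_sq)

variable {F : Type*} [Field F] [Fintype F] [CharP F 2] {M : Type*} [AddCommGroup M]

local notation "SL" => Matrix.SpecialLinearGroup (Fin 2) F

variable {ρ : Matrix.SpecialLinearGroup (Fin 2) F →* AddMonoid.End M}

theorem sl_mul_apply (g h : SL) (v : M) : ρ (g * h) v = ρ g (ρ h v) := by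
  rw [map_mul]; rfl

theorem sl_one_apply (v : M) : ρ 1 v = v := by
  rw [map_one]; rfl

/-- The element `wl * up 1` of order three is free of fixed points. -/
def IsFpf (ρ : Matrix.SpecialLinearGroup (Fin 2) F →* AddMonoid.End M) : Prop :=
  ∀ v : M, ρ (up 1) (ρ wl v) + ρ wl (ρ (up 1) v) + v = 0

theorem dia_neg_one : (dia (-1 : Fˣ) : SL) = 1 := by
  have h : (-1 : Fˣ) = 1 := Units.ext (CharTwo.neg_eq _)
  rw [h, dia_one]

theorem cube : (wl * up 1 : SL) * (wl * up 1) = up 1 * wl := by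
  have h2 : (-1 : F) = 1 := CharTwo.neg_eq 1
  refine Subtype.ext ?_
  ext i j
  fin_cases i <;> fin_cases j <;>
    simp [SL2Quad.coe_wl, SL2Quad.coe_up, Matrix.mul_apply, Fin.sum_univ_two, h2,
      CharTwo.add_self_eq_zero]

theorem isFpf_of_fixed (h : ∀ v : M, ρ (wl * up 1) v = v → v = 0) : IsFpf ρ := by
  intro v
  refine h _ ?_
  have e3 : (wl * up 1 : SL) * (up 1 * wl) = 1 := by
    have hu : (up 1 : SL) * up 1 = 1 := by
      rw [← up_add, CharTwo.add_self_eq_zero, up_zero]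
    rw [mul_assoc, ← mul_assoc (up 1) (up 1), hu, one_mul, wl_sq, dia_neg_one]
  rw [map_add, map_add, ← sl_mul_apply (up 1), ← sl_mul_apply wl (up 1) v,
    ← sl_mul_apply (wl * up 1), e3, sl_one_apply, ← sl_mul_apply (wl * up 1) (wl * up 1), cube]
  abel

/-- `up a - 1`. -/
def N (ρ : Matrix.SpecialLinearGroup (Fin 2) F →* AddMonoid.End M) (a : F) : M →+ M :=
  (show M →+ M from ρ (up a)) - AddMonoidHom.id M

theorem N_apply (a : F) (v : M) : N ρ a v = ρ (up a) v - v := rfl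

theorem up_apply (a : F) (v : M) : ρ (up a) v = N ρ a v + v := by
  rw [N_apply, sub_add_cancel]

theorem N_zero (v : M) : N ρ 0 v = 0 := by
  rw [N_apply, up_zero, sl_one_apply, sub_self]

theorem W_W (v : M) : ρ wl (ρ wl v) = v := by
  rw [← sl_mul_apply, wl_sq, dia_neg_one, sl_one_apply]

theorem N_add (a b : F) (v : M) : N ρ (a + b) v = N ρ a v + N ρ b v + N ρ a (N ρ b v) := by
  simp only [N_apply, up_add, sl_mul_apply, map_sub]
  abel

theorem N_comm (a b : F) (v : M) : N ρ a (N ρ b v) = N ρ b (N ρ a v) := by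
  have h : ρ (up a) (ρ (up b) v) = ρ (up b) (ρ (up a) v) := by
    rw [← sl_mul_apply, ← sl_mul_apply, ← up_add, ← up_add, add_comm]
  simp only [N_apply, map_sub, h]
  abel

theorem N_sq (a : F) (v : M) : N ρ a (N ρ a v) = -(N ρ a v + N ρ a v) := by
  have h := N_add (ρ := ρ) a a v
  rw [CharTwo.add_self_eq_zero, N_zero] at h
  exact eq_neg_of_add_eq_zero_right h.symm

theorem D_N (c : Fˣ) (b : F) (v : M) :
    ρ (dia c) (N ρ b v) = N ρ ((c : F) * (c : F) * b) (ρ (dia c) v) := by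
  simp only [N_apply, map_sub, ← sl_mul_apply, dia_up]

theorem D_inv (c : Fˣ) (v : M) : ρ (dia c) (ρ (dia c⁻¹) v) = v := by
  rw [← sl_mul_apply, ← dia_mul, mul_inv_cancel, dia_one, sl_one_apply]

theorem D_inv' (c : Fˣ) (v : M) : ρ (dia c⁻¹) (ρ (dia c) v) = v := by
  rw [← sl_mul_apply, ← dia_mul, inv_mul_cancel, dia_one, sl_one_apply]

/-- The consequence of having no fixed points. -/
theorem key_id (h : IsFpf ρ) (a : Fˣ) (v : M) :
    N ρ (a : F) (ρ wl v) + ρ wl (N ρ ((a⁻¹ : Fˣ) : F) v) + (ρ wl v + ρ wl v) + ρ (dia a) v = 0 := by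
  obtain ⟨c, hc⟩ : ∃ c : Fˣ, c * c = a := by
    obtain ⟨s, hs⟩ := FiniteField.isSquare_of_char_two (CharP.eq F (ringChar.charP F) ‹CharP F 2›) (a : F)
    refine ⟨Units.mk0 s fun h0 => a.ne_zero (by rw [hs, h0, mul_zero]), Units.ext ?_⟩
    simp [← hs]
  have h0 := congrArg (ρ (dia c)) (h (ρ (dia c) v))
  rw [map_add, map_add, map_zero] at h0
  have e1 : dia c * (up 1 * (wl * dia c)) = up (a : F) * wl := by
    have e : (wl : SL) * dia c = dia c⁻¹ * wl := by rw [← wl_dia, inv_inv]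
    rw [e, ← mul_assoc, dia_up, mul_assoc, ← mul_assoc (dia c), ← dia_mul, mul_inv_cancel, dia_one,
      one_mul, mul_one, ← Units.val_mul, hc]
  have e2 : dia c * (wl * (up 1 * dia c)) = wl * up ((a⁻¹ : Fˣ) : F) := by
    rw [← mul_assoc, ← wl_dia, mul_assoc, ← mul_assoc (dia c⁻¹), dia_up, mul_assoc, ← dia_mul,
      inv_mul_cancel, dia_one, mul_one, mul_one, ← Units.val_mul, ← _root_.mul_inv_rev, hc]
  simp only [← sl_mul_apply, e1, e2] at h0
  rw [← dia_mul, hc, sl_mul_apply, sl_mul_apply, up_apply, up_apply, map_add] at h0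
  rw [← h0]
  abel

/-- The fixed points of the unipotents. -/
def fixed (ρ : Matrix.SpecialLinearGroup (Fin 2) F →* AddMonoid.End M) : AddSubgroup M where
  carrier := {v | ∀ a, N ρ a v = 0}
  zero_mem' a := map_zero _
  add_mem' hu hv a := by rw [map_add, hu a, hv a, add_zero]
  neg_mem' hv a := by rw [map_neg, hv a, neg_zero]

theorem dia_fixed {k : M} (hk : k ∈ fixed ρ) (c : Fˣ) : ρ (dia c) k ∈ fixed ρ := by
  intro a
  have e : a = (c : F) * (c : F) * (((c⁻¹ : Fˣ) : F) * ((c⁻¹ : Fˣ) : F) * a) := by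
    simp only [Units.val_inv_eq_inv_val]
    field_simp
  rw [e, ← D_N, hk, map_zero]

theorem neg_eq_of_two (h2 : ∀ v : M, v + v = 0) (v : M) : -v = v :=
  neg_eq_of_add_eq_zero_left (h2 v)

theorem NW_fixed (h : IsFpf ρ) (h2 : ∀ v : M, v + v = 0) {k : M} (hk : k ∈ fixed ρ) (a : Fˣ) :
    N ρ (a : F) (ρ wl k) = ρ (dia a) k := by
  have h1 := key_id h a k
  rw [hk, map_zero, add_zero, h2, add_zero] at h1
  rw [eq_neg_of_add_eq_zero_left h1, neg_eq_of_two h2]

theorem N_one_W_fixed (h : IsFpf ρ) (h2 : ∀ v : M, v + v = 0) {k : M} (hk : k ∈ fixed ρ) :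
    N ρ 1 (ρ wl k) = k := by
  have h1 := NW_fixed h h2 hk 1
  rwa [dia_one, sl_one_apply, Units.val_one] at h1

/-- An elementary abelian module is the sum of the fixed points and their image. -/
theorem decomp [Finite M] (h : IsFpf ρ) (h2 : ∀ v : M, v + v = 0) (v : M) :
    ∃ k ∈ fixed ρ, ∃ l ∈ fixed ρ, v = k + ρ wl l := by
  classical
  let X : AddSubgroup M := fixed ρ ⊔ (fixed ρ).map (ρ wl)
  have hX : ∀ {w : M}, w ∈ X → ∃ k ∈ fixed ρ, ∃ l ∈ fixed ρ, w = k + ρ wl l := by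
    intro w hw
    obtain ⟨k, hk, _, ⟨l, hl, rfl⟩, e⟩ := AddSubgroup.mem_sup.1 hw
    exact ⟨k, hk, l, hl, e.symm⟩
  have hXmk : ∀ {k l : M}, k ∈ fixed ρ → l ∈ fixed ρ → k + ρ wl l ∈ X := fun hk hl =>
    AddSubgroup.add_mem_sup hk (AddSubgroup.mem_map_of_mem _ hl)
  have hNX : ∀ a, ∀ w ∈ X, N ρ a w ∈ X := by
    intro a w hw
    obtain ⟨k, hk, l, hl, rfl⟩ := hX hw
    rw [map_add, hk, zero_add]
    by_cases ha : a = 0
    · rw [ha, N_zero]; exact zero_mem _
    rw [show a = ((Units.mk0 a ha : Fˣ) : F) from rfl, NW_fixed h h2 hl]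
    exact AddSubgroup.mem_sup_left (dia_fixed hl _)
  -- fixed points on the quotient lie in the sum
  suffices hY : ∀ w, (∀ a, N ρ a w ∈ X) → w ∈ X by
    have htop : X = ⊤ := by
      by_contra hne
      letI : SMul (Multiplicative F) (M ⧸ X) := ⟨fun a => QuotientAddGroup.map X X
        (ρ (up (Multiplicative.toAdd a))) fun w hw => by
          show ρ (up (Multiplicative.toAdd a)) w ∈ X
          rw [up_apply]
          exact add_mem (hNX _ w hw) hw⟩
      letI : MulAction (Multiplicative F) (M ⧸ X) :=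
        { one_smul := fun q => by
            obtain ⟨w, rfl⟩ := QuotientAddGroup.mk_surjective q
            show QuotientAddGroup.mk (ρ (up (0 : F)) w) = _
            rw [up_zero, sl_one_apply]
          mul_smul := fun a b q => by
            obtain ⟨w, rfl⟩ := QuotientAddGroup.mk_surjective q
            show QuotientAddGroup.mk (ρ (up (Multiplicative.toAdd a + Multiplicative.toAdd b)) w) = _
            rw [up_add, sl_mul_apply]
            rfl }
      obtain ⟨n, -, hn⟩ := FiniteField.card F 2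
      haveI := Fact.mk Nat.prime_two
      have hG : IsPGroup 2 (Multiplicative F) := IsPGroup.of_card (n := n) (by
        show Nat.card F = _
        rw [Nat.card_eq_fintype_card, hn])
      obtain ⟨w, hw⟩ : ∃ w, w ∉ X := not_forall.1 fun hall => hne (eq_top_iff.2 fun w _ => hall w)
      have hdvd : 2 ∣ Nat.card (M ⧸ X) := by
        have hord : addOrderOf (w : M ⧸ X) = 2 := addOrderOf_eq_prime (by
          rw [two_nsmul, ← QuotientAddGroup.mk_add, h2]; rfl)
          (fun e => hw ((QuotientAddGroup.eq_zero_iff w).1 e))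
        exact hord ▸ addOrderOf_dvd_natCard _
      obtain ⟨q, hq, hq0⟩ := hG.exists_fixed_point_of_prime_dvd_card_of_fixed_point (M ⧸ X) hdvd
        (a := (0 : M ⧸ X)) (fun a => by
          show QuotientAddGroup.map X X _ _ 0 = 0
          exact map_zero _)
      obtain ⟨w', rfl⟩ := QuotientAddGroup.mk_surjective q
      refine hq0 ((QuotientAddGroup.eq_zero_iff w').2 (hY w' fun a => ?_)).symm
      have h1 : QuotientAddGroup.mk (ρ (up a) w') = (w' : M ⧸ X) := hq (Multiplicative.ofAdd a)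
      rw [N_apply, ← QuotientAddGroup.eq_zero_iff, QuotientAddGroup.mk_sub, h1, sub_self]
    exact hX (htop ▸ AddSubgroup.mem_top v)
  -- the first coordinate
  let Z : Set M := {u | N ρ 1 u = 0 ∧ ∀ a, N ρ a u ∈ X}
  have hXA : ∀ {w : M}, w ∈ X → N ρ 1 w = 0 → w ∈ fixed ρ := by
    intro w hw h1
    obtain ⟨k, hk, l, hl, rfl⟩ := hX hw
    rw [map_add, hk, zero_add, N_one_W_fixed h h2 hl] at h1
    rw [h1, map_zero, add_zero]
    exact hk
  have hZε : ∀ u ∈ Z, ∀ a, N ρ a u ∈ fixed ρ := fun u hu a =>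
    hXA (hu.2 a) (by rw [N_comm, hu.1, map_zero])
  have hNN : ∀ w, N ρ 1 (N ρ 1 w) = 0 := fun w => by rw [N_sq, h2, neg_zero]
  suffices hZ : ∀ u ∈ Z, ∀ a, N ρ a u = 0 by
    intro w hw
    have hk : N ρ 1 w ∈ fixed ρ := hXA (hw 1) (hNN w)
    have hu : w + ρ wl (N ρ 1 w) ∈ Z := by
      refine ⟨by rw [map_add, N_one_W_fixed h h2 hk, h2], fun a => ?_⟩
      rw [map_add]
      exact add_mem (hw a) (hNX a _ (AddSubgroup.mem_sup_right (AddSubgroup.mem_map_of_mem _ hk)))
    have hu0 : w + ρ wl (N ρ 1 w) ∈ fixed ρ := hZ _ hu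
    have hmem := AddSubgroup.mem_sup_left (T := (fixed ρ).map (ρ wl)) hu0
    have h3 := sub_mem hmem (AddSubgroup.mem_sup_right (S := fixed ρ)
      (AddSubgroup.mem_map_of_mem (ρ wl) hk))
    have e : w + ρ wl (N ρ 1 w) - ρ wl (N ρ 1 w) = w := add_sub_cancel_right _ _
    exact e ▸ h3
  have h1W : ∀ u ∈ Z, N ρ 1 (ρ wl u) = u := by
    intro u hu
    have h1 := key_id h 1 u
    rw [inv_one, Units.val_one, hu.1, map_zero, add_zero, h2, add_zero, dia_one, sl_one_apply] at h1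
    rw [eq_neg_of_add_eq_zero_left h1, neg_eq_of_two h2]
  -- the torus on the first coordinate
  let φ : Fˣ → M → M := fun a u => ρ (dia a) u + ρ wl (N ρ 1 (ρ (dia a) u))
  have hDX : ∀ (a : Fˣ) (w : M), w ∈ X → ρ (dia a) w ∈ X := by
    intro a w hw
    obtain ⟨k, hk, l, hl, rfl⟩ := hX hw
    rw [map_add, ← sl_mul_apply, ← wl_dia, sl_mul_apply]
    exact hXmk (dia_fixed hk a) (dia_fixed hl _)
  have hDY : ∀ (a : Fˣ), ∀ u ∈ Z, ∀ b, N ρ b (ρ (dia a) u) ∈ X := by
    intro a u hu b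
    have e : b = (a : F) * (a : F) * (((a⁻¹ : Fˣ) : F) * ((a⁻¹ : Fˣ) : F) * b) := by
      simp only [Units.val_inv_eq_inv_val]
      field_simp
    rw [e, ← D_N]
    exact hDX a _ (hu.2 _)
  have hsK : ∀ (a : Fˣ), ∀ u ∈ Z, N ρ 1 (ρ (dia a) u) ∈ fixed ρ := fun a u hu =>
    hXA (hDY a u hu 1) (hNN _)
  have hφZ : ∀ (a : Fˣ), ∀ u ∈ Z, φ a u ∈ Z := fun a u hu => by
    refine ⟨?_, fun b => ?_⟩
    · show N ρ 1 (_ + _) = 0
      rw [map_add, N_one_W_fixed h h2 (hsK a u hu), h2]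
    · show N ρ b (_ + _) ∈ X
      rw [map_add]
      exact add_mem (hDY a u hu b)
        (hNX b _ (AddSubgroup.mem_sup_right (AddSubgroup.mem_map_of_mem _ (hsK a u hu))))
  have hs : ∀ (a : Fˣ), ∀ u ∈ Z,
      N ρ 1 (ρ (dia a) u) = N ρ (a : F) u + N ρ ((a⁻¹ : Fˣ) : F) u := by
    intro a u hu
    have h1 := key_id h a u
    rw [h2, add_zero] at h1
    rw [eq_neg_of_add_eq_zero_right h1, neg_eq_of_two h2, map_add, N_comm, h1W u hu,
      N_one_W_fixed h h2 (hZε u hu _)]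
  have hA : ∀ (a : Fˣ), ∀ u ∈ Z,
      N ρ 1 (ρ (dia a) u) = ρ (dia a⁻¹) (N ρ ((a : F) * (a : F)) u) := by
    intro a u hu
    have h1 := hs a⁻¹ u hu
    rw [inv_inv, add_comm, ← hs a u hu] at h1
    rw [← h1, D_N]
    congr 2
    simp only [Units.val_inv_eq_inv_val]
    field_simp
  have hεφ : ∀ (a : Fˣ) (b : Fˣ), ∀ u ∈ Z, N ρ ((a : F) * (a : F) * b) (φ a u) =
      ρ (dia a) (N ρ (b : F) u) + ρ (dia (a * a * b)) (ρ (dia a⁻¹) (N ρ ((a : F) * (a : F)) u)) := by
    intro a b u hu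
    show N ρ _ (_ + _) = _
    rw [map_add, ← D_N, show (a : F) * (a : F) * (b : F) = ((a * a * b : Fˣ) : F) by simp,
      NW_fixed h h2 (hsK a u hu), hA a u hu]
  have hcommφ : ∀ (a : Fˣ), ∀ u ∈ Z,
      N ρ ((a : F) * (a : F)) (φ a u) = ρ (dia a) (N ρ ((a : F) * (a : F)) u) := by
    intro a u hu
    have h1 := hεφ a 1 u hu
    rw [Units.val_one, mul_one, mul_one, hu.1, map_zero, zero_add] at h1
    rw [h1, ← sl_mul_apply, ← dia_mul, mul_inv_cancel_right]
  have hsurj : ∀ (a : Fˣ), ∀ w ∈ Z, φ a (φ a⁻¹ w) = w := by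
    intro a w hw
    have hw' := hφZ a⁻¹ w hw
    set s := N ρ 1 (ρ (dia a⁻¹) w) with hsdef
    set t := N ρ 1 (ρ (dia a) (φ a⁻¹ w)) with htdef
    have e : φ a (φ a⁻¹ w) = w + (ρ wl (ρ (dia a⁻¹) s) + ρ wl t) := by
      show ρ (dia a) (φ a⁻¹ w) + ρ wl t = _
      show ρ (dia a) (ρ (dia a⁻¹) w + ρ wl s) + ρ wl t = _
      rw [map_add, D_inv, ← sl_mul_apply (dia a) wl, ← wl_dia, sl_mul_apply, add_assoc]
    have hK : ρ (dia a⁻¹) s + t ∈ fixed ρ :=
      add_mem (dia_fixed (hsK a⁻¹ w hw) _) (hsK a _ hw')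
    have hz : ρ (dia a⁻¹) s + t = 0 := by
      have h1 := (hφZ a _ hw').1
      rwa [e, map_add, hw.1, zero_add, ← map_add, N_one_W_fixed h h2 hK] at h1
    rw [e, ← map_add, hz, map_zero, add_zero]
  intro u hu c
  by_cases hc0 : c = 0
  · rw [hc0, N_zero]
  by_cases hc1 : c = 1
  · rw [hc1]; exact hu.1
  obtain ⟨s, hs'⟩ := FiniteField.isSquare_of_char_two (CharP.eq F (ringChar.charP F) ‹CharP F 2›) c
  have hsc : s ≠ 0 := fun e => hc0 (by rw [hs', e, mul_zero])
  have hs1 : s + 1 ≠ 0 := fun e => hc1 (by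
    rw [hs', eq_neg_of_add_eq_zero_left e, neg_mul_neg, one_mul])
  let a : Fˣ := Units.mk0 s hsc
  let a' : Fˣ := Units.mk0 (s + 1) hs1
  have hb : c + 1 = (a' : F) * (a' : F) := by
    show c + 1 = (s + 1) * (s + 1)
    rw [hs']
    linear_combination (-s) * (CharTwo.two_eq_zero : (2 : F) = 0)
  have hε : ∀ w ∈ Z, N ρ (c + 1) w = N ρ c w := fun w hw => by
    rw [N_add, hw.1, map_zero, add_zero, add_zero]
  -- the product index, reached from both sides
  have key : ∀ (a₁ a₂ : Fˣ), (∀ w ∈ Z, N ρ ((a₁ : F) * (a₁ : F)) w = N ρ c w) →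
      (∀ w ∈ Z, N ρ ((a₂ : F) * (a₂ : F)) w = N ρ c w) → ∀ w ∈ Z,
      N ρ ((a₁ : F) * (a₁ : F) * ((a₂ : F) * (a₂ : F))) w =
        N ρ c w + ρ (dia (a₂ * a₂)) (N ρ c w) := by
    intro a₁ a₂ h1 h3 w hw
    have hu' := hφZ a₁⁻¹ w hw
    have hcw : N ρ c w = ρ (dia a₁) (N ρ c (φ a₁⁻¹ w)) := by
      rw [← h1 _ hu', ← hcommφ a₁ _ hu', hsurj a₁ w hw, h1 w hw]
    have h4 := hεφ a₁ (a₂ * a₂) _ hu'
    rw [hsurj a₁ w hw, Units.val_mul, h3 _ hu', h1 _ hu', ← sl_mul_apply, ← dia_mul,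
      show a₁ * a₁ * (a₂ * a₂) * a₁⁻¹ = a₂ * a₂ * a₁ by
        rw [mul_comm a₁ a₁]; group; simp [mul_comm, mul_left_comm],
      dia_mul, sl_mul_apply, ← hcw] at h4
    exact h4
  have hca : ∀ w ∈ Z, N ρ ((a : F) * (a : F)) w = N ρ c w := fun w _ => by
    show N ρ (s * s) w = _
    rw [← hs']
  have hca' : ∀ w ∈ Z, N ρ ((a' : F) * (a' : F)) w = N ρ c w := fun w hw => by
    rw [← hb, hε w hw]
  have k1 := key a a' hca hca' u hu
  have k2 := key a' a hca' hca u hu
  rw [mul_comm ((a' : F) * (a' : F)), k1, add_right_inj, ← sub_eq_zero] at k2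
  have hy : N ρ c u ∈ fixed ρ := hZε u hu c
  rw [← NW_fixed h h2 hy, ← NW_fixed h h2 hy, Units.val_mul, Units.val_mul, ← hb,
    show ((a : F) * (a : F)) = c from hs'.symm, N_add, N_one_W_fixed h h2 hy, hy, add_zero,
    add_sub_cancel_left] at k2
  exact k2

/-- No equivariant symmetric biadditive map. -/
theorem biadd_eq_zero {R : Type*} [AddCommGroup R] [Finite M] [Finite R]
    {σ : Matrix.SpecialLinearGroup (Fin 2) F →* AddMonoid.End R} (h : IsFpf ρ) (hs : IsFpf σ)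
    (h2 : ∀ v : M, v + v = 0) (h2R : ∀ v : R, v + v = 0) (hq : ∃ c : F, c ≠ 0 ∧ c ≠ 1)
    (B : M →+ M →+ R) (hB : ∀ g u v, B (ρ g u) (ρ g v) = σ g (B u v))
    (hsymm : ∀ u v, B u v = B v u) : ∀ u v, B u v = 0 := by
  have hK : ∀ u ∈ fixed ρ, ∀ v ∈ fixed ρ, B u v ∈ fixed σ := by
    intro u hu v hv a
    rw [N_apply, ← hB, up_apply, up_apply, hu, hv, zero_add, zero_add, sub_self]
  have hlin : ∀ u ∈ fixed ρ, ∀ v ∈ fixed ρ, ∀ a : Fˣ,
      B u (ρ (dia a) v) = N σ (a : F) (B u (ρ wl v)) := by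
    intro u hu v hv a
    rw [← NW_fixed h h2 hv a, N_apply (ρ := σ), ← hB, up_apply, up_apply, hu, zero_add, map_add,
      add_sub_cancel_right]
  have hscal : ∀ u ∈ fixed ρ, ∀ v ∈ fixed ρ, ∀ a : Fˣ,
      B u (ρ (dia a) v) = σ (dia a) (B u v) := by
    intro u hu v hv a
    obtain ⟨k, hk, l, hl, e⟩ := decomp hs h2R (B u (ρ wl v))
    have hN : ∀ b : Fˣ, N σ (b : F) (B u (ρ wl v)) = σ (dia b) l := fun b => by
      rw [e, map_add, hk, zero_add, NW_fixed hs h2R hl]
    have h1 := hlin u hu v hv 1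
    rw [dia_one, sl_one_apply, hN, dia_one, sl_one_apply] at h1
    rw [hlin u hu v hv a, hN, ← h1]
  obtain ⟨c, hc0, hc1⟩ := hq
  have hc1' : c + 1 ≠ 0 := fun e => hc1 (by rw [eq_neg_of_add_eq_zero_left e, CharTwo.neg_eq])
  have hKK : ∀ u ∈ fixed ρ, ∀ v ∈ fixed ρ, B u v = 0 := by
    intro u hu v hv
    have hyf := hK u hu v hv
    have e : σ (dia (Units.mk0 c hc0)) (B u v) = B u v := by
      have e1 := hB (dia (Units.mk0 c hc0)) u v
      rw [hscal _ (dia_fixed hu _) v hv, hsymm _ v, hscal v hv u hu, hsymm v u] at e1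
      have e2 := congrArg (σ (dia (Units.mk0 c hc0)⁻¹)) e1
      rwa [D_inv', D_inv'] at e2
    rw [← NW_fixed hs h2R hyf] at e
    have h3 : N σ (c + 1) (σ wl (B u v)) = 0 := by
      rw [N_add, N_one_W_fixed hs h2R hyf, hyf, add_zero]
      rw [show N σ c (σ wl (B u v)) = B u v from e, h2R]
    have h4 := NW_fixed hs h2R hyf (Units.mk0 (c + 1) hc1')
    rw [show ((Units.mk0 (c + 1) hc1' : Fˣ) : F) = c + 1 from rfl, h3] at h4
    rw [← D_inv' (ρ := σ) (Units.mk0 (c + 1) hc1') (B u v), ← h4, map_zero]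
  have hKW : ∀ u ∈ fixed ρ, ∀ v ∈ fixed ρ, B u (ρ wl v) = 0 := by
    intro u hu v hv
    have hfix : ∀ u ∈ fixed ρ, ∀ v ∈ fixed ρ, B u (ρ wl v) ∈ fixed σ := by
      intro u hu v hv a
      by_cases ha : a = 0
      · rw [ha, N_zero]
      rw [show a = ((Units.mk0 a ha : Fˣ) : F) from rfl, ← hlin u hu v hv, hKK u hu _ (dia_fixed hv _)]
    have h1 := hfix v hv u hu
    have h3 := hfix u hu v hv
    rw [hsymm] at h1
    have e : σ wl (B u (ρ wl v)) = B (ρ wl u) v := by rw [← hB, W_W]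
    have h4 := N_one_W_fixed hs h2R h3
    rw [e] at h4
    rw [← h4, h1]
  intro u v
  obtain ⟨k, hk, l, hl, rfl⟩ := decomp h h2 u
  obtain ⟨k', hk', l', hl', rfl⟩ := decomp h h2 v
  simp only [map_add, AddMonoidHom.add_apply]
  rw [hKK k hk k' hk', hKW k hk l' hl', hsymm (ρ wl l) k', hKW k' hk' l hl, hB, hKK l hl l' hl',
    map_zero]
  simp

/-- No module over the integers modulo four. -/
theorem exponent_two (h : IsFpf ρ) (R : AddSubgroup M) (hR2 : ∀ r ∈ R, r + r = 0)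
    (hR : ∀ g, ∀ r ∈ R, ρ g r ∈ R)
    (hMdec : ∀ v, ∃ k l, (∀ a, N ρ a k ∈ R) ∧ (∀ a, N ρ a l ∈ R) ∧ v = k + ρ wl l)
    (hRdec : ∀ r ∈ R, ∃ k ∈ fixed ρ, ∃ l ∈ fixed ρ, k ∈ R ∧ l ∈ R ∧ r = k + ρ wl l)
    (hMR : ∀ v, v + v ∈ R) (hq : ∃ c : F, c ≠ 0 ∧ c ≠ 1) : ∀ v : M, v + v = 0 := by
  have hneg : ∀ r ∈ R, -r = r := fun r hr => neg_eq_of_add_eq_zero_left (hR2 r hr)
  let T : F → M → M := fun a k => N ρ a (ρ wl k)
  let Kt : AddSubgroup M :=
    { carrier := {v | ∀ a, N ρ a v ∈ R}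
      zero_mem' := fun a => by rw [map_zero]; exact R.zero_mem
      add_mem' := fun hu hv a => by rw [map_add]; exact R.add_mem (hu a) (hv a)
      neg_mem' := fun hv a => by rw [map_neg]; exact R.neg_mem (hv a) }
  have hRKt : ∀ r ∈ R, r ∈ Kt := fun r hr a => by
    rw [N_apply]; exact R.sub_mem (hR _ r hr) hr
  have hDKt : ∀ (c : Fˣ), ∀ k ∈ Kt, ρ (dia c) k ∈ Kt := by
    intro c k hk a
    have e : a = (c : F) * (c : F) * (((c⁻¹ : Fˣ) : F) * ((c⁻¹ : Fˣ) : F) * a) := by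
      simp only [Units.val_inv_eq_inv_val]
      field_simp
    rw [e, ← D_N]
    exact hR _ _ (hk _)
  have hlinR : ∀ {y : M}, y ∈ R → y ∈ fixed ρ → ∀ a : Fˣ, N ρ (a : F) (ρ wl y) = ρ (dia a) y := by
    intro y hy hyf a
    have h1 := key_id h a y
    rw [hyf, map_zero, add_zero, hR2 _ (hR _ _ hy), add_zero] at h1
    rw [eq_neg_of_add_eq_zero_left h1, hneg _ (hR _ _ hy)]
  have hNr : ∀ r ∈ R, ∀ a : Fˣ, N ρ (a : F) r = ρ (dia a) (N ρ 1 r) := by
    intro r hr a
    obtain ⟨k, hk, l, hl, -, hlR, rfl⟩ := hRdec r hr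
    have h1 : N ρ 1 (ρ wl l) = l := by
      have := hlinR hlR hl 1
      rwa [dia_one, sl_one_apply, Units.val_one] at this
    rw [map_add, map_add, hk, hk, zero_add, zero_add, hlinR hlR hl, h1]
  have hNrfix : ∀ r ∈ R, ∀ a, N ρ a r ∈ fixed ρ := by
    intro r hr a
    by_cases ha : a = 0
    · rw [ha, N_zero]; exact (fixed ρ).zero_mem
    obtain ⟨k, hk, l, hl, -, hlR, rfl⟩ := hRdec r hr
    rw [map_add, hk, zero_add, show a = ((Units.mk0 a ha : Fˣ) : F) from rfl, hlinR hlR hl]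
    exact dia_fixed hl _
  have hT : ∀ (a : Fˣ), ∀ k ∈ Kt, T a k + ρ (dia a) k ∈ R := by
    intro a k hk
    have h1 := key_id h a k
    have e : T a k + ρ (dia a) k = -(ρ wl (N ρ ((a⁻¹ : Fˣ) : F) k) + ρ wl (k + k)) := by
      refine eq_neg_of_add_eq_zero_left ?_
      rw [← h1, map_add]
      abel
    rw [e]
    exact R.neg_mem (R.add_mem (hR _ _ (hk _)) (hR _ _ (hMR k)))
  have hTKt : ∀ (a : Fˣ), ∀ k ∈ Kt, T a k ∈ Kt := fun a k hk => by
    have h1 := Kt.sub_mem (hRKt _ (hT a k hk)) (hDKt a k hk)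
    rwa [add_sub_cancel_right] at h1
  have hδfix : ∀ k ∈ Kt, k + k ∈ fixed ρ := fun k hk a => by
    rw [map_add]; exact hR2 _ (hk a)
  have hNsq : ∀ (a : Fˣ), ∀ k ∈ Kt, N ρ (a : F) (T a k) = ρ (dia a) k + ρ (dia a) k := by
    intro a k hk
    have e := hR2 _ (hT a k hk)
    have e' : -(T a k + T a k) = ρ (dia a) k + ρ (dia a) k := by
      refine neg_eq_of_add_eq_zero_right ?_
      rw [← e]; abel
    exact (N_sq _ _).trans e'
  have hKN : ∀ k ∈ Kt, ∀ a, N ρ a k ∈ fixed ρ := by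
    intro k hk a
    by_cases ha : a = 0
    · rw [ha, N_zero]; exact (fixed ρ).zero_mem
    let a' := Units.mk0 a ha
    have hk' := hDKt a'⁻¹ k hk
    have h1 := hT a' _ hk'
    rw [D_inv] at h1
    have h3 := hNsq a' _ hk'
    rw [D_inv] at h3
    have h4 := hNrfix _ h1 a
    rw [map_add, show N ρ a (T a' (ρ (dia a'⁻¹) k)) = k + k from h3] at h4
    have h5 := (fixed ρ).sub_mem h4 (hδfix k hk)
    rwa [add_sub_cancel_left] at h5
  -- the crucial identity
  obtain ⟨c, hc0, hc1⟩ := hq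
  let b : Fˣ := Units.mk0 c hc0
  let G : M → M := fun k => N ρ (b : F) (T 1 k)
  let D : M → M := fun k => ρ (dia b) k
  have hT1 : ∀ k ∈ Kt, T 1 k + k ∈ R := fun k hk => by
    have := hT 1 k hk
    rwa [dia_one, sl_one_apply, Units.val_one] at this
  have hT1Kt : ∀ k ∈ Kt, T 1 k ∈ Kt := fun k hk => by
    have := hTKt 1 k hk
    rwa [Units.val_one] at this
  have hN1T1 : ∀ k ∈ Kt, N ρ 1 (T 1 k) = k + k := fun k hk => by
    have := hNsq 1 k hk
    rwa [dia_one, sl_one_apply, Units.val_one] at this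
  have hGR : ∀ k ∈ Kt, G k ∈ R := fun k hk => hT1Kt k hk _
  let Φ : M → M := fun k => (D k + D k) + (D (D k) + D (D k))
  have hΦR : ∀ k, Φ k ∈ R := fun k => R.add_mem (hMR _) (hMR _)
  have hid : ∀ k ∈ Kt, G (D k) = D (G k) + Φ k := by
    intro k hk
    have hDk := hDKt b k hk
    set r := T b k - T 1 (D k) with hr
    have hrR : r ∈ R := by
      have := R.sub_mem (hT b k hk) (hT1 _ hDk)
      rwa [add_sub_add_right_eq_sub] at this
    have h1 : N ρ (b : F) r = ρ (dia b) (G k - (D k + D k)) := by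
      rw [hNr r hrR b, hr, map_sub]
      congr 1
      rw [hN1T1 _ hDk]
      show N ρ 1 (N ρ (b : F) (ρ wl k)) - _ = _
      rw [N_comm]
    rw [hr, map_sub, hNsq b k hk, map_sub, map_add] at h1
    have hA : D k + D k ∈ R := hMR _
    have e : G (D k) = (D k + D k) - (D (G k) - (D (D k) + D (D k))) := by
      rw [← h1]
      exact (sub_sub_cancel _ _).symm
    rw [e]
    show _ = D (G k) + ((D k + D k) + (D (D k) + D (D k)))
    rw [sub_sub_eq_add_sub, sub_eq_add_neg, hneg _ (hR _ _ (hGR k hk))]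
    abel
  have hD2 : ∀ k ∈ Kt, G (D (D k)) = D (D (G k)) := by
    intro k hk
    have e : D (Φ k) = Φ (D k) := by simp only [D, Φ, map_add]
    rw [hid _ (hDKt b k hk), hid k hk]
    show D (D (G k) + Φ k) + _ = _
    simp only [D, map_add]
    rw [show ρ (dia b) (Φ k) = Φ (D k) from e, add_assoc, hR2 _ (hΦR _), add_zero]
  have hpow : ∀ j : ℕ, ∀ k ∈ Kt, G (ρ (dia (b ^ (2 * j))) k) = ρ (dia (b ^ (2 * j))) (G k) := by
    intro j
    induction j with
    | zero => intro k _; simp [dia_one, sl_one_apply]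
    | succ j ih =>
      intro k hk
      rw [show b ^ (2 * (j + 1)) = b * (b * b ^ (2 * j)) by
        rw [Nat.mul_succ, pow_succ, pow_succ, mul_comm b, mul_comm b]]
      simp only [dia_mul, sl_mul_apply]
      exact (hD2 _ (hDKt _ k hk)).trans (by rw [ih k hk])
  have hq2 : b ^ Fintype.card F = b := Units.ext (by
    rw [Units.val_pow_eq_pow_val]; exact FiniteField.pow_card _)
  have heven : ∃ j, Fintype.card F = 2 * j := by
    obtain ⟨n, -, hn⟩ := FiniteField.card F 2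
    exact ⟨2 ^ ((n : ℕ) - 1), by rw [hn, ← pow_succ', Nat.sub_add_cancel n.pos]⟩
  obtain ⟨j, hj⟩ := heven
  have hΦ : ∀ k ∈ Kt, Φ k = 0 := by
    intro k hk
    have h1 := hpow j k hk
    rw [← hj, hq2] at h1
    have h3 := hid k hk
    rw [show G (D k) = D (G k) from h1] at h3
    exact left_eq_add.1 h3
  have hδ : ∀ k ∈ Kt, k + k = 0 := by
    intro k hk
    have h1 := hΦ _ (hDKt b⁻¹ k hk)
    simp only [Φ, D, D_inv] at h1
    have hy : k + k ∈ R := hMR k
    have e : ρ (dia b) (k + k) = k + k := by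
      rw [map_add, eq_neg_of_add_eq_zero_right h1, hneg _ hy]
    have hyf := hδfix k hk
    have hc1' : c + 1 ≠ 0 := fun e => hc1 (by rw [eq_neg_of_add_eq_zero_left e, CharTwo.neg_eq])
    have h11 : N ρ 1 (ρ wl (k + k)) = k + k := by
      have := hlinR hy hyf 1
      rwa [dia_one, sl_one_apply, Units.val_one] at this
    have h3 : N ρ (c + 1) (ρ wl (k + k)) = 0 := by
      rw [N_add, h11, hyf, add_zero, show N ρ c (ρ wl (k + k)) = k + k from
        (hlinR hy hyf b).trans e, hR2 _ hy]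
    have h4 := hlinR hy hyf (Units.mk0 (c + 1) hc1')
    rw [show ((Units.mk0 (c + 1) hc1' : Fˣ) : F) = c + 1 from rfl, h3] at h4
    rw [← D_inv' (ρ := ρ) (Units.mk0 (c + 1) hc1') (k + k), ← h4, map_zero]
  intro v
  obtain ⟨k, l, hk, hl, rfl⟩ := hMdec v
  rw [add_add_add_comm, hδ k hk, ← map_add, hδ l hl, map_zero, add_zero]

/-- An elementary abelian module is a power of the natural one. -/
theorem natural_sum [Finite M] (h : IsFpf ρ) (h2 : ∀ v : M, v + v = 0) :
    ∃ (m : ℕ) (Ψ : (Fin m → Fin 2 → F) →+ M), Function.Bijective Ψ ∧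
      ∀ g v, Ψ (fun i => g.1 *ᵥ v i) = ρ g (Ψ v) := by
  classical
  have hNadd : ∀ (a b : F), ∀ k ∈ fixed ρ,
      N ρ (a + b) (ρ wl k) = N ρ a (ρ wl k) + N ρ b (ρ wl k) := by
    intro a b k hk
    rw [N_add]
    by_cases hb : b = 0
    · rw [hb, N_zero, map_zero]; simp
    rw [show b = ((Units.mk0 b hb : Fˣ) : F) from rfl, NW_fixed h h2 hk, dia_fixed hk _ a, add_zero]
  have hmem : ∀ (a : F), ∀ k ∈ fixed ρ, N ρ a (ρ wl k) ∈ fixed ρ := by
    intro a k hk
    by_cases ha : a = 0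
    · rw [ha, N_zero]; exact (fixed ρ).zero_mem
    rw [show a = ((Units.mk0 a ha : Fˣ) : F) from rfl, NW_fixed h h2 hk]
    exact dia_fixed hk _
  letI : Module F (fixed ρ) :=
    { smul := fun a k => ⟨N ρ a (ρ wl k.1), hmem a k.1 k.2⟩
      one_smul := fun k => Subtype.ext (N_one_W_fixed h h2 k.2)
      mul_smul := fun a b k => Subtype.ext (by
        show N ρ (a * b) (ρ wl (k : M)) = N ρ a (ρ wl (N ρ b (ρ wl (k : M))))
        by_cases hb : b = 0
        · rw [hb, mul_zero, N_zero]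
          simp
        by_cases ha : a = 0
        · rw [ha, zero_mul, N_zero, N_zero]
        rw [show b = ((Units.mk0 b hb : Fˣ) : F) from rfl, NW_fixed h h2 k.2,
          show a = ((Units.mk0 a ha : Fˣ) : F) from rfl, NW_fixed h h2 (dia_fixed k.2 _),
          ← Units.val_mul, NW_fixed h h2 k.2, dia_mul, sl_mul_apply])
      smul_zero := fun a => Subtype.ext (by
        show N ρ a (ρ wl (0 : M)) = 0
        rw [map_zero, map_zero])
      smul_add := fun a k l => Subtype.ext (by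
        show N ρ a (ρ wl ((k : M) + l)) = N ρ a (ρ wl (k : M)) + N ρ a (ρ wl (l : M))
        rw [map_add, map_add])
      add_smul := fun a b k => Subtype.ext (hNadd a b k.1 k.2)
      zero_smul := fun k => Subtype.ext (N_zero _) }
  haveI : Module.Finite F (fixed ρ) := Module.Finite.of_finite
  let e : (Fin (Module.finrank F (fixed ρ)) → F) ≃ₗ[F] fixed ρ :=
    (Module.finBasis F (fixed ρ)).equivFun.symm
  let Ψ : (Fin (Module.finrank F (fixed ρ)) → Fin 2 → F) →+ M := AddMonoidHom.mk'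
    (fun v => (e (fun i => v i 0) : M) + ρ wl (e (fun i => v i 1) : M)) fun u v => by
      have e1 : (fun i => (u + v) i 0) = (fun i => u i 0) + (fun i => v i 0) := rfl
      have e2 : (fun i => (u + v) i 1) = (fun i => u i 1) + (fun i => v i 1) := rfl
      rw [e1, e2, map_add, map_add, AddSubgroup.coe_add, AddSubgroup.coe_add, map_add]
      abel
  refine ⟨_, Ψ, ⟨?_, ?_⟩, ?_⟩
  · refine (injective_iff_map_eq_zero Ψ).2 fun v hv => ?_
    have hv0 : (e (fun i => v i 0) : M) + ρ wl (e (fun i => v i 1) : M) = 0 := hv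
    have h1 := congrArg (N ρ 1) hv0
    rw [map_add, (e fun i => v i 0).2, zero_add, N_one_W_fixed h h2 (e fun i => v i 1).2,
      map_zero] at h1
    rw [h1, map_zero, add_zero] at hv0
    have h3 : (fun i => v i 0) = 0 := e.injective (by rw [map_zero]; exact Subtype.ext hv0)
    have h4 : (fun i => v i 1) = 0 := e.injective (by rw [map_zero]; exact Subtype.ext h1)
    funext i j
    fin_cases j
    · exact congrFun h3 i
    · exact congrFun h4 i
  · intro w
    obtain ⟨k, hk, l, hl, rfl⟩ := decomp h h2 w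
    refine ⟨fun i => ![e.symm ⟨k, hk⟩ i, e.symm ⟨l, hl⟩ i], ?_⟩
    show (e _ : M) + ρ wl (e _ : M) = _
    simp
  · let H : Subgroup SL :=
      { carrier := {g | ∀ v, Ψ (fun i => g.1 *ᵥ v i) = ρ g (Ψ v)}
        one_mem' := fun v => by
          rw [sl_one_apply]
          congr 1
          funext i
          simp
        mul_mem' := fun {g g'} hg hg' v => by
          rw [sl_mul_apply, ← hg', ← hg]
          congr 1
          funext i
          rw [Matrix.SpecialLinearGroup.coe_mul, Matrix.mulVec_mulVec]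
        inv_mem' := fun {g} hg v => by
          have h1 := hg (fun i => g⁻¹.1 *ᵥ v i)
          have e1 : (fun i => g.1 *ᵥ g⁻¹.1 *ᵥ v i) = v := by
            funext i
            rw [Matrix.mulVec_mulVec, ← Matrix.SpecialLinearGroup.coe_mul, mul_inv_cancel,
              Matrix.SpecialLinearGroup.coe_one, Matrix.one_mulVec]
          rw [e1] at h1
          rw [h1, ← sl_mul_apply, inv_mul_cancel, sl_one_apply] }
    have hH : H = ⊤ := by
      refine SL2Quad.subgroup_eq_top H (fun a v => ?_) fun v => ?_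
      · have e1 : (fun i => ((up a : SL).1 *ᵥ v i) 0) = (fun i => v i 0) + a • fun i => v i 1 := by
          funext i
          simp [SL2Quad.coe_up, Matrix.mulVec, dotProduct, Fin.sum_univ_two]
        have e2 : (fun i => ((up a : SL).1 *ᵥ v i) 1) = fun i => v i 1 := by
          funext i
          simp [SL2Quad.coe_up, Matrix.mulVec, dotProduct, Fin.sum_univ_two]
        show (e (fun i => ((up a : SL).1 *ᵥ v i) 0) : M) +
          ρ wl (e (fun i => ((up a : SL).1 *ᵥ v i) 1) : M) =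
          ρ (up a) ((e (fun i => v i 0) : M) + ρ wl (e (fun i => v i 1) : M))
        rw [e1, e2, map_add e, LinearEquiv.map_smul, AddSubgroup.coe_add, map_add, up_apply,
          up_apply, (e fun i => v i 0).2, zero_add]
        show _ + N ρ a (ρ wl (e (fun i => v i 1) : M)) + _ = _
        abel
      · have e1 : (fun i => ((wl : SL).1 *ᵥ v i) 0) = fun i => v i 1 := by
          funext i
          simp [SL2Quad.coe_wl, Matrix.mulVec, dotProduct, Fin.sum_univ_two]
        have e2 : (fun i => ((wl : SL).1 *ᵥ v i) 1) = fun i => v i 0 := by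
          funext i
          simp [SL2Quad.coe_wl, Matrix.mulVec, dotProduct, Fin.sum_univ_two, CharTwo.neg_eq]
        show (e (fun i => ((wl : SL).1 *ᵥ v i) 0) : M) +
          ρ wl (e (fun i => ((wl : SL).1 *ᵥ v i) 1) : M) =
          ρ wl ((e (fun i => v i 0) : M) + ρ wl (e (fun i => v i 1) : M))
        rw [e1, e2, map_add, W_W, add_comm]
    exact fun g => (hH ▸ Subgroup.mem_top g : g ∈ H)

end Cfsg.Agent.Linear.SL2Fpf
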