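import Cfsg.Agent.Linear.SL2FixedPointFree
import Cfsg.Prelude.Def_BaumannBlocks
import Cfsg.Prelude.Def_Transfer
import Mathlib.GroupTheory.NoncommPiCoprod
import Mathlib.GroupTheory.Commutator.Basic
import Mathlib.GroupTheory.GroupAction.ConjAct

/-!
# Two-groups below `SL_2(2^n)` with a fixed-point-free element of order three
-/

set_option autoImplicit false
set_option linter.style.haveILetI false
set_option linter.unusedSectionVars false

namespace Cfsg.Agent.Linear.SL2Fpf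

open Matrix
open Cfsg.Agent.Linear.SL2Quad (up wl)
open scoped commutatorElement

universe u v

variable {F : Type v} [Field F] [Fintype F] [CharP F 2]

local notation "SL" => Matrix.SpecialLinearGroup (Fin 2) F

section Rep

variable {H : Type u} [Group H] {A : Type u} [CommGroup A]

/-- An action of a group descends along a surjection with kernel acting trivially. -/
noncomputable def repOf (π : H →* Matrix.SpecialLinearGroup (Fin 2) F) (hπ : Function.Surjective π)
    (θ : H →* MulAut A) (hker : π.ker ≤ θ.ker) :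
    Matrix.SpecialLinearGroup (Fin 2) F →* AddMonoid.End (Additive A) :=
  let θ' := MonoidHom.liftOfSurjective π hπ ⟨θ, hker⟩
  { toFun := fun g => MonoidHom.toAdditive (θ' g).toMonoidHom
    map_one' := AddMonoidHom.ext fun v => by
      show Additive.ofMul (θ' 1 (Additive.toMul v)) = v
      rw [map_one]
      rfl
    map_mul' := fun g g' => AddMonoidHom.ext fun v => by
      show Additive.ofMul (θ' (g * g') (Additive.toMul v)) =
        Additive.ofMul (θ' g (θ' g' (Additive.toMul v)))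
      rw [map_mul]
      rfl }

theorem repOf_apply (π : H →* Matrix.SpecialLinearGroup (Fin 2) F) (hπ : Function.Surjective π)
    (θ : H →* MulAut A) (hker : π.ker ≤ θ.ker) (h : H) (a : A) :
    repOf π hπ θ hker (π h) (Additive.ofMul a) = Additive.ofMul (θ h a) := by
  have e : MonoidHom.liftOfSurjective π hπ ⟨θ, hker⟩ (π h) = θ h :=
    MonoidHom.liftOfRightInverse_comp_apply _ _ _ ⟨θ, hker⟩ h
  show Additive.ofMul (MonoidHom.liftOfSurjective π hπ ⟨θ, hker⟩ (π h) a) = _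
  rw [e]

theorem isFpf_repOf (π : H →* Matrix.SpecialLinearGroup (Fin 2) F) (hπ : Function.Surjective π)
    (θ : H →* MulAut A) (hker : π.ker ≤ θ.ker) {x : H} (hx : π x = wl * up 1)
    (hfpf : ∀ a, θ x a = a → a = 1) : IsFpf (repOf π hπ θ hker) := by
  refine isFpf_of_fixed fun v hv => ?_
  rw [← hx] at hv
  have h1 := repOf_apply π hπ θ hker x (Additive.toMul v)
  rw [ofMul_toMul, hv] at h1
  exact toMul_eq_one.1 (hfpf _ (congrArg Additive.toMul h1).symm)

end Rep

theorem comm_of_sq {G : Type u} [Group G] {Q : Subgroup G} (h : ∀ a ∈ Q, a * a = 1) :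
    IsMulCommutative Q := by
  refine ⟨⟨fun a b => Subtype.ext ?_⟩⟩
  have h1 := h _ (Q.mul_mem a.2 b.2)
  have h2 := inv_eq_of_mul_eq_one_right h1
  rw [_root_.mul_inv_rev, inv_eq_of_mul_eq_one_right (h _ a.2),
    inv_eq_of_mul_eq_one_right (h _ b.2)] at h2
  exact h2.symm

/-- A two-group with an element of order three acting without fixed points is elementary abelian. -/
theorem exponent_two_group (hq : ∃ c : F, c ≠ 0 ∧ c ≠ 1) :
    ∀ (n : ℕ) (G : Type u) [Group G] [Finite G] (Q : Subgroup G) [Q.Normal], IsPGroup 2 Q →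
      ∀ π : G →* Matrix.SpecialLinearGroup (Fin 2) F, Function.Surjective π → π.ker = Q →
      ∀ x : G, π x = wl * up 1 → (∀ q ∈ Q, x * q * x⁻¹ = q → q = 1) → Nat.card Q = n →
      ∀ a ∈ Q, a * a = 1 := by
  intro n
  induction n using Nat.strong_induction_on with
  | _ n ih =>
  intro G _ _ Q _ hQ π hπ hker x hx hfpf hn
  haveI := Fact.mk Nat.prime_two
  by_cases hQ1 : Q = ⊥
  · intro a ha
    rw [hQ1, Subgroup.mem_bot] at ha
    rw [ha, one_mul]
  have hqn : ∀ (g : G), ∀ q ∈ Q, g * q * g⁻¹ ∈ Q := fun g q h => ‹Q.Normal›.conj_mem q h g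
  let Z : Subgroup G :=
    { carrier := {z | z ∈ Q ∧ z * z = 1 ∧ ∀ q ∈ Q, q * z = z * q}
      one_mem' := ⟨Q.one_mem, one_mul _, fun q _ => by rw [mul_one, one_mul]⟩
      mul_mem' := fun {a b} ha hb => ⟨Q.mul_mem ha.1 hb.1, by
        rw [show a * b * (a * b) = a * (b * a) * b by group, hb.2.2 a ha.1 |>.symm,
          show a * (a * b) * b = (a * a) * (b * b) by group, ha.2.1, hb.2.1, one_mul],
        fun q hq => by rw [← mul_assoc, ha.2.2 q hq, mul_assoc, hb.2.2 q hq, mul_assoc]⟩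
      inv_mem' := fun {a} ha => ⟨Q.inv_mem ha.1, by rw [← _root_.mul_inv_rev, ha.2.1, inv_one],
        fun q hq => by rw [inv_eq_of_mul_eq_one_right ha.2.1]; exact ha.2.2 q hq⟩ }
  haveI hZn : Z.Normal := ⟨fun z hz g => ⟨hqn g z hz.1, by
      rw [show g * z * g⁻¹ * (g * z * g⁻¹) = g * (z * z) * g⁻¹ by group, hz.2.1, mul_one,
        mul_inv_cancel], fun q hq => by
      have h1 := hz.2.2 _ (hqn g⁻¹ q hq)
      rw [inv_inv] at h1
      calc q * (g * z * g⁻¹) = g * ((g⁻¹ * q * g) * z) * g⁻¹ := by group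
        _ = g * (z * (g⁻¹ * q * g)) * g⁻¹ := by rw [h1]
        _ = g * z * g⁻¹ * q := by group⟩⟩
  have hZQ : Z ≤ Q := fun z hz => hz.1
  have hZ1 : Z ≠ ⊥ := by
    haveI : Nontrivial Q := (Subgroup.nontrivial_iff_ne_bot Q).2 hQ1
    haveI := hQ.center_nontrivial
    have hdvd : 2 ∣ Nat.card (Subgroup.center Q) := by
      obtain ⟨j, hj⟩ := (IsPGroup.iff_card).1 (hQ.to_subgroup (Subgroup.center Q))
      rw [hj]
      refine dvd_pow_self 2 fun h0 => ?_
      rw [h0, pow_zero] at hj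
      exact (Finite.one_lt_card (α := Subgroup.center Q)).ne' hj
    obtain ⟨z, hz⟩ := exists_prime_orderOf_dvd_card' 2 hdvd
    intro h
    have hz2 : ((z : Q) : G) * (z : Q) = 1 := by
      have := pow_orderOf_eq_one z
      rw [hz, pow_two] at this
      exact congrArg (fun t : Subgroup.center Q => ((t : Q) : G)) this
    have hmem : ((z : Q) : G) ∈ Z := ⟨(z : Q).2, hz2, fun q hq =>
      congrArg Subtype.val (Subgroup.mem_center_iff.1 z.2 ⟨q, hq⟩)⟩
    rw [h, Subgroup.mem_bot] at hmem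
    have : z = 1 := Subtype.ext (Subtype.ext hmem)
    rw [this, orderOf_one] at hz
    omega
  -- the quotient
  let p := QuotientGroup.mk' Z
  let Q' := Q.map p
  haveI hQ'n : Q'.Normal := Subgroup.Normal.map inferInstance p (QuotientGroup.mk'_surjective Z)
  let π' : G ⧸ Z →* SL := QuotientGroup.lift Z π (hker ▸ hZQ)
  have hπ' : Function.Surjective π' := fun g => by
    obtain ⟨h, rfl⟩ := hπ g
    exact ⟨p h, rfl⟩
  have hker' : π'.ker = Q' := by
    ext y
    obtain ⟨h, rfl⟩ := QuotientGroup.mk'_surjective Z y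
    rw [MonoidHom.mem_ker]
    show π h = 1 ↔ _
    rw [← MonoidHom.mem_ker, hker]
    refine ⟨fun hh => ⟨h, hh, rfl⟩, ?_⟩
    rintro ⟨q, hq, e⟩
    obtain ⟨z, hz, rfl⟩ := (QuotientGroup.mk'_eq_mk' Z).1 e
    exact Q.mul_mem hq (hZQ hz)
  have hinj : ∀ a ∈ Q, ∀ b ∈ Q, a⁻¹ * (x * a * x⁻¹) = b⁻¹ * (x * b * x⁻¹) → a = b := by
    intro a ha b hb e
    refine (mul_inv_eq_one).1 (hfpf _ (Q.mul_mem ha (Q.inv_mem hb)) ?_)
    calc x * (a * b⁻¹) * x⁻¹ = a * (a⁻¹ * (x * a * x⁻¹)) * (x * b * x⁻¹)⁻¹ := by group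
      _ = a * (b⁻¹ * (x * b * x⁻¹)) * (x * b * x⁻¹)⁻¹ := by rw [e]
      _ = a * b⁻¹ := by group
  have hfpf' : ∀ q ∈ Q', p x * q * (p x)⁻¹ = q → q = 1 := by
    rintro _ ⟨q, hq, rfl⟩ e
    rw [← map_inv, ← map_mul, ← map_mul] at e
    have hz : q⁻¹ * (x * q * x⁻¹) ∈ Z := by
      have := QuotientGroup.eq.1 e.symm
      exact this
    let f : Z → Z := fun z => ⟨(z : G)⁻¹ * (x * z * x⁻¹),
      Z.mul_mem (Z.inv_mem z.2) (hZn.conj_mem _ z.2 x)⟩
    have hf : Function.Injective f := fun a b e => Subtype.ext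
      (hinj _ (hZQ a.2) _ (hZQ b.2) (congrArg Subtype.val e))
    obtain ⟨z, hz'⟩ := Finite.surjective_of_injective hf ⟨_, hz⟩
    have := hinj _ (hZQ z.2) _ hq (congrArg Subtype.val hz')
    rw [← this]
    exact (QuotientGroup.eq_one_iff _).2 z.2
  have hlt : Nat.card Q' < n := by
    rw [← hn]
    obtain ⟨z, hz, hz1⟩ := Z.bot_or_exists_ne_one.resolve_left hZ1
    let g : Q → Q' := fun q => ⟨p q, ⟨q, q.2, rfl⟩⟩
    have hgs : Function.Surjective g := by
      rintro ⟨_, q, hq, rfl⟩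
      exact ⟨⟨q, hq⟩, rfl⟩
    refine lt_of_le_of_ne (Nat.card_le_card_of_surjective g hgs) fun e => hz1 ?_
    have hb := hgs.bijective_of_nat_card_le e.ge
    exact congrArg Subtype.val (hb.1 (a₁ := ⟨z, hZQ hz⟩) (a₂ := 1) (Subtype.ext (by
      show p z = p 1
      rw [map_one]
      exact (QuotientGroup.eq_one_iff _).2 hz)))
  have hsqQ' : ∀ a ∈ Q', a * a = 1 :=
    ih _ hlt (G ⧸ Z) Q' (hQ.map p) π' hπ' hker' (p x) hx hfpf' rfl
  have hsqZ : ∀ a ∈ Q, a * a ∈ Z := fun a ha => by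
    rw [← QuotientGroup.eq_one_iff, QuotientGroup.mk_mul]
    exact hsqQ' (p a) ⟨a, ha, rfl⟩
  haveI hcQ' := comm_of_sq hsqQ'
  have hcomZ : ∀ a ∈ Q, ∀ b ∈ Q, ⁅a, b⁆ ∈ Z := fun a ha b hb => by
    rw [← QuotientGroup.eq_one_iff]
    show p ⁅a, b⁆ = 1
    rw [map_commutatorElement, commutatorElement_eq_one_iff_mul_comm]
    exact congrArg Subtype.val (hcQ'.is_comm.comm ⟨p a, a, ha, rfl⟩ ⟨p b, b, hb, rfl⟩)
  letI : CommGroup Z := { (inferInstance : Group Z) with
    mul_comm := fun a b => Subtype.ext (b.2.2.2 a (hZQ a.2)) }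
  letI : CommGroup Q' := { (inferInstance : Group Q') with mul_comm := hcQ'.is_comm.comm }
  have hkZ : π.ker ≤ (MulAut.conjNormal (H := Z)).ker := by
    rw [hker]
    intro q hq
    refine MonoidHom.mem_ker.2 (MulEquiv.ext fun z => Subtype.ext ?_)
    rw [MulAut.conjNormal_apply, z.2.2.2 q hq, mul_inv_cancel_right]
    rfl
  have hkQ' : π'.ker ≤ (MulAut.conjNormal (H := Q')).ker := by
    rw [hker']
    intro q hq
    refine MonoidHom.mem_ker.2 (MulEquiv.ext fun z => Subtype.ext ?_)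
    rw [MulAut.conjNormal_apply]
    show q * (z : G ⧸ Z) * q⁻¹ = z
    rw [show q * (z : G ⧸ Z) = z * q from congrArg Subtype.val (hcQ'.is_comm.comm ⟨q, hq⟩ z),
      mul_inv_cancel_right]
  let σ := repOf π hπ (MulAut.conjNormal (H := Z)) hkZ
  let ρ := repOf π' hπ' (MulAut.conjNormal (H := Q')) hkQ'
  have hσf : IsFpf σ := isFpf_repOf _ _ _ _ hx fun a e => Subtype.ext (hfpf _ (hZQ a.2) (by
    have h1 := congrArg Subtype.val e
    rwa [MulAut.conjNormal_apply] at h1))
  have hρf : IsFpf ρ := isFpf_repOf _ _ _ _ (x := p x) hx fun a e => Subtype.ext (hfpf' _ a.2 (by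
    have h1 := congrArg Subtype.val e
    rwa [MulAut.conjNormal_apply] at h1))
  have h2Z : ∀ v : Additive Z, v + v = 0 := fun v =>
    toMul_eq_one.1 (Subtype.ext (Additive.toMul v).2.2.1)
  have h2Q' : ∀ v : Additive Q', v + v = 0 := fun v =>
    toMul_eq_one.1 (Subtype.ext (hsqQ' _ (Additive.toMul v).2))
  -- commutators
  have hlift : ∀ v : Additive Q', ∃ a : Q, p a = ((Additive.toMul v : Q') : G ⧸ Z) := fun v => by
    obtain ⟨a, ha, e⟩ := (Additive.toMul v).2
    exact ⟨⟨a, ha⟩, e⟩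
  choose s hs using hlift
  have hstep : ∀ a, ∀ b ∈ Q, ∀ z ∈ Z, ⁅a * z, b⁆ = ⁅a, b⁆ := fun a b hb z hz => by
    rw [commutatorElement_def, commutatorElement_def,
      show a * z * b * (a * z)⁻¹ * b⁻¹ = a * (z * b * z⁻¹) * a⁻¹ * b⁻¹ by group,
      ← hz.2.2 b hb, mul_inv_cancel_right]
  have hwd : ∀ a ∈ Q, ∀ b ∈ Q, ∀ a' ∈ Q, ∀ b' ∈ Q, p a = p a' → p b = p b' → ⁅a, b⁆ = ⁅a', b'⁆ := by
    intro a ha b hb a' ha' b' hb' e1 e2
    obtain ⟨z, hz, rfl⟩ := (QuotientGroup.mk'_eq_mk' Z).1 e1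
    obtain ⟨w, hw, rfl⟩ := (QuotientGroup.mk'_eq_mk' Z).1 e2
    rw [hstep a _ hb' z hz, ← commutatorElement_inv (b * w) a, hstep b a ha w hw,
      commutatorElement_inv]
  have hbil : ∀ a ∈ Q, ∀ b ∈ Q, ∀ c ∈ Q, ⁅a * b, c⁆ = ⁅a, c⁆ * ⁅b, c⁆ := by
    intro a ha b hb c hc
    have h1 := hcomZ b hb c hc
    rw [show ⁅a * b, c⁆ = a * ⁅b, c⁆ * a⁻¹ * ⁅a, c⁆ by simp only [commutatorElement_def]; group,
      h1.2.2 a ha, mul_inv_cancel_right, h1.2.2 _ (hZQ (hcomZ a ha c hc))]
  let bm : Additive Q' → Additive Q' → Additive Z := fun u v =>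
    Additive.ofMul ⟨⁅(s u : G), (s v : G)⁆, hcomZ _ (s u).2 _ (s v).2⟩
  have hsymm : ∀ u v, bm u v = bm v u := fun u v => Additive.toMul.injective (Subtype.ext (by
    show ⁅(s u : G), (s v : G)⁆ = ⁅(s v : G), (s u : G)⁆
    rw [← commutatorElement_inv (s v : G) (s u : G)]
    exact inv_eq_of_mul_eq_one_right (hcomZ _ (s v).2 _ (s u).2).2.1))
  have hadd : ∀ u u' v, bm (u + u') v = bm u v + bm u' v := fun u u' v =>
    Additive.toMul.injective (Subtype.ext (by
      show ⁅(s (u + u') : G), (s v : G)⁆ = ⁅(s u : G), (s v : G)⁆ * ⁅(s u' : G), (s v : G)⁆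
      rw [← hbil _ (s u).2 _ (s u').2 _ (s v).2]
      refine hwd _ (s _).2 _ (s v).2 _ (Q.mul_mem (s u).2 (s u').2) _ (s v).2 ?_ rfl
      rw [hs, map_mul, hs, hs]
      rfl))
  let B : Additive Q' →+ Additive Q' →+ Additive Z := AddMonoidHom.mk'
    (fun u => AddMonoidHom.mk' (bm u) fun v v' => by rw [hsymm, hadd, hsymm v, hsymm v'])
    fun u u' => AddMonoidHom.ext fun v => hadd u u' v
  have hB0 : ∀ u v, B u v = 0 := by
    refine biadd_eq_zero hρf hσf h2Q' h2Z hq B (fun g u v => ?_) hsymm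
    obtain ⟨h, rfl⟩ := hπ g
    have e1 : ∀ w : Additive Q', ρ (π h) w =
        Additive.ofMul (MulAut.conjNormal (H := Q') (p h) (Additive.toMul w)) := fun w => by
      exact repOf_apply π' hπ' _ hkQ' (p h) (Additive.toMul w)
    rw [show σ (π h) (B u v) = Additive.ofMul (MulAut.conjNormal (H := Z) h
      (Additive.toMul (B u v))) from repOf_apply π hπ _ hkZ h _]
    refine Additive.toMul.injective (Subtype.ext ?_)
    show ⁅(s (ρ (π h) u) : G), (s (ρ (π h) v) : G)⁆ = h * ⁅(s u : G), (s v : G)⁆ * h⁻¹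
    rw [show h * ⁅(s u : G), (s v : G)⁆ * h⁻¹ = ⁅h * (s u : G) * h⁻¹, h * (s v : G) * h⁻¹⁆ by
      simp only [commutatorElement_def]; group]
    refine hwd _ (s _).2 _ (s _).2 _ (hqn h _ (s u).2) _ (hqn h _ (s v).2) ?_ ?_ <;>
    · rw [hs, e1, map_mul, map_mul, map_inv, hs]
      rfl
  have hcommQ : ∀ a ∈ Q, ∀ b ∈ Q, a * b = b * a := by
    intro a ha b hb
    rw [← commutatorElement_eq_one_iff_mul_comm]
    let u : Additive Q' := Additive.ofMul ⟨p a, a, ha, rfl⟩
    let v : Additive Q' := Additive.ofMul ⟨p b, b, hb, rfl⟩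
    have h1 := congrArg (fun z : Additive Z => ((Additive.toMul z : Z) : G)) (hB0 u v)
    exact (hwd _ ha _ hb _ (s u).2 _ (s v).2 (hs u).symm (hs v).symm).trans h1
  -- exponent two
  letI : CommGroup Q := { (inferInstance : Group Q) with
    mul_comm := fun a b => Subtype.ext (hcommQ a a.2 b b.2) }
  have hkQ : π.ker ≤ (MulAut.conjNormal (H := Q)).ker := by
    rw [hker]
    intro q hq
    refine MonoidHom.mem_ker.2 (MulEquiv.ext fun z => Subtype.ext ?_)
    rw [MulAut.conjNormal_apply, hcommQ q hq z z.2, mul_inv_cancel_right]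
    rfl
  let τ := repOf π hπ (MulAut.conjNormal (H := Q)) hkQ
  have hτf : IsFpf τ := isFpf_repOf _ _ _ _ hx fun a e => Subtype.ext (hfpf _ a.2 (by
    have h1 := congrArg Subtype.val e
    rwa [MulAut.conjNormal_apply] at h1))
  let prj : Additive Q →+ Additive Q' := MonoidHom.toAdditive
    ((p.comp Q.subtype).codRestrict Q' fun a => ⟨a, a.2, rfl⟩)
  let inc : Additive Z →+ Additive Q := MonoidHom.toAdditive (Subgroup.inclusion hZQ)
  have hprj : ∀ g v, prj (τ g v) = ρ g (prj v) := fun g v => by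
    obtain ⟨h, rfl⟩ := hπ g
    rw [show τ (π h) v = Additive.ofMul (MulAut.conjNormal (H := Q) h (Additive.toMul v)) from
      repOf_apply π hπ _ hkQ h _]
    refine Eq.trans ?_ (repOf_apply π' hπ' _ hkQ' (p h) (Additive.toMul (prj v))).symm
    refine Additive.toMul.injective (Subtype.ext ?_)
    show p (h * ((Additive.toMul v : Q) : G) * h⁻¹) = p h * p ((Additive.toMul v : Q) : G) * (p h)⁻¹
    rw [map_mul, map_mul, map_inv]
  have hinc : ∀ g v, inc (σ g v) = τ g (inc v) := fun g v => by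
    obtain ⟨h, rfl⟩ := hπ g
    rw [show σ (π h) v = Additive.ofMul (MulAut.conjNormal (H := Z) h (Additive.toMul v)) from
      repOf_apply π hπ _ hkZ h _]
    refine Eq.trans ?_ (repOf_apply π hπ _ hkQ h (Additive.toMul (inc v))).symm
    exact Additive.toMul.injective (Subtype.ext rfl)
  let R : AddSubgroup (Additive Q) := inc.range
  have hR' : ∀ w, prj w = 0 ↔ w ∈ R := by
    intro w
    constructor
    · intro e
      have h1 : p ((Additive.toMul w : Q) : G) = 1 :=
        congrArg (fun t : Additive Q' => ((Additive.toMul t : Q') : G ⧸ Z)) e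
      exact ⟨Additive.ofMul ⟨_, (QuotientGroup.eq_one_iff _).1 h1⟩, rfl⟩
    · rintro ⟨t, rfl⟩
      exact Additive.toMul.injective (Subtype.ext ((QuotientGroup.eq_one_iff _).2 (Additive.toMul t).2))
  have hprjN : ∀ a w, prj (N τ a w) = N ρ a (prj w) := fun a w => by
    rw [N_apply, N_apply, map_sub, hprj]
  have hincN : ∀ a w, inc (N σ a w) = N τ a (inc w) := fun a w => by
    rw [N_apply, N_apply, map_sub, hinc]
  have h2Q := exponent_two hτf R (fun r ⟨t, ht⟩ => by rw [← ht, ← map_add, h2Z, map_zero])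
    (fun g r ⟨t, ht⟩ => ⟨σ g t, by rw [hinc, ht]⟩) (fun v => by
      obtain ⟨k, hk, l, hl, e⟩ := decomp hρf h2Q' (prj v)
      have hsur : ∀ w : Additive Q', ∃ t, prj t = w := fun w =>
        ⟨Additive.ofMul (s w), Additive.toMul.injective (Subtype.ext (hs w))⟩
      obtain ⟨k₀, rfl⟩ := hsur k
      obtain ⟨l₀, rfl⟩ := hsur l
      refine ⟨v - τ wl l₀, l₀, fun a => (hR' _).1 ?_, fun a => (hR' _).1 (by rw [hprjN]; exact hl a),
        (sub_add_cancel _ _).symm⟩
      rw [hprjN, map_sub, hprj, e, add_sub_cancel_right]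
      exact hk a)
    (fun r ⟨t, ht⟩ => by
      obtain ⟨k, hk, l, hl, e⟩ := decomp hσf h2Z t
      refine ⟨inc k, fun a => by rw [← hincN, hk, map_zero], inc l,
        fun a => by rw [← hincN, hl, map_zero], ⟨k, rfl⟩, ⟨l, rfl⟩, ?_⟩
      rw [← ht, e, map_add, hinc])
    (fun v => ⟨Additive.ofMul ⟨_, hsqZ _ (Additive.toMul v).2⟩, rfl⟩) hq
  intro a ha
  exact congrArg (fun t : Additive Q => ((Additive.toMul t : Q) : G)) (h2Q (Additive.ofMul ⟨a, ha⟩))

/-- Every element of order three is conjugate to `wl * up 1`. -/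
theorem exists_conj (g : Matrix.SpecialLinearGroup (Fin 2) F) (hg : g ^ 3 = 1) (hg1 : g ≠ 1) :
    ∃ h : Matrix.SpecialLinearGroup (Fin 2) F, h⁻¹ * g * h = wl * up 1 := by
  have h2 : (2 : F) = 0 := CharTwo.two_eq_zero
  obtain ⟨a, b, c, d, hG⟩ : ∃ a b c d : F, g.1 = !![a, b; c, d] :=
    ⟨_, _, _, _, Matrix.eta_fin_two g.1⟩
  have hd : a * d - b * c = 1 := by
    have := g.2
    rwa [hG, Matrix.det_fin_two_of] at this
  have hsqc : ∀ t : F, ∃ r, t = r * r := fun t =>
    FiniteField.isSquare_of_char_two (CharP.eq F (ringChar.charP F) ‹CharP F 2›) t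
  have htr : a + d = 1 := by
    by_contra ht
    have h3 := congrArg (fun x : SL => x.1) hg
    simp only [pow_succ, pow_zero, one_mul, Matrix.SpecialLinearGroup.coe_mul,
      Matrix.SpecialLinearGroup.coe_one, hG] at h3
    have e00 := congrFun (congrFun h3 0) 0
    have e01 := congrFun (congrFun h3 0) 1
    have e10 := congrFun (congrFun h3 1) 0
    have e11 := congrFun (congrFun h3 1) 1
    simp [Matrix.mul_apply, Fin.sum_univ_two] at e00 e01 e10 e11
    have hu : (a + d) ^ 2 + 1 ≠ 0 := by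
      intro e
      refine ht ?_
      have : (a + d + 1) * (a + d + 1) = 0 := by linear_combination e + (a + d) * h2
      linear_combination (mul_self_eq_zero.1 this) - h2
    have hb0 : b = 0 := by
      have : ((a + d) ^ 2 + 1) * b = 0 := by linear_combination e01 + b * hd + b * h2
      exact (mul_eq_zero.1 this).resolve_left hu
    have hc0 : c = 0 := by
      have : ((a + d) ^ 2 + 1) * c = 0 := by linear_combination e10 + c * hd + c * h2
      exact (mul_eq_zero.1 this).resolve_left hu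
    subst hb0 hc0
    have ha3 : a * a * a = 1 := by linear_combination e00
    by_cases ha1 : a = 1
    · refine hg1 (Subtype.ext ?_)
      have hd1 : d = 1 := by subst ha1; linear_combination hd
      rw [hG, ha1, hd1, Matrix.SpecialLinearGroup.coe_one, Matrix.one_fin_two]
    · have h0 : (a - 1) * (a * a + a + 1) = 0 := by linear_combination ha3
      have h1 := (mul_eq_zero.1 h0).resolve_left (sub_ne_zero.2 ha1)
      have ha0 : a ≠ 0 := fun e => by simp [e] at ha3
      have hda : d = a * a := mul_left_cancel₀ ha0 (by linear_combination hd - ha3)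
      exact ht (by linear_combination h1 + hda - h2)
  obtain ⟨x, y, hxy⟩ : ∃ x y : F, x * (c * x + d * y) - y * (a * x + b * y) ≠ 0 := by
    by_cases hc0 : c = 0
    · by_cases hb0 : b = 0
      · refine ⟨1, 1, fun e => one_ne_zero (α := F) ?_⟩
        rw [hc0, hb0] at e
        linear_combination e - htr + a * h2
      · exact ⟨0, 1, by simpa using hb0⟩
    · exact ⟨1, 0, by simpa using hc0⟩
  obtain ⟨r, hr⟩ := hsqc (x * (c * x + d * y) - y * (a * x + b * y))⁻¹
  let h : SL := ⟨!![r * x, r * (a * x + b * y); r * y, r * (c * x + d * y)], by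
    rw [Matrix.det_fin_two_of]
    linear_combination (-(x * (c * x + d * y) - y * (a * x + b * y))) * hr + mul_inv_cancel₀ hxy⟩
  refine ⟨h, ?_⟩
  have hh : h.1 = !![r * x, r * (a * x + b * y); r * y, r * (c * x + d * y)] := rfl
  rw [mul_assoc, inv_mul_eq_iff_eq_mul]
  refine Subtype.ext ?_
  simp only [Matrix.SpecialLinearGroup.coe_mul, hG, hh, SL2Quad.coe_wl, SL2Quad.coe_up]
  ext i j
  fin_cases i <;> fin_cases j <;> simp [Matrix.mul_apply, Fin.sum_univ_two]
  · linear_combination r * (a * x + b * y) * h2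
  · linear_combination
      r * (a * x + b * y) * htr - r * x * hd + (r * (a * x + b * y) - r * x) * h2
  · linear_combination r * (c * x + d * y) * h2
  · linear_combination
      r * (c * x + d * y) * htr - r * y * hd + (r * (c * x + d * y) - r * y) * h2

/-- The decomposition into natural modules. -/
theorem higman_decomposition (hq : ∃ c : F, c ≠ 0 ∧ c ≠ 1) {G : Type u} [Group G] [Finite G]
    (Q : Subgroup G) [Q.Normal] (hQ : IsPGroup 2 Q)
    (π : G →* Matrix.SpecialLinearGroup (Fin 2) F) (hπ : Function.Surjective π) (hker : π.ker = Q)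
    (x : G) (hx : orderOf x = 3) (hfpf : ∀ q ∈ Q, x * q * x⁻¹ = q → q = 1) :
    Cfsg.IsElementaryAbelian 2 Q ∧
      ∃ (k : ℕ) (V : Fin k → Subgroup G), (∀ i, V i ≤ Q ∧ (V i).Normal ∧
        Cfsg.ActsAsSL2OnSection F ⊤ ⊤ (V i) ⊥) ∧ iSupIndep V ∧ ⨆ i, V i = Q := by
  classical
  have hxQ : π x ≠ 1 := by
    intro e
    obtain ⟨j, hj⟩ := hQ ⟨x, hker ▸ e⟩
    have h1 : x ^ 2 ^ j = 1 := congrArg Subtype.val hj
    have h2 := orderOf_dvd_of_pow_eq_one h1
    rw [hx] at h2
    have := Nat.prime_three.dvd_of_dvd_pow h2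
    omega
  obtain ⟨h, hh⟩ := exists_conj (π x) (by rw [← map_pow, ← hx, pow_orderOf_eq_one, map_one]) hxQ
  obtain ⟨t, rfl⟩ := hπ h
  have hx' : π (t⁻¹ * x * t) = wl * up 1 := by rw [map_mul, map_mul, map_inv, hh]
  have hfpf' : ∀ q ∈ Q, t⁻¹ * x * t * q * (t⁻¹ * x * t)⁻¹ = q → q = 1 := by
    intro q hq e
    have h1 := hfpf (t * q * t⁻¹) (‹Q.Normal›.conj_mem q hq t) (by
      calc x * (t * q * t⁻¹) * x⁻¹ = t * (t⁻¹ * x * t * q * (t⁻¹ * x * t)⁻¹) * t⁻¹ := by group
        _ = t * q * t⁻¹ := by rw [e])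
    rwa [conj_eq_one_iff] at h1
  have hsq := exponent_two_group hq _ G Q hQ π hπ hker _ hx' hfpf' rfl
  haveI hc := comm_of_sq hsq
  refine ⟨⟨hc, fun a ha => by rw [pow_two]; exact hsq a ha⟩, ?_⟩
  letI : CommGroup Q := { (inferInstance : Group Q) with mul_comm := hc.is_comm.comm }
  have hkQ : π.ker ≤ (MulAut.conjNormal (H := Q)).ker := by
    rw [hker]
    intro q hq
    refine MonoidHom.mem_ker.2 (MulEquiv.ext fun z => Subtype.ext ?_)
    rw [MulAut.conjNormal_apply]
    show q * (z : G) * q⁻¹ = z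
    rw [show q * (z : G) = z * q from congrArg Subtype.val (hc.is_comm.comm ⟨q, hq⟩ z),
      mul_inv_cancel_right]
  let τ := repOf π hπ (MulAut.conjNormal (H := Q)) hkQ
  have hτf : IsFpf τ := isFpf_repOf _ _ _ _ hx' fun a e => Subtype.ext (hfpf' _ a.2 (by
    have h1 := congrArg Subtype.val e
    rwa [MulAut.conjNormal_apply] at h1))
  obtain ⟨m, Ψ, hΨ, hΨeq⟩ := natural_sum hτf fun v =>
    toMul_eq_one.1 (Subtype.ext (hsq _ (Additive.toMul v).2))
  let Φ : Multiplicative (Fin m → Fin 2 → F) →* G := Q.subtype.comp (AddMonoidHom.toMultiplicativeLeft Ψ)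
  have hΦinj : Function.Injective Φ := fun a b e =>
    Multiplicative.toAdd.injective (hΨ.1 (Additive.toMul.injective (Subtype.ext e)))
  have hΦeq : ∀ (g : G) v, g * Φ (Multiplicative.ofAdd v) * g⁻¹ =
      Φ (Multiplicative.ofAdd fun i => (π g).1 *ᵥ v i) := by
    intro g v
    show g * ((Additive.toMul (Ψ v) : Q) : G) * g⁻¹ =
      ((Additive.toMul (Ψ (fun i => (π g).1 *ᵥ v i)) : Q) : G)
    rw [show Ψ (fun i => (π g).1 *ᵥ v i) = τ (π g) (Ψ v) from hΨeq _ _, show τ (π g) (Ψ v) = Additive.ofMul (MulAut.conjNormal (H := Q) g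
      (Additive.toMul (Ψ v))) from repOf_apply π hπ _ hkQ g _]
    exact (MulAut.conjNormal_apply g _).symm
  let ι : Fin m → (Multiplicative (Fin 2 → F) →* Multiplicative (Fin m → Fin 2 → F)) := fun i =>
    AddMonoidHom.toMultiplicative (AddMonoidHom.single (fun _ : Fin m => Fin 2 → F) i)
  have hιinj : ∀ i, Function.Injective (Φ.comp (ι i)) := fun i => hΦinj.comp fun a b e =>
    Multiplicative.toAdd.injective (Pi.single_injective i (congrArg Multiplicative.toAdd e))
  let V : Fin m → Subgroup G := fun i => (Φ.comp (ι i)).range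
  have hconj : ∀ i (g : G) (w : Multiplicative (Fin 2 → F)), g * Φ (ι i w) * g⁻¹ =
      Φ (ι i (Multiplicative.ofAdd ((π g).1 *ᵥ Multiplicative.toAdd w))) := by
    intro i g w
    refine (hΦeq g (Pi.single i (Multiplicative.toAdd w))).trans (congrArg Φ ?_)
    refine congrArg Multiplicative.ofAdd (funext fun j => ?_)
    show _ = (Pi.single i ((π g).1 *ᵥ Multiplicative.toAdd w) : Fin m → Fin 2 → F) j
    by_cases hij : j = i
    · subst hij; simp
    · simp [hij]
  refine ⟨m, V, fun i => ⟨?_, ?_, ?_⟩, ?_, ?_⟩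
  · rintro _ ⟨w, rfl⟩
    exact SetLike.coe_mem _
  · refine ⟨fun v hv g => ?_⟩
    obtain ⟨w, rfl⟩ := hv
    exact ⟨_, (hconj i g w).symm⟩
  · let ψ : ↥(V i) ≃* Multiplicative (Fin 2 → F) := (MonoidHom.ofInjective (hιinj i)).symm
    refine ⟨fun g _ => ?_, bot_le, π.comp (⊤ : Subgroup G).subtype, ψ.toMonoidHom, ?_, ψ.surjective,
      fun u => ?_, fun g u => ?_⟩
    · refine Subgroup.mem_normalizer_iff.2 fun v => ⟨?_, ?_⟩
      · rintro ⟨w, rfl⟩
        exact ⟨_, (hconj i g w).symm⟩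
      · rintro ⟨w, hw⟩
        refine ⟨_, ((hconj i g⁻¹ w).symm.trans ?_)⟩
        show g⁻¹ * (Φ.comp (ι i)) w * g⁻¹⁻¹ = v
        rw [hw]; group
    · refine MonoidHom.range_eq_top.2 fun y => ?_
      obtain ⟨g, rfl⟩ := hπ y
      exact ⟨⟨g, trivial⟩, rfl⟩
    · show ψ u = 1 ↔ _
      rw [MulEquiv.map_eq_one_iff, Subgroup.mem_bot, OneMemClass.coe_eq_one]
    · obtain ⟨w, rfl⟩ : ∃ w, u = MonoidHom.ofInjective (hιinj i) w :=
        ⟨ψ u, ((MonoidHom.ofInjective (hιinj i)).apply_symm_apply u).symm⟩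
      refine ⟨MonoidHom.ofInjective (hιinj i)
        (Multiplicative.ofAdd ((π (g : G)).1 *ᵥ Multiplicative.toAdd w)), (hconj i g w).symm, ?_⟩
      show Multiplicative.toAdd (ψ _) = _ *ᵥ Multiplicative.toAdd (ψ _)
      simp only [ψ, MulEquiv.symm_apply_apply]
      rfl
  · intro i
    rw [disjoint_iff_inf_le]
    rintro v ⟨⟨w, hw⟩, hv⟩
    let U : Subgroup (Multiplicative (Fin m → Fin 2 → F)) :=
      (AddMonoidHom.toMultiplicative (Pi.evalAddMonoidHom (fun _ : Fin m => Fin 2 → F) i)).ker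
    have hle : ⨆ j, ⨆ (_ : j ≠ i), V j ≤ U.map Φ := iSup₂_le fun j hj => by
      rintro _ ⟨w', rfl⟩
      refine ⟨ι j w', ?_, rfl⟩
      show Multiplicative.ofAdd ((Pi.single j (Multiplicative.toAdd w') : Fin m → Fin 2 → F) i) = 1
      rw [Pi.single_eq_of_ne hj.symm]
      rfl
    obtain ⟨u, hu, huv⟩ := hle hv
    have he : u = ι i w := hΦinj (huv.trans hw.symm)
    have h0 : Multiplicative.ofAdd ((Pi.single i (Multiplicative.toAdd w) : Fin m → Fin 2 → F) i) = 1 :=
      by rw [he] at hu; exact hu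
    rw [Pi.single_eq_same, ofAdd_toAdd] at h0
    rw [Subgroup.mem_bot, ← hw, h0, map_one]
  · refine le_antisymm (iSup_le fun i => ?_) fun q hq => ?_
    · rintro _ ⟨w, rfl⟩
      exact SetLike.coe_mem _
    obtain ⟨v, hv⟩ := hΨ.2 (Additive.ofMul ⟨q, hq⟩)
    have e : Φ (Multiplicative.ofAdd v) = q :=
      congrArg (fun t : Additive Q => ((Additive.toMul t : Q) : G)) hv
    rw [← e, ← Finset.univ_sum_single v, ofAdd_sum]
    refine Subgroup.mem_comap.1 (Subgroup.prod_mem ((⨆ i, V i).comap Φ) fun i _ => ?_)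
    exact Subgroup.mem_comap.2 (Subgroup.mem_iSup_of_mem i ⟨Multiplicative.ofAdd (v i), rfl⟩)

end Cfsg.Agent.Linear.SL2Fpf
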