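import Cfsg.Agent.KnownA.SLThreeUnipotent

/-!
# `SL₃(q)`, `q ≥ 5`, is generated by two conjugate regular unipotent elements
-/

set_option autoImplicit false

namespace Cfsg.Agent.Linear.SLThree

open Matrix Cfsg.Agent.KnownA
open scoped commutatorElement

variable {F : Type*} [Field F]

local notation "SL3" => Matrix.SpecialLinearGroup (Fin 3) F

/-- A regular unipotent matrix. -/
def IsRegUni (M : Matrix (Fin 3) (Fin 3) F) : Prop := IsNilpotent (M - 1) ∧ (M - 1) ^ 2 ≠ 0

theorem cube_zero {N : Matrix (Fin 3) (Fin 3) F} (h1 : N.trace = 0)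
    (h2 : N 0 0 * N 1 1 - N 0 1 * N 1 0 + (N 0 0 * N 2 2 - N 0 2 * N 2 0) +
      (N 1 1 * N 2 2 - N 1 2 * N 2 1) = 0) (h3 : N.det = 0) : N ^ 3 = 0 := by
  rw [Matrix.trace_fin_three] at h1
  rw [Matrix.det_fin_three] at h3
  rw [pow_succ, pow_two]
  ext i j
  fin_cases i <;> fin_cases j <;> simp [Matrix.mul_apply, Fin.sum_univ_three]
  · linear_combination (N 0 0 * N 0 0 + N 0 1 * N 1 0 + N 0 2 * N 2 0) * h1 - N 0 0 * h2 + h3
  · linear_combination (N 0 0 * N 0 1 + N 0 1 * N 1 1 + N 0 2 * N 2 1) * h1 - N 0 1 * h2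
  · linear_combination (N 0 0 * N 0 2 + N 0 1 * N 1 2 + N 0 2 * N 2 2) * h1 - N 0 2 * h2
  · linear_combination (N 1 0 * N 0 0 + N 1 1 * N 1 0 + N 1 2 * N 2 0) * h1 - N 1 0 * h2
  · linear_combination (N 1 0 * N 0 1 + N 1 1 * N 1 1 + N 1 2 * N 2 1) * h1 - N 1 1 * h2 + h3
  · linear_combination (N 1 0 * N 0 2 + N 1 1 * N 1 2 + N 1 2 * N 2 2) * h1 - N 1 2 * h2
  · linear_combination (N 2 0 * N 0 0 + N 2 1 * N 1 0 + N 2 2 * N 2 0) * h1 - N 2 0 * h2
  · linear_combination (N 2 0 * N 0 1 + N 2 1 * N 1 1 + N 2 2 * N 2 1) * h1 - N 2 1 * h2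
  · linear_combination (N 2 0 * N 0 2 + N 2 1 * N 1 2 + N 2 2 * N 2 2) * h1 - N 2 2 * h2 + h3

/-- The Krylov basis of `N` at `w`. -/
def krylov (N : Matrix (Fin 3) (Fin 3) F) (w : Fin 3 → F) : Matrix (Fin 3) (Fin 3) F :=
  Matrix.of fun i => ![((N * N) *ᵥ w) i, (N *ᵥ w) i, w i]

/-- In the Krylov basis `M` is the standard single Jordan block. -/
theorem mul_krylov {M : Matrix (Fin 3) (Fin 3) F} (hn : IsNilpotent (M - 1)) (w : Fin 3 → F) :
    M * krylov (M - 1) w = krylov (M - 1) w * (1 + shiftMat F 3) := by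
  set N := M - 1 with hN
  have h3 : N ^ 3 = 0 := by
    have hc : N.charpoly = Polynomial.X ^ 3 := by
      have := IsNilpotent.eq_zero (Matrix.isNilpotent_charpoly_sub_pow_of_isNilpotent hn)
      rw [Fintype.card_fin] at this
      exact sub_eq_zero.1 this
    have := Matrix.aeval_self_charpoly N
    rw [hc] at this
    simpa using this
  have hMP : N * krylov N w = krylov N w * shiftMat F 3 := by
    have a0 : N *ᵥ ((N * N) *ᵥ w) = 0 := by
      rw [Matrix.mulVec_mulVec, ← pow_two, ← pow_succ', h3, Matrix.zero_mulVec]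
    have a1 : N *ᵥ (N *ᵥ w) = (N * N) *ᵥ w := by rw [Matrix.mulVec_mulVec]
    ext i j
    fin_cases j
    · change (N *ᵥ ((N * N) *ᵥ w)) i = _
      rw [a0]; simp [Matrix.mul_apply, shiftMat]
    · change (N *ᵥ (N *ᵥ w)) i = _
      rw [a1]; simp [Matrix.mul_apply, shiftMat, Fin.sum_univ_three, krylov]
    · change (N *ᵥ w) i = _
      simp [Matrix.mul_apply, shiftMat, Fin.sum_univ_three, krylov]
  rw [show M = N + 1 by rw [hN]; abel, Matrix.add_mul, Matrix.one_mul, hMP, Matrix.mul_add, Matrix.mul_one]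
  abel

/-- The parameters. -/
theorem exists_alpha [Fintype F] (hq : 5 ≤ Fintype.card F) :
    ∃ α : F, α ≠ 0 ∧ α ^ 3 ≠ 1 ∧ Subfield.closure ({α ^ 3} : Set F) = ⊤ := by
  classical
  obtain ⟨g, hg⟩ := IsCyclic.exists_generator (α := Fˣ)
  have ho : orderOf g = Fintype.card F - 1 := by
    rw [orderOf_eq_card_of_forall_mem_zpowers hg, Nat.card_units, Nat.card_eq_fintype_card]
  have h31 : (g : F) ^ 3 ≠ 1 := by
    intro h
    have := Nat.le_of_dvd (by norm_num) (orderOf_dvd_of_pow_eq_one (x := g) (n := 3) (Units.ext (by simpa using h)))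
    omega
  refine ⟨g, g.ne_zero, h31, ?_⟩
  set K := Subfield.closure ({(g : F) ^ 3} : Set F)
  by_contra hK
  have hmem : (g : F) ^ 3 ∈ K := Subfield.subset_closure rfl
  have hcard : Fintype.card F = Fintype.card K ^ Module.finrank K F := Module.card_eq_pow_finrank
  have hfr : 2 ≤ Module.finrank K F := by
    by_contra hlt
    have h1 : Module.finrank K F = 1 := by
      have : 0 < Module.finrank K F := Module.finrank_pos
      omega
    apply hK
    rw [eq_top_iff]
    intro x _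
    obtain ⟨c, hc⟩ := (finrank_eq_one_iff_of_nonzero' (1 : F) one_ne_zero).1 h1 x
    rw [← hc, Subfield.smul_def, smul_eq_mul, mul_one]
    exact c.2
  have hr : ((g : F) ^ 3) ^ (Fintype.card K - 1) = 1 := by
    have h0 : (⟨(g : F) ^ 3, hmem⟩ : K) ≠ 0 := fun h => pow_ne_zero 3 g.ne_zero (congrArg Subtype.val h)
    simpa using congrArg Subtype.val (FiniteField.pow_card_sub_one_eq_one _ h0)
  have hdvd : Fintype.card F - 1 ∣ 3 * (Fintype.card K - 1) := by
    rw [← ho]
    refine orderOf_dvd_of_pow_eq_one (Units.ext ?_)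
    rw [Units.val_pow_eq_pow_val, pow_mul, hr, Units.val_one]
  have h2 : 2 ≤ Fintype.card K := Fintype.one_lt_card
  have hle := Nat.le_of_dvd (by omega) hdvd
  have : Fintype.card K ^ 2 ≤ Fintype.card F := hcard ▸ Nat.pow_le_pow_right (by omega) hfr
  have hK3 : Fintype.card K ≤ 2 := by
    by_contra hc
    have : 3 * Fintype.card K ≤ Fintype.card K ^ 2 := by rw [pow_two]; exact Nat.mul_le_mul_right _ (by omega)
    omega
  omega

theorem subfield_eq_addSubgroup [Fintype F] {x : F} (hx : Subfield.closure ({x} : Set F) = ⊤) (S : AddSubgroup F)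
    (hS : ∀ k : ℕ, x ^ k ∈ S) : S = ⊤ := by
  let T := Subring.closure ({x} : Set F)
  have hT : T.toAddSubgroup ≤ S := by
    intro y hy
    change y ∈ T at hy
    rw [Subring.mem_closure_iff] at hy
    refine (AddSubgroup.closure_le S).2 ?_ hy
    intro z hz
    rw [SetLike.mem_coe, ← Submonoid.powers_eq_closure] at hz
    obtain ⟨k, rfl⟩ := hz
    exact hS k
  rw [eq_top_iff]
  intro y _
  refine hT ?_
  let K : Subfield F := { T with
    inv_mem' := fun a ha => by
      rcases eq_or_ne a 0 with rfl | h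
      · rw [_root_.inv_zero]; exact T.zero_mem
      · have : a⁻¹ = a ^ (Fintype.card F - 2) := by
          refine inv_eq_of_mul_eq_one_right ?_
          rw [← pow_succ', show Fintype.card F - 2 + 1 = Fintype.card F - 1 by
            have := Fintype.one_lt_card (α := F); omega]
          exact FiniteField.pow_card_sub_one_eq_one a h
        rw [this]
        exact T.pow_mem ha _ }
  have hle : Subfield.closure ({x} : Set F) ≤ K := Subfield.closure_le.2 fun z hz => Subring.subset_closure hz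
  exact hle (hx ▸ Subfield.mem_top y)

theorem tvec_conj' {g : SL3} {a φ ψ : Fin 3 → F} (h : φ ⬝ᵥ a = 0) (hψ : ψ ᵥ* g.1 = φ) (c : F) :
    g * tvec a φ c * g⁻¹ = tvec (g.1 *ᵥ a) ψ c := by
  rw [tvec_conj g h]
  have hi' : g.1 * (g⁻¹).1 = 1 := congrArg Subtype.val (mul_inv_cancel g)
  rw [← hψ, Matrix.vecMul_vecMul, hi', Matrix.vecMul_one]

set_option maxHeartbeats 1000000 in
/-- The two generators. -/
theorem exists_gens [Fintype F] (hq : 5 ≤ Fintype.card F) :
    ∃ u w : SL3, IsRegUni u.1 ∧ IsRegUni w.1 ∧ Subgroup.closure ({u, w} : Set SL3) = ⊤ ∧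
      ∃ c : F, c ≠ 0 ∧ (krylov (u.1 - 1) ![1, 0, 0]).det = -c ∧ (krylov (w.1 - 1) ![1, 0, 0]).det = -c := by
  classical
  obtain ⟨α, hα0, hα3, hαgen⟩ := exists_alpha hq
  set β : F := 1 / α ^ 2 with hβdef
  have hαβ : α ^ 2 * β = 1 := by rw [hβdef]; field_simp
  have hβ0 : β ≠ 0 := right_ne_zero_of_mul_eq_one hαβ
  have hβα : β - α ≠ 0 := fun h => hα3 (by linear_combination hαβ - α ^ 2 * h)
  set e : F := 3 * (1 - α) / (β - α) with hedef
  have he : e * (β - α) = 3 * (1 - α) := by rw [hedef, div_mul_cancel₀ _ hβα]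
  set i' : F := 2 - e with hidef
  set K : F := α * β * (3 - i') + i' * α ^ 2 - 3 with hKdef
  have hK : K * (β - α) * α ^ 3 = (α ^ 3 - 1) * (α - 1) ^ 3 := by
    rw [hKdef, hidef]
    linear_combination ((α * β - α ^ 2) * α ^ 3) * he +
      (α ^ 2 * β + 1 - 2 * α ^ 3 + 3 * α ^ 2 - 3 * α) * hαβ
  have hKne : K ≠ 0 := by
    intro h
    rw [h, zero_mul, zero_mul, eq_comm, mul_eq_zero] at hK
    rcases hK with h1 | h1
    · exact hα3 (sub_eq_zero.1 h1)
    · exact hα3 (by rw [sub_eq_zero.1 (pow_eq_zero_iff (n := 3) (by norm_num) |>.1 h1), one_pow])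
  set c : F := K / β with hcdef
  have hc0 : c ≠ 0 := div_ne_zero hKne hβ0
  have hcβ : c * β = K := div_mul_cancel₀ _ hβ0
  set Y : F := e * i' with hYdef
  set X : F := 3 - i' - Y with hXdef
  set p : F := e - X with hpdef
  set r : F := (1 - Y + p * i') / c with hrdef
  have hrc : r * c = 1 - Y + p * i' := div_mul_cancel₀ _ hc0
  set U : Matrix (Fin 3) (Fin 3) F := !![1, p, r; 1, e, 0; 0, c, i'] with hUdef
  set Hm : Matrix (Fin 3) (Fin 3) F := !![α, 0, 1; 0, β, 0; 0, 0, α] with hHdef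
  have hUd : U.det = 1 := by
    rw [hUdef, Matrix.det_fin_three]
    simp
    linear_combination hrc + hYdef.symm
  have hHd : Hm.det = 1 := by
    rw [hHdef, Matrix.det_fin_three]
    simp
    linear_combination hαβ
  let u : SL3 := ⟨U, hUd⟩
  let h : SL3 := ⟨Hm, hHd⟩
  have huh : (u * h).1 = !![α, p * β, 1 + r * α; α, e * β, 1; 0, c * β, i' * α] := by
    change U * Hm = _
    rw [hUdef, hHdef]
    ext a b
    fin_cases a <;> fin_cases b <;> simp [Matrix.mul_apply, Fin.sum_univ_three]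
  have hreg1 : IsRegUni U := by
    refine ⟨⟨3, cube_zero ?_ ?_ ?_⟩, fun h0 => hc0 ?_⟩
    · simp [hUdef, Matrix.trace_fin_three]
      linear_combination hidef
    · simp [hUdef]
      linear_combination hXdef - hpdef + hYdef.symm - 2 * hidef
    · rw [Matrix.det_fin_three]
      simp [hUdef]
      linear_combination hrc + hYdef.symm - hXdef + hpdef + hidef
    · have := congrFun (congrFun h0 2) 0
      simpa [hUdef, pow_two, Matrix.mul_apply, Fin.sum_univ_three] using this
  have hreg2 : IsRegUni (u * h).1 := by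
    rw [huh]
    refine ⟨⟨3, cube_zero ?_ ?_ ?_⟩, fun h0 => mul_ne_zero (mul_ne_zero hc0 hβ0) hα0 ?_⟩
    · simp [Matrix.trace_fin_three]
      linear_combination he + α * hidef
    · simp
      linear_combination (-2 : F) * (he + α * hidef) - hKdef - hcβ + (α * β) * (hXdef - hpdef + hYdef.symm)
    · rw [Matrix.det_fin_three]
      simp
      linear_combination (α * α * β) * (hrc + hYdef.symm) + hαβ + hKdef + hcβ -
        (α * β) * (hXdef - hpdef + hYdef.symm) + (he + α * hidef)
    · have := congrFun (congrFun h0 2) 0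
      simpa [pow_two, Matrix.mul_apply, Fin.sum_univ_three] using this
  refine ⟨u, u * h, hreg1, hreg2, ?_, c, hc0, ?_, ?_⟩
  rotate_left
  · change (krylov (U - 1) _).det = _
    rw [hUdef, Matrix.det_fin_three]
    simp [krylov, Matrix.mulVec, dotProduct, Fin.sum_univ_three, Matrix.mul_apply, Matrix.one_apply]
  · rw [huh, Matrix.det_fin_three]
    simp [krylov, Matrix.mulVec, dotProduct, Fin.sum_univ_three, Matrix.mul_apply, Matrix.one_apply]
    linear_combination c * hαβ
  set H := Subgroup.closure ({u, u * h} : Set SL3)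
  have hu : u ∈ H := Subgroup.subset_closure (Set.mem_insert _ _)
  have hh : h ∈ H := by
    have : u * h ∈ H := Subgroup.subset_closure (Set.mem_insert_of_mem _ rfl)
    simpa using mul_mem (inv_mem hu) this
  -- the transvection in the powers of `h`
  set e0 : Fin 3 → F := ![1, 0, 0]
  set e1 : Fin 3 → F := ![0, 1, 0]
  set f2 : Fin 3 → F := ![0, 0, 1]
  have hpow : ∀ k : ℕ, (h ^ k).1 = !![α ^ k, 0, (k : F) * α ^ (k - 1); 0, β ^ k, 0; 0, 0, α ^ k] := by
    intro k
    induction k with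
    | zero => rw [pow_zero]; simp [Matrix.one_fin_three]
    | succ k ih =>
      rw [pow_succ, slm_mul, ih]
      change _ * Hm = _
      rw [hHdef]
      ext a b
      fin_cases a <;> fin_cases b <;> simp [Matrix.mul_apply, Fin.sum_univ_three, pow_succ]
      rcases k with _ | k
      · simp
      · simp [pow_succ]; ring
  set s : F := -(1 / α)
  have hs0 : s ≠ 0 := neg_ne_zero.2 (div_ne_zero one_ne_zero hα0)
  have h20 : f2 ⬝ᵥ e0 = 0 := by simp [f2, e0, vec3_dotProduct]
  have ht : tvec e0 f2 s ∈ H := by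
    have hmem : h ^ (Fintype.card F - 1) ∈ H := pow_mem hh _
    convert hmem
    refine Subtype.ext ?_
    have hq1 : ((Fintype.card F - 1 : ℕ) : F) = -1 := by
      rw [Nat.cast_sub Fintype.card_pos, FiniteField.cast_card_eq_zero]; simp
    have hα1 := FiniteField.pow_card_sub_one_eq_one α hα0
    have hinv : α ^ (Fintype.card F - 1 - 1) = 1 / α := by
      rw [eq_div_iff hα0, ← pow_succ, show Fintype.card F - 1 - 1 + 1 = Fintype.card F - 1 by omega, hα1]
    rw [tvec_val h20, hpow, hq1, hinv, hα1, FiniteField.pow_card_sub_one_eq_one β hβ0]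
    ext a b
    fin_cases a <;> fin_cases b <;> simp [e0, f2, s, vecMulVec_apply]
  -- conjugates by powers of `h`
  set f : Fin 3 → F := ![c, -c, X]
  have hf : f ᵥ* u.1 = f2 := by
    change f ᵥ* U = f2
    funext a
    fin_cases a <;> simp [f, f2, hUdef, vecMul, vec3_dotProduct]
    · linear_combination -c * hpdef
    · linear_combination hrc + i' * hXdef - i' * hpdef + hYdef.symm + (0 : F) * he
  have hv : u.1 *ᵥ e0 = ![1, 1, 0] := by
    change U *ᵥ e0 = _
    funext a
    fin_cases a <;> simp [e0, hUdef, mulVec, vec3_dotProduct]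
  set v : Fin 3 → F := ![1, 1, 0]
  have hfv : f ⬝ᵥ v = 0 := by simp [f, v, vec3_dotProduct]
  have ht' : tvec v f s ∈ H := by
    rw [← hv, ← tvec_conj' h20 hf s]
    exact mul_mem (mul_mem hu ht) (inv_mem hu)
  set z : F := s * s
  have hz : z ≠ 0 := mul_ne_zero hs0 hs0
  have hmv : tvec v f2 (z * c) ∈ H := by
    have hc1 := tvec_commutator (a := v) (φ := f) (b := e0) (ψ := f2) hfv h20
      (by simp [f2, v, vec3_dotProduct]) s s
    have : ⁅tvec v f s, tvec e0 f2 s⁆ ∈ H := by
      rw [commutatorElement_def]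
      exact mul_mem (mul_mem (mul_mem ht' ht) (inv_mem ht')) (inv_mem ht)
    rw [hc1] at this
    convert this using 2
    simp [f, e0, vec3_dotProduct, z]
  let S : AddSubgroup F :=
    { carrier := {x | tvec e1 f2 x ∈ H}
      zero_mem' := by
        change tvec e1 f2 0 ∈ H
        rw [tvec_zero (by simp [f2, e1, vec3_dotProduct])]; exact one_mem _
      add_mem' := fun {x y} hx hy => by
        change tvec e1 f2 (x + y) ∈ H
        rw [← tvec_add (by simp [f2, e1, vec3_dotProduct])]; exact mul_mem hx hy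
      neg_mem' := fun {x} hx => by
        change tvec e1 f2 (-x) ∈ H
        have : tvec e1 f2 (-x) = (tvec e1 f2 x)⁻¹ := eq_inv_of_mul_eq_one_left (by
          rw [tvec_add (by simp [f2, e1, vec3_dotProduct]), neg_add_cancel,
            tvec_zero (by simp [f2, e1, vec3_dotProduct])])
        rw [this]; exact inv_mem hx }
  have hconj : ∀ (x y z' : F), tvec ![x, y, 0] f2 z' ∈ H → tvec ![x, y / α ^ 3, 0] f2 z' ∈ H := by
    intro x y z' hm
    have hnum : tvec ![x, y / α ^ 3, 0] f2 z' = h * tvec ![x, y, 0] f2 z' * h⁻¹ := by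
      rw [eq_mul_inv_iff_mul_eq]
      refine Subtype.ext ?_
      rw [slm_mul, slm_mul, tvec_val (by simp [f2, vec3_dotProduct]), tvec_val (by simp [f2, vec3_dotProduct])]
      change _ * Hm = Hm * _
      rw [hHdef]
      ext a b
      fin_cases a <;> fin_cases b <;> simp [Matrix.mul_apply, Fin.sum_univ_three, f2, vecMulVec_apply]
      · ring
      · field_simp
        linear_combination (-(z' * y)) * hαβ
    rw [hnum]
    exact mul_mem (mul_mem hh hm) (inv_mem hh)
  have hk : ∀ k : ℕ, tvec ![1, 1 / (α ^ 3) ^ k, 0] f2 (z * c) ∈ H := by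
    intro k
    induction k with
    | zero => simpa [v] using hmv
    | succ k ih =>
      have := hconj _ _ _ ih
      rwa [div_div, ← pow_succ] at this
  set w0 : F := z * c * (1 / α ^ 3 - 1)
  have hw0 : w0 ≠ 0 := mul_ne_zero (mul_ne_zero hz hc0)
    (sub_ne_zero.2 fun h1 => hα3 (by rw [div_eq_one_iff_eq (pow_ne_zero 3 hα0)] at h1; exact h1.symm))
  have hdiff : ∀ k : ℕ, w0 * (1 / (α ^ 3) ^ k) ∈ S := by
    intro k
    change tvec e1 f2 _ ∈ H
    have h1 := mul_mem (hk (k + 1)) (inv_mem (hk k))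
    convert h1 using 1
    rw [eq_mul_inv_iff_mul_eq]
    refine Subtype.ext ?_
    rw [slm_mul, tvec_val (by simp [f2, e1, vec3_dotProduct]), tvec_val (by simp [f2, vec3_dotProduct]),
      tvec_val (by simp [f2, vec3_dotProduct])]
    ext a b
    fin_cases a <;> fin_cases b <;> simp [e1, f2, w0, vecMulVec_apply, Matrix.mul_apply, Fin.sum_univ_three, pow_succ]
    field_simp
    ring
  have hall : ∀ x : F, x ∈ S := by
    intro x
    let S' : AddSubgroup F := S.comap (AddMonoidHom.mulLeft w0)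
    have hS' : S' = ⊤ := by
      refine subfield_eq_addSubgroup (x := 1 / α ^ 3) ?_ S' fun k => ?_
      · rw [eq_top_iff, ← hαgen, Subfield.closure_le, Set.singleton_subset_iff]
        have h1 : (1 / α ^ 3)⁻¹ ∈ Subfield.closure ({1 / α ^ 3} : Set F) :=
          inv_mem (Subfield.subset_closure (Set.mem_singleton _))
        rwa [inv_div, div_one] at h1
      · change w0 * _ ∈ S
        rw [div_pow, one_pow]
        exact hdiff k
    have : x / w0 ∈ S' := hS' ▸ AddSubgroup.mem_top _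
    change w0 * (x / w0) ∈ S at this
    rwa [mul_div_cancel₀ x hw0] at this
  have F12 : Full H e1 f2 := ⟨by simp [f2, e1, vec3_dotProduct], hall⟩
  have Fv2 : Full H v f2 := by
    refine ⟨by simp [f2, v, vec3_dotProduct], fun x => ?_⟩
    have hc1 := tvec_commutator (a := v) (φ := f) (b := e1) (ψ := f2) hfv (by simp [f2, e1, vec3_dotProduct])
      (by simp [f2, v, vec3_dotProduct]) s (-(x / (s * c)))
    have hm : ⁅tvec v f s, tvec e1 f2 (-(x / (s * c)))⁆ ∈ H := by
      rw [commutatorElement_def]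
      exact mul_mem (mul_mem (mul_mem ht' (hall _)) (inv_mem ht')) (inv_mem (hall _))
    rw [hc1] at hm
    convert hm using 2
    simp [f, e1, vec3_dotProduct]
    field_simp
  have Fx2 : ∀ x y : F, Full H ![x, y, 0] f2 := by
    intro x y
    have h1 := (Full.smul_vec Fv2 x).add_vec (Full.smul_vec F12 (y - x))
    convert h1 using 1
    funext a
    fin_cases a <;> simp [v, e1]
  -- three functionals
  set f' : Fin 3 → F := f ᵥ* u⁻¹.1
  have hui : u⁻¹.1 * u.1 = 1 := congrArg Subtype.val (inv_mul_cancel u)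
  have hf' : f' ᵥ* u.1 = f := by rw [Matrix.vecMul_vecMul, hui, Matrix.vecMul_one]
  have hmove : ∀ (φ ψ : Fin 3 → F), ψ ᵥ* u.1 = φ →
      (∀ a, φ ⬝ᵥ a = 0 → Full H a φ) → ∀ a, ψ ⬝ᵥ a = 0 → Full H a ψ := by
    intro φ ψ hψ hφ a ha
    have h0 : φ ⬝ᵥ (u⁻¹.1 *ᵥ a) = 0 := by
      rw [← hψ, Matrix.dotProduct_mulVec, Matrix.vecMul_vecMul,
        show u.1 * u⁻¹.1 = 1 from congrArg Subtype.val (mul_inv_cancel u), Matrix.vecMul_one, ha]
    refine ⟨ha, fun x => ?_⟩
    have := tvec_conj' (g := u) h0 hψ x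
    rw [Matrix.mulVec_mulVec, show u.1 * u⁻¹.1 = 1 from congrArg Subtype.val (mul_inv_cancel u),
      Matrix.one_mulVec] at this
    rw [← this]
    exact mul_mem (mul_mem hu ((hφ _ h0).2 x)) (inv_mem hu)
  have hker2 : ∀ a, f2 ⬝ᵥ a = 0 → Full H a f2 := by
    intro a ha
    convert Fx2 (a 0) (a 1) using 1
    funext b
    fin_cases b <;> simp
    simpa [f2, dotProduct, Fin.sum_univ_three] using ha
  have hkerf := hmove f2 f hf hker2
  have hkerf' := hmove f f' hf' hkerf
  set D : Matrix (Fin 3) (Fin 3) F := Matrix.of ![f2, f, f']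
  have hDd : D.det ≠ 0 := by
    intro hd
    obtain ⟨a, ha0, ha⟩ := Matrix.exists_mulVec_eq_zero_iff.2 hd
    have a0 : f2 ⬝ᵥ a = 0 := congrFun ha 0
    have a1 : f ⬝ᵥ a = 0 := congrFun ha 1
    have a2 : f' ⬝ᵥ a = 0 := congrFun ha 2
    have z2 : a 2 = 0 := by simpa [f2, dotProduct, Fin.sum_univ_three] using a0
    have z01 : a 0 = a 1 := by
      have := a1
      simp [f, dotProduct, Fin.sum_univ_three, z2] at this
      exact mul_left_cancel₀ hc0 (by linear_combination this)
    have b1 : f' ⬝ᵥ (U *ᵥ v) = 0 := by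
      rw [Matrix.dotProduct_mulVec]; change (f' ᵥ* u.1) ⬝ᵥ v = 0; rw [hf']; exact hfv
    have b2 : f' ⬝ᵥ (U *ᵥ (U *ᵥ e1)) = -c * 0 + (f ⬝ᵥ (U *ᵥ e1)) := by
      rw [Matrix.dotProduct_mulVec f' U]; change (f' ᵥ* u.1) ⬝ᵥ _ = _; rw [hf', mul_zero, zero_add]
    have hav : a = a 0 • v := by funext b; fin_cases b <;> simp [v, z2, ← z01]
    have b0 : a 0 * (f' ⬝ᵥ v) = 0 := by rw [← smul_eq_mul, ← dotProduct_smul, ← hav, a2]
    have ha00 : a 0 ≠ 0 := fun hh0 => ha0 (by rw [hav, hh0, zero_smul])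
    have b3 : f' ⬝ᵥ v = 0 := (mul_eq_zero.1 b0).resolve_left ha00
    have b4 : f ⬝ᵥ e0 = 0 := by
      have : f' ⬝ᵥ (U *ᵥ e0) = f ⬝ᵥ e0 := by
        rw [Matrix.dotProduct_mulVec]; change (f' ᵥ* u.1) ⬝ᵥ e0 = _; rw [hf']
      rw [← this, show U *ᵥ e0 = v from hv, b3]
    simp [f, e0, vec3_dotProduct] at b4
    exact hc0 b4
  let P := D⁻¹
  have hDP : D * P = 1 := Matrix.mul_nonsing_inv D (isUnit_iff_ne_zero.2 hDd)
  have hPD : P * D = 1 := Matrix.nonsing_inv_mul D (isUnit_iff_ne_zero.2 hDd)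
  let conjP : SL3 →* SL3 :=
    { toFun := fun g => ⟨P * g.1 * D, by
        rw [Matrix.det_mul, Matrix.det_mul, g.2, mul_one, ← Matrix.det_mul, hPD, Matrix.det_one]⟩
      map_one' := Subtype.ext (by simp [hPD])
      map_mul' := fun g g' => Subtype.ext (by
        change P * (g.1 * g'.1) * D = P * g.1 * D * (P * g'.1 * D)
        calc P * (g.1 * g'.1) * D = P * g.1 * 1 * g'.1 * D := by rw [Matrix.mul_one]; simp only [Matrix.mul_assoc]
          _ = _ := by rw [← hDP]; simp only [Matrix.mul_assoc]) }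
  have hT : H.comap conjP = ⊤ := by
    refine Cfsg.Agent.Linear.eq_top_of_transvection_mem fun a b hab x => ?_
    rw [Subgroup.mem_comap]
    set col : Fin 3 → F := P *ᵥ Pi.single a 1
    set row : Fin 3 → F := Pi.single b 1 ᵥ* D
    have hzero : row ⬝ᵥ col = 0 := by
      rw [Matrix.dotProduct_mulVec, Matrix.vecMul_vecMul, hDP, Matrix.vecMul_one]
      simp [Ne.symm hab]
    have hFull : Full H col row := by
      have hrow : row = D b := by funext t; simp [row]
      rw [hrow] at hzero ⊢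
      fin_cases b
      · exact hker2 _ hzero
      · exact hkerf _ hzero
      · exact hkerf' _ hzero
    convert hFull.2 x using 1
    refine Subtype.ext ?_
    rw [tvec_val hzero]
    change P * (SpecialLinearGroup.transvection hab x).1 * D = _
    rw [Cfsg.Agent.Linear.transvection_val, Matrix.transvection, Matrix.mul_add, Matrix.mul_one,
      Matrix.add_mul, hPD]
    congr 1
    rw [show Matrix.single a b x = x • vecMulVec (Pi.single a (1 : F)) (Pi.single b (1 : F)) by
        ext i j; simp [Matrix.single, vecMulVec_apply, Pi.single_apply, ← ite_and, eq_comm, and_comm],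
      Matrix.mul_smul, Matrix.smul_mul, Matrix.mul_vecMulVec, Matrix.vecMulVec_mul]
  rw [eq_top_iff]
  intro g _
  let gi : SL3 := ⟨D * g.1 * P, by
    rw [Matrix.det_mul, Matrix.det_mul, g.2, mul_one, ← Matrix.det_mul, hDP, Matrix.det_one]⟩
  have hgi : gi ∈ H.comap conjP := hT ▸ Subgroup.mem_top _
  rw [Subgroup.mem_comap] at hgi
  convert hgi
  refine Subtype.ext ?_
  change g.1 = P * (D * g.1 * P) * D
  calc g.1 = (P * D) * g.1 * (P * D) := by rw [hPD, Matrix.one_mul, Matrix.mul_one]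
    _ = _ := by simp only [Matrix.mul_assoc]

/-- Regular unipotent elements with the same Jordan form are conjugate in `GL₃`; adjusting inside `SL₃`. -/
theorem exists_conjugates [Fintype F] (hq : 5 ≤ Fintype.card F) :
    ∃ u g : SL3, IsRegUni u.1 ∧ Subgroup.closure ({u, g * u * g⁻¹} : Set SL3) = ⊤ := by
  obtain ⟨u, w, hu, hw, htop, c, hc, hdu, hdw⟩ := exists_gens hq
  set P1 := krylov (u.1 - 1) ![1, 0, 0] with hP1
  set P2 := krylov (w.1 - 1) ![1, 0, 0] with hP2
  have hd : IsUnit P1.det := isUnit_iff_ne_zero.2 (by rw [hdu]; exact neg_ne_zero.2 hc)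
  have h1 := mul_krylov hu.1 ![1, 0, 0]
  have h2 := mul_krylov hw.1 ![1, 0, 0]
  rw [← hP1] at h1
  rw [← hP2] at h2
  let g : SL3 := ⟨P2 * P1⁻¹, by
    rw [Matrix.det_mul, Matrix.det_nonsing_inv, Ring.inverse_eq_inv', hdu, hdw,
      mul_inv_cancel₀ (neg_ne_zero.2 hc)]⟩
  have hg : g * u * g⁻¹ = w := by
    rw [mul_inv_eq_iff_eq_mul]
    refine Subtype.ext ?_
    change P2 * P1⁻¹ * u.1 = w.1 * (P2 * P1⁻¹)
    have e1 : P1⁻¹ * u.1 = (1 + shiftMat F 3) * P1⁻¹ := by
      calc P1⁻¹ * u.1 = P1⁻¹ * (u.1 * P1) * P1⁻¹ := by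
            rw [Matrix.mul_assoc, Matrix.mul_assoc, Matrix.mul_nonsing_inv _ hd, Matrix.mul_one]
        _ = _ := by rw [h1, ← Matrix.mul_assoc P1⁻¹, Matrix.nonsing_inv_mul _ hd, Matrix.one_mul]
    rw [Matrix.mul_assoc, e1, ← Matrix.mul_assoc, ← h2, Matrix.mul_assoc]
  exact ⟨u, g, hu, by rw [hg]; exact htop⟩

end Cfsg.Agent.Linear.SLThree
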