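import Cfsg.Agent.Linear.SLThreeConjugates
import Mathlib

/-!
# `SL₃(q)`, `q ≤ 4`, is generated by two conjugate regular unipotent elements
-/

set_option autoImplicit false

namespace Cfsg.Agent.Linear.SLThree

open Matrix

variable {F : Type*} [Field F] {R : Type*} [CommRing R]

local notation "SL3" => Matrix.SpecialLinearGroup (Fin 3) F

/-- The upper triangular Jordan block. -/
def jordan (R : Type*) [CommRing R] : Matrix.SpecialLinearGroup (Fin 3) R :=
  ⟨!![1, 1, 0; 0, 1, 1; 0, 0, 1], by rw [Matrix.det_fin_three]; simp⟩

/-- The word in `jordan R` and `v` given by a list of booleans. -/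
def ev (v : Matrix.SpecialLinearGroup (Fin 3) R) (l : List Bool) : Matrix.SpecialLinearGroup (Fin 3) R :=
  (l.map fun b => if b then v else jordan R).prod

theorem isRegUni_jordan : IsRegUni (jordan F).1 := by
  refine ⟨⟨3, ?_⟩, fun h => ?_⟩
  · rw [pow_succ, pow_two]
    ext i j
    fin_cases i <;> fin_cases j <;>
      simp [jordan, Matrix.mul_apply, Fin.sum_univ_three, Matrix.one_apply]
  · have := congrFun (congrFun h 0) 2
    simp [jordan, pow_two, Matrix.mul_apply, Fin.sum_univ_three, Matrix.one_apply] at this

/-- Transfer of certificates along a ring homomorphism. -/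
theorem of_words (φ : R →+* F) (g v : Matrix.SpecialLinearGroup (Fin 3) R) (hgv : g * jordan R = v * g)
    (gens : List R) (hgens : ∀ x : F, x ∈ AddSubgroup.closure (φ '' {r | r ∈ gens}))
    (words : ∀ a b : Fin 3, a ≠ b → ∀ r ∈ gens, ∃ l, (ev v l).1 = Matrix.transvection a b r) :
    ∃ u g : SL3, IsRegUni u.1 ∧ Subgroup.closure ({u, g * u * g⁻¹} : Set SL3) = ⊤ := by
  let m : Matrix.SpecialLinearGroup (Fin 3) R →* SL3 := Matrix.SpecialLinearGroup.map φ
  have hJ : m (jordan R) = jordan F := by
    refine Subtype.ext ?_
    ext i j
    have hm : (m (jordan R)).1 i j = φ ((jordan R).1 i j) := rfl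
    rw [hm]
    fin_cases i <;> fin_cases j <;> simp [jordan]
  refine ⟨jordan F, m g, isRegUni_jordan, ?_⟩
  set H := Subgroup.closure ({jordan F, m g * jordan F * (m g)⁻¹} : Set SL3) with hH
  have hu : m (jordan R) ∈ H := by rw [hJ]; exact Subgroup.subset_closure (Set.mem_insert _ _)
  have hv : m v ∈ H := by
    have : m v = m g * jordan F * (m g)⁻¹ := by
      rw [← hJ, eq_mul_inv_iff_mul_eq, ← map_mul, ← map_mul, hgv]
    rw [this]; exact Subgroup.subset_closure (Set.mem_insert_of_mem _ rfl)
  refine Cfsg.Agent.Linear.eq_top_of_transvection_mem fun a b hab => ?_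
  let S : AddSubgroup F :=
    { carrier := {x | SpecialLinearGroup.transvection hab x ∈ H}
      zero_mem' := by
        change _ ∈ H
        convert one_mem H
        refine Subtype.ext ?_
        rw [Cfsg.Agent.Linear.transvection_val]; exact Matrix.transvection_zero a b
      add_mem' := fun {x y} hx hy => by
        change _ ∈ H
        convert (H.mul_mem hx hy) using 1
        refine Subtype.ext ?_
        rw [Matrix.SpecialLinearGroup.coe_mul, Cfsg.Agent.Linear.transvection_val,
          Cfsg.Agent.Linear.transvection_val, Cfsg.Agent.Linear.transvection_val,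
          Matrix.transvection_mul_transvection_same a b hab x y]
      neg_mem' := fun {x} hx => by
        change _ ∈ H
        convert (H.inv_mem hx) using 1
        refine eq_inv_of_mul_eq_one_left (Subtype.ext ?_)
        rw [Matrix.SpecialLinearGroup.coe_mul, Cfsg.Agent.Linear.transvection_val,
          Cfsg.Agent.Linear.transvection_val, Matrix.transvection_mul_transvection_same a b hab,
          neg_add_cancel, Matrix.transvection_zero, Matrix.SpecialLinearGroup.coe_one] }
  intro x
  refine (AddSubgroup.closure_le S).2 ?_ (hgens x)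
  rintro _ ⟨r, hr, rfl⟩
  obtain ⟨l, hl⟩ := words a b hab r hr
  change SpecialLinearGroup.transvection hab (φ r) ∈ H
  have heq : SpecialLinearGroup.transvection hab (φ r) = m (ev v l) := by
    refine Subtype.ext ?_
    rw [Cfsg.Agent.Linear.transvection_val]
    ext i j
    have hij : (m (ev v l)).1 i j = φ ((ev v l).1 i j) := rfl
    rw [hij, hl]
    simp [Matrix.transvection, Matrix.single, Matrix.one_apply, apply_ite φ]
  rw [heq, ev, map_list_prod]
  refine Subgroup.list_prod_mem _ fun y hy => ?_
  simp only [List.mem_map] at hy
  obtain ⟨_, ⟨b', -, rfl⟩, rfl⟩ := hy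
  split <;> assumption

theorem two_mem_closure {φ : R →+* F} {gens : List R} {r : R} (h : r ∈ gens) :
    φ r ∈ AddSubgroup.closure (φ '' {r | r ∈ gens}) :=
  AddSubgroup.subset_closure ⟨r, h, rfl⟩

/-- The field of four elements. -/
abbrev K4 := QuadraticAlgebra (ZMod 2) 1 1

instance : Fintype K4 := Fintype.ofEquiv _ (QuadraticAlgebra.equivProd (1 : ZMod 2) 1).symm

/-- A primitive element. -/
def K4w : K4 := ⟨0, 1⟩

/-- The conjugating element. -/
def g_two : Matrix.SpecialLinearGroup (Fin 3) (ZMod 2) := ⟨!![1,0,0;0,0,1;1,1,0], by decide +kernel⟩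

/-- The second generator. -/
def v_two : Matrix.SpecialLinearGroup (Fin 3) (ZMod 2) := ⟨!![0,0,1;0,1,0;1,1,0], by decide +kernel⟩

theorem word_two_010 : (ev v_two [false,false,true,true,false,false,true,true]).1 = Matrix.transvection (0 : Fin 3) 1 (1 : (ZMod 2)) := by decide +kernel

theorem word_two_020 : (ev v_two [false,false]).1 = Matrix.transvection (0 : Fin 3) 2 (1 : (ZMod 2)) := by decide +kernel

theorem word_two_100 : (ev v_two [true,false,true,true,false,false,true]).1 = Matrix.transvection (1 : Fin 3) 0 (1 : (ZMod 2)) := by decide +kernel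

theorem word_two_120 : (ev v_two [true,true,false,false,true,true,false]).1 = Matrix.transvection (1 : Fin 3) 2 (1 : (ZMod 2)) := by decide +kernel

theorem word_two_200 : (ev v_two [true,false,false,true,true,true]).1 = Matrix.transvection (2 : Fin 3) 0 (1 : (ZMod 2)) := by decide +kernel

theorem word_two_210 : (ev v_two [false,false,true,true,false,false]).1 = Matrix.transvection (2 : Fin 3) 1 (1 : (ZMod 2)) := by decide +kernel

theorem words_two : ∀ a b : Fin 3, a ≠ b → ∀ r ∈ [(1 : (ZMod 2))],
    ∃ l, (ev v_two l).1 = Matrix.transvection a b r := by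
  intro a b hab r hr
  simp only [List.mem_cons, List.not_mem_nil, or_false] at hr
  fin_cases a <;> fin_cases b <;> first
    | exact absurd rfl hab
    | (subst hr; exact ⟨_, word_two_010⟩)
    | (subst hr; exact ⟨_, word_two_020⟩)
    | (subst hr; exact ⟨_, word_two_100⟩)
    | (subst hr; exact ⟨_, word_two_120⟩)
    | (subst hr; exact ⟨_, word_two_200⟩)
    | (subst hr; exact ⟨_, word_two_210⟩)

/-- The conjugating element. -/
def g_three : Matrix.SpecialLinearGroup (Fin 3) (ZMod 3) := ⟨!![2,0,0;2,1,2;2,2,0], by decide +kernel⟩

/-- The second generator. -/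
def v_three : Matrix.SpecialLinearGroup (Fin 3) (ZMod 3) := ⟨!![0,0,1;1,0,0;0,1,0], by decide +kernel⟩

theorem word_three_010 : (ev v_three [false,false,true,false,true,true,false,true,false,false,true,false,false,true,true]).1 = Matrix.transvection (0 : Fin 3) 1 (1 : (ZMod 3)) := by decide +kernel

theorem word_three_020 : (ev v_three [true,true,false,true,false,false,true,false,false,true,false,true,true]).1 = Matrix.transvection (0 : Fin 3) 2 (1 : (ZMod 3)) := by decide +kernel

theorem word_three_100 : (ev v_three [false,true,false,false,true,false,false,true,false,true]).1 = Matrix.transvection (1 : Fin 3) 0 (1 : (ZMod 3)) := by decide +kernel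

theorem word_three_120 : (ev v_three [false,true,false,true,false,true,false,true,false,true,false,true,false,true,true]).1 = Matrix.transvection (1 : Fin 3) 2 (1 : (ZMod 3)) := by decide +kernel

theorem word_three_200 : (ev v_three [false,false,true,false,false,true,false,true,true,false,true,false,false,true,true]).1 = Matrix.transvection (2 : Fin 3) 0 (1 : (ZMod 3)) := by decide +kernel

theorem word_three_210 : (ev v_three [true,false,true,false,false,true,false,false,true,false]).1 = Matrix.transvection (2 : Fin 3) 1 (1 : (ZMod 3)) := by decide +kernel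

theorem words_three : ∀ a b : Fin 3, a ≠ b → ∀ r ∈ [(1 : (ZMod 3))],
    ∃ l, (ev v_three l).1 = Matrix.transvection a b r := by
  intro a b hab r hr
  simp only [List.mem_cons, List.not_mem_nil, or_false] at hr
  fin_cases a <;> fin_cases b <;> first
    | exact absurd rfl hab
    | (subst hr; exact ⟨_, word_three_010⟩)
    | (subst hr; exact ⟨_, word_three_020⟩)
    | (subst hr; exact ⟨_, word_three_100⟩)
    | (subst hr; exact ⟨_, word_three_120⟩)
    | (subst hr; exact ⟨_, word_three_200⟩)
    | (subst hr; exact ⟨_, word_three_210⟩)

/-- The conjugating element. -/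
def g_four : Matrix.SpecialLinearGroup (Fin 3) K4 := ⟨!![1,0,0;0,0,K4w;(1 + K4w),(1 + K4w),0], by decide +kernel⟩

/-- The second generator. -/
def v_four : Matrix.SpecialLinearGroup (Fin 3) K4 := ⟨!![0,0,K4w;0,1,0;(1 + K4w),K4w,0], by decide +kernel⟩

theorem word_four_010 : (ev v_four [false,false,true,false,false,true,false,false,true,true,true,false,false,true,false,false,true]).1 = Matrix.transvection (0 : Fin 3) 1 (1 : K4) := by decide +kernel

theorem word_four_011 : (ev v_four [false,false,true,true,false,false,true,true]).1 = Matrix.transvection (0 : Fin 3) 1 (K4w : K4) := by decide +kernel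

theorem word_four_020 : (ev v_four [false,false]).1 = Matrix.transvection (0 : Fin 3) 2 (1 : K4) := by decide +kernel

theorem word_four_021 : (ev v_four [false,false,false,true,true,false,false,true,true,false,true,true,false,false,true,true]).1 = Matrix.transvection (0 : Fin 3) 2 (K4w : K4) := by decide +kernel

theorem word_four_100 : (ev v_four [true,false,true,true,true,false,false,false,true,false,true,true,true,false,false,true,false]).1 = Matrix.transvection (1 : Fin 3) 0 (1 : K4) := by decide +kernel

theorem word_four_101 : (ev v_four [true,true,false,false,true,false,true,true,false,true,false,true,false,true,true,true]).1 = Matrix.transvection (1 : Fin 3) 0 (K4w : K4) := by decide +kernel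

theorem word_four_120 : (ev v_four [true,false,false,true,false,false,true,true,true,false,false,true,false,false,true,false]).1 = Matrix.transvection (1 : Fin 3) 2 (1 : K4) := by decide +kernel

theorem word_four_121 : (ev v_four [false,false,false,true,true,true,false,false,false,true,false,true,true,true,false,false,true,false,true]).1 = Matrix.transvection (1 : Fin 3) 2 (K4w : K4) := by decide +kernel

theorem word_four_200 : (ev v_four [false,true,true,true,false,true,true,false,false,false,true,false,false,false]).1 = Matrix.transvection (2 : Fin 3) 0 (1 : K4) := by decide +kernel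

theorem word_four_201 : (ev v_four [true,false,false,true,true,true]).1 = Matrix.transvection (2 : Fin 3) 0 (K4w : K4) := by decide +kernel

theorem word_four_210 : (ev v_four [true,false,false,true,true,false,false,true]).1 = Matrix.transvection (2 : Fin 3) 1 (1 : K4) := by decide +kernel

theorem word_four_211 : (ev v_four [false,true,true,false,true,true,false,false,false,true,true,false,true,true,false]).1 = Matrix.transvection (2 : Fin 3) 1 (K4w : K4) := by decide +kernel

theorem words_four : ∀ a b : Fin 3, a ≠ b → ∀ r ∈ [(1 : K4), (K4w : K4)],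
    ∃ l, (ev v_four l).1 = Matrix.transvection a b r := by
  intro a b hab r hr
  simp only [List.mem_cons, List.not_mem_nil, or_false] at hr
  fin_cases a <;> fin_cases b <;> first
    | exact absurd rfl hab
    | (rcases hr with rfl | rfl <;> first | exact ⟨_, word_four_010⟩ | exact ⟨_, word_four_011⟩)
    | (rcases hr with rfl | rfl <;> first | exact ⟨_, word_four_020⟩ | exact ⟨_, word_four_021⟩)
    | (rcases hr with rfl | rfl <;> first | exact ⟨_, word_four_100⟩ | exact ⟨_, word_four_101⟩)
    | (rcases hr with rfl | rfl <;> first | exact ⟨_, word_four_120⟩ | exact ⟨_, word_four_121⟩)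
    | (rcases hr with rfl | rfl <;> first | exact ⟨_, word_four_200⟩ | exact ⟨_, word_four_201⟩)
    | (rcases hr with rfl | rfl <;> first | exact ⟨_, word_four_210⟩ | exact ⟨_, word_four_211⟩)

theorem exists_conjugates_small [Fintype F] (hq : Fintype.card F < 5) :
    ∃ u g : SL3, IsRegUni u.1 ∧ Subgroup.closure ({u, g * u * g⁻¹} : Set SL3) = ⊤ := by
  classical
  have h1 := Fintype.one_lt_card (α := F)
  have hc : ((Fintype.card F : ℕ) : F) = 0 := FiniteField.cast_card_eq_zero F
  rcases (by omega : Fintype.card F = 2 ∨ Fintype.card F = 3 ∨ Fintype.card F = 4) with h | h | h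
  · let φ : ZMod 2 →+* F := (ZMod.ringEquivOfPrime F Nat.prime_two h).toRingHom
    refine of_words φ g_two v_two (by decide +kernel) [1] (fun x => ?_) words_two
    obtain ⟨r, rfl⟩ := (ZMod.ringEquivOfPrime F Nat.prime_two h).surjective x
    rcases (by decide : ∀ r : ZMod 2, r = 0 ∨ r = 1) r with rfl | rfl
    · rw [map_zero]; exact zero_mem _
    · exact two_mem_closure (φ := φ) (by simp)
  · let φ : ZMod 3 →+* F := (ZMod.ringEquivOfPrime F Nat.prime_three h).toRingHom
    refine of_words φ g_three v_three (by decide +kernel) [1] (fun x => ?_) words_three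
    obtain ⟨r, rfl⟩ := (ZMod.ringEquivOfPrime F Nat.prime_three h).surjective x
    change φ r ∈ _
    rcases (by decide : ∀ r : ZMod 3, r = 0 ∨ r = 1 ∨ r = 1 + 1) r with rfl | rfl | rfl
    · rw [map_zero]; exact zero_mem _
    · exact two_mem_closure (φ := φ) (by simp)
    · rw [map_add]; exact add_mem (two_mem_closure (φ := φ) (by simp)) (two_mem_closure (φ := φ) (by simp))
  · rw [h] at hc
    have h2 : (2 : F) = 0 := by
      have : (2 : F) * 2 = 0 := by norm_num at hc ⊢; exact hc
      exact (mul_self_eq_zero.1 this)
    haveI : CharP F 2 := CharTwo.of_one_ne_zero_of_two_eq_zero one_ne_zero h2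
    letI : Algebra (ZMod 2) F := ZMod.algebra F 2
    obtain ⟨x, hx⟩ : ∃ x : F, x ∉ ({0, 1} : Finset F) := by
      by_contra hall
      push Not at hall
      have := Finset.card_le_card (fun y (_ : y ∈ (Finset.univ : Finset F)) => hall y)
      rw [Finset.card_univ, h] at this
      exact absurd (this.trans Finset.card_le_two) (by norm_num)
    simp only [Finset.mem_insert, Finset.mem_singleton, not_or] at hx
    have hx3 : x ^ 3 = 1 := by
      have := FiniteField.pow_card_sub_one_eq_one x hx.1
      rwa [h] at this
    have hxx : x * x = x + 1 := by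
      have : (x - 1) * (x * x + x + 1) = 0 := by linear_combination hx3
      have := (mul_eq_zero.1 this).resolve_left (sub_ne_zero.2 hx.2)
      linear_combination this - (x + 1) * h2
    let φ : K4 →+* F := (QuadraticAlgebra.lift (R := ZMod 2) (a := 1) (b := 1) (A := F)
      ⟨x, by rw [one_smul, one_smul, hxx, add_comm]⟩).toRingHom
    have hsurj : Function.Surjective φ := by
      refine ((Fintype.bijective_iff_injective_and_card φ).2 ⟨?_, ?_⟩).2
      · intro a b hab
        rw [← sub_eq_zero, ← map_sub] at hab
        rw [← sub_eq_zero]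
        generalize a - b = c at hab ⊢
        rcases (by decide +kernel : ∀ r : K4, r = 0 ∨ ∃ s : K4, r * s = 1) c with rfl | ⟨s, hs⟩
        · rfl
        · have := congrArg φ hs
          rw [map_mul, hab, zero_mul, map_one] at this
          exact absurd this zero_ne_one
      · rw [h, Fintype.card_congr (QuadraticAlgebra.equivProd (1 : ZMod 2) 1)]; rfl
    refine of_words φ g_four v_four (by decide +kernel) [1, K4w] (fun x => ?_) words_four
    obtain ⟨r, rfl⟩ := hsurj x
    rcases (by decide +kernel : ∀ r : K4, r = 0 ∨ r = 1 ∨ r = K4w ∨ r = 1 + K4w) r with rfl | rfl | rfl | rfl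
    · rw [map_zero]; exact zero_mem _
    · exact two_mem_closure (by simp)
    · exact two_mem_closure (by simp)
    · rw [map_add]; exact add_mem (two_mem_closure (by simp)) (two_mem_closure (by simp))

end Cfsg.Agent.Linear.SLThree
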