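import Cfsg.Prelude.Def_JordanBlocks
import Mathlib

/-!
# Centraliser of a unipotent matrix of given Jordan type
-/

set_option autoImplicit false
set_option linter.unusedSectionVars false

namespace Cfsg.Agent.Linear.UnipotentCent

open Matrix

variable {F : Type*} [Field F] {t : ℕ} (d : Fin t → ℕ)

/-- The index type. -/
abbrev Idx := (k : Fin t) × Fin (d k)

/-- The nilpotent shift. -/
def E (F : Type*) [Field F] : Matrix (Idx d) (Idx d) F :=
  Matrix.of fun x y => if x.1 = y.1 ∧ x.2.1 = y.2.1 + 1 then 1 else 0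

theorem jordanType_eq : Cfsg.jordanTypeMatrix d F = 1 + E d F := by
  ext ⟨k, i⟩ ⟨l, j⟩
  rcases eq_or_ne k l with rfl | hkl
  · rw [Cfsg.jordanTypeMatrix, blockDiagonal'_apply_eq, Cfsg.jordanBlock, of_apply, Matrix.add_apply, Matrix.one_apply]
    simp only [E, of_apply, true_and, Sigma.mk.injEq, heq_eq_eq]
    rcases eq_or_ne i j with rfl | hij
    · simp
    · rw [if_neg (fun h => hij (Fin.ext h)), if_neg hij, zero_add]
  · rw [Cfsg.jordanTypeMatrix, blockDiagonal'_apply_ne _ _ _ hkl, Matrix.add_apply, Matrix.one_apply,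
      if_neg (fun h => hkl (congrArg Sigma.fst h))]
    simp [E, hkl]

variable {d}

theorem E_mul_apply (X : Matrix (Idx d) (Idx d) F) (k : Fin t) (i : Fin (d k)) (y : Idx d) :
    (E d F * X) ⟨k, i⟩ y = if h : 0 < i.1 then X ⟨k, ⟨i.1 - 1, by omega⟩⟩ y else 0 := by
  rw [Matrix.mul_apply]
  split_ifs with h
  · rw [Finset.sum_eq_single (⟨k, ⟨i.1 - 1, by omega⟩⟩ : Idx d) (fun z _ hz => ?_) (by simp)]
    · simp [E]; omega
    · obtain ⟨m, j⟩ := z
      simp only [E, of_apply]
      rw [if_neg ?_, zero_mul]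
      rintro ⟨rfl, hij⟩
      exact hz (Sigma.ext rfl (heq_of_eq (Fin.ext (by simp; omega))))
  · exact Finset.sum_eq_zero fun z _ => by
      simp only [E, of_apply]; rw [if_neg (fun hh => by omega), zero_mul]

theorem mul_E_apply (X : Matrix (Idx d) (Idx d) F) (x : Idx d) (l : Fin t) (j : Fin (d l)) :
    (X * E d F) x ⟨l, j⟩ = if h : j.1 + 1 < d l then X x ⟨l, ⟨j.1 + 1, h⟩⟩ else 0 := by
  rw [Matrix.mul_apply]
  split_ifs with h
  · rw [Finset.sum_eq_single (⟨l, ⟨j.1 + 1, h⟩⟩ : Idx d) (fun z _ hz => ?_) (by simp)]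
    · simp [E]
    · obtain ⟨m, i⟩ := z
      simp only [E, of_apply]
      rw [if_neg ?_, mul_zero]
      rintro ⟨rfl, hij⟩
      exact hz (Sigma.ext rfl (heq_of_eq (Fin.ext hij)))
  · refine Finset.sum_eq_zero fun z _ => ?_
    obtain ⟨m, i⟩ := z
    simp only [E, of_apply]
    rw [if_neg ?_, mul_zero]
    rintro ⟨rfl, hij⟩
    have := i.isLt
    omega

/-- The Toeplitz matrix with first column `c`. -/
def T (c : Idx d → Fin t → F) : Matrix (Idx d) (Idx d) F :=
  Matrix.of fun x y => if h : y.2.1 ≤ x.2.1 then c ⟨x.1, ⟨x.2.1 - y.2.1, by omega⟩⟩ y.1 else 0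

/-- The support condition. -/
def Ok (c : Idx d → Fin t → F) : Prop := ∀ (x : Idx d) (l : Fin t), x.2.1 + d l < d x.1 → c x l = 0

variable (hd : ∀ k, 1 ≤ d k)

/-- The first column. -/
def col (X : Matrix (Idx d) (Idx d) F) : Idx d → Fin t → F := fun x l => X x ⟨l, ⟨0, hd l⟩⟩

include hd

theorem eq_T {X : Matrix (Idx d) (Idx d) F} (h : X * E d F = E d F * X) : X = T (col hd X) ∧ Ok (col hd X) := by
  have hstep : ∀ (x : Idx d) (l : Fin t) (j : Fin (d l)),
      (if hj : j.1 + 1 < d l then X x ⟨l, ⟨j.1 + 1, hj⟩⟩ else 0) =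
        (if hi : 0 < x.2.1 then X ⟨x.1, ⟨x.2.1 - 1, by omega⟩⟩ ⟨l, j⟩ else 0) := fun x l j => by
    rw [← mul_E_apply, h, ← E_mul_apply]
  have key : ∀ (j : ℕ) (x : Idx d) (l : Fin t) (hj : j < d l),
      X x ⟨l, ⟨j, hj⟩⟩ = if hji : j ≤ x.2.1 then col hd X ⟨x.1, ⟨x.2.1 - j, by omega⟩⟩ l else 0 := by
    intro j
    induction j with
    | zero =>
      intro x l hj
      rw [dif_pos (Nat.zero_le _)]
      rfl
    | succ j ih =>
      intro x l hj
      have h1 := hstep x l ⟨j, by omega⟩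
      rw [dif_pos hj] at h1
      rw [h1]
      by_cases hi : 0 < x.2.1
      · rw [dif_pos hi, ih]
        by_cases hji : j ≤ x.2.1 - 1
        · rw [dif_pos hji, dif_pos (by omega : j + 1 ≤ x.2.1)]
          exact congrArg (fun a : Fin (d x.1) => col hd X ⟨x.1, a⟩ l) (Fin.ext (by simp; omega))
        · rw [dif_neg hji, dif_neg (by omega)]
      · rw [dif_neg hi, dif_neg (by omega)]
  refine ⟨Matrix.ext fun x y => ?_, fun x l hl => ?_⟩
  · obtain ⟨l, j, hj⟩ := y
    exact key j x l hj
  · have h1 := hstep ⟨x.1, ⟨x.2.1 + d l, hl⟩⟩ l ⟨d l - 1, by have := hd l; omega⟩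
    rw [dif_neg (by have := hd l; simp; omega), dif_pos (by have := hd l; simp; omega), key,
      dif_pos (by simp; omega)] at h1
    rw [h1]
    exact congrArg (fun a : Fin (d x.1) => col hd X ⟨x.1, a⟩ l) (Fin.ext (by simp; have := hd l; omega))

theorem commute_T {c : Idx d → Fin t → F} (hc : Ok c) : T c * E d F = E d F * T c := by
  ext ⟨k, i⟩ ⟨l, j⟩
  rw [mul_E_apply, E_mul_apply]
  simp only [T, of_apply]
  have := j.isLt
  have := i.isLt
  split_ifs with h1 h2 h3 h4 h5 h6 <;> first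
    | rfl
    | (exfalso; omega)
    | (exact congrArg (fun a : Fin (d k) => c ⟨k, a⟩ l) (Fin.ext (by simp; omega)))
    | (exact (hc _ _ (by simp; omega)).symm)
    | (exact hc _ _ (by simp; omega))

theorem col_T (c : Idx d → Fin t → F) : col hd (T c) = c := by
  funext x l
  simp [col, T]

variable (d) in
/-- The block of top coefficients. -/
def top (i : ℕ) (c : Idx d → Fin t → F) : Matrix {k // d k = i} {k // d k = i} F :=
  Matrix.of fun k l => c ⟨k.1, ⟨0, hd k.1⟩⟩ l.1

theorem top_mul {X Y : Matrix (Idx d) (Idx d) F} (hX : X * E d F = E d F * X) (hY : Y * E d F = E d F * Y) (i : ℕ) :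
    top d hd i (col hd (X * Y)) = top d hd i (col hd X) * top d hd i (col hd Y) := by
  classical
  obtain ⟨hXT, hXok⟩ := eq_T hd hX
  obtain ⟨-, hYok⟩ := eq_T hd hY
  ext k l
  have hlhs : top d hd i (col hd (X * Y)) k l = ∑ m : Fin t, ∑ j : Fin (d m),
      X ⟨k.1, ⟨0, hd k.1⟩⟩ ⟨m, j⟩ * Y ⟨m, j⟩ ⟨l.1, ⟨0, hd l.1⟩⟩ := by
    simp only [top, of_apply, col, Matrix.mul_apply]
    exact Fintype.sum_sigma _
  have hj : ∀ m : Fin t, ∑ j : Fin (d m), X ⟨k.1, ⟨0, hd k.1⟩⟩ ⟨m, j⟩ * Y ⟨m, j⟩ ⟨l.1, ⟨0, hd l.1⟩⟩ =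
      if d m = i then col hd X ⟨k.1, ⟨0, hd k.1⟩⟩ m * col hd Y ⟨m, ⟨0, hd m⟩⟩ l.1 else 0 := fun m => by
    rw [Finset.sum_eq_single (⟨0, hd m⟩ : Fin (d m)) (fun j _ hj => ?_) (by simp)]
    · show col hd X ⟨k.1, ⟨0, hd k.1⟩⟩ m * col hd Y ⟨m, ⟨0, hd m⟩⟩ l.1 = _
      split_ifs with hm
      · rfl
      · rcases lt_or_gt_of_ne hm with hlt | hgt
        · rw [hXok _ _ (by simp [k.2, hlt]), zero_mul]
        · rw [hYok ⟨m, ⟨0, hd m⟩⟩ l.1 (by simp [l.2, hgt]), mul_zero]
    · have : X ⟨k.1, ⟨0, hd k.1⟩⟩ ⟨m, j⟩ = 0 := by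
        rw [hXT, T, of_apply, dif_neg]
        simp only [not_le]
        exact Nat.pos_of_ne_zero fun h0 => hj (Fin.ext h0)
      rw [this, zero_mul]
  rw [hlhs, Finset.sum_congr rfl fun m _ => hj m, Matrix.mul_apply, ← Finset.sum_filter,
    Finset.sum_subtype (p := fun m => d m = i) _ (fun m => by simp)]
  rfl

theorem top_one (i : ℕ) : top d hd i (col hd (1 : Matrix (Idx d) (Idx d) F)) = 1 := by
  classical
  ext k l
  simp only [top, of_apply, col, Matrix.one_apply]
  refine if_congr ?_ rfl rfl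
  constructor
  · exact fun h => Subtype.ext (congrArg Sigma.fst h)
  · rintro rfl; rfl

theorem isUnit_of_top {c : Idx d → Fin t → F} (hc : Ok c) (hu : ∀ i, IsUnit (top d hd i c)) : IsUnit (T c) := by
  classical
  by_contra hnu
  set K := LinearMap.ker (T c).mulVecLin
  obtain ⟨v, hv, hv0⟩ : ∃ v ∈ K, v ≠ 0 := by
    refine Submodule.exists_mem_ne_zero_of_ne_bot fun hK => hnu ?_
    rw [← Matrix.mulVec_injective_iff_isUnit]
    exact LinearMap.ker_eq_bot.1 hK
  have hEpow : ∀ (n : ℕ) (w : Idx d → F) (x : Idx d), x.2.1 < n → ((E d F) ^ n).mulVec w x = 0 := by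
    intro n
    induction n with
    | zero => intro w x hx; omega
    | succ n ih =>
      intro w x hx
      rw [pow_succ', ← Matrix.mulVec_mulVec]
      simp only [Matrix.mulVec, dotProduct]
      refine Finset.sum_eq_zero fun z _ => ?_
      simp only [E, of_apply]
      split_ifs with hxz
      · rw [one_mul]
        exact ih w z (by omega)
      · rw [zero_mul]
  obtain ⟨n, hn, hn'⟩ : ∃ n, (E d F ^ n).mulVec v ≠ 0 ∧ (E d F ^ (n + 1)).mulVec v = 0 := by
    have hex : ∃ n, (E d F ^ n).mulVec v = 0 :=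
      ⟨Finset.univ.sup d + 1, funext fun x => hEpow _ v x (by
        have := Finset.le_sup (f := d) (Finset.mem_univ x.1)
        have := x.2.isLt
        omega)⟩
    refine ⟨Nat.find hex - 1, Nat.find_min hex ?_, ?_⟩
    · have h0 : Nat.find hex ≠ 0 := fun h => hv0 (by simpa [h] using Nat.find_spec hex)
      omega
    · have h0 : Nat.find hex ≠ 0 := fun h => hv0 (by simpa [h] using Nat.find_spec hex)
      rw [show Nat.find hex - 1 + 1 = Nat.find hex by omega]
      exact Nat.find_spec hex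
  set w := (E d F ^ n).mulVec v with hw
  have hXw : (T c).mulVec w = 0 := by
    rw [hw, Matrix.mulVec_mulVec, (Commute.pow_right (commute_T hd hc) n).eq, ← Matrix.mulVec_mulVec,
      show (T c).mulVec v = 0 from hv, Matrix.mulVec_zero]
  have hEw : (E d F).mulVec w = 0 := by rw [hw, Matrix.mulVec_mulVec, ← pow_succ', hn']
  have hsupp : ∀ (k : Fin t) (i : Fin (d k)), i.1 + 1 < d k → w ⟨k, i⟩ = 0 := fun k i hi => by
    have h1 := congrFun hEw ⟨k, ⟨i.1 + 1, hi⟩⟩
    simp only [Matrix.mulVec, dotProduct, Pi.zero_apply] at h1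
    rw [Finset.sum_eq_single (⟨k, i⟩ : Idx d) (fun z _ hz => ?_) (by simp)] at h1
    · simpa [E] using h1
    · obtain ⟨m, j⟩ := z
      simp only [E, of_apply]
      rw [if_neg ?_, zero_mul]
      rintro ⟨rfl, hij⟩
      exact hz (Sigma.ext rfl (heq_of_eq (Fin.ext (Nat.add_right_cancel hij).symm)))
  let bot : Fin t → Idx d := fun k => ⟨k, ⟨d k - 1, by have := hd k; omega⟩⟩
  have hbot : ∀ x : Idx d, w x ≠ 0 → x = bot x.1 := fun x hx => by
    obtain ⟨k, i⟩ := x
    refine Sigma.ext rfl (heq_of_eq (Fin.ext ?_))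
    have := i.isLt
    simp only [bot]
    by_contra hne
    exact hx (hsupp k i (by omega))
  obtain ⟨k₀, hk₀⟩ : ∃ k, w (bot k) ≠ 0 := by
    obtain ⟨x, hx⟩ := Function.ne_iff.1 hn
    exact ⟨x.1, (hbot x hx) ▸ hx⟩
  obtain ⟨k₁, hk₁, hmin⟩ := Finset.exists_min_image (Finset.univ.filter fun k => w (bot k) ≠ 0) d
    ⟨k₀, by simp [hk₀]⟩
  set i := d k₁
  let wi : {k // d k = i} → F := fun l => w (bot l.1)
  have hzero : (top d hd i c).mulVec wi = 0 := funext fun k => by
    have h1 := congrFun hXw (bot k.1)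
    simp only [Matrix.mulVec, dotProduct, Pi.zero_apply] at h1 ⊢
    rw [Fintype.sum_sigma] at h1
    rw [← h1]
    symm
    calc ∑ m, ∑ j, T c (bot k.1) ⟨m, j⟩ * w ⟨m, j⟩ = ∑ m, T c (bot k.1) (bot m) * w (bot m) :=
          Finset.sum_congr rfl fun m _ => Finset.sum_eq_single (⟨d m - 1, by have := hd m; omega⟩ : Fin (d m))
            (fun j _ hj => by
              rw [hsupp m j (by have := j.isLt; have : j.1 ≠ d m - 1 := fun h => hj (Fin.ext h); omega), mul_zero])
            (by simp)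
      _ = ∑ m ∈ Finset.univ.filter (fun m => d m = i), T c (bot k.1) (bot m) * w (bot m) := by
          refine (Finset.sum_filter_of_ne fun m _ hm => ?_).symm
          obtain ⟨hT, hwm⟩ := mul_ne_zero_iff.1 hm
          have hge : i ≤ d m := hmin m (by simp [hwm])
          by_contra hne
          refine hT ?_
          simp only [T, of_apply, bot]
          rw [dif_neg (by have := k.2; have := hd k.1; simp; omega)]
      _ = ∑ l : {m // d m = i}, T c (bot k.1) (bot l.1) * w (bot l.1) :=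
          Finset.sum_subtype _ (fun m => by simp) _
      _ = _ := Finset.sum_congr rfl fun l _ => by
          simp only [T, of_apply, bot, top, wi]
          rw [dif_pos (by rw [k.2, l.2])]
          congr 2
          exact Sigma.ext rfl (heq_of_eq (Fin.ext (by simp [k.2, l.2])))
  have h2 := (Matrix.mulVec_injective_iff_isUnit.2 (hu i)) (hzero.trans (Matrix.mulVec_zero _).symm)
  exact (Finset.mem_filter.1 hk₁).2 (congrFun h2 ⟨k₁, rfl⟩)

omit hd

variable (d) in
/-- The remaining coefficients. -/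
abbrev Rest := {x : Idx d × Fin t // d x.1.1 ≤ x.1.2.1 + d x.2 ∧ ¬ (x.1.2.1 = 0 ∧ d x.1.1 = d x.2)}

theorem card_cent [Fintype F] {q : ℕ} (hF : Fintype.card F = q) (hd : ∀ k, 1 ≤ d k) :
    Nat.card {g : GL (Idx d) F // (g : Matrix (Idx d) (Idx d) F) * Cfsg.jordanTypeMatrix d F =
        Cfsg.jordanTypeMatrix d F * (g : Matrix (Idx d) (Idx d) F)} =
      q ^ Nat.card (Rest d) * ∏ i ∈ Finset.range (Finset.univ.sup d + 1),
        ∏ j : Fin ((Finset.univ.filter (fun k : Fin t => d k = i)).card),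
          (q ^ (Finset.univ.filter (fun k : Fin t => d k = i)).card - q ^ (j : ℕ)) := by
  classical
  have hcom : ∀ X : Matrix (Idx d) (Idx d) F, X * Cfsg.jordanTypeMatrix d F = Cfsg.jordanTypeMatrix d F * X ↔
      X * E d F = E d F * X := fun X => by
    rw [jordanType_eq, mul_add, add_mul, mul_one, one_mul, add_right_inj]
  set M := Finset.univ.sup d with hM
  have hle : ∀ k, d k < M + 1 := fun k => Nat.lt_succ_of_le (Finset.le_sup (Finset.mem_univ k))
  let G := {g : GL (Idx d) F // (g : Matrix (Idx d) (Idx d) F) * Cfsg.jordanTypeMatrix d F =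
        Cfsg.jordanTypeMatrix d F * (g : Matrix (Idx d) (Idx d) F)}
  have hinv : ∀ g : G, (g.1⁻¹ : GL (Idx d) F).1 * E d F = E d F * (g.1⁻¹ : GL (Idx d) F).1 := fun g =>
    (Commute.units_inv_left (show Commute g.1.1 (E d F) from (hcom _).1 g.2)).eq
  have hu : ∀ (g : G) (i : ℕ), IsUnit (top d hd i (col hd g.1.1)) := fun g i =>
    IsUnit.of_mul_eq_one (top d hd i (col hd (g.1⁻¹ : GL (Idx d) F).1))
      (by rw [← top_mul hd ((hcom _).1 g.2) (hinv g), Units.mul_inv, top_one])
  let Ψ : G → ((i : Fin (M + 1)) → GL {k // d k = i.1} F) × (Rest d → F) := fun g =>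
    (fun i => (hu g i.1).unit, fun x => col hd g.1.1 x.1.1 x.1.2)
  have hΨ : Function.Bijective Ψ := by
    refine ⟨fun g g' h => ?_, fun ⟨A, r⟩ => ?_⟩
    · refine Subtype.ext (Units.ext ?_)
      obtain ⟨h1, hok⟩ := eq_T hd ((hcom _).1 g.2)
      obtain ⟨h1', hok'⟩ := eq_T hd ((hcom _).1 g'.2)
      rw [h1, h1']
      congr 1
      funext x l
      by_cases hlt : x.2.1 + d l < d x.1
      · rw [hok x l hlt, hok' x l hlt]
      by_cases htop : x.2.1 = 0 ∧ d x.1 = d l
      · have h2 := congrArg (fun z : ((i : Fin (M + 1)) → GL {k // d k = i.1} F) × (Rest d → F) =>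
          (z.1 ⟨d x.1, hle _⟩).1 ⟨x.1, rfl⟩ ⟨l, htop.2.symm⟩) h
        have e : (⟨x.1, ⟨0, hd x.1⟩⟩ : Idx d) = x := Sigma.ext rfl (heq_of_eq (Fin.ext htop.1.symm))
        simpa [Ψ, top, e] using h2
      · exact congrFun (congrArg Prod.snd h) ⟨(x, l), not_lt.1 hlt, htop⟩
    · let c : Idx d → Fin t → F := fun x l =>
        if h0 : x.2.1 = 0 ∧ d x.1 = d l then (A ⟨d x.1, hle _⟩).1 ⟨x.1, rfl⟩ ⟨l, h0.2.symm⟩
        else if h1 : d x.1 ≤ x.2.1 + d l then r ⟨(x, l), h1, h0⟩ else 0
      have hok : Ok c := fun x l hlt => by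
        simp only [c]
        rw [dif_neg (fun h => by omega), dif_neg (by omega)]
      have htop : ∀ i : Fin (M + 1), top d hd i.1 c = (A i).1 := fun i => by
        ext ⟨k, hk⟩ ⟨l, hl⟩
        simp only [top, of_apply, c]
        rw [dif_pos ⟨trivial, hk.trans hl.symm⟩]
        have hi' : (⟨d k, hle k⟩ : Fin (M + 1)) = i := Fin.ext hk
        subst hi'
        rfl
      have hunit : IsUnit (T c) := isUnit_of_top hd hok fun i => by
        by_cases hi : i < M + 1
        · rw [htop ⟨i, hi⟩]; exact (A ⟨i, hi⟩).isUnit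
        · haveI : IsEmpty {k // d k = i} := ⟨fun k => hi (k.2 ▸ hle k.1)⟩
          exact isUnit_of_subsingleton _
      refine ⟨⟨hunit.unit, (hcom _).2 (commute_T hd hok)⟩, Prod.ext (funext fun i => Units.ext ?_) (funext fun x => ?_)⟩
      · show top d hd i.1 (col hd (T c)) = _
        rw [col_T, htop]
      · show col hd (T c) x.1.1 x.1.2 = r x
        rw [col_T]
        simp only [c]
        rw [dif_neg x.2.2, dif_pos x.2.1]
  rw [Nat.card_congr (Equiv.ofBijective Ψ hΨ), Nat.card_prod, Nat.card_fun, Nat.card_eq_fintype_card (α := F), hF,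
    Nat.card_pi, mul_comm, Finset.prod_range]
  congr 1
  refine Finset.prod_congr rfl fun i _ => ?_
  let e : {k // d k = i.1} ≃ Fin ((Finset.univ.filter (fun k : Fin t => d k = i.1)).card) :=
    Fintype.equivFinOfCardEq (Fintype.card_subtype _)
  rw [Nat.card_congr (Units.mapEquiv (Matrix.reindexAlgEquiv F F e).toMulEquiv).toEquiv, Matrix.card_GL_field, hF]

theorem card_Rest (hd : ∀ k, 1 ≤ d k) :
    Nat.card (Rest d) = 2 * (∑ i ∈ Finset.range (Finset.univ.sup d + 1), ∑ j ∈ Finset.range (Finset.univ.sup d + 1),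
        if i < j then i * (Finset.univ.filter (fun k : Fin t => d k = i)).card *
          (Finset.univ.filter (fun k : Fin t => d k = j)).card else 0) +
      ∑ i ∈ Finset.range (Finset.univ.sup d + 1), (i - 1) * (Finset.univ.filter (fun k : Fin t => d k = i)).card ^ 2 := by
  classical
  set R := Finset.range (Finset.univ.sup d + 1) with hR
  set a : ℕ → ℕ := fun i => (Finset.univ.filter (fun k : Fin t => d k = i)).card
  let g : ℕ → ℕ → ℕ := fun i j => if i = j then i - 1 else min i j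
  have hcard : Nat.card (Rest d) = ∑ k, ∑ l, g (d k) (d l) := by
    let P : Fin t → Fin t → ℕ → Prop := fun k l s => d k ≤ s + d l ∧ ¬ (s = 0 ∧ d k = d l)
    let e : Rest d ≃ Σ k, Σ l, {s : Fin (d k) // P k l s.1} :=
      { toFun := fun x => ⟨x.1.1.1, x.1.2, x.1.1.2, x.2⟩
        invFun := fun y => ⟨(⟨y.1, y.2.2.1⟩, y.2.1), y.2.2.2⟩
        left_inv := fun _ => rfl
        right_inv := fun _ => rfl }
    rw [Nat.card_congr e, Nat.card_sigma]
    refine Finset.sum_congr rfl fun k _ => ?_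
    rw [Nat.card_sigma]
    refine Finset.sum_congr rfl fun l _ => ?_
    set b := if d k = d l then 1 else d k - d l with hb
    let e' : {s : Fin (d k) // P k l s.1} ≃ Fin (d k - b) :=
      { toFun := fun s => ⟨s.1.1 - b, by
          have h1 := s.2
          have := s.1.isLt
          simp only [P, not_and] at h1
          rw [hb]
          split_ifs with h
          · have : s.1.1 ≠ 0 := fun h0 => h1.2 h0 h
            omega
          · omega⟩
        invFun := fun r => ⟨⟨r.1 + b, by have := r.isLt; omega⟩, by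
          have := r.isLt
          simp only [P, not_and]
          by_cases h : d k = d l
          · have hb1 : b = 1 := by rw [hb, if_pos h]
            exact ⟨by omega, fun h0 => by omega⟩
          · have hb1 : b = d k - d l := by rw [hb, if_neg h]
            exact ⟨by omega, fun _ => h⟩⟩
        left_inv := fun s => Subtype.ext (Fin.ext (by
          have h1 := s.2
          simp only [P, not_and] at h1
          simp only [hb]
          split_ifs with h
          · have : s.1.1 ≠ 0 := fun h0 => h1.2 h0 h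
            omega
          · omega))
        right_inv := fun r => Fin.ext (by simp) }
    rw [Nat.card_congr e', Nat.card_fin, hb]
    simp only [g]
    have := hd l
    split_ifs <;> omega
  have hmem : ∀ k, d k ∈ R := fun k => Finset.mem_range.2 (Nat.lt_succ_of_le (Finset.le_sup (Finset.mem_univ k)))
  have hfib : ∀ f : ℕ → ℕ, ∑ k, f (d k) = ∑ i ∈ R, a i * f i := fun f => by
    rw [← Finset.sum_fiberwise_of_maps_to (fun k _ => hmem k) fun k => f (d k)]
    refine Finset.sum_congr rfl fun i _ => ?_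
    rw [Finset.sum_congr rfl fun k hk => by rw [(Finset.mem_filter.1 hk).2], Finset.sum_const, smul_eq_mul]
  rw [hcard, hfib fun i => ∑ l, g i (d l)]
  simp only [fun i => hfib (g i), Finset.mul_sum]
  have hsplit : ∀ i j, a i * (a j * g i j) = (if i < j then i * a i * a j else 0) +
      ((if j < i then j * a j * a i else 0) + (if i = j then (i - 1) * a i ^ 2 else 0)) := fun i j => by
    rcases lt_trichotomy i j with h | h | h
    · simp [g, h, h.ne, h.not_gt, min_eq_left h.le]; ring
    · subst h; simp [g]; ring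
    · simp [g, h, h.ne', h.not_gt, min_eq_right h.le]; ring
  simp only [hsplit, Finset.sum_add_distrib]
  rw [Finset.sum_comm (f := fun i j => if j < i then j * a j * a i else 0), ← add_assoc, ← two_mul]
  congr 1
  · rw [Finset.mul_sum]
    exact Finset.sum_congr rfl fun i _ => by rw [Finset.mul_sum]
  · refine Finset.sum_congr rfl fun i hi => ?_
    rw [Finset.sum_ite_eq, if_pos hi]

end Cfsg.Agent.Linear.UnipotentCent
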